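import Mathlib

/-!
# Class four: two statements of linear algebra (A13, A14 of `Lib/NDF/Spec`).
-/

set_option autoImplicit false
set_option linter.unusedSectionVars false

namespace Cfsg.Agent.Lib.NDF.Alg4

universe u v w

section aux

variable {p : ℕ} [Fact p.Prime] {A : Type u} {B : Type v} [AddCommGroup A] [Module (ZMod p) A]
  [Finite A] [AddCommGroup B] [Module (ZMod p) B] [Finite B]

theorem card_of_surj (f : A →ₗ[ZMod p] B) (hf : Function.Surjective f) :
    Nat.card A = Nat.card (LinearMap.ker f) * Nat.card B := by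
  rw [Submodule.card_eq_card_quotient_mul_card (LinearMap.ker f),
    Nat.card_congr (LinearMap.quotKerEquivOfSurjective f hf).toEquiv]

theorem card_sub_le (S : Submodule (ZMod p) A) : Nat.card S ≤ Nat.card A :=
  Nat.card_le_card_of_injective _ Subtype.val_injective

theorem card_le_ker_mul (f : A →ₗ[ZMod p] B) :
    Nat.card A ≤ Nat.card (LinearMap.ker f) * Nat.card B := by
  have h := card_of_surj f.rangeRestrict f.surjective_rangeRestrict
  rw [LinearMap.ker_rangeRestrict] at h
  rw [h]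
  exact Nat.mul_le_mul_left _ (card_sub_le _)

theorem card_dual : Nat.card (B →ₗ[ZMod p] ZMod p) = Nat.card B := by
  haveI : Module.Finite (ZMod p) B := Module.Finite.of_finite
  haveI : Finite (B →ₗ[ZMod p] ZMod p) :=
    Finite.of_injective (fun f => (f : B → ZMod p)) DFunLike.coe_injective
  haveI : Module.Finite (ZMod p) (B →ₗ[ZMod p] ZMod p) := Module.Finite.of_finite
  rw [Module.natCard_eq_pow_finrank (K := ZMod p) (V := B →ₗ[ZMod p] ZMod p),
    Module.natCard_eq_pow_finrank (K := ZMod p) (V := B)]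
  congr 1
  exact Subspace.dual_finrank_eq

theorem eq_of_le_card {S S' : Submodule (ZMod p) A} (h : S ≤ S') (hc : Nat.card S' ≤ Nat.card S) :
    S = S' := by
  have hb := (Submodule.inclusion_injective h).bijective_of_nat_card_le hc
  apply le_antisymm h
  intro x hx
  obtain ⟨y, hy⟩ := hb.2 ⟨x, hx⟩
  have : (y : A) = x := congrArg Subtype.val hy
  rw [← this]
  exact y.2

end aux

/-- (A13) Class four, `c = 0`. -/
theorem alg4_c0 {p : ℕ} [Fact p.Prime] {A : Type u} {L₂ : Type v} {L₃ : Type w} [AddCommGroup A]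
    [Module (ZMod p) A] [Finite A] [Nontrivial A] [AddCommGroup L₂] [Module (ZMod p) L₂] [Finite L₂]
    [Nontrivial L₂] [AddCommGroup L₃] [Module (ZMod p) L₃] [Finite L₃] [Nontrivial L₃]
    (br : A →ₗ[ZMod p] A →ₗ[ZMod p] L₂) (T : L₂ →ₗ[ZMod p] A →ₗ[ZMod p] L₃)
    (Ψ : L₃ →ₗ[ZMod p] A →ₗ[ZMod p] ZMod p) (halt : ∀ a, br a a = 0)
    (hP1 : ∀ a, a ≠ 0 → Function.Surjective (br a)) (hP2 : ∀ e, e ≠ 0 → Function.Surjective (T e))
    (hP3 : ∀ f, f ≠ 0 → Ψ f ≠ 0)
    (hJ3 : ∀ a b c, T (br a b) c + T (br b c) a + T (br c a) b = 0)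
    (hJ4 : ∀ e a b, Ψ (T e a) b = Ψ (T e b) a)
    (hP4 : ∀ a, a ≠ 0 → Nat.card L₃ * p ≤
      Nat.card (LinearMap.range (T.flip a)) * Nat.card (LinearMap.ker (br a))) : False := by
  classical
  have hp2 := (Fact.out : p.Prime).two_le
  have anti : ∀ a b, br a b = - br b a := by
    intro a b
    have h1 := halt (a + b)
    simp only [map_add, LinearMap.add_apply, halt, zero_add, add_zero] at h1
    exact eq_neg_of_add_eq_zero_right h1
  obtain ⟨e₀, he₀⟩ := exists_ne (0 : L₂)
  obtain ⟨a₀, ha₀⟩ := exists_ne (0 : A)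
  obtain ⟨f₀, hf₀⟩ := exists_ne (0 : L₃)
  set J : Submodule (ZMod p) A := LinearMap.ker Ψ.flip with hJ
  have memJ : ∀ b, b ∈ J ↔ ∀ f, Ψ f b = 0 := by
    intro b
    rw [hJ, LinearMap.mem_ker]
    constructor
    · intro h f
      have := congrArg (fun g => g f) h
      simpa using this
    · intro h
      ext f
      simpa using h f
  have kerT : ∀ e, e ≠ 0 → ∀ a, T e a = 0 ↔ a ∈ J := by
    intro e he a
    rw [memJ]
    constructor
    · intro h f
      obtain ⟨a', rfl⟩ := hP2 e he f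
      rw [hJ4, h]
      simp
    · intro h
      by_contra h0
      obtain ⟨b, hb⟩ : ∃ b, Ψ (T e a) b ≠ 0 := by
        by_contra h1
        push Not at h1
        exact hP3 _ h0 (LinearMap.ext h1)
      apply hb
      rw [hJ4]
      exact h _
  have TJ : ∀ e, ∀ a ∈ J, T e a = 0 := by
    intro e a ha
    by_cases he : e = 0
    · subst he
      simp
    · exact (kerT e he a).2 ha
  have Jiso : ∀ a ∈ J, ∀ b ∈ J, br a b = 0 := by
    intro a ha b hb
    by_contra h0
    obtain ⟨c, hc⟩ := hP2 _ h0 f₀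
    apply hf₀
    have := hJ3 a b c
    rw [TJ _ a ha, TJ _ b hb, hc] at this
    simpa using this
  have hkT : LinearMap.ker (T e₀) = J := by
    ext a
    exact kerT e₀ he₀ a
  have cA3 : Nat.card A = Nat.card J * Nat.card L₃ := by
    have := card_of_surj (T e₀) (hP2 e₀ he₀)
    rwa [hkT] at this
  have hL3pos : 0 < Nat.card L₃ := Nat.card_pos
  have hL2pos : 0 < Nat.card L₂ := Nat.card_pos
  have hJpos : 0 < Nat.card J := Nat.card_pos
  have Jne : J ≠ ⊥ := by
    intro hb
    have h1 : Nat.card J = 1 := by rw [hb]; simp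
    have h4 := hP4 a₀ ha₀
    have h5 : Nat.card (LinearMap.range (T.flip a₀)) ≤ Nat.card L₂ :=
      Nat.card_le_card_of_surjective _ (T.flip a₀).surjective_rangeRestrict
    have h6 := card_of_surj (br a₀) (hP1 a₀ ha₀)
    have h7 := Nat.mul_le_mul_right (Nat.card (LinearMap.ker (br a₀))) h5
    rw [h1, one_mul] at cA3
    have h8 : Nat.card L₃ * p ≤ Nat.card L₃ := by
      calc Nat.card L₃ * p ≤ _ := h4
        _ ≤ _ := h7
        _ = Nat.card (LinearMap.ker (br a₀)) * Nat.card L₂ := mul_comm _ _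
        _ = Nat.card A := h6.symm
        _ = _ := cA3
    nlinarith
  obtain ⟨a, ha, ha0⟩ := Submodule.exists_mem_ne_zero_of_ne_bot Jne
  have kerbr : ∀ a ∈ J, a ≠ 0 → ∀ b, br a b = 0 ↔ b ∈ J := by
    intro a ha ha0 b
    constructor
    · intro hab
      apply (kerT e₀ he₀ b).1
      obtain ⟨c', hc'⟩ := hP1 a ha0 e₀
      have h1 := hJ3 a b (-c')
      have h2 : br (-c') a = e₀ := by
        rw [map_neg, LinearMap.neg_apply, ← anti, hc']
      rw [hab, TJ _ a ha, h2] at h1
      simpa using h1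
    · exact Jiso a ha b
  have hkbr : LinearMap.ker (br a) = J := by
    ext b
    exact kerbr a ha ha0 b
  have cA2 : Nat.card A = Nat.card J * Nat.card L₂ := by
    have := card_of_surj (br a) (hP1 a ha0)
    rwa [hkbr] at this
  have h23 : Nat.card L₂ = Nat.card L₃ := by
    have : Nat.card J * Nat.card L₂ = Nat.card J * Nat.card L₃ := by rw [← cA2, ← cA3]
    exact Nat.eq_of_mul_eq_mul_left hJpos this
  have hflip : T.flip a = 0 := by
    ext e
    exact TJ e a ha
  have h4 := hP4 a ha0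
  rw [hflip, LinearMap.range_zero, hkbr] at h4
  have h1 : Nat.card (⊥ : Submodule (ZMod p) L₃) = 1 := by simp
  rw [h1, one_mul] at h4
  obtain ⟨x₀, hx₀⟩ := hP2 e₀ he₀ f₀
  have hx₀J : x₀ ∉ J := by
    intro h
    apply hf₀
    rw [← hx₀]
    exact TJ _ _ h
  have hinj : Function.Injective (fun b : J => br b x₀) := by
    intro b b' hbb
    by_contra hne
    have h0 : (b : A) - b' ≠ 0 := by
      intro h
      exact hne (Subtype.ext (sub_eq_zero.mp h))
    apply hx₀J
    apply (kerbr _ (J.sub_mem b.2 b'.2) h0 x₀).1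
    have h3 : br (b : A) x₀ = br (b' : A) x₀ := hbb
    rw [map_sub, LinearMap.sub_apply, h3, sub_self]
  have h5 := Nat.card_le_card_of_injective _ hinj
  rw [h23] at h5
  nlinarith

/-- The difference of `c (u f) f'` and `c f (u f')`. -/
def Phi {p : ℕ} [Fact p.Prime] {L₂ : Type v} [AddCommGroup L₂] [Module (ZMod p) L₂]
    (c : L₂ →ₗ[ZMod p] L₂ →ₗ[ZMod p] ZMod p) (u : Module.End (ZMod p) L₂) (f f' : L₂) : ZMod p :=
  c (u f) f' - c f (u f')

/-- (A14) Class four, `c` nondegenerate. -/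
theorem alg4_c1 {p : ℕ} [Fact p.Prime] {A : Type u} {L₂ : Type v} {L₃ : Type w} [AddCommGroup A]
    [Module (ZMod p) A] [Finite A] [Nontrivial A] [AddCommGroup L₂] [Module (ZMod p) L₂] [Finite L₂]
    [Nontrivial L₂] [AddCommGroup L₃] [Module (ZMod p) L₃] [Finite L₃] [Nontrivial L₃]
    (br : A →ₗ[ZMod p] A →ₗ[ZMod p] L₂) (T : L₂ →ₗ[ZMod p] A →ₗ[ZMod p] L₃)
    (Ψ : L₃ →ₗ[ZMod p] A →ₗ[ZMod p] ZMod p) (c : L₂ →ₗ[ZMod p] L₂ →ₗ[ZMod p] ZMod p)
    (halt : ∀ a, br a a = 0) (hcalt : ∀ e, c e e = 0) (hcnd : ∀ e, e ≠ 0 → c e ≠ 0)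
    (hP1 : ∀ a, a ≠ 0 → Function.Surjective (br a)) (hP2 : ∀ e, e ≠ 0 → Function.Surjective (T e))
    (hP3 : ∀ f, f ≠ 0 → Ψ f ≠ 0)
    (hJ3 : ∀ a b c', T (br a b) c' + T (br b c') a + T (br c' a) b = 0)
    (hJ4 : ∀ e a b, Ψ (T e a) b - Ψ (T e b) a = c e (br a b))
    (hP4 : ∀ a, a ≠ 0 → Nat.card L₃ * p ≤
      Nat.card (LinearMap.range (T.flip a)) * Nat.card (LinearMap.ker (br a)))
    (hBeis : Nat.card L₂ ^ 2 ≤ Nat.card A) : False := by
  classical
  have hp' : p.Prime := Fact.out
  have hp2 := hp'.two_le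
  have anti : ∀ a b, br a b = - br b a := by
    intro a b
    have h1 := halt (a + b)
    simp only [map_add, LinearMap.add_apply, halt, zero_add, add_zero] at h1
    exact eq_neg_of_add_eq_zero_right h1
  have canti : ∀ e f, c e f = - c f e := by
    intro a b
    have h1 := hcalt (a + b)
    simp only [map_add, LinearMap.add_apply, hcalt, zero_add, add_zero] at h1
    exact eq_neg_of_add_eq_zero_right h1
  obtain ⟨e₀, he₀⟩ := exists_ne (0 : L₂)
  obtain ⟨a₀, ha₀⟩ := exists_ne (0 : A)
  have hL3pos : 0 < Nat.card L₃ := Nat.card_pos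
  have hL2pos : 0 < Nat.card L₂ := Nat.card_pos
  set J : Submodule (ZMod p) A := LinearMap.ker Ψ.flip with hJ
  have memJ : ∀ b, b ∈ J ↔ ∀ f, Ψ f b = 0 := by
    intro b
    rw [hJ, LinearMap.mem_ker]
    constructor
    · intro h f
      have := congrArg (fun g => g f) h
      simpa using this
    · intro h
      ext f
      simpa using h f
  have hJpos : 0 < Nat.card J := Nat.card_pos
  -- `J ≠ 0`
  have Jne : J ≠ ⊥ := by
    intro hb
    have h1 : Nat.card J = 1 := by rw [hb]; simp
    haveI : Finite (L₃ →ₗ[ZMod p] ZMod p) :=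
      Finite.of_injective (fun f => (f : L₃ → ZMod p)) DFunLike.coe_injective
    have h2 : Nat.card A ≤ Nat.card J * Nat.card (L₃ →ₗ[ZMod p] ZMod p) := card_le_ker_mul Ψ.flip
    rw [card_dual, h1, one_mul] at h2
    have h4 := hP4 a₀ ha₀
    have h5 : Nat.card (LinearMap.range (T.flip a₀)) ≤ Nat.card L₂ :=
      Nat.card_le_card_of_surjective _ (T.flip a₀).surjective_rangeRestrict
    have h6 := card_of_surj (br a₀) (hP1 a₀ ha₀)
    have h7 := Nat.mul_le_mul_right (Nat.card (LinearMap.ker (br a₀))) h5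
    have h8 : Nat.card L₃ * p ≤ Nat.card L₃ := by
      calc Nat.card L₃ * p ≤ _ := h4
        _ ≤ _ := h7
        _ = Nat.card (LinearMap.ker (br a₀)) * Nat.card L₂ := mul_comm _ _
        _ = Nat.card A := h6.symm
        _ ≤ _ := h2
    nlinarith
  -- (***)
  have star : ∀ a ∈ J, ∀ e z, Ψ (T e a) z = c e (br a z) := by
    intro a ha e z
    have := hJ4 e a z
    rw [(memJ a).1 ha (T e z), sub_zero] at this
    exact this
  have nondeg : ∀ e, (∀ f, c e f = 0) → e = 0 := by
    intro e h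
    by_contra h0
    exact hcnd e h0 (LinearMap.ext h)
  have Dinj : ∀ a ∈ J, a ≠ 0 → ∀ e, T e a = 0 → e = 0 := by
    intro a ha ha0 e h
    apply nondeg
    intro f
    obtain ⟨z, rfl⟩ := hP1 a ha0 f
    rw [← star a ha, h]
    simp
  have F : ∀ a ∈ J, ∀ b ∈ J, ∀ x z, Ψ (T (br a b) x) z =
      - c (br x a) (br b z) - c (br b x) (br a z) := by
    intro a ha b hb x z
    have h1 := congrArg (fun f => Ψ f z) (hJ3 x a b)
    simp only [map_add, LinearMap.add_apply, map_zero, LinearMap.zero_apply] at h1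
    rw [star b hb, star a ha] at h1
    linear_combination h1
  have Jiso : ∀ a ∈ J, ∀ b ∈ J, br a b = 0 := by
    intro a ha b hb
    apply nondeg
    intro f
    obtain ⟨z, rfl⟩ := hP1 a₀ ha₀ f
    rw [← hJ4, F a ha b hb, F a ha b hb]
    have h1 : c (br z a) (br b a₀) = c (br b a₀) (br a z) := by
      rw [anti z a, canti]
      simp
    have h2 : c (br b z) (br a a₀) = c (br a₀ a) (br b z) := by
      rw [anti a a₀, canti]
      simp
    rw [h1, h2]
    ring
  have spade : ∀ a ∈ J, ∀ b ∈ J, ∀ x z, c (br x a) (br b z) + c (br b x) (br a z) = 0 := by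
    intro a ha b hb x z
    have h1 := F a ha b hb x z
    rw [Jiso a ha b hb] at h1
    simp only [map_zero, LinearMap.zero_apply] at h1
    linear_combination h1
  obtain ⟨a, ha, ha0⟩ := Submodule.exists_mem_ne_zero_of_ne_bot Jne
  have kerJ : ∀ a ∈ J, a ≠ 0 → ∀ b ∈ J, ∀ x, br a x = 0 → br b x = 0 := by
    intro a ha ha0 b hb x hx
    apply nondeg
    intro f
    obtain ⟨z, rfl⟩ := hP1 a ha0 f
    have := spade a ha b hb x z
    have h0 : br x a = 0 := by rw [anti, hx]; simp
    rw [h0] at this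
    simpa using this
  set V : Submodule (ZMod p) A := LinearMap.ker (br a) with hV
  have memV : ∀ x, x ∈ V ↔ br a x = 0 := fun x => LinearMap.mem_ker
  have memV' : ∀ x, x ∈ V ↔ br x a = 0 := by
    intro x
    rw [memV, anti]
    simp
  have clubs : ∀ w ∈ V, ∀ x, T (br x a) w = T (br x w) a := by
    intro w hw x
    have h1 := hJ3 x a w
    rw [(memV w).1 hw, anti w x] at h1
    simp only [map_zero, LinearMap.zero_apply, add_zero, map_neg, LinearMap.neg_apply] at h1
    exact add_neg_eq_zero.mp h1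
  have Viso : ∀ w ∈ V, ∀ w' ∈ V, br w' w = 0 := by
    intro w hw w' hw'
    have h1 := clubs w hw w'
    rw [(memV' w').1 hw'] at h1
    simp only [map_zero, LinearMap.zero_apply] at h1
    exact Dinj a ha ha0 _ h1.symm
  have cV : Nat.card A = Nat.card V * Nat.card L₂ := card_of_surj (br a) (hP1 a ha0)
  have hVpos : 0 < Nat.card V := Nat.card_pos
  have kerw : ∀ w ∈ V, w ≠ 0 → ∀ x, br w x = 0 → x ∈ V := by
    intro w hw hw0 x hx
    have hle : V ≤ LinearMap.ker (br w) := by
      intro y hy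
      rw [LinearMap.mem_ker]
      exact Viso y hy w hw
    have hc := card_of_surj (br w) (hP1 w hw0)
    have hc2 : Nat.card (LinearMap.ker (br w)) ≤ Nat.card V := by
      have : Nat.card (LinearMap.ker (br w)) * Nat.card L₂ = Nat.card V * Nat.card L₂ := by
        rw [← hc, cV]
      exact le_of_eq (Nat.eq_of_mul_eq_mul_right hL2pos this)
    have := eq_of_le_card hle hc2
    rw [this]
    exact hx
  obtain ⟨x₀, hx₀⟩ := hP1 a ha0 e₀
  have hx₀V : x₀ ∉ V := by
    intro h
    apply he₀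
    rw [← hx₀]
    exact (memV x₀).1 h
  have hVL : Nat.card V ≤ Nat.card L₂ := by
    have hinj : Function.Injective (fun b : V => br b x₀) := by
      intro b b' hbb
      by_contra hne
      have h0 : (b : A) - b' ≠ 0 := by
        intro h
        exact hne (Subtype.ext (sub_eq_zero.mp h))
      apply hx₀V
      apply kerw _ (V.sub_mem b.2 b'.2) h0 x₀
      have h3 : br (b : A) x₀ = br (b' : A) x₀ := hbb
      rw [map_sub, LinearMap.sub_apply, h3, sub_self]
    exact Nat.card_le_card_of_injective _ hinj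
  have hVeq : Nat.card V = Nat.card L₂ := by
    apply le_antisymm hVL
    rw [cV, pow_two] at hBeis
    exact Nat.le_of_mul_le_mul_right hBeis hL2pos
  -- a section
  have hsurj : Function.Surjective (br.flip a) := by
    intro e
    obtain ⟨y, hy⟩ := hP1 a ha0 e
    refine ⟨-y, ?_⟩
    rw [LinearMap.flip_apply, map_neg, LinearMap.neg_apply, ← anti, hy]
  obtain ⟨σ, hσ'⟩ := (br.flip a).exists_rightInverse_of_surjective
    (LinearMap.range_eq_top.mpr hsurj)
  have hσ : ∀ e, br (σ e) a = e := by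
    intro e
    have := congrArg (fun g => g e) hσ'
    simpa using this
  -- the maps `M w`
  let Mlin : A →ₗ[ZMod p] Module.End (ZMod p) L₂ :=
    { toFun := fun w => (br.flip w).comp σ
      map_add' := by intro x y; ext e; simp
      map_smul' := by intro k x; ext e; simp }
  have Mdef : ∀ w e, Mlin w e = br (σ e) w := fun w e => rfl
  have Mx : ∀ w ∈ V, ∀ x, br x w = Mlin w (br x a) := by
    intro w hw x
    rw [Mdef]
    have h1 : x - σ (br x a) ∈ V := by
      rw [memV', map_sub, LinearMap.sub_apply, hσ, sub_self]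
    have h2 := Viso w hw _ h1
    rw [map_sub, LinearMap.sub_apply] at h2
    exact sub_eq_zero.mp h2
  have Ma : Mlin a = 1 := by
    ext e
    rw [Mdef, hσ]
    rfl
  have clubs2 : ∀ w ∈ V, ∀ e, T e w = T (Mlin w e) a := by
    intro w hw e
    have := clubs w hw (σ e)
    rw [hσ] at this
    exact this
  have Mcomm : ∀ w ∈ V, ∀ w' ∈ V, ∀ e, Mlin w' (Mlin w e) = Mlin w (Mlin w' e) := by
    intro w hw w' hw' e
    have h1 := hJ3 (σ e) w w'
    rw [Viso w' hw' w hw, anti w' (σ e)] at h1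
    simp only [map_zero, LinearMap.zero_apply, add_zero, map_neg, LinearMap.neg_apply] at h1
    have h2 : T (Mlin w e) w' = T (Mlin w' e) w := add_neg_eq_zero.mp h1
    rw [clubs2 w' hw', clubs2 w hw] at h2
    have h3 : T (Mlin w' (Mlin w e) - Mlin w (Mlin w' e)) a = 0 := by
      rw [map_sub, LinearMap.sub_apply, h2, sub_self]
    exact sub_eq_zero.mp (Dinj a ha ha0 _ h3)
  have Minj : ∀ w ∈ V, w ≠ 0 → ∀ e, Mlin w e = 0 → e = 0 := by
    intro w hw hw0 e h
    rw [Mdef] at h
    have h1 : σ e ∈ V := kerw w hw hw0 _ (by rw [anti, h]; simp)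
    have h2 := (memV' _).1 h1
    rwa [hσ] at h2
  have hinj0 : Function.Injective (fun w : V => Mlin w e₀) := by
    intro w w' h
    by_contra hne
    have h0 : (w : A) - w' ≠ 0 := fun h => hne (Subtype.ext (sub_eq_zero.mp h))
    apply he₀
    apply Minj _ (V.sub_mem w.2 w'.2) h0
    have h3 : Mlin (w : A) e₀ = Mlin (w' : A) e₀ := h
    rw [map_sub, LinearMap.sub_apply, h3, sub_self]
  have surjV : ∀ e, ∃ w ∈ V, Mlin w e₀ = e := by
    intro e
    have hb := hinj0.bijective_of_nat_card_le (le_of_eq hVeq.symm)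
    obtain ⟨w, hw⟩ := hb.2 e
    exact ⟨w, w.2, hw⟩
  have c2 : ∀ w ∈ V, ∀ e x, Ψ (T e x) w = c e (Mlin w (br x a)) - c (Mlin w e) (br x a) := by
    intro w hw e x
    have h1 := hJ4 e x w
    rw [clubs2 w hw e, star a ha, Mx w hw x, anti a x] at h1
    simp only [map_neg] at h1
    linear_combination h1
  have star3 : ∀ w ∈ V, ∀ w' ∈ V, ∀ f f', c (Mlin w' (Mlin w f)) f' + c f (Mlin w' (Mlin w f')) =
      c (Mlin w f) (Mlin w' f') + c (Mlin w' f) (Mlin w f') := by
    intro w hw w' hw' f f'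
    have h0 := congrArg (fun g => Ψ g w') (hJ3 w (σ f) (σ f'))
    simp only [map_add, LinearMap.add_apply, map_zero, LinearMap.zero_apply] at h0
    have t1 : br w (σ f) = - Mlin w f := anti w (σ f)
    have t2 : Ψ (T (br (σ f) (σ f')) w) w' = 0 := by
      rw [clubs2 w hw, star a ha, (memV w').1 hw']
      simp
    have t3 : br (σ f') w = Mlin w f' := rfl
    rw [t1, t2, t3] at h0
    simp only [map_neg, LinearMap.neg_apply] at h0
    rw [c2 w' hw', c2 w' hw', hσ, hσ] at h0
    have h1 : c (Mlin w f') (Mlin w' f) = - c (Mlin w' f) (Mlin w f') := canti _ _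
    have h2 : c (Mlin w' (Mlin w f')) f = - c f (Mlin w' (Mlin w f')) := canti _ _
    rw [h1, h2] at h0
    linear_combination h0
  -- the commutative ring of the `M w`
  let MM : Submodule (ZMod p) (Module.End (ZMod p) L₂) := V.map Mlin
  haveI : Finite (Module.End (ZMod p) L₂) :=
    Finite.of_injective (fun f => (f : L₂ → L₂)) DFunLike.coe_injective
  have memM : ∀ u, u ∈ MM ↔ ∃ w ∈ V, Mlin w = u := fun u => Submodule.mem_map
  have oneM : (1 : Module.End (ZMod p) L₂) ∈ MM := (memM 1).2 ⟨a, (memV a).2 (halt a), Ma⟩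
  have commM : ∀ u ∈ MM, ∀ v ∈ MM, v * u = u * v := by
    intro u hu v hv
    obtain ⟨w, hw, rfl⟩ := (memM u).1 hu
    obtain ⟨w', hw', rfl⟩ := (memM v).1 hv
    ext e
    exact Mcomm w hw w' hw' e
  have valM : ∀ e, ∃ u ∈ MM, u e₀ = e := by
    intro e
    obtain ⟨w, hw, rfl⟩ := surjV e
    exact ⟨Mlin w, (memM _).2 ⟨w, hw, rfl⟩, rfl⟩
  have mulM : ∀ u ∈ MM, ∀ v ∈ MM, u * v ∈ MM := by
    intro u hu v hv
    obtain ⟨z, hz, hze⟩ := valM ((u * v) e₀)
    have h0 : u * v = z := by
      ext e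
      obtain ⟨y, hy, rfl⟩ := valM e
      have h1 : (u * v) (y e₀) = y ((u * v) e₀) := by
        have h3 := LinearMap.congr_fun (commM y hy v hv) e₀
        have h4 := LinearMap.congr_fun (commM y hy u hu) (v e₀)
        simp only [Module.End.mul_apply] at h3 h4 ⊢
        rw [h3, h4]
      have h2 : z (y e₀) = y (z e₀) := by
        have h3 := LinearMap.congr_fun (commM y hy z hz) e₀
        simpa only [Module.End.mul_apply] using h3
      rw [h1, h2, hze]
    rw [h0]
    exact hz
  have powM : ∀ u ∈ MM, ∀ k : ℕ, u ^ k ∈ MM := by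
    intro u hu k
    induction k with
    | zero => rw [pow_zero]; exact oneM
    | succ k ih => rw [pow_succ]; exact mulM _ ih _ hu
  have injM : ∀ u ∈ MM, u ≠ 0 → Function.Injective u := by
    intro u hu hu0
    obtain ⟨w, hw, rfl⟩ := (memM u).1 hu
    have hw0 : w ≠ 0 := by
      rintro rfl
      exact hu0 (map_zero _)
    intro e e' h
    apply sub_eq_zero.mp
    apply Minj w hw hw0
    rw [map_sub, h, sub_self]
  have frob : ∀ u ∈ MM, ∃ v ∈ MM, v ^ p = u := by
    haveI : CharP (Module.End (ZMod p) L₂) p :=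
      charP_of_injective_algebraMap (algebraMap (ZMod p) (Module.End (ZMod p) L₂)).injective p
    let fr : MM → MM := fun u => ⟨u.1 ^ p, powM u.1 u.2 p⟩
    have hfr : Function.Injective fr := by
      intro u v huv
      have h1 : u.1 ^ p = v.1 ^ p := congrArg Subtype.val huv
      have h2 : (u.1 - v.1) ^ p = 0 := by
        rw [sub_pow_char_of_commute p (commM v.1 v.2 u.1 u.2), h1, sub_self]
      by_contra hne
      have h3 : u.1 - v.1 ≠ 0 := fun h => hne (Subtype.ext (sub_eq_zero.mp h))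
      have h4 := injM _ (MM.sub_mem u.2 v.2) h3
      have h5 : Function.Injective (⇑((u.1 - v.1) ^ p)) := by
        rw [Module.End.coe_pow]
        exact h4.iterate p
      apply he₀
      apply h5
      rw [h2]
      simp
    have hs := Finite.injective_iff_surjective.mp hfr
    intro u hu
    obtain ⟨v, hv⟩ := hs ⟨u, hu⟩
    exact ⟨v.1, v.2, congrArg Subtype.val hv⟩
  -- the derivation
  have phi_mul : ∀ u ∈ MM, ∀ v ∈ MM, ∀ f f', Phi c (v * u) f f' = Phi c u f (v f') + Phi c v f (u f') := by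
    intro u hu v hv f f'
    obtain ⟨w, hw, rfl⟩ := (memM u).1 hu
    obtain ⟨w', hw', rfl⟩ := (memM v).1 hv
    have h1 := star3 w hw w' hw' f f'
    have h2 := Mcomm w hw w' hw' f'
    simp only [Phi, Module.End.mul_apply]
    rw [← h2]
    linear_combination h1
  have phi_pow : ∀ u ∈ MM, ∀ k : ℕ, ∀ f f',
      Phi c (u ^ (k + 1)) f f' = ((k : ZMod p) + 1) * Phi c u f ((u ^ k) f') := by
    intro u hu k
    induction k with
    | zero =>
      intro f f'
      simp
    | succ k ih =>
      intro f f'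
      rw [pow_succ u (k + 1), phi_mul u hu _ (powM u hu (k + 1)), ih]
      have h1 : (u ^ k) (u f') = (u ^ (k + 1)) f' := by
        rw [pow_succ]
        rfl
      rw [h1]
      push_cast
      ring
  have phi_zero : ∀ u ∈ MM, ∀ f f', Phi c u f f' = 0 := by
    intro u hu f f'
    obtain ⟨v, hv, rfl⟩ := frob u hu
    obtain ⟨k, hk⟩ : ∃ k, p = k + 1 := ⟨p - 1, by omega⟩
    have h1 := phi_pow v hv k f f'
    have h2 : ((k : ZMod p) + 1) = 0 := by
      have h3 : ((k + 1 : ℕ) : ZMod p) = 0 := by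
        rw [← hk]
        exact ZMod.natCast_self p
      exact_mod_cast h3
    rw [h2, zero_mul, ← hk] at h1
    exact h1
  have tau : ∀ u ∈ MM, c e₀ (u (u e₀)) = 0 := by
    intro u hu
    have h1 := phi_zero u hu e₀ (u e₀)
    simp only [Phi] at h1
    rw [hcalt] at h1
    linear_combination -h1
  have tau0 : ∀ v ∈ MM, c e₀ (v e₀) = 0 := by
    intro v hv
    by_cases hp22 : p = 2
    · obtain ⟨w, hw, rfl⟩ := frob v hv
      have h1 : ∀ n : ℕ, n = 2 → w ^ n = w * w := by
        rintro n rfl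
        exact pow_two w
      rw [h1 p hp22]
      exact tau w hw
    · have h := tau (1 + v) (MM.add_mem oneM hv)
      have h2 := tau v hv
      simp only [LinearMap.add_apply, Module.End.one_apply, map_add] at h
      rw [hcalt, h2] at h
      have h3 : (2 : ZMod p) * c e₀ (v e₀) = 0 := by linear_combination h
      rcases mul_eq_zero.mp h3 with h4 | h4
      · exfalso
        have h5 : ((2 : ℕ) : ZMod p) = 0 := by exact_mod_cast h4
        have h6 := (ZMod.natCast_eq_zero_iff 2 p).mp h5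
        exact hp22 ((Nat.prime_dvd_prime_iff_eq hp' Nat.prime_two).mp h6)
      · exact h4
  apply hcnd e₀ he₀
  ext f
  obtain ⟨u, hu, rfl⟩ := valM f
  simpa using tau0 u hu

end Cfsg.Agent.Lib.NDF.Alg4
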