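import Mathlib
import Cfsg.Agent.Lib.Witt.SympModel

set_option autoImplicit false

namespace Cfsg.Agent.Lib.NDF.Beisiegel

open Module

universe u v

theorem exists_even {F U : Type*} [Field F] [AddCommGroup U] [Module F U] [FiniteDimensional F U]
    (C : LinearMap.BilinForm F U) (hC : C.IsAlt) (hN : C.Nondegenerate) :
    ∃ r, Module.finrank F U = 2 * r := by
  obtain ⟨m', k', b, h1, h2, h3, h4⟩ := Cfsg.Agent.S0752.result C hC
  have hk' : k' = 0 := by
    by_contra hne
    have hpos : 0 < k' := Nat.pos_of_ne_zero hne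
    let j : Fin k' := ⟨0, hpos⟩
    have h5 : b (Sum.inr j) = 0 := hN.1 _ (h4 j)
    exact b.ne_zero _ h5
  subst hk'
  refine ⟨m', ?_⟩
  have := Module.finrank_eq_card_basis b
  simp only [Fintype.card_sum, Fintype.card_fin] at this
  omega

theorem det_relation {F U : Type*} [Field F] [AddCommGroup U] [Module F U] [FiniteDimensional F U]
    {ι : Type*} [Fintype ι] [DecidableEq ι] (b : Module.Basis ι F U)
    (C₀ C₁ : LinearMap.BilinForm F U) (h₀ : C₀.IsAlt) (h₁ : C₁.IsAlt) (n₀ : C₀.Nondegenerate)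
    (n₁ : C₁.Nondegenerate) :
    ∃ g : F, g ≠ 0 ∧ (LinearMap.BilinForm.toMatrix b C₁).det = g ^ 2 * (LinearMap.BilinForm.toMatrix b C₀).det := by
  obtain ⟨r, hr⟩ := exists_even C₀ h₀ n₀
  obtain ⟨ψ₀, hψ₀⟩ := Cfsg.Agent.Lib.Witt.SympModel.exists_model C₀ h₀ n₀ r hr
  obtain ⟨ψ₁, hψ₁⟩ := Cfsg.Agent.Lib.Witt.SympModel.exists_model C₁ h₁ n₁ r hr
  let l : U ≃ₗ[F] U := ψ₁.symm.trans ψ₀
  have hl : ∀ x y, C₀ (l x) (l y) = C₁ x y := by
    intro x y
    have e1 := hψ₁ (ψ₁.symm x) (ψ₁.symm y)
    have e0 := hψ₀ (ψ₁.symm x) (ψ₁.symm y)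
    simp only [LinearEquiv.apply_symm_apply] at e1
    rw [e1]
    exact e0
  have hcomp : C₁ = C₀.comp (l : U →ₗ[F] U) (l : U →ₗ[F] U) := by
    ext x y
    simp [hl]
  refine ⟨(LinearMap.toMatrix b b (l : U →ₗ[F] U)).det, ?_, ?_⟩
  · rw [LinearMap.det_toMatrix]
    exact (LinearEquiv.isUnit_det' l).ne_zero
  · rw [hcomp, LinearMap.BilinForm.toMatrix_comp b b]
    rw [Matrix.det_mul, Matrix.det_mul, Matrix.det_transpose]
    ring

section Odd

open MvPolynomial

variable {p : ℕ} [Fact p.Prime] {A : Type u} {L : Type v} [AddCommGroup A] [Module (ZMod p) A]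
  [Finite A] [Nontrivial A] [AddCommGroup L] [Module (ZMod p) L] [Finite L]

theorem odd_case (hp2 : p ≠ 2) (br : A →ₗ[ZMod p] A →ₗ[ZMod p] L) (halt : ∀ a, br a a = 0)
    (hon : ∀ a, a ≠ 0 → Function.Surjective (br a)) : Nat.card L ^ 2 ≤ Nat.card A := by
  classical
  have hpp : p.Prime := Fact.out
  have hp3 : 3 ≤ p := by
    have := hpp.two_le
    omega
  haveI : Module.Finite (ZMod p) A := Module.Finite.of_finite
  haveI : Module.Finite (ZMod p) L := Module.Finite.of_finite
  have hcA : Nat.card A = p ^ finrank (ZMod p) A := by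
    rw [Module.natCard_eq_pow_finrank (K := ZMod p), Nat.card_zmod]
  have hcL : Nat.card L = p ^ finrank (ZMod p) L := by
    rw [Module.natCard_eq_pow_finrank (K := ZMod p), Nat.card_zmod]
  set t := finrank (ZMod p) L with ht
  set d := finrank (ZMod p) A with hd
  rw [hcA, hcL]
  rcases Nat.eq_zero_or_pos t with ht0 | htpos
  · rw [ht0]
    simp only [pow_zero, one_pow]
    exact Nat.one_le_pow _ _ hpp.pos
  have hdpos : 0 < d := finrank_pos
  let u : Basis (Fin t) (ZMod p) L := finBasis (ZMod p) L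
  let e : Basis (Fin d) (ZMod p) A := finBasis (ZMod p) A
  let lam : (Fin t → ZMod p) → (L →ₗ[ZMod p] ZMod p) := fun x => ∑ i, x i • u.coord i
  have hlam : ∀ x (v : L), lam x v = ∑ i, x i * u.repr v i := by
    intro x v
    simp [lam, LinearMap.sum_apply]
  have hlamu : ∀ x i, lam x (u i) = x i := by
    intro x i
    rw [hlam]
    simp [Finsupp.single_apply]
  let CC : (Fin t → ZMod p) → LinearMap.BilinForm (ZMod p) A := fun x => br.compr₂ (lam x)
  have hCC : ∀ x a b, CC x a b = lam x (br a b) := fun x a b => rfl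
  have halt' : ∀ x, (CC x).IsAlt := by
    intro x a
    rw [hCC, halt, map_zero]
  have hnd : ∀ x, x ≠ 0 → (CC x).Nondegenerate := by
    intro x hx
    obtain ⟨i, hi⟩ : ∃ i, x i ≠ 0 := by
      by_contra hcon
      push Not at hcon
      exact hx (funext hcon)
    have hsep : ∀ a, a ≠ 0 → ∃ b, CC x a b ≠ 0 := by
      intro a ha
      obtain ⟨b, hb⟩ := hon a ha (u i)
      refine ⟨b, ?_⟩
      rw [hCC, hb, hlamu]
      exact hi
    have hanti : ∀ a b, CC x a b = - CC x b a := by
      intro a b
      have h := halt' x (a + b)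
      simp only [map_add, LinearMap.add_apply, halt' x a, halt' x b, zero_add, add_zero] at h
      exact eq_neg_of_add_eq_zero_right h
    constructor
    · intro a ha
      by_contra hne
      obtain ⟨b, hb⟩ := hsep a hne
      exact hb (ha b)
    · intro b hb
      by_contra hne
      obtain ⟨a, ha⟩ := hsep b hne
      apply ha
      rw [hanti, hb a, neg_zero]
  -- the polynomial
  let Mp : Matrix (Fin d) (Fin d) (MvPolynomial (Fin t) (ZMod p)) :=
    Matrix.of fun j k => ∑ i, C (u.repr (br (e j) (e k)) i) * X i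
  let P : MvPolynomial (Fin t) (ZMod p) := Mp.det
  have heval : ∀ x, eval x P = (LinearMap.BilinForm.toMatrix e (CC x)).det := by
    intro x
    have : eval x P = ((eval x).mapMatrix Mp).det := RingHom.map_det _ _
    rw [this]
    congr 1
    ext j k
    rw [LinearMap.BilinForm.toMatrix_apply, hCC, hlam]
    simp only [RingHom.mapMatrix_apply, Matrix.map_apply, Mp, Matrix.of_apply, map_sum, map_mul,
      eval_C, eval_X]
    exact Finset.sum_congr rfl (fun i _ => mul_comm _ _)
  have hdeg : P.totalDegree ≤ d := by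
    rw [show P = Mp.det from rfl, Matrix.det_apply]
    apply totalDegree_finsetSum_le
    intro σ _
    have hprod : (∏ i, Mp (σ i) i).totalDegree ≤ d := by
      refine (totalDegree_finsetProd _ _).trans ?_
      calc ∑ i : Fin d, (Mp (σ i) i).totalDegree ≤ ∑ _i : Fin d, 1 := by
            apply Finset.sum_le_sum
            intro i _
            show (∑ k, C (u.repr (br (e (σ i)) (e i)) k) * X k).totalDegree ≤ 1
            apply totalDegree_finsetSum_le
            intro k _
            refine (totalDegree_mul _ _).trans ?_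
            rw [totalDegree_C, totalDegree_X]
        _ = d := by simp
    rcases Int.units_eq_one_or (Equiv.Perm.sign σ) with h | h
    · rw [h, one_smul]; exact hprod
    · rw [h, Units.neg_smul, one_smul, totalDegree_neg]; exact hprod
  let f : MvPolynomial (Fin t) (ZMod p) := P ^ ((p - 1) / 2)
  have hfdeg : f.totalDegree ≤ (p - 1) / 2 * d :=
    (totalDegree_pow _ _).trans (Nat.mul_le_mul_left _ hdeg)
  -- a fixed nonzero point
  let x₀ : Fin t → ZMod p := fun _ => 1
  have hx₀ : x₀ ≠ 0 := by
    intro h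
    have := congrFun h ⟨0, htpos⟩
    simp [x₀] at this
  let κ : ZMod p := (LinearMap.BilinForm.toMatrix e (CC x₀)).det ^ ((p - 1) / 2)
  have hκ : κ ≠ 0 := by
    apply pow_ne_zero
    exact (LinearMap.BilinForm.nondegenerate_iff_det_ne_zero e).mp (hnd x₀ hx₀)
  have hval : ∀ x, x ≠ 0 → eval x f = κ := by
    intro x hx
    obtain ⟨g, hg, hdet⟩ := det_relation e (CC x₀) (CC x) (halt' x₀) (halt' x) (hnd x₀ hx₀) (hnd x hx)
    simp only [f, map_pow, heval, hdet, κ]
    rw [mul_pow, ← pow_mul]
    have h2 : 2 * ((p - 1) / 2) = p - 1 := by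
      obtain ⟨k, hk⟩ := hpp.odd_of_ne_two hp2
      omega
    rw [h2, ZMod.pow_card_sub_one_eq_one hg, one_mul]
  have hval0 : eval (0 : Fin t → ZMod p) f = 0 := by
    simp only [f, map_pow, heval]
    have hzero : CC 0 = 0 := by
      ext a b
      rw [hCC, hlam]
      simp
    haveI : Nonempty (Fin d) := ⟨⟨0, hdpos⟩⟩
    rw [hzero, map_zero, Matrix.det_zero, zero_pow]
    have : 1 ≤ (p - 1) / 2 := by omega
    omega
  -- the sum
  have hsum : ∑ x, eval x f = -κ := by
    rw [← Finset.add_sum_erase Finset.univ _ (Finset.mem_univ (0 : Fin t → ZMod p)), hval0, zero_add]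
    rw [Finset.sum_congr rfl (fun x hx => hval x (Finset.ne_of_mem_erase hx))]
    rw [Finset.sum_const, Finset.card_erase_of_mem (Finset.mem_univ _), Finset.card_univ,
      Fintype.card_fun, ZMod.card, Fintype.card_fin, nsmul_eq_mul]
    have h1p : 1 ≤ p ^ t := Nat.one_le_pow _ _ hpp.pos
    rw [Nat.cast_sub h1p, Nat.cast_pow, ZMod.natCast_self, zero_pow htpos.ne']
    simp
  have hnot : ¬ (f.totalDegree < (Fintype.card (ZMod p) - 1) * Fintype.card (Fin t)) := by
    intro hlt
    have := MvPolynomial.sum_eval_eq_zero f hlt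
    rw [hsum] at this
    exact hκ (neg_eq_zero.mp this)
  rw [ZMod.card, Fintype.card_fin] at hnot
  obtain ⟨r, hr⟩ := exists_even (CC x₀) (halt' x₀) (hnd x₀ hx₀)
  have hdr : d = 2 * r := hr
  have h2 : (p - 1) / 2 * 2 = p - 1 := by
    obtain ⟨k, hk⟩ := hpp.odd_of_ne_two hp2
    omega
  have hle : (p - 1) * t ≤ (p - 1) * r := by
    have h3 : (p - 1) / 2 * d = (p - 1) * r := by
      rw [hdr, ← mul_assoc, h2]
    have h4 := hfdeg
    rw [h3] at h4
    have h5 := not_lt.mp hnot
    exact h5.trans h4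
  have htr : t ≤ r := Nat.le_of_mul_le_mul_left hle (by omega)
  rw [← pow_mul, hdr]
  apply Nat.pow_le_pow_right hpp.pos
  omega

end Odd

section Even

/-- The sign character of `ZMod 2`. -/
def chi (u : ZMod 2) : ℤ := if u = 0 then 1 else -1

theorem chi_add (u v : ZMod 2) : chi (u + v) = chi u * chi v := by
  revert u v; decide

theorem chi_sq (u : ZMod 2) : chi u * chi u = 1 := by
  revert u; decide

theorem chi_zero : chi 0 = 1 := by decide

theorem one_add_one_two : (1 : ZMod 2) + 1 = 0 := by decide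

theorem chi_ne {u : ZMod 2} (h : u ≠ 0) : chi u = -1 := by
  simp [chi, h]

theorem sum_chi_linear {B : Type*} [AddCommGroup B] [Module (ZMod 2) B] [Fintype B]
    (φ : B →ₗ[ZMod 2] ZMod 2) (a₀ : B) (h : φ a₀ ≠ 0) : ∑ a, chi (φ a) = 0 := by
  have h1 : ∑ a, chi (φ (a + a₀)) = ∑ a, chi (φ a) :=
    Equiv.sum_comp (Equiv.addRight a₀) (fun a => chi (φ a))
  have h2 : ∑ a, chi (φ (a + a₀)) = - ∑ a, chi (φ a) := by
    rw [← Finset.sum_neg_distrib]
    apply Finset.sum_congr rfl
    intro a _
    rw [map_add, chi_add, chi_ne h]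
    ring
  omega

variable {A : Type u} {L : Type v} [AddCommGroup A] [Module (ZMod 2) A] [Finite A] [Nontrivial A]
  [AddCommGroup L] [Module (ZMod 2) L] [Finite L]

theorem even_case (br : A →ₗ[ZMod 2] A →ₗ[ZMod 2] L) (halt : ∀ a, br a a = 0)
    (hon : ∀ a, a ≠ 0 → Function.Surjective (br a)) (q : A → L)
    (hq : ∀ a b, q (a + b) = q a + q b + br a b) : Nat.card L ^ 2 ≤ Nat.card A := by
  classical
  haveI : Fact (Nat.Prime 2) := ⟨Nat.prime_two⟩
  haveI : Module.Finite (ZMod 2) A := Module.Finite.of_finite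
  haveI : Module.Finite (ZMod 2) L := Module.Finite.of_finite
  have hcA : Nat.card A = 2 ^ finrank (ZMod 2) A := by
    rw [Module.natCard_eq_pow_finrank (K := ZMod 2), Nat.card_zmod]
  have hcL : Nat.card L = 2 ^ finrank (ZMod 2) L := by
    rw [Module.natCard_eq_pow_finrank (K := ZMod 2), Nat.card_zmod]
  set t := finrank (ZMod 2) L with ht
  set d := finrank (ZMod 2) A with hd
  rw [hcA, hcL]
  rcases Nat.eq_zero_or_pos t with ht0 | htpos
  · rw [ht0]
    simp only [pow_zero, one_pow]
    exact Nat.one_le_pow _ _ (by norm_num)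
  have hdpos : 0 < d := finrank_pos
  have h2L : ∀ x : L, x + x = 0 := by
    intro x
    have h : ((1 : ZMod 2) + 1) • x = 0 := by
      rw [one_add_one_two, zero_smul]
    rwa [add_smul, one_smul] at h
  have hq0 : q 0 = 0 := by
    have h := hq 0 0
    rw [add_zero, map_zero, add_zero, h2L] at h
    exact h
  haveI : Fintype A := Fintype.ofFinite A
  let D := Module.Dual (ZMod 2) L
  haveI : Finite D := Module.finite_of_finite (ZMod 2)
  haveI : Fintype D := Fintype.ofFinite D
  have hcD : Fintype.card D = 2 ^ t := by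
    rw [← Nat.card_eq_fintype_card, Module.natCard_eq_pow_finrank (K := ZMod 2), Nat.card_zmod,
      Subspace.dual_finrank_eq]
  let S : D → ℤ := fun l => ∑ a, chi (l (q a))
  have hS : ∀ l : D, l ≠ 0 → S l * S l = (2 : ℤ) ^ d := by
    intro l hl
    have hl' : ∃ v, l v ≠ 0 := by
      by_contra hcon
      push Not at hcon
      exact hl (LinearMap.ext hcon)
    obtain ⟨v, hv⟩ := hl'
    have hanti : ∀ a b, br a b = - br b a := by
      intro a b
      have h := halt (a + b)
      simp only [map_add, LinearMap.add_apply, halt a, halt b, zero_add, add_zero] at h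
      exact eq_neg_of_add_eq_zero_right h
    have hin : ∀ c : A, c ≠ 0 → ∑ a, chi (l (br a c)) = 0 := by
      intro c hc
      obtain ⟨a', ha'⟩ := hon c hc v
      refine sum_chi_linear (l.comp (br.flip c)) a' ?_
      simp only [LinearMap.comp_apply, LinearMap.flip_apply]
      rw [hanti, ha', map_neg]
      exact neg_ne_zero.mpr hv
    calc S l * S l = ∑ a, ∑ b, chi (l (q a)) * chi (l (q b)) := by
          simp only [S, Finset.sum_mul_sum]
      _ = ∑ a, ∑ c, chi (l (q c)) * chi (l (br a c)) := by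
          apply Finset.sum_congr rfl
          intro a _
          rw [← Equiv.sum_comp (Equiv.addLeft a) (fun b => chi (l (q a)) * chi (l (q b)))]
          apply Finset.sum_congr rfl
          intro c _
          simp only [Equiv.coe_addLeft]
          rw [hq, map_add, map_add, chi_add, chi_add]
          calc chi (l (q a)) * (chi (l (q a)) * chi (l (q c)) * chi (l (br a c)))
              = (chi (l (q a)) * chi (l (q a))) * (chi (l (q c)) * chi (l (br a c))) := by ring
            _ = chi (l (q c)) * chi (l (br a c)) := by rw [chi_sq, one_mul]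
      _ = ∑ c, ∑ a, chi (l (q c)) * chi (l (br a c)) := Finset.sum_comm
      _ = ∑ c, chi (l (q c)) * ∑ a, chi (l (br a c)) := by
          simp only [Finset.mul_sum]
      _ = chi (l (q 0)) * ∑ a, chi (l (br a 0)) := by
          apply Finset.sum_eq_single 0
          · intro c _ hc
            rw [hin c hc, mul_zero]
          · intro h
            exact absurd (Finset.mem_univ _) h
      _ = (2 : ℤ) ^ d := by
          rw [hq0, map_zero, chi_zero, one_mul]
          simp only [map_zero, LinearMap.zero_apply, chi_zero, Finset.sum_const, Finset.card_univ,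
            nsmul_eq_mul, mul_one]
          rw [← Nat.card_eq_fintype_card, hcA]
          push_cast
          rfl
  have hS0 : S 0 = (2 : ℤ) ^ d := by
    have hz : ∀ a, (0 : D) (q a) = 0 := fun a => rfl
    simp only [S, hz, chi_zero, Finset.sum_const, Finset.card_univ, nsmul_eq_mul, mul_one]
    rw [← Nat.card_eq_fintype_card, hcA]
    push_cast
    rfl
  have hdvd : ((2 : ℤ) ^ t) ∣ ∑ l, S l := by
    simp only [S]
    rw [Finset.sum_comm]
    apply Finset.dvd_sum
    intro a _
    by_cases hqa : q a = 0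
    · simp only [hqa, map_zero, chi_zero, Finset.sum_const, Finset.card_univ, nsmul_eq_mul, mul_one,
        hcD]
      push_cast
      exact dvd_refl _
    · obtain ⟨l₀, hl₀⟩ : ∃ l₀ : D, l₀ (q a) ≠ 0 := by
        by_contra hcon
        push Not at hcon
        exact hqa ((Module.forall_dual_apply_eq_zero_iff (ZMod 2) (q a)).mp hcon)
      have := sum_chi_linear (Module.Dual.eval (ZMod 2) L (q a)) l₀ (by simpa using hl₀)
      simp only [Module.Dual.eval_apply] at this
      rw [this]
      exact dvd_zero _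
  -- arithmetic
  obtain ⟨l₀, hl₀⟩ : ∃ l₀ : D, l₀ ≠ 0 := by
    have hlt : 1 < Fintype.card D := by
      rw [hcD]
      exact Nat.one_lt_two_pow htpos.ne'
    obtain ⟨a, b, hab⟩ := Fintype.exists_pair_of_one_lt_card hlt
    by_cases ha : a = 0
    · exact ⟨b, fun hb => hab (ha.trans hb.symm)⟩
    · exact ⟨a, ha⟩
  have hs₀ := hS l₀ hl₀
  obtain ⟨n, hn1, hn2⟩ : ∃ n, (S l₀).natAbs = 2 ^ n ∧ d = 2 * n := by
    have h1 : (S l₀).natAbs * (S l₀).natAbs = 2 ^ d := by
      have := congrArg Int.natAbs hs₀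
      simpa [Int.natAbs_mul, Int.natAbs_pow] using this
    have h2 : (S l₀).natAbs ∣ 2 ^ d := ⟨_, h1.symm⟩
    obtain ⟨k, -, hk⟩ := (Nat.dvd_prime_pow Nat.prime_two).mp h2
    refine ⟨k, hk, ?_⟩
    rw [hk, ← pow_add] at h1
    have := Nat.pow_right_injective (le_refl 2) h1
    omega
  have hnpos : 0 < n := by omega
  have hSval : ∀ l : D, l ≠ 0 → ((2 : ℤ) ^ (n + 1)) ∣ S l - 2 ^ n := by
    intro l hl
    have h1 := hS l hl
    have h2 : S l ^ 2 = ((2 : ℤ) ^ n) ^ 2 := by
      rw [pow_two, h1, hn2, ← pow_mul, mul_comm]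
    rcases sq_eq_sq_iff_eq_or_eq_neg.mp h2 with h3 | h3
    · rw [h3, sub_self]; exact dvd_zero _
    · rw [h3]
      refine ⟨-1, ?_⟩
      rw [pow_succ]
      ring
  by_contra hcon
  have htn : n + 1 ≤ t := by
    by_contra h
    apply hcon
    rw [← pow_mul, hn2]
    apply Nat.pow_le_pow_right (by norm_num)
    omega
  have h1 : ((2 : ℤ) ^ (n + 1)) ∣ ∑ l, S l := (pow_dvd_pow _ htn).trans hdvd
  have h2 : ∑ l, S l = S 0 + ∑ l ∈ Finset.univ.erase (0 : D), S l :=
    (Finset.add_sum_erase Finset.univ S (Finset.mem_univ (0 : D))).symm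
  have h3 : ((2 : ℤ) ^ (n + 1)) ∣ S 0 := by
    rw [hS0, hn2]
    exact pow_dvd_pow _ (by omega)
  have h4 : ((2 : ℤ) ^ (n + 1)) ∣ ∑ l ∈ Finset.univ.erase (0 : D), (S l - 2 ^ n) :=
    Finset.dvd_sum (fun l hl => hSval l (Finset.ne_of_mem_erase hl))
  have h5 : ∑ l ∈ Finset.univ.erase (0 : D), (S l - 2 ^ n)
      = ∑ l ∈ Finset.univ.erase (0 : D), S l - ((2 : ℤ) ^ t - 1) * 2 ^ n := by
    rw [Finset.sum_sub_distrib, Finset.sum_const, Finset.card_erase_of_mem (Finset.mem_univ _),
      Finset.card_univ, hcD, nsmul_eq_mul]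
    have h1p : 1 ≤ 2 ^ t := Nat.one_le_pow _ _ (by norm_num)
    rw [Nat.cast_sub h1p]
    push_cast
    ring
  have h6 : ((2 : ℤ) ^ (n + 1)) ∣ ((2 : ℤ) ^ t - 1) * 2 ^ n := by
    have e : ((2 : ℤ) ^ t - 1) * 2 ^ n = ∑ l, S l - S 0 - ∑ l ∈ Finset.univ.erase (0 : D), (S l - 2 ^ n) := by
      rw [h5, h2]
      ring
    rw [e]
    exact dvd_sub (dvd_sub h1 h3) h4
  obtain ⟨m, hm⟩ := h6
  have h7 : (2 : ℤ) ^ t - 1 = 2 * m := by
    have h2n : ((2 : ℤ) ^ n) ≠ 0 := by positivity
    apply mul_right_cancel₀ h2n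
    rw [hm, pow_succ]
    ring
  obtain ⟨t', ht'⟩ : ∃ t', t = t' + 1 := ⟨t - 1, by omega⟩
  rw [ht', pow_succ] at h7
  omega

end Even


/-- (A11) Beisiegel's bound, linear form (`p = 2` needs the squaring map). -/
theorem beisiegel_alg {p : ℕ} [Fact p.Prime] {A : Type u} {L : Type v} [AddCommGroup A]
    [Module (ZMod p) A] [Finite A] [Nontrivial A] [AddCommGroup L] [Module (ZMod p) L] [Finite L]
    (br : A →ₗ[ZMod p] A →ₗ[ZMod p] L) (halt : ∀ a, br a a = 0)
    (hon : ∀ a, a ≠ 0 → Function.Surjective (br a))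
    (hq : p = 2 → ∃ q : A → L, ∀ a b, q (a + b) = q a + q b + br a b) :
    Nat.card L ^ 2 ≤ Nat.card A := by
  by_cases hp2 : p = 2
  · subst hp2
    obtain ⟨q, hq'⟩ := hq rfl
    exact even_case br halt hon q hq'
  · exact odd_case hp2 br halt hon


theorem of_pairing_aux {A : Type u} {L : Type v} [AddCommGroup A] [AddCommGroup L] {p : ℕ} [Fact p.Prime]
    [Module (ZMod p) A] [Module (ZMod p) L] [Finite A] [Finite L] [Nontrivial A]
    (F : A → A → L) (hF1 : ∀ y x x', F (x + x') y = F x y + F x' y)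
    (hF2 : ∀ x y y', F x (y + y') = F x y + F x y') (halt : ∀ a, F a a = 0)
    (hon : ∀ a, a ≠ 0 → Function.Surjective (F a))
    (hq : p = 2 → ∃ q : A → L, ∀ a b, q (a + b) = q a + q b + F a b) :
    Nat.card L ^ 2 ≤ Nat.card A := by
  let br : A →ₗ[ZMod p] A →ₗ[ZMod p] L := LinearMap.mk₂ (ZMod p) F (fun m m' n => hF1 n m m')
    (fun r m n => ZMod.map_smul (AddMonoidHom.mk' (fun x => F x n) (hF1 n)) r m)
    (fun m n n' => hF2 m n n')
    (fun r m n => ZMod.map_smul (AddMonoidHom.mk' (fun y => F m y) (hF2 m)) r n)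
  exact beisiegel_alg br halt hon hq

theorem of_pairing {A : Type u} {L : Type v} [AddCommGroup A] [AddCommGroup L] [Finite A] [Finite L]
    [Nontrivial A] {p : ℕ} [Fact p.Prime] (hAp : ∀ x : A, p • x = 0) (hLp : ∀ x : L, p • x = 0)
    (F : A → A → L) (hF1 : ∀ y x x', F (x + x') y = F x y + F x' y)
    (hF2 : ∀ x y y', F x (y + y') = F x y + F x y') (halt : ∀ a, F a a = 0)
    (hon : ∀ a, a ≠ 0 → Function.Surjective (F a))
    (hq : p = 2 → ∃ q : A → L, ∀ a b, q (a + b) = q a + q b + F a b) :
    Nat.card L ^ 2 ≤ Nat.card A := by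
  letI mA : Module (ZMod p) A := AddCommGroup.zmodModule hAp
  letI mL : Module (ZMod p) L := AddCommGroup.zmodModule hLp
  exact of_pairing_aux F hF1 hF2 halt hon hq

section Grp

variable {X : Type u} [Group X]

/-- A central commutator subgroup is commutative. -/
@[reducible] def commZ (hZ : ∀ e ∈ commutator X, ∀ x : X, x * e = e * x) : CommGroup (commutator X) :=
  { (inferInstance : Group (commutator X)) with
    mul_comm := fun a b => Subtype.ext (hZ b b.2 a) }

theorem comm_mem (a b : X) : a * b * a⁻¹ * b⁻¹ ∈ commutator X := by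
  have h := Subgroup.commutator_mem_commutator (Subgroup.mem_top a) (Subgroup.mem_top b)
  rw [commutatorElement_def] at h
  exact h

/-- (A12) Beisiegel's bound, group form. -/
theorem beisiegel_grp {X : Type u} [Group X] [Finite X] {p : ℕ} (hp : p.Prime) (hX : IsPGroup p X)
    (hZ : ∀ e ∈ commutator X, ∀ x : X, x * e = e * x) (hel : ∀ x : X, x ^ p ∈ commutator X)
    (hcam : ∀ a, a ∉ commutator X → ∀ e ∈ commutator X, ∃ b, b * a * b⁻¹ = a * e) :
    Nat.card (commutator X) ^ 2 ≤ (commutator X).index := by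
  classical
  haveI : Fact p.Prime := ⟨hp⟩
  by_cases hZ1 : commutator X = ⊥
  · rw [hZ1]
    simp only [Subgroup.card_bot, one_pow]
    exact Nat.one_le_iff_ne_zero.mpr (Subgroup.index_ne_zero_of_finite)
  letI : CommGroup (commutator X) := commZ hZ
  let c : X → X → commutator X := fun a b => ⟨a * b * a⁻¹ * b⁻¹, comm_mem a b⟩
  have cval : ∀ a b, ((c a b : commutator X) : X) = a * b * a⁻¹ * b⁻¹ := fun a b => rfl
  have cL : ∀ a a' b, c (a * a') b = c a b * c a' b := by
    intro a a' b
    apply Subtype.ext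
    show a * a' * b * (a * a')⁻¹ * b⁻¹ = (a * b * a⁻¹ * b⁻¹) * (a' * b * a'⁻¹ * b⁻¹)
    have he := comm_mem a' b
    have h1 := hZ _ he a
    calc a * a' * b * (a * a')⁻¹ * b⁻¹
        = a * (a' * b * a'⁻¹ * b⁻¹) * (b * a⁻¹ * b⁻¹) := by group
      _ = (a' * b * a'⁻¹ * b⁻¹) * a * (b * a⁻¹ * b⁻¹) := by rw [h1]
      _ = (a' * b * a'⁻¹ * b⁻¹) * (a * b * a⁻¹ * b⁻¹) := by group
      _ = (a * b * a⁻¹ * b⁻¹) * (a' * b * a'⁻¹ * b⁻¹) := (hZ _ he _).symm
  have cR : ∀ a b b', c a (b * b') = c a b * c a b' := by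
    intro a b b'
    apply Subtype.ext
    show a * (b * b') * a⁻¹ * (b * b')⁻¹ = (a * b * a⁻¹ * b⁻¹) * (a * b' * a⁻¹ * b'⁻¹)
    have he := comm_mem a b'
    have h1 := hZ _ he b⁻¹
    calc a * (b * b') * a⁻¹ * (b * b')⁻¹
        = a * b * a⁻¹ * ((a * b' * a⁻¹ * b'⁻¹) * b⁻¹) := by group
      _ = a * b * a⁻¹ * (b⁻¹ * (a * b' * a⁻¹ * b'⁻¹)) := by rw [h1]
      _ = (a * b * a⁻¹ * b⁻¹) * (a * b' * a⁻¹ * b'⁻¹) := by group
  have c1L : ∀ b, c 1 b = 1 := by
    intro b
    apply Subtype.ext
    show 1 * b * 1⁻¹ * b⁻¹ = 1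
    group
  have c1R : ∀ a, c a 1 = 1 := by
    intro a
    apply Subtype.ext
    show a * 1 * a⁻¹ * 1⁻¹ = 1
    group
  have cZ : ∀ a ∈ commutator X, ∀ b, c a b = 1 := by
    intro a ha b
    apply Subtype.ext
    show a * b * a⁻¹ * b⁻¹ = 1
    rw [(hZ a ha b).symm]
    group
  have cpow : ∀ (n : ℕ) a b, c (a ^ n) b = c a b ^ n := by
    intro n a b
    induction n with
    | zero => simp [c1L]
    | succ k ih => rw [pow_succ, cL, ih, pow_succ]
  have hexp : ∀ e : commutator X, e ^ p = 1 := by
    have hle : (⁅(⊤ : Subgroup X), (⊤ : Subgroup X)⁆ : Subgroup X) ≤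
        ((powMonoidHom p : commutator X →* commutator X).ker).map (commutator X).subtype := by
      rw [Subgroup.commutator_le]
      intro a _ b _
      refine ⟨c a b, ?_, by rw [commutatorElement_def]; rfl⟩
      change (c a b) ^ p = 1
      rw [← cpow, cZ _ (hel a)]
    intro e
    obtain ⟨y, hy, hye⟩ := hle e.2
    have : y = e := Subtype.ext hye
    rw [← this]
    exact hy
  let ψ : X → (X →* commutator X) := fun a =>
    { toFun := c a, map_one' := c1R a, map_mul' := cR a }
  let Ψ : X → (Abelianization X →* commutator X) := fun a => Abelianization.lift (ψ a)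
  have hΨ : ∀ a b, Ψ a (Abelianization.of b) = c a b := by
    intro a b
    exact Abelianization.lift_apply_of _ _
  let Ψ' : X →* (Abelianization X →* commutator X) :=
    { toFun := Ψ
      map_one' := by
        apply Abelianization.hom_ext
        ext b
        show ((Ψ 1 (Abelianization.of b) : commutator X) : X) = 1
        rw [hΨ, c1L]
        rfl
      map_mul' := by
        intro a a'
        apply Abelianization.hom_ext
        ext b
        show ((Ψ (a * a') (Abelianization.of b) : commutator X) : X)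
          = (((Ψ a (Abelianization.of b)) * (Ψ a' (Abelianization.of b)) : commutator X) : X)
        rw [hΨ, hΨ, hΨ, cL] }
  let G2 : Abelianization X →* (Abelianization X →* commutator X) := Abelianization.lift Ψ'
  have hG2 : ∀ a b, G2 (Abelianization.of a) (Abelianization.of b) = c a b := by
    intro a b
    have : G2 (Abelianization.of a) = Ψ a := Abelianization.lift_apply_of _ _
    rw [this, hΨ]
  have hofs : ∀ y : Abelianization X, ∃ x, Abelianization.of x = y := fun y => QuotientGroup.mk_surjective y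
  have hof1 : ∀ x, Abelianization.of x = 1 ↔ x ∈ commutator X := fun x => QuotientGroup.eq_one_iff x
  have hAp : ∀ x : Additive (Abelianization X), p • x = 0 := by
    intro x
    obtain ⟨y, hy⟩ := hofs (Additive.toMul x)
    have h1 : (Abelianization.of y) ^ p = 1 := by
      rw [← map_pow]
      exact (hof1 _).mpr (hel y)
    have : x = Additive.ofMul (Abelianization.of y) := by rw [hy]; rfl
    rw [this, ← ofMul_pow, h1]
    rfl
  have hLp : ∀ x : Additive (commutator X), p • x = 0 := by
    intro x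
    have := hexp (Additive.toMul x)
    show Additive.ofMul ((Additive.toMul x) ^ p) = 0
    rw [this]
    rfl
  haveI fA : Finite (Additive (Abelianization X)) := Finite.of_equiv _ (Additive.ofMul (α := Abelianization X))
  haveI fL : Finite (Additive (commutator X)) := Finite.of_equiv _ (Additive.ofMul (α := commutator X))
  have hne : ∃ a, a ∉ commutator X := by
    obtain ⟨a, b, hab⟩ : ∃ a b, c a b ≠ 1 := by
      by_contra hcon
      push Not at hcon
      apply hZ1
      rw [_root_.commutator_def, Subgroup.commutator_eq_bot_iff_le_centralizer]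
      intro a _
      rw [Subgroup.mem_centralizer_iff]
      intro b _
      have h := congrArg Subtype.val (hcon b a)
      have h2 : b * a * b⁻¹ * a⁻¹ = 1 := h
      calc b * a = (b * a * b⁻¹ * a⁻¹) * (a * b) := by group
        _ = a * b := by rw [h2, one_mul]
    refine ⟨a, fun ha => hab (cZ a ha b)⟩
  haveI nA : Nontrivial (Additive (Abelianization X)) := by
    obtain ⟨a, ha⟩ := hne
    refine ⟨⟨Additive.ofMul (Abelianization.of a), 0, ?_⟩⟩
    intro h
    exact ha ((hof1 a).mp h)
  let F : Additive (Abelianization X) → Additive (Abelianization X) → Additive (commutator X) := fun x y => Additive.ofMul (G2 (Additive.toMul x) (Additive.toMul y))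
  have hFadd1 : ∀ y x x', F (x + x') y = F x y + F x' y := by
    intro y x x'
    show Additive.ofMul (G2 (Additive.toMul x * Additive.toMul x') (Additive.toMul y)) = _
    rw [map_mul, MonoidHom.mul_apply]
    rfl
  have hFadd2 : ∀ x y y', F x (y + y') = F x y + F x y' := by
    intro x y y'
    show Additive.ofMul (G2 (Additive.toMul x) (Additive.toMul y * Additive.toMul y')) = _
    rw [map_mul]
    rfl
  have hbr : ∀ a b, F (Additive.ofMul (Abelianization.of a)) (Additive.ofMul (Abelianization.of b))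
      = Additive.ofMul (c a b) := by
    intro a b
    show Additive.ofMul (G2 (Abelianization.of a) (Abelianization.of b)) = _
    rw [hG2]
  have hrep : ∀ x : Additive (Abelianization X), ∃ a, x = Additive.ofMul (Abelianization.of a) := by
    intro x
    obtain ⟨y, hy⟩ := hofs (Additive.toMul x)
    exact ⟨y, by rw [hy]; rfl⟩
  have halt : ∀ a, F a a = 0 := by
    intro x
    obtain ⟨a, rfl⟩ := hrep x
    rw [hbr]
    have : c a a = 1 := by
      apply Subtype.ext
      show a * a * a⁻¹ * a⁻¹ = 1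
      group
    rw [this]
    rfl
  have hon : ∀ a, a ≠ 0 → Function.Surjective (F a) := by
    intro x hx v
    obtain ⟨a, rfl⟩ := hrep x
    have ha : a ∉ commutator X := by
      intro h
      apply hx
      have := (hof1 a).mpr h
      rw [this]
      rfl
    obtain ⟨b, hb⟩ := hcam a ha ((Additive.toMul v)⁻¹ : commutator X) (Additive.toMul v)⁻¹.2
    refine ⟨Additive.ofMul (Abelianization.of b), ?_⟩
    rw [hbr]
    have : c a b = Additive.toMul v := by
      apply Subtype.ext
      show a * b * a⁻¹ * b⁻¹ = ((Additive.toMul v : commutator X) : X)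
      set e : X := ((Additive.toMul v : commutator X) : X) with he
      have hem : e ∈ commutator X := (Additive.toMul v).2
      have hb' : b * a * b⁻¹ = a * e⁻¹ := by
        simpa using hb
      have h1 : a⁻¹ * (b * a * b⁻¹) = e⁻¹ := by
        rw [hb']; group
      have h2 : a * b * a⁻¹ * b⁻¹ = (b * a * b⁻¹ * a⁻¹)⁻¹ := by group
      rw [h2]
      have h3 : b * a * b⁻¹ * a⁻¹ = a * (a⁻¹ * (b * a * b⁻¹)) * a⁻¹ := by group
      rw [h3, h1]
      have h4 : a * e⁻¹ * a⁻¹ = e⁻¹ := by
        have := hZ e⁻¹ ((commutator X).inv_mem hem) a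
        rw [this]
        group
      rw [h4, inv_inv]
    rw [this]
    rfl
  have hq : p = 2 → ∃ q : Additive (Abelianization X) → Additive (commutator X), ∀ a b, q (a + b) = q a + q b + F a b := by
    intro hp2
    have hel2 : ∀ x : X, x * x ∈ commutator X := by
      intro x
      have := hel x
      rwa [hp2, pow_two] at this
    have hexp2 : ∀ e : X, e ∈ commutator X → e * e = 1 := by
      intro e he
      have := hexp ⟨e, he⟩
      rw [hp2, pow_two] at this
      exact congrArg Subtype.val this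
    let sq : X → commutator X := fun x => ⟨x * x, hel2 x⟩
    have hsq : ∀ x x', Abelianization.of x = Abelianization.of x' → sq x = sq x' := by
      intro x x' h
      have hz : x⁻¹ * x' ∈ commutator X := by
        rw [← hof1, map_mul, map_inv, h, inv_mul_cancel]
      apply Subtype.ext
      show x * x = x' * x'
      set z := x⁻¹ * x' with hzd
      have hx' : x' = x * z := by rw [hzd]; group
      rw [hx']
      have h1 := hZ z hz x
      calc x * x = x * x * (z * z) := by rw [hexp2 z hz, mul_one]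
        _ = x * (x * z) * z := by group
        _ = x * (z * x) * z := by rw [h1]
        _ = x * z * (x * z) := by group
    choose r hr using hrep
    refine ⟨fun x => Additive.ofMul (sq (r x)), ?_⟩
    intro x y
    have hsqx : ∀ a, sq (r (Additive.ofMul (Abelianization.of a))) = sq a := by
      intro a
      apply hsq
      exact (hr (Additive.ofMul (Abelianization.of a))).symm
    obtain ⟨a, ha⟩ : ∃ a, x = Additive.ofMul (Abelianization.of a) := ⟨r x, hr x⟩
    obtain ⟨b, hb⟩ : ∃ b, y = Additive.ofMul (Abelianization.of b) := ⟨r y, hr y⟩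
    have hadd : x + y = Additive.ofMul (Abelianization.of (a * b)) := by
      rw [ha, hb, map_mul]
      rfl
    show Additive.ofMul (sq (r (x + y))) = Additive.ofMul (sq (r x)) + Additive.ofMul (sq (r y)) + F x y
    rw [hadd, hsqx, ha, hb, hsqx, hsqx, hbr]
    show Additive.ofMul (sq (a * b)) = Additive.ofMul (sq a * sq b * c a b)
    congr 1
    apply Subtype.ext
    show a * b * (a * b) = a * a * (b * b) * (a * b * a⁻¹ * b⁻¹)
    have h2 := hZ _ (hel2 a) b
    have h3 := hZ _ (comm_mem a b) (a * a * (b * b))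
    calc a * b * (a * b) = (a * b * a⁻¹ * b⁻¹) * (b * (a * a) * b) := by group
      _ = (a * b * a⁻¹ * b⁻¹) * ((a * a) * b * b) := by rw [h2]
      _ = (a * b * a⁻¹ * b⁻¹) * (a * a * (b * b)) := by group
      _ = a * a * (b * b) * (a * b * a⁻¹ * b⁻¹) := h3.symm
  have hmain := of_pairing hAp hLp F hFadd1 hFadd2 halt hon hq
  have e1 : Nat.card (Additive (commutator X)) = Nat.card (commutator X) := Nat.card_congr (Additive.toMul)
  have e2 : Nat.card (Additive (Abelianization X)) = (commutator X).index := Nat.card_congr (Additive.toMul)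
  rw [e1, e2] at hmain
  exact hmain

end Grp

end Cfsg.Agent.Lib.NDF.Beisiegel
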