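import Mathlib.GroupTheory.GroupAction.Quotient
import Mathlib.GroupTheory.PGroup
import Mathlib.GroupTheory.GroupAction.ConjAct
import Mathlib.GroupTheory.OrderOfElement
import Mathlib.GroupTheory.SpecificGroups.Cyclic

/-!
# Burnside count of the layer (A16 of `Lib/NDF`)

`a ∉ E`: `cl(a) = aE` so `|C_W(a)| = A₀ := |W:E|`; `hcomm` says that the image of `C_W(a)` in `W/E` is `⟨ā⟩` of
order `p`, `|C_E(a)| = A₀/p`. Burnside's lemma for `W` acting on `E` by conjugation:
`n|W| = |E|² + (|W|-|E|)A₀/p`, i.e. `p|E| + A₀(A₀-1) = n p A₀`. With `A₀ = p^d`, `|E| = p^t` this forces `d = t+1`.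
Then `|C_E(a)| = |E|`.
-/

set_option autoImplicit false

namespace Cfsg.Agent.Lib.NDF.BurnsideLayer

universe u

variable {W : Type u} [Group W] {E : Subgroup W}

/-- The number of elements of `E` commuting with `a`. -/
noncomputable def fixC (E : Subgroup W) (a : W) : ℕ := Nat.card {e : E // a * (e : W) = (e : W) * a}

/-- The centraliser of `a`. -/
abbrev cen (a : W) : Subgroup W := Subgroup.centralizer {a}

theorem mem_cen {a x : W} : x ∈ cen a ↔ x * a = a * x := by
  rw [Subgroup.mem_centralizer_singleton_iff]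

/-- The order of the centraliser is the index of `E`. -/
theorem card_cen [Finite W] (hEn : E.Normal) (hab : ∀ a b : W, a * b * a⁻¹ * b⁻¹ ∈ E) {a : W}
    (hcam : ∀ e ∈ E, ∃ b, b * a * b⁻¹ = a * e) : Nat.card (cen a) = E.index := by
  classical
  have h1 : Nat.card (MulAction.orbit (ConjAct W) a) * Nat.card (MulAction.stabilizer (ConjAct W) a) = Nat.card W := by
    rw [Nat.card_congr (MulAction.orbitEquivQuotientStabilizer (ConjAct W) a)]
    have h2 := Subgroup.card_eq_card_quotient_mul_card_subgroup (MulAction.stabilizer (ConjAct W) a)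
    rw [← h2]
    rfl
  have hstab : Nat.card (MulAction.stabilizer (ConjAct W) a) = Nat.card (cen a) := by
    apply Nat.card_congr
    refine Equiv.subtypeEquiv (ConjAct.ofConjAct (G := W)).toEquiv ?_
    intro x
    rw [MulAction.mem_stabilizer_iff, ConjAct.smul_def, mem_cen, mul_inv_eq_iff_eq_mul]
    rfl
  have horb : Nat.card (MulAction.orbit (ConjAct W) a) = Nat.card E := by
    apply Nat.card_congr
    symm
    refine Equiv.ofBijective (fun e => ⟨a * (e : W), ?_⟩) ⟨?_, ?_⟩
    · obtain ⟨b, hb⟩ := hcam e e.2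
      refine ⟨ConjAct.toConjAct b, ?_⟩
      change ConjAct.toConjAct b • a = _
      rw [← hb, ConjAct.smul_def, ConjAct.ofConjAct_toConjAct]
    · intro e e' h
      apply Subtype.ext
      have := congrArg Subtype.val h
      exact mul_left_cancel this
    · rintro ⟨x, c, rfl⟩
      refine ⟨⟨a⁻¹ * (c • a), ?_⟩, ?_⟩
      · rw [ConjAct.smul_def]
        have h3 := hab (ConjAct.ofConjAct c) a
        have h4 := hEn.conj_mem _ h3 a⁻¹
        have h5 : a⁻¹ * (ConjAct.ofConjAct c * a * (ConjAct.ofConjAct c)⁻¹) =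
            a⁻¹ * (ConjAct.ofConjAct c * a * (ConjAct.ofConjAct c)⁻¹ * a⁻¹) * a⁻¹⁻¹ := by group
        rw [h5]
        exact h4
      · apply Subtype.ext
        simp
  rw [hstab, horb] at h1
  have h6 := Subgroup.card_mul_index E
  have h7 : 0 < Nat.card E := Nat.card_pos
  rw [← h6] at h1
  exact Nat.eq_of_mul_eq_mul_left h7 (by rw [← h1])

/-- `C(a) / (C(a) ∩ E)` has order `p`. -/
theorem card_cen_eq [Finite W] {p : ℕ} (hp : p.Prime) (hEn : E.Normal) {a : W} (hel : a ^ p ∈ E) (ha : a ∉ E)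
    (hcomm : ∀ b, a * b = b * a → ∃ k : ℕ, b * (a ^ k)⁻¹ ∈ E) :
    Nat.card (cen a) = p * fixC E a := by
  classical
  have := hEn
  have : Fact p.Prime := ⟨hp⟩
  let ψ : cen a →* W ⧸ E := (QuotientGroup.mk' E).comp (cen a).subtype
  have hk : Nat.card ψ.ker = fixC E a := by
    apply Nat.card_congr
    refine ⟨fun x => ⟨⟨x.1.1, ?_⟩, ?_⟩, fun y => ⟨⟨y.1.1, ?_⟩, ?_⟩, ?_, ?_⟩
    · have := x.2
      rw [MonoidHom.mem_ker] at this
      exact (QuotientGroup.eq_one_iff _).1 this
    · exact (mem_cen.1 x.1.2).symm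
    · exact mem_cen.2 y.2.symm
    · rw [MonoidHom.mem_ker]
      exact (QuotientGroup.eq_one_iff _).2 y.1.2
    · intro x
      rfl
    · intro y
      rfl
  have hr : ψ.range = Subgroup.zpowers (QuotientGroup.mk' E a) := by
    apply le_antisymm
    · rintro _ ⟨b, rfl⟩
      obtain ⟨k, hk⟩ := hcomm b (mem_cen.1 b.2).symm
      refine ⟨(k : ℤ), ?_⟩
      change (QuotientGroup.mk' E a) ^ (k : ℤ) = QuotientGroup.mk' E (b : W)
      rw [zpow_natCast, ← map_pow, eq_comm, ← div_eq_one, ← map_div, div_eq_mul_inv]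
      exact (QuotientGroup.eq_one_iff _).2 hk
    · rw [Subgroup.zpowers_le]
      exact ⟨⟨a, mem_cen.2 rfl⟩, rfl⟩
  have ho : orderOf (QuotientGroup.mk' E a) = p := by
    apply orderOf_eq_prime
    · rw [← map_pow]
      exact (QuotientGroup.eq_one_iff _).2 hel
    · intro h
      exact ha ((QuotientGroup.eq_one_iff _).1 h)
  have h1 := Subgroup.card_mul_index ψ.ker
  rw [Subgroup.index_ker, hr, Nat.card_zpowers, ho, hk] at h1
  rw [← h1, mul_comm]

/-- The arithmetic of the orbit count. -/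
theorem nt_aux {p n d t : ℕ} (hp : p.Prime) (hd : 1 ≤ d)
    (h : p * n * p ^ d = p * p ^ t + (p ^ d - 1) * p ^ d) : d = t + 1 := by
  have hppos : 0 < p ^ d := pow_pos hp.pos d
  rcases lt_trichotomy d (t + 1) with hlt | heq | hgt
  · exfalso
    -- `p ^ (d + 1)` divides all but one term
    have h1 : p ^ (d + 1) ∣ p * p ^ t := by
      rw [← pow_succ']
      exact pow_dvd_pow p (by omega)
    have h2 : p ^ (d + 1) ∣ p * n * p ^ d := by
      rw [pow_succ]
      exact ⟨n, by ring⟩
    rw [h] at h2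
    have h3 : p ^ (d + 1) ∣ (p ^ d - 1) * p ^ d := (Nat.dvd_add_right h1).1 h2
    rw [pow_succ, mul_comm (p ^ d) p] at h3
    have h4 : p ∣ p ^ d - 1 := Nat.dvd_of_mul_dvd_mul_right hppos h3
    have h5 : p ∣ p ^ d := dvd_pow_self p (by omega)
    have h6 : p ∣ 1 := by
      have h7 : p ^ d = (p ^ d - 1) + 1 := by omega
      rw [h7] at h5
      exact (Nat.dvd_add_right h4).1 h5
    exact hp.one_lt.ne' (Nat.dvd_one.1 h6)
  · exact heq
  · exfalso
    have h1 : p ^ (t + 2) ∣ p ^ d := pow_dvd_pow p (by omega)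
    have h2 : p ^ (t + 2) ∣ (p ^ d - 1) * p ^ d := h1.mul_left _
    have h3 : p ^ (t + 2) ∣ p * n * p ^ d := h1.mul_left _
    rw [h] at h3
    have h4 : p ^ (t + 2) ∣ p * p ^ t := (Nat.dvd_add_left h2).1 h3
    rw [← pow_succ'] at h4
    have h5 := (Nat.pow_dvd_pow_iff_le_right hp.one_lt).1 h4
    omega

/-- (A16) Burnside count of the layer. -/
theorem burnside_layer {W : Type u} [Group W] [Finite W] {E : Subgroup W} {p : ℕ} (hp : p.Prime)
    (hWp : IsPGroup p W) (hEn : E.Normal) (hEab : ∀ a ∈ E, ∀ b ∈ E, a * b = b * a)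
    (hE1 : E ≠ ⊤) (hab : ∀ a b : W, a * b * a⁻¹ * b⁻¹ ∈ E)
    (hel : ∀ a : W, a ^ p ∈ E)
    (hcam : ∀ a, a ∉ E → ∀ e ∈ E, ∃ b, b * a * b⁻¹ = a * e)
    (hcomm : ∀ a b : W, a ∉ E → a * b = b * a → ∃ k : ℕ, b * (a ^ k)⁻¹ ∈ E) :
    E.index = p * Nat.card E ∧ ∀ e ∈ E, ∀ a : W, a * e = e * a := by
  classical
  have := Fintype.ofFinite W
  have : Fact p.Prime := ⟨hp⟩
  -- values of `fixC`
  have hf1 : ∀ a ∈ E, fixC E a = Nat.card E := by
    intro a ha
    unfold fixC
    apply Nat.card_congr
    exact Equiv.subtypeUnivEquiv fun e => hEab a ha e e.2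
  have hf2 : ∀ a, a ∉ E → p * fixC E a = E.index := by
    intro a ha
    rw [← card_cen_eq hp hEn (hel a) ha (fun b hb => hcomm a b ha hb)]
    exact card_cen hEn hab (hcam a ha)
  -- the action
  let instA : MulAction W E :=
    { smul := fun g e => ⟨g * e * g⁻¹, hEn.conj_mem _ e.2 g⟩
      one_smul := fun e => Subtype.ext (by
        change (1 : W) * e * (1 : W)⁻¹ = e
        simp)
      mul_smul := fun g h e => Subtype.ext (by
        change (g * h) * e * (g * h)⁻¹ = g * (h * e * h⁻¹) * g⁻¹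
        group) }
  have hsmul : ∀ (g : W) (e : E), ((g • e : E) : W) = g * e * g⁻¹ := fun _ _ => rfl
  have : ∀ g : W, Fintype (MulAction.fixedBy E g) := fun g => Fintype.ofFinite _
  have : Fintype (MulAction.orbitRel.Quotient W E) := Fintype.ofFinite _
  have hB := MulAction.sum_card_fixedBy_eq_card_orbits_mul_card_group (G := W) (X := E)
  set n := Fintype.card (MulAction.orbitRel.Quotient W E) with hn
  have hfix : ∀ g : W, Fintype.card (MulAction.fixedBy E g) = fixC E g := by
    intro g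
    rw [← Nat.card_eq_fintype_card]
    unfold fixC
    apply Nat.card_congr
    refine Equiv.subtypeEquivRight ?_
    intro e
    rw [MulAction.mem_fixedBy, Subtype.ext_iff, hsmul, mul_inv_eq_iff_eq_mul]
  simp_rw [hfix] at hB
  -- the count
  set e := Nat.card E with he
  set A := E.index with hA
  have hcardW : Fintype.card W = e * A := by
    rw [← Nat.card_eq_fintype_card, he, hA, Subgroup.card_mul_index]
  have hsum : ∑ g : W, p * fixC E g = e * (p * e) + (e * A - e) * A := by
    have h1 : ∀ g : W, p * fixC E g = if g ∈ E then p * e else A := by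
      intro g
      split_ifs with h
      · rw [hf1 g h]
      · exact hf2 g h
    simp_rw [h1]
    rw [Finset.sum_ite, Finset.sum_const, Finset.sum_const, smul_eq_mul, smul_eq_mul]
    have h2 : (Finset.univ.filter fun g : W => g ∈ E).card = e := by
      rw [he, Nat.card_eq_fintype_card (α := E), Fintype.card_subtype]
    have h3 : (Finset.univ.filter fun g : W => g ∉ E).card = e * A - e := by
      rw [← hcardW, ← h2, Finset.filter_not, Finset.card_sdiff_of_subset (Finset.filter_subset _ _)]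
      rfl
    rw [h2, h3]
  rw [← Finset.mul_sum, hB, hcardW] at hsum
  have he0 : 0 < e := Nat.card_pos
  have hsum2 : p * n * A = p * e + (A - 1) * A := by
    apply Nat.eq_of_mul_eq_mul_left he0
    have h1 : e * A - e = e * (A - 1) := by rw [Nat.mul_sub, mul_one]
    rw [h1] at hsum
    calc e * (p * n * A) = p * (n * (e * A)) := by ring
      _ = e * (p * e) + e * (A - 1) * A := hsum
      _ = e * (p * e + (A - 1) * A) := by ring
  -- the powers of `p`
  have hEp : IsPGroup p E := hWp.to_subgroup E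
  obtain ⟨t, ht⟩ := IsPGroup.iff_card.1 hEp
  have hA1 : A ∣ Nat.card W := Subgroup.index_dvd_card E
  obtain ⟨m, hm⟩ := IsPGroup.iff_card.1 hWp
  rw [hm] at hA1
  obtain ⟨d, -, hd⟩ := (Nat.dvd_prime_pow hp).1 hA1
  have hd1 : 1 ≤ d := by
    by_contra hd0
    have : d = 0 := by omega
    rw [this, pow_zero] at hd
    exact hE1 (Subgroup.index_eq_one.1 hd)
  have ht' : e = p ^ t := ht
  rw [hd, ht'] at hsum2
  have hdt := nt_aux hp hd1 hsum2
  have hAe : A = p * e := by
    rw [hd, hdt, pow_succ', ht']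
  refine ⟨hAe, ?_⟩
  intro x hx a
  by_cases haE : a ∈ E
  · exact hEab a haE x hx
  · have h1 := hf2 a haE
    rw [hAe] at h1
    have h2 : fixC E a = e := Nat.eq_of_mul_eq_mul_left hp.pos h1
    by_contra hcon
    have := Fintype.ofFinite E
    have h3 := Fintype.card_subtype_lt (α := E) (p := fun y : E => a * (y : W) = (y : W) * a) (x := ⟨x, hx⟩) hcon
    have h4 : fixC E a = Fintype.card {y : E // a * (y : W) = (y : W) * a} := by
      unfold fixC
      exact Nat.card_eq_fintype_card
    have h5 : e = Fintype.card E := Nat.card_eq_fintype_card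
    omega

end Cfsg.Agent.Lib.NDF.BurnsideLayer
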