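import Cfsg.Agent.Lib.NDF.IDefs
import Cfsg.Agent.Lib.Char.Central
import Cfsg.Agent.Lib.Char.Linear
import Cfsg.Prelude.Def_DegreeGraph

/-!
# S4780, (IJ), (IK): a central subgroup with a complement does not add degrees.
-/

set_option autoImplicit false
set_option linter.unusedSectionVars false

namespace Cfsg.Agent.Lib.NDF.CentralCompl

open Cfsg Cfsg.Agent.Lib.NoDiv.Defs Cfsg.Agent.Lib.NDF.Defs Cfsg.Agent.Lib.NDF.IDefs
open Cfsg.Agent.Lib.Char.Basic

universe u

variable {G : Type u} [Group G] {H Y P Q C₁ : Subgroup G} {p : ℕ}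

/-- (IJ) A central subgroup with a complement does not add degrees (`χ|B` is irreducible as `χ` is
scalar on `Z`, and `B ≅ G / Z`). -/
theorem charDegrees_subset_of_central {Z B : Subgroup G} [Finite G] [hZn : Z.Normal]
    (hZ : ∀ z ∈ Z, ∀ g : G, g * z = z * g) (hBZ : B ⊓ Z = ⊥) (hdec : ∀ g : G, ∃ b ∈ B, ∃ z ∈ Z, g = b * z) :
    charDegrees G ⊆ charDegrees (G ⧸ Z) := by
  classical
  rintro d ⟨⟨χ, n, ρ, hρ, hχ⟩, rfl⟩
  haveI := hρ
  let φ : ↥B →* G ⧸ Z := (QuotientGroup.mk' Z).comp B.subtype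
  have hφs : Function.Surjective φ := by
    intro q
    obtain ⟨g, rfl⟩ := QuotientGroup.mk'_surjective Z q
    obtain ⟨b, hb, z, hz, rfl⟩ := hdec g
    refine ⟨⟨b, hb⟩, ?_⟩
    show (QuotientGroup.mk' Z) b = (QuotientGroup.mk' Z) (b * z)
    have hz1 : (QuotientGroup.mk' Z) z = 1 := (QuotientGroup.eq_one_iff z).mpr hz
    rw [map_mul, hz1, mul_one]
  have hφi : Function.Injective φ := by
    rw [injective_iff_map_eq_one]
    rintro ⟨b, hb⟩ h
    have h1 : b ∈ Z := (QuotientGroup.eq_one_iff b).mp h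
    have h2 : b ∈ B ⊓ Z := ⟨hb, h1⟩
    rw [hBZ] at h2
    exact Subtype.ext (Subgroup.mem_bot.mp h2)
  let e : ↥B ≃* G ⧸ Z := MulEquiv.ofBijective φ ⟨hφi, hφs⟩
  let ι : G ⧸ Z →* G := B.subtype.comp e.symm.toMonoidHom
  let ρ' : Representation ℂ (G ⧸ Z) (Fin n → ℂ) := ρ.comp ι
  have hιb : ∀ b : ↥B, ι (φ b) = b := by
    intro b
    show ((e.symm (e b) : ↥B) : G) = b
    rw [e.symm_apply_apply]
  have hρ'b : ∀ b : ↥B, ρ' (φ b) = ρ b := by
    intro b
    show ρ (ι (φ b)) = ρ b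
    rw [hιb]
  let iso : Subrepresentation ρ ≃o Subrepresentation ρ' :=
    { toFun := fun U => ⟨U.toSubmodule, fun h _ hv => U.apply_mem_toSubmodule (ι h) hv⟩
      invFun := fun U => ⟨U.toSubmodule, fun g v hv => by
        obtain ⟨b, hb, z, hz, rfl⟩ := hdec g
        have hzc : z ∈ Subgroup.center G := Subgroup.mem_center_iff.mpr (fun g => hZ z hz g)
        obtain ⟨ω, hω⟩ := Cfsg.Agent.Lib.Char.Central.center_acts_scalar ρ z hzc
        rw [map_mul, Module.End.mul_apply, hω]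
        have h1 : (ω • (1 : Module.End ℂ (Fin n → ℂ))) v = ω • v := rfl
        rw [h1, map_smul]
        apply U.toSubmodule.smul_mem
        have h2 := U.apply_mem_toSubmodule (φ ⟨b, hb⟩) hv
        rwa [hρ'b] at h2⟩
      left_inv := fun _ => rfl
      right_inv := fun _ => rfl
      map_rel_iff' := Iff.rfl }
  have hirr : ρ'.IsIrreducible := by
    haveI : IsSimpleOrder (Subrepresentation ρ) := hρ
    exact iso.symm.isSimpleOrder
  refine ⟨⟨ρ'.character, n, ρ', hirr, rfl⟩, ?_⟩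
  show charDegree ρ'.character = charDegree χ
  rw [← hχ]
  unfold charDegree
  rw [Representation.char_one, Representation.char_one]

/-- (IK) `Δ = 1`: `C₁` is central, with complement `W Q`. -/
theorem central_compl [Finite G] (I : I1D H p P Q C₁) [C₁.Normal] (hΔ : commutator G ⊓ C₁ = ⊥) :
    charDegrees G ⊆ charDegrees (G ⧸ C₁) := by
  classical
  -- `C₁` is abelian
  have hab : ∀ a ∈ C₁, ∀ b ∈ C₁, a * b = b * a := by
    intro a ha b hb
    have h1 : a * b * a⁻¹ * b⁻¹ ∈ commutator G := by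
      rw [_root_.commutator_def]
      exact Subgroup.commutator_mem_commutator (Subgroup.mem_top a) (Subgroup.mem_top b)
    have h2 : a * b * a⁻¹ * b⁻¹ ∈ C₁ := by
      have hnorm := I.nC
      have : a * b * a⁻¹ ∈ C₁ := hnorm.conj_mem b hb a
      exact C₁.mul_mem this (C₁.inv_mem hb)
    have h3 : a * b * a⁻¹ * b⁻¹ ∈ commutator G ⊓ C₁ := ⟨h1, h2⟩
    rw [hΔ, Subgroup.mem_bot] at h3
    have h4 : a * b * a⁻¹ = b := mul_inv_eq_one.mp h3
    exact mul_inv_eq_iff_eq_mul.mp h4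
  -- `C₁` is central
  have hcen : ∀ z ∈ C₁, ∀ g : G, g * z = z * g := by
    intro z hz g
    obtain ⟨u, hu, q, hq, rfl⟩ := I.dec g
    obtain ⟨d, hd, z', hz', rfl⟩ := I.PWC u hu
    have h1 : q * z = z * q := ((I.mC z).mp hz).2 q hq
    have h2 : d * z = z * d := I.WC d hd z hz
    have h3 : z' * z = z * z' := hab z' hz' z hz
    calc d * z' * q * z = d * z' * (z * q) := by rw [mul_assoc _ q, h1]
      _ = d * (z' * z) * q := by group
      _ = (d * z) * z' * q := by rw [h3]; group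
      _ = z * (d * z' * q) := by rw [h2]; group
  haveI : (commutator G).Normal := inferInstance
  refine charDegrees_subset_of_central (B := commutator G ⊔ Q) hcen ?_ ?_
  · rw [eq_bot_iff]
    rintro x ⟨hxB, hxC⟩
    obtain ⟨d, hd, q, hq, rfl⟩ := Subgroup.mem_sup_of_normal_left.mp hxB
    have hdP := I.WP hd
    have hP : d * q ∈ P := ((I.mC _).mp hxC).1
    have hqP : q ∈ P := by
      have : q = d⁻¹ * (d * q) := by group
      rw [this]
      exact P.mul_mem (P.inv_mem hdP) hP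
    have hq1 : q ∈ P ⊓ Q := ⟨hqP, hq⟩
    rw [I.PQ, Subgroup.mem_bot] at hq1
    rw [hq1, mul_one] at hxC ⊢
    have h3 : d ∈ commutator G ⊓ C₁ := ⟨hd, hxC⟩
    rw [hΔ] at h3
    exact h3
  · intro g
    obtain ⟨u, hu, q, hq, rfl⟩ := I.dec g
    obtain ⟨d, hd, z, hz, rfl⟩ := I.PWC u hu
    refine ⟨d * q, Subgroup.mul_mem _ (Subgroup.mem_sup_left hd) (Subgroup.mem_sup_right hq), z, hz, ?_⟩
    calc d * z * q = d * (z * q) := by group
      _ = d * (q * z) := by rw [((I.mC z).mp hz).2 q hq]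
      _ = d * q * z := by group

end Cfsg.Agent.Lib.NDF.CentralCompl
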