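import Cfsg.Agent.Lib.NDF.Defs
import Cfsg.Agent.Lib.NoDiv.GLA

/-!
# Chief factors of solvable groups are elementary abelian
-/

set_option autoImplicit false
set_option linter.unusedSectionVars false
set_option linter.style.haveILetI false

namespace Cfsg.Agent.Lib.NDF.ChiefE

open Cfsg Cfsg.Agent.Lib.NoDiv.Defs
open scoped commutatorElement

universe u

variable {G : Type u} [Group G]

/-- A chief factor of a solvable group is abelian. -/
theorem chief_comm [Finite G] [Group.IsSolvable G] {K L : Subgroup G} (hc : Chief K L) :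
    ∀ a ∈ L, ∀ b ∈ L, a * b * a⁻¹ * b⁻¹ ∈ K := by
  classical
  haveI := hc.nK
  haveI := hc.nL
  let π := QuotientGroup.mk' K
  have hmem : ∀ t, π t = 1 ↔ t ∈ K := fun t => by simp [π]
  -- `[L, L] ⊔ K`
  let M : Subgroup G := (⁅L, L⁆ : Subgroup G) ⊔ K
  have hMn : M.Normal := by
    haveI : (⁅L, L⁆ : Subgroup G).Normal := Subgroup.commutator_normal L L
    exact Subgroup.sup_normal _ _
  have hML : M ≤ L := sup_le (Subgroup.commutator_le_left L L) hc.le
  rcases hc.min M hMn le_sup_right hML with h | h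
  · intro a ha b hb
    have h1 : a * b * a⁻¹ * b⁻¹ ∈ (⁅L, L⁆ : Subgroup G) := Subgroup.commutator_mem_commutator ha hb
    have h2 : a * b * a⁻¹ * b⁻¹ ∈ M := Subgroup.mem_sup_left h1
    rwa [h] at h2
  · exfalso
    -- `L` is contained in all terms of the derived series modulo `K`
    have hall : ∀ n, L ≤ (derivedSeries G n) ⊔ K := by
      intro n
      induction n with
      | zero => simp
      | succ n ih =>
        rw [derivedSeries_succ]
        have h1 : (⁅L, L⁆ : Subgroup G) ≤ ⁅derivedSeries G n, derivedSeries G n⁆ ⊔ K := by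
          -- work modulo `K`
          rw [Subgroup.commutator_le]
          intro a ha b hb
          have ha' := ih ha
          have hb' := ih hb
          have hnn : ((⁅derivedSeries G n, derivedSeries G n⁆ : Subgroup G) ⊔ K).Normal := by
            haveI : (derivedSeries G n).Normal := derivedSeries_normal G n
            haveI : (⁅derivedSeries G n, derivedSeries G n⁆ : Subgroup G).Normal :=
              Subgroup.commutator_normal _ _
            exact Subgroup.sup_normal _ _
          -- pass to the quotient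
          have hmap : ∀ x ∈ (derivedSeries G n) ⊔ K, π x ∈ (derivedSeries G n).map π := by
            intro x hx
            obtain ⟨y, hy, z, hz, rfl⟩ := Subgroup.mem_sup_of_normal_right.mp hx
            refine ⟨y, hy, ?_⟩
            rw [map_mul, (hmem z).2 hz, mul_one]
          obtain ⟨a', ha'd, ha'e⟩ := hmap a ha'
          obtain ⟨b', hb'd, hb'e⟩ := hmap b hb'
          have h2 : π ⁅a, b⁆ = π ⁅a', b'⁆ := by
            simp only [map_commutatorElement]
            rw [ha'e, hb'e]
          have h3 : ⁅a', b'⁆⁻¹ * ⁅a, b⁆ ∈ K := by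
            have : π (⁅a', b'⁆⁻¹ * ⁅a, b⁆) = 1 := by
              rw [map_mul, map_inv, h2, inv_mul_cancel]
            exact (hmem _).1 this
          have h4 : ⁅a, b⁆ = ⁅a', b'⁆ * (⁅a', b'⁆⁻¹ * ⁅a, b⁆) := by group
          rw [h4]
          exact Subgroup.mul_mem_sup (Subgroup.commutator_mem_commutator ha'd hb'd) h3
        have h5 : L ≤ M := by rw [h]
        refine h5.trans (sup_le h1 le_sup_right)
    obtain ⟨n, hn⟩ := (Group.isSolvable_def G).1 (inferInstance : Group.IsSolvable G)
    have h3 := hall n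
    rw [hn, bot_sup_eq] at h3
    exact hc.ne (le_antisymm hc.le h3)

/-- A chief factor of a solvable group is elementary abelian. -/
theorem chief_elem [Finite G] [Group.IsSolvable G] {K L : Subgroup G} (hc : Chief K L) :
    ∃ r : ℕ, r.Prime ∧ ∀ w ∈ L, w ^ r ∈ K := by
  classical
  haveI := hc.nK
  haveI := hc.nL
  let π := QuotientGroup.mk' K
  have hmem : ∀ t, π t = 1 ↔ t ∈ K := fun t => by simp [π]
  have hcomm : ∀ w ∈ L, ∀ e ∈ L, π w * π e = π e * π w := fun w hw e he =>
    Cfsg.Agent.Lib.NoDiv.GLA.comm_of_mem π ((hmem _).2 (chief_comm hc w hw e he))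
  obtain ⟨w₀, hw₀, hw₀K⟩ : ∃ w ∈ L, w ∉ K := by
    by_contra hcon
    push Not at hcon
    exact hc.ne (le_antisymm hc.le hcon)
  have hπw₀ : π w₀ ≠ 1 := fun h => hw₀K ((hmem _).1 h)
  have hord : orderOf (π w₀) ≠ 1 := fun h => hπw₀ (orderOf_eq_one_iff.mp h)
  obtain ⟨r, hr, hrd⟩ := Nat.exists_prime_and_dvd hord
  refine ⟨r, hr, ?_⟩
  obtain ⟨t, ht⟩ := hrd
  have hw₁ : π (w₀ ^ t) ≠ 1 := by
    rw [map_pow]
    intro h
    have h1 := orderOf_dvd_of_pow_eq_one h
    rw [ht] at h1
    have hpos : 0 < orderOf (π w₀) := orderOf_pos _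
    have htpos : 0 < t := by
      rcases Nat.eq_zero_or_pos t with h0 | h0
      · rw [h0, mul_zero] at ht
        omega
      · exact h0
    have := Nat.le_of_dvd htpos h1
    have h2 := hr.two_le
    nlinarith
  have hw₁r : (w₀ ^ t) ^ r ∈ K := by
    apply (hmem _).1
    rw [map_pow, map_pow, ← pow_mul, mul_comm t r, ← ht, pow_orderOf_eq_one]
  let S : Subgroup G :=
    { carrier := {w | w ∈ L ∧ w ^ r ∈ K}
      one_mem' := ⟨L.one_mem, by simp [K.one_mem]⟩
      mul_mem' := by
        rintro a b ⟨ha, ha'⟩ ⟨hb, hb'⟩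
        refine ⟨L.mul_mem ha hb, (hmem _).1 ?_⟩
        have hc' : Commute (π a) (π b) := hcomm a ha b hb
        rw [map_pow, map_mul, hc'.mul_pow, ← map_pow, ← map_pow, (hmem _).2 ha', (hmem _).2 hb',
          one_mul]
      inv_mem' := by
        rintro a ⟨ha, ha'⟩
        refine ⟨L.inv_mem ha, ?_⟩
        rw [inv_pow]
        exact K.inv_mem ha' }
  have hSn : S.Normal := by
    refine ⟨fun n hn g => ⟨hc.nL.conj_mem n hn.1 g, ?_⟩⟩
    rw [conj_pow]
    exact hc.nK.conj_mem _ hn.2 g
  have hKS : K ≤ S := fun k hk => ⟨hc.le hk, K.pow_mem hk r⟩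
  have hSL : S ≤ L := fun s hs => hs.1
  rcases hc.min S hSn hKS hSL with h | h
  · exfalso
    have h1 : w₀ ^ t ∈ S := ⟨L.pow_mem hw₀ t, hw₁r⟩
    rw [h] at h1
    exact hw₁ ((hmem _).2 h1)
  · intro w hw
    rw [← h] at hw
    exact hw.2

end Cfsg.Agent.Lib.NDF.ChiefE
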