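import Mathlib

/-!
# (A5) A common element: all stabilisers contain an element of a fixed coset of `B R₂`.

`S_v ∩ R = R₂`, so the image of `S_v` in the cyclic group `L / R` is a subgroup of a fixed order `x`, with
`x * d = t * R.index` where `t = |R : R₂|`. So `x ∤ t`: a prime `ℓ` with `ℓ^a ∥ x`, `ℓ^b ∥ t`, `b < a`. An element
`y₀` of `L / R` of order `ℓ^a` lifts to `s_v ∈ S_v`. Modulo `D = B R₂` the quotient `s_v / s_w` is in `R / D`, and
it has `ℓ`-power order, so its `ℓ^(a - 1)`-th power is `1`. So `g = s_{v₀} ^ ℓ^(a - 1)` does it.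
-/

set_option autoImplicit false

namespace Cfsg.Agent.Lib.NDF.CommonG

universe u v

/-- In a cyclic group the elements killed by the order of a subgroup lie in this subgroup. -/
theorem mem_of_pow_card {C : Type*} [Group C] [Finite C] [IsCyclic C] (H : Subgroup C) {y : C}
    (hy : y ^ Nat.card H = 1) : y ∈ H := by
  classical
  haveI := Fintype.ofFinite C
  have hle := IsCyclic.card_pow_eq_one_le (α := C) (n := Nat.card H) Nat.card_pos
  have hsub : (Finset.univ.filter (fun a : C => a ∈ H)) ⊆ (Finset.univ.filter (fun a : C => a ^ Nat.card H = 1)) := by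
    intro a ha
    simp only [Finset.mem_filter, Finset.mem_univ, true_and] at ha ⊢
    have := pow_card_eq_one' (x := (⟨a, ha⟩ : H))
    have h2 : (((⟨a, ha⟩ : H) ^ Nat.card H : H) : C) = 1 := by rw [this]; rfl
    rw [Subgroup.coe_pow] at h2
    exact h2
  have hcard : (Finset.univ.filter (fun a : C => a ∈ H)).card = Nat.card H :=
    (Nat.subtype_card _ (fun x => by simp)).symm
  have heq := Finset.eq_of_subset_of_card_le hsub (by rw [hcard]; exact hle)
  have : y ∈ (Finset.univ.filter (fun a : C => a ^ Nat.card H = 1)) := by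
    simp only [Finset.mem_filter, Finset.mem_univ, true_and]
    exact hy
  rw [← heq] at this
  simpa using this

/-- (A5) A common element: all stabilisers contain an element of a fixed coset of `B R₂`. -/
theorem exists_common_g {L : Type u} {V : Type v} [Group L] [Finite L] [CommGroup V] [Finite V]
    [MulDistribMulAction L V] {B R R₂ : Subgroup L} (hBR : B ≤ R) (hBn : B.Normal) (hRn : R.Normal)
    (hLB : ∀ a b : L, a * b * a⁻¹ * b⁻¹ ∈ B)
    (hcopR : Nat.Coprime (Nat.card B) R.index)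
    (hfB : ∀ g, g ∉ R → ∀ b ∈ B, g * b = b * g → b = 1)
    (hBV : ∀ b ∈ B, b ≠ 1 → ∀ v : V, b • v = v → v = 1) (hV : ∃ v : V, v ≠ 1)
    (hcyc : ∃ c : L, ∀ g : L, ∃ k : ℕ, g * (c ^ k)⁻¹ ∈ R)
    (hR₂n : R₂.Normal) (hR₂R : R₂ ≤ R) (hR₂V : ∀ r ∈ R₂, ∀ v : V, r • v = v)
    (hR₂ : ∀ r ∈ R, ∀ v : V, v ≠ 1 → r • v = v → r ∈ R₂)
    {d : ℕ} (hd : ∀ v : V, v ≠ 1 → (MulAction.stabilizer L v).index = d) (hm : ¬ R.index ∣ d) :
    ∃ g, g ∉ R ∧ ∀ v : V, v ≠ 1 → ∃ b ∈ B, (g * b) • v = v := by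
  classical
  obtain ⟨v₀, hv₀⟩ := hV
  haveI := hBn
  haveI := hRn
  haveI := hR₂n
  let D : Subgroup L := B ⊔ R₂
  haveI hDn : D.Normal := Subgroup.sup_normal B R₂
  have hDR : D ≤ R := sup_le hBR hR₂R
  let πR : L →* L ⧸ R := QuotientGroup.mk' R
  have hπRs : Function.Surjective πR := QuotientGroup.mk'_surjective R
  have hπRk : ∀ x, πR x = 1 ↔ x ∈ R := fun x => QuotientGroup.eq_one_iff x
  let πD : L →* L ⧸ D := QuotientGroup.mk' D
  have hπDs : Function.Surjective πD := QuotientGroup.mk'_surjective D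
  have hπDk : ∀ x, πD x = 1 ↔ x ∈ D := fun x => QuotientGroup.eq_one_iff x
  have hcommD : ∀ a b : L ⧸ D, a * b = b * a := by
    intro a b
    obtain ⟨a', rfl⟩ := hπDs a
    obtain ⟨b', rfl⟩ := hπDs b
    have h1 := (hπDk _).2 (le_sup_left (a := B) (b := R₂) (hLB a' b'))
    rw [map_mul, map_mul, map_mul, map_inv, map_inv] at h1
    have h2 : πD a' * πD b' * (πD b' * πD a')⁻¹ = 1 := by
      rw [mul_inv_rev, ← mul_assoc]
      exact h1
    exact mul_inv_eq_one.1 h2
  obtain ⟨c, hc⟩ := hcyc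
  haveI hCcyc : IsCyclic (L ⧸ R) := by
    refine ⟨πR c, fun y => ?_⟩
    obtain ⟨g, rfl⟩ := hπRs y
    obtain ⟨k, hk⟩ := hc g
    have h1 := (hπRk _).2 hk
    rw [map_mul, map_inv, map_pow, mul_inv_eq_one] at h1
    exact ⟨k, by simpa using h1.symm⟩
  -- the images
  let H : V → Subgroup (L ⧸ R) := fun v => (MulAction.stabilizer L v).map πR
  have hHcard : ∀ v : V, v ≠ 1 →
      Nat.card R₂ * Nat.card (H v) = Nat.card (MulAction.stabilizer L v) := by
    intro v hv
    let hh : MulAction.stabilizer L v →* L ⧸ R := πR.comp (MulAction.stabilizer L v).subtype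
    have hrange : hh.range = H v := by
      rw [MonoidHom.range_comp, Subgroup.range_subtype]
    have hle : R₂ ≤ MulAction.stabilizer L v := fun r hr => hR₂V r hr v
    have hkerh : hh.ker = R₂.subgroupOf (MulAction.stabilizer L v) := by
      ext x
      rw [MonoidHom.mem_ker, Subgroup.mem_subgroupOf]
      constructor
      · intro h
        exact hR₂ x ((hπRk _).1 h) v hv x.2
      · intro h
        exact (hπRk _).2 (hR₂R h)
    have h1 := Subgroup.card_mul_index hh.ker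
    rw [Subgroup.index_ker, hrange, hkerh] at h1
    have h2 : Nat.card (R₂.subgroupOf (MulAction.stabilizer L v)) = Nat.card R₂ :=
      Nat.card_congr (Subgroup.subgroupOfEquivOfLe hle).toEquiv
    rw [h2] at h1
    exact h1
  obtain ⟨t, ht⟩ : Nat.card R₂ ∣ Nat.card R := Subgroup.card_dvd_of_le hR₂R
  have hr₂pos : 0 < Nat.card R₂ := Nat.card_pos
  have hxd : ∀ v : V, v ≠ 1 → Nat.card (H v) * d = t * R.index := by
    intro v hv
    have h1 := Subgroup.card_mul_index (MulAction.stabilizer L v)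
    rw [hd v hv, ← hHcard v hv] at h1
    have h2 := Subgroup.card_mul_index R
    rw [ht] at h2
    apply Nat.eq_of_mul_eq_mul_left hr₂pos
    rw [← mul_assoc, h1, ← mul_assoc, h2]
  have hdpos : 0 < d := by
    rw [← hd v₀ hv₀]
    exact Nat.pos_of_ne_zero Subgroup.index_ne_zero_of_finite
  set x := Nat.card (H v₀) with hx
  have hxv : ∀ v : V, v ≠ 1 → Nat.card (H v) = x := by
    intro v hv
    apply Nat.eq_of_mul_eq_mul_right hdpos
    rw [hxd v hv, hxd v₀ hv₀]
  have hxpos : 0 < x := Nat.card_pos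
  have htpos : 0 < t := by
    rcases Nat.eq_zero_or_pos t with h | h
    · rw [h, mul_zero] at ht
      exact absurd ht Nat.card_pos.ne'
    · exact h
  have hnd : ¬ x ∣ t := by
    rintro ⟨y, hy⟩
    apply hm
    have h1 := hxd v₀ hv₀
    rw [← hx, hy, mul_assoc] at h1
    exact ⟨y, by rw [mul_comm R.index y]; exact Nat.eq_of_mul_eq_mul_left hxpos h1⟩
  rw [← Nat.factorization_prime_le_iff_dvd hxpos.ne' htpos.ne'] at hnd
  push Not at hnd
  obtain ⟨ℓ, hℓ, hlt⟩ := hnd
  haveI : Fact ℓ.Prime := ⟨hℓ⟩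
  set a := x.factorization ℓ with ha
  set b := t.factorization ℓ with hb
  have ha1 : 1 ≤ a := by omega
  have hℓa : ℓ ^ a ∣ x := Nat.ordProj_dvd x ℓ
  have hxn : x ∣ Nat.card (L ⧸ R) := Subgroup.card_subgroup_dvd_card _
  -- the element `y₀`
  obtain ⟨γ, hγ⟩ := IsCyclic.exists_ofOrder_eq_natCard (α := L ⧸ R)
  have hℓn : ℓ ^ a ∣ orderOf γ := by
    rw [hγ]
    exact dvd_trans hℓa hxn
  obtain ⟨n', hn'⟩ := hℓn
  have hnpos : 0 < orderOf γ := by
    rw [hγ]
    exact Nat.card_pos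
  have hn'pos : 0 < n' := by
    rcases Nat.eq_zero_or_pos n' with h | h
    · rw [h, mul_zero] at hn'
      omega
    · exact h
  let y₀ : L ⧸ R := γ ^ n'
  have hy₀ : orderOf y₀ = ℓ ^ a := by
    have h1 : n' ∣ orderOf γ := ⟨_, by rw [hn', mul_comm]⟩
    change orderOf (γ ^ n') = _
    rw [orderOf_pow_of_dvd hn'pos.ne' h1, hn']
    exact Nat.mul_div_cancel _ hn'pos
  have hy₀x : y₀ ^ x = 1 := orderOf_dvd_iff_pow_eq_one.1 (by rw [hy₀]; exact hℓa)
  have hlift : ∀ v : V, v ≠ 1 → ∃ s : L, s • v = v ∧ πR s = y₀ := by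
    intro v hv
    have h1 : y₀ ∈ H v := mem_of_pow_card (H v) (by rw [hxv v hv]; exact hy₀x)
    obtain ⟨s, hs, hsy⟩ := h1
    exact ⟨s, hs, hsy⟩
  obtain ⟨s₀, hs₀, hs₀y⟩ := hlift v₀ hv₀
  set e := ℓ ^ (a - 1) with he
  have hea : e * ℓ = ℓ ^ a := by
    rw [he, ← pow_succ]
    congr 1
    omega
  -- powers of lifts are in `R₂`
  have hpowD : ∀ (v : V), v ≠ 1 → ∀ s : L, s • v = v → πR s = y₀ → πD s ^ (ℓ ^ a) = 1 := by
    intro v hv s hs hsy
    have h1 : s ^ (ℓ ^ a) ∈ R := by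
      apply (hπRk _).1
      rw [map_pow, hsy, ← hy₀, pow_orderOf_eq_one]
    have h2 : (s ^ (ℓ ^ a)) • v = v := by
      have : s ^ (ℓ ^ a) ∈ MulAction.stabilizer L v := Subgroup.pow_mem _ hs _
      exact this
    have h3 := hR₂ _ h1 v hv h2
    rw [← map_pow]
    exact (hπDk _).2 (le_sup_right (a := B) (b := R₂) h3)
  -- the order of `R / D`
  let R' : Subgroup (L ⧸ D) := R.map πD
  have hR'dvd : Nat.card R' ∣ t := by
    let hh : R →* L ⧸ D := πD.comp R.subtype
    have hrange : hh.range = R' := by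
      rw [MonoidHom.range_comp, Subgroup.range_subtype]
    have hkerh : hh.ker = D.subgroupOf R := by
      ext y
      rw [MonoidHom.mem_ker, Subgroup.mem_subgroupOf]
      exact hπDk _
    have h1 := Subgroup.card_mul_index hh.ker
    rw [Subgroup.index_ker, hrange, hkerh] at h1
    have h2 : Nat.card (D.subgroupOf R) = Nat.card D :=
      Nat.card_congr (Subgroup.subgroupOfEquivOfLe hDR).toEquiv
    rw [h2] at h1
    obtain ⟨i, hi⟩ : Nat.card R₂ ∣ Nat.card D := Subgroup.card_dvd_of_le le_sup_right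
    rw [hi, ht, mul_assoc] at h1
    have h3 := Nat.eq_of_mul_eq_mul_left hr₂pos h1
    exact ⟨i, by rw [← h3]; ring⟩
  have hkey : ∀ (v : V), v ≠ 1 → ∀ s : L, s • v = v → πR s = y₀ → πD s ^ e = πD s₀ ^ e := by
    intro v hv s hs hsy
    set δ := πD s * (πD s₀)⁻¹ with hδ
    have hcm : Commute (πD s) (πD s₀)⁻¹ := hcommD _ _
    have hδR : δ ∈ R' := by
      refine ⟨s * s₀⁻¹, ?_, by simp [hδ]⟩
      apply (hπRk _).1
      rw [map_mul, map_inv, hsy, hs₀y, mul_inv_cancel]
    have hδpow : δ ^ (ℓ ^ a) = 1 := by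
      rw [hδ, hcm.mul_pow, inv_pow, hpowD v hv s hs hsy, hpowD v₀ hv₀ s₀ hs₀ hs₀y]
      simp
    have h1 : orderOf δ ∣ ℓ ^ a := orderOf_dvd_of_pow_eq_one hδpow
    obtain ⟨k, hk, hok⟩ := (Nat.dvd_prime_pow hℓ).1 h1
    have h2 : orderOf δ ∣ Nat.card R' := by
      have := orderOf_dvd_natCard (⟨δ, hδR⟩ : R')
      rwa [Subgroup.orderOf_mk] at this
    have h3 : ℓ ^ k ∣ t := by
      rw [← hok]
      exact dvd_trans h2 hR'dvd
    have h4 : k ≤ b := (hℓ.pow_dvd_iff_le_factorization htpos.ne').1 h3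
    have h5 : δ ^ e = 1 := by
      apply orderOf_dvd_iff_pow_eq_one.1
      rw [hok, he]
      exact pow_dvd_pow _ (by omega)
    rw [hδ, hcm.mul_pow, inv_pow, mul_inv_eq_one] at h5
    exact h5
  refine ⟨s₀ ^ e, ?_, ?_⟩
  · intro h
    have h1 := (hπRk _).2 h
    rw [map_pow, hs₀y] at h1
    have h2 := orderOf_dvd_of_pow_eq_one h1
    rw [hy₀, he] at h2
    have h3 := (Nat.pow_dvd_pow_iff_le_right hℓ.one_lt).1 h2
    omega
  · intro v hv
    obtain ⟨s, hs, hsy⟩ := hlift v hv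
    have h1 := hkey v hv s hs hsy
    have h2 : (s₀ ^ e)⁻¹ * s ^ e ∈ D := by
      apply (hπDk _).1
      rw [map_mul, map_inv, map_pow, map_pow, h1, inv_mul_cancel]
    obtain ⟨b', hb', r, hr, hbr⟩ := Subgroup.mem_sup_of_normal_right.1 h2
    refine ⟨b', hb', ?_⟩
    have h3 : s ^ e = s₀ ^ e * b' * r := by
      rw [mul_assoc, hbr]
      group
    have h4 : (s ^ e) • v = v := by
      have : s ^ e ∈ MulAction.stabilizer L v := Subgroup.pow_mem _ hs _
      exact this
    rw [h3, mul_smul, hR₂V r hr v] at h4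
    exact h4

end Cfsg.Agent.Lib.NDF.CommonG
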