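import Mathlib

/-!
# (A6) The count of a covering by the fixed points of the coset `g B`.
-/

set_option autoImplicit false

namespace Cfsg.Agent.Lib.NDF.CoveringCount

universe u v

/-- (A6) -/
theorem covering_count {L : Type u} {V : Type v} [Group L] [Finite L] [CommGroup V] [Finite V]
    [MulDistribMulAction L V] {B : Subgroup L} (hBn : B.Normal)
    (hBab : ∀ a ∈ B, ∀ b ∈ B, a * b = b * a) (hB1 : B ≠ ⊥)
    (hBV : ∀ b ∈ B, b ≠ 1 → ∀ v : V, b • v = v → v = 1) (g : L)
    (hgB : ∀ b ∈ B, g * b = b * g → b = 1)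
    (hcov : ∀ v : V, v ≠ 1 → ∃ b ∈ B, (g * b) • v = v) (hV : ∃ v : V, v ≠ 1) :
    ∃ c : ℕ, 2 ≤ c ∧ c ^ 2 ≤ Nat.card V ∧ Nat.card B * (c - 1) = Nat.card V - 1 := by
  classical
  haveI := Fintype.ofFinite V
  haveI := Fintype.ofFinite B
  let τ : B → B := fun y => ⟨g⁻¹ * y * g * y⁻¹, B.mul_mem (by
    have := hBn.conj_mem y y.2 g⁻¹
    simpa using this) (B.inv_mem y.2)⟩
  have hτinj : Function.Injective τ := by
    intro y z h
    have h1 : g⁻¹ * y * g * (y : L)⁻¹ = g⁻¹ * z * g * (z : L)⁻¹ := congrArg Subtype.val h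
    have ht : (z : L)⁻¹ * y ∈ B := B.mul_mem (B.inv_mem z.2) y.2
    have h2 : g * ((z : L)⁻¹ * y) = ((z : L)⁻¹ * y) * g := by
      have h3 : (y : L) * g * (y : L)⁻¹ = z * g * (z : L)⁻¹ := by
        have := congrArg (fun t => g * t) h1
        simpa [mul_assoc] using this
      have h4 : g * (z : L)⁻¹ * y = (z : L)⁻¹ * y * g := by
        have : (y : L) * g = z * g * (z : L)⁻¹ * y := by
          rw [← h3]; group
        have h5 := congrArg (fun t => (z : L)⁻¹ * t) this
        simp only [← mul_assoc, inv_mul_cancel, one_mul] at h5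
        exact h5.symm
      simpa [mul_assoc] using h4
    have h3 := hgB _ ht h2
    have h4 : (y : L) = z := by
      have := mul_eq_one_iff_eq_inv.mp h3
      exact (inv_injective this).symm
    exact Subtype.ext h4
  have hτs : Function.Surjective τ := Finite.injective_iff_surjective.mp hτinj
  let F : L → Finset V := fun h => Finset.univ.filter (fun v => h • v = v)
  have hF : ∀ h v, v ∈ F h ↔ h • v = v := by
    intro h v
    simp [F]
  have h1F : ∀ h, (1 : V) ∈ F h := fun h => (hF h 1).2 (smul_one h)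
  have hconjF : ∀ y h : L, (F (y * h * y⁻¹)).card = (F h).card := by
    intro y h
    have : F (y * h * y⁻¹) = (F h).image (fun v => y • v) := by
      ext v
      simp only [hF, Finset.mem_image]
      constructor
      · intro hv
        refine ⟨y⁻¹ • v, ?_, by simp⟩
        have := congrArg (fun t => y⁻¹ • t) hv
        simpa [mul_smul] using this
      · rintro ⟨w, hw, rfl⟩
        simp [mul_smul, hw]
    rw [this, Finset.card_image_of_injective _ (MulAction.injective y)]
  have hcard : ∀ b : B, (F (g * b)).card = (F g).card := by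
    intro b
    obtain ⟨y, hy⟩ := hτs b
    have h1 : g⁻¹ * y * g * (y : L)⁻¹ = b := congrArg Subtype.val hy
    have h2 : g * (b : L) = y * g * (y : L)⁻¹ := by
      rw [← h1]; group
    rw [h2, hconjF]
  have hdisj : ∀ b b' : B, b ≠ b' → ∀ v, v ∈ F (g * b) → v ∈ F (g * b') → v = 1 := by
    intro b b' hne v h1 h2
    rw [hF] at h1 h2
    have hm : (b : L)⁻¹ * b' ∈ B := B.mul_mem (B.inv_mem b.2) b'.2
    have hne1 : (b : L)⁻¹ * b' ≠ 1 := by
      intro h
      apply hne
      apply Subtype.ext
      have := mul_eq_one_iff_eq_inv.mp h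
      exact inv_injective this
    apply hBV _ hm hne1
    have h3 : (b : L)⁻¹ * b' = (g * b)⁻¹ * (g * b') := by group
    rw [h3, mul_smul, h2]
    have := congrArg (fun t => (g * (b : L))⁻¹ • t) h1
    simpa [mul_smul] using this.symm
  set c := (F g).card with hc
  have hunion : (Finset.univ : Finset V).erase 1 =
      (Finset.univ : Finset B).biUnion (fun b => (F (g * b)).erase 1) := by
    ext v
    simp only [Finset.mem_erase, Finset.mem_univ, and_true, Finset.mem_biUnion, true_and]
    constructor
    · intro hv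
      obtain ⟨b, hb, h⟩ := hcov v hv
      exact ⟨⟨b, hb⟩, hv, (hF _ _).2 h⟩
    · rintro ⟨b, hv, -⟩
      exact hv
  have hcount : Fintype.card B * (c - 1) = Fintype.card V - 1 := by
    have h1 : ((Finset.univ : Finset V).erase 1).card = Fintype.card V - 1 := by
      rw [Finset.card_erase_of_mem (Finset.mem_univ _), Finset.card_univ]
    rw [← h1, hunion, Finset.card_biUnion]
    · have : ∀ b ∈ (Finset.univ : Finset B), ((F (g * b)).erase 1).card = c - 1 := by
        intro b _
        rw [Finset.card_erase_of_mem (h1F _), hcard, hc]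
      rw [Finset.sum_congr rfl this, Finset.sum_const, smul_eq_mul, Finset.card_univ]
    · intro b _ b' _ hne
      change Disjoint _ _
      rw [Finset.disjoint_left]
      intro v hv hv'
      rw [Finset.mem_erase] at hv hv'
      exact hv.1 (hdisj b b' hne v hv.2 hv'.2)
  obtain ⟨v₀, hv₀⟩ := hV
  have hVcard : 2 ≤ Fintype.card V := by
    haveI : Nontrivial V := ⟨⟨v₀, 1, hv₀⟩⟩
    exact Fintype.one_lt_card
  have hc2 : 2 ≤ c := by
    by_contra hlt
    have : c - 1 = 0 := by omega
    rw [this, Nat.mul_zero] at hcount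
    omega
  refine ⟨c, hc2, ?_, ?_⟩
  · -- product injects
    obtain ⟨b₁, hb₁, hb₁'⟩ : ∃ b ∈ B, b ≠ 1 := by
      by_contra h
      push Not at h
      exact hB1 ((Subgroup.eq_bot_iff_forall _).2 h)
    have hb1 : ((⟨b₁, hb₁⟩ : B)) ≠ 1 := by
      intro h
      exact hb₁' (congrArg Subtype.val h)
    have hdis := hdisj (1 : B) ⟨b₁, hb₁⟩ (Ne.symm hb1)
    have hcardb := hcard ⟨b₁, hb₁⟩
    have hinj : Set.InjOn (fun p : V × V => p.1 * p.2)
        (↑(F g ×ˢ F (g * b₁)) : Set (V × V)) := by
      rintro ⟨u, v⟩ hp ⟨u', v'⟩ hp' h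
      simp only [Finset.coe_product, Set.mem_prod, Finset.mem_coe] at hp hp'
      simp only at h
      have h1 : (g : L) • u = u := (hF _ _).1 hp.1
      have h2 : (g : L) • u' = u' := (hF _ _).1 hp'.1
      have h3 : (g * b₁) • v = v := (hF _ _).1 hp.2
      have h4 : (g * b₁) • v' = v' := (hF _ _).1 hp'.2
      have hw : u'⁻¹ * u = v' * v⁻¹ := by
        have h0 : u = u' * v' * v⁻¹ := by rw [← h]; group
        rw [h0]; group
      have hw1 : u'⁻¹ * u ∈ F (g * ((1 : B) : L)) := by
        rw [hF]
        simp [smul_mul', smul_inv', h1, h2]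
      have hw2 : u'⁻¹ * u ∈ F (g * b₁) := by
        rw [hF, hw, smul_mul', smul_inv', h3, h4]
      have hw3 := hdis _ hw1 hw2
      have h5 : u = u' := by
        have := mul_eq_one_iff_eq_inv.mp hw3
        exact (inv_injective this).symm
      have h6 : v = v' := by
        rw [h5] at h
        exact mul_left_cancel h
      rw [h5, h6]
    have h7 := Finset.card_le_card_of_injOn _ (fun _ _ => Finset.mem_univ _) hinj
    rw [Finset.card_product, Finset.card_univ, ← hc, hcardb] at h7
    rw [Nat.card_eq_fintype_card, pow_two]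
    exact h7
  · rw [Nat.card_eq_fintype_card, Nat.card_eq_fintype_card]
    exact hcount

end Cfsg.Agent.Lib.NDF.CoveringCount
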