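import Cfsg.Agent.Lib.Blk89.ItoMichler
import Cfsg.Agent.Lib.Char.CentralCount

/-!
# S4780, block I: (IC) the central product lemma `cp_over`
-/

set_option autoImplicit false
set_option linter.unusedSectionVars false

namespace Cfsg.Agent.Lib.NDF.CpOver

open Cfsg Module
open Cfsg.Agent.Lib.Char.Basic Cfsg.Agent.Lib.Char.Ortho Cfsg.Agent.Lib.Char.Complete
open Cfsg.Agent.Lib.Char.Conj Cfsg.Agent.Lib.Char.Clifford Cfsg.Agent.Lib.Char.Induced
open Cfsg.Agent.Lib.Char.CentralCount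
open scoped ComplexConjugate

universe u

variable {X : Type u} [Group X] [Fintype X] {W F : Subgroup X} [Fintype F]

/-- Everything about an irreducible character over `η`. -/
theorem over_spec (hF : F.Normal)
    (hWF : ∀ w ∈ W, ∀ f ∈ F, w * f = f * w) (hX : ∀ u : X, ∃ w ∈ W, ∃ f ∈ F, u = w * f)
    (hcam : ∀ a ∈ W, a ∉ F → ∀ e ∈ W, e ∈ F → ∃ b ∈ W, b * a * b⁻¹ = a * e)
    {η : F → ℂ} (hη : IsIrrCharacter F η) (hμ : ∃ e : F, (e : X) ∈ W ∧ η e ≠ η 1)
    {ξ : X → ℂ} (hξ : IsIrrCharacter X ξ) (hon : classInner (fun f : F => ξ f) η ≠ 0) :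
    ∃ s : ℕ, s ^ 2 = F.index ∧ (∀ f : F, ξ f = s * η f) ∧ (∀ u, u ∉ F → ξ u = 0) := by
  classical
  have hηc : IsClassFunction F η := isClassFunction_of_isIrrCharacter hη
  have hξc : IsClassFunction X ξ := isClassFunction_of_isIrrCharacter hξ
  -- invariance
  have hinv : ∀ g : X, conjOn hF g η = η := by
    intro g
    funext h
    obtain ⟨w, hw, f, hf, rfl⟩ := hX g
    have h1 : (w * f) * (h : X) * (w * f)⁻¹ = (f : X) * h * f⁻¹ := by
      have h2 : w * (f * h * f⁻¹) = (f * h * f⁻¹) * w :=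
        hWF w hw _ (F.mul_mem (F.mul_mem hf h.2) (F.inv_mem hf))
      calc (w * f) * (h : X) * (w * f)⁻¹ = (w * (f * h * f⁻¹)) * w⁻¹ := by group
        _ = _ := by rw [h2]; group
    have h3 := hηc h ⟨f, hf⟩
    have h4 : conjOn hF (w * f) η h = η ⟨(w * f) * (h : X) * (w * f)⁻¹, hF.conj_mem _ h.2 _⟩ := rfl
    rw [h4, ← h3]
    congr 1
    exact Subtype.ext h1
  have horb : orbitFinset hF η = {η} := by
    ext φ
    rw [mem_orbitFinset, Finset.mem_singleton]
    constructor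
    · rintro ⟨t, rfl⟩
      exact hinv t
    · rintro rfl
      exact ⟨1, conjOn_one hF φ⟩
  have hc := clifford_restrict hF hξ hη hon
  rw [horb, Finset.sum_singleton] at hc
  obtain ⟨s, hs⟩ := exists_nat_classInner (isCharacter_restrict F (isCharacter_of_isIrrCharacter hξ))
    (isCharacter_of_isIrrCharacter hη)
  have hs0 : (s : ℂ) ≠ 0 := by
    rw [← hs]
    exact hon
  have hon' : ∀ f : F, ξ f = s * η f := by
    intro f
    have := congrFun hc f
    simpa [hs] using this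
  -- vanishing off `F`
  have hoff : ∀ u, u ∉ F → ξ u = 0 := by
    intro u hu
    obtain ⟨e, heW, he⟩ := hμ
    obtain ⟨w, hw, f, hf, rfl⟩ := hX u
    have hwF : w ∉ F := fun h => hu (F.mul_mem h hf)
    obtain ⟨b, hb, hbw⟩ := hcam w hw hwF e heW e.2
    have hef : (e : X) * f = f * e := hWF e heW f hf
    have hbf : b * f = f * b := hWF b hb f hf
    have h1 : b * (w * f) * b⁻¹ = (w * f) * e := by
      calc b * (w * f) * b⁻¹ = (b * w * b⁻¹) * (b * f * b⁻¹) := by group
        _ = (w * e) * f := by rw [hbw, hbf]; group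
        _ = (w * f) * e := by rw [mul_assoc, hef, mul_assoc]
    have h2 : ξ ((w * f) * e) = ξ (w * f) := by
      rw [← h1]
      exact hξc _ _
    have hecen : (e : X) ∈ Subgroup.center X := by
      rw [Subgroup.mem_center_iff]
      intro g
      obtain ⟨w', hw', f', hf', rfl⟩ := hX g
      have h3 : w' * (e : X) = e * w' := hWF w' hw' e e.2
      have h4 : (e : X) * f' = f' * e := hWF e heW f' hf'
      calc w' * f' * (e : X) = w' * (e * f') := by rw [mul_assoc, h4]
        _ = (w' * e) * f' := by group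
        _ = e * (w' * f') := by rw [h3]; group
    have h5 := char_mul_central hξ hecen (w * f)
    rw [h2] at h5
    have h6 : ξ (e : X) = s * η e := hon' e
    have h7 : ξ (1 : X) = s * η 1 := hon' 1
    rw [h6, h7] at h5
    have h8 : ξ (w * f) * ((s : ℂ) * (η 1 - η e)) = 0 := by
      linear_combination h5
    rcases mul_eq_zero.mp h8 with h9 | h9
    · exact h9
    · exfalso
      rcases mul_eq_zero.mp h9 with h10 | h10
      · exact hs0 h10
      · exact he (sub_eq_zero.mp h10).symm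
  refine ⟨s, ?_, hon', hoff⟩
  -- the norm
  have h1 : classInner ξ ξ = 1 := classInner_self_of_isIrr hξ
  have h2 : classInner η η = 1 := classInner_self_of_isIrr hη
  have hsum : ∑ u : X, ξ u * conj (ξ u) = ∑ f : F, ξ f * conj (ξ f) := by
    symm
    apply Finset.sum_of_injOn (Subtype.val : F → X) Subtype.val_injective.injOn (by simp)
    · intro u _ hu
      have hu' : u ∉ F := by
        intro h
        exact hu ⟨⟨u, h⟩, by simp, rfl⟩
      rw [hoff u hu']
      simp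
    · intro f _
      rfl
  have hsum2 : ∑ f : F, ξ f * conj (ξ f) = (s : ℂ) ^ 2 * ∑ f : F, η f * conj (η f) := by
    rw [Finset.mul_sum]
    apply Finset.sum_congr rfl
    intro f _
    rw [hon' f, map_mul, Complex.conj_natCast]
    ring
  rw [classInner, hsum, hsum2] at h1
  rw [classInner] at h2
  have hcF : (Nat.card F : ℂ) ≠ 0 := Nat.cast_ne_zero.mpr Nat.card_pos.ne'
  have hcX : (Nat.card X : ℂ) ≠ 0 := Nat.cast_ne_zero.mpr Nat.card_pos.ne'
  have h3 : ∑ f : F, η f * conj (η f) = (Nat.card F : ℂ) := by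
    field_simp at h2
    exact h2
  rw [h3] at h1
  field_simp at h1
  have h4 : (s : ℂ) ^ 2 * (Nat.card F : ℂ) = (F.index : ℂ) * (Nat.card F : ℂ) := by
    rw [h1]
    rw [← Subgroup.card_mul_index F]
    push_cast
    ring
  have h5 := mul_right_cancel₀ hcF h4
  exact_mod_cast h5

/-- (IC) The central product lemma. -/
theorem cp_over {X : Type u} [Group X] [Fintype X] {W F : Subgroup X} [Fintype F] (hF : F.Normal)
    (hWF : ∀ w ∈ W, ∀ f ∈ F, w * f = f * w) (hX : ∀ u : X, ∃ w ∈ W, ∃ f ∈ F, u = w * f)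
    (hcam : ∀ a ∈ W, a ∉ F → ∀ e ∈ W, e ∈ F → ∃ b ∈ W, b * a * b⁻¹ = a * e)
    {η : F → ℂ} (hη : IsIrrCharacter F η) (hμ : ∃ e : F, (e : X) ∈ W ∧ η e ≠ η 1) :
    ∃ s : ℕ, s ^ 2 = F.index ∧ ∃ ξ : X → ℂ, IsIrrCharacter X ξ ∧ (∀ f : F, ξ f = s * η f) ∧
      (∀ u, u ∉ F → ξ u = 0) ∧
      ∀ ξ' : X → ℂ, IsIrrCharacter X ξ' → classInner (fun f : F => ξ' f) η ≠ 0 → ξ' = ξ := by
  obtain ⟨ξ, hξ⟩ := Cfsg.Agent.Lib.Blk89.ItoMichler.exists_irr_over (G := X) (N := F) hη
  obtain ⟨s, hs, h1, h2⟩ := over_spec hF hWF hX hcam hη hμ ξ.2 hξ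
  refine ⟨s, hs, ξ, ξ.2, h1, h2, ?_⟩
  intro ξ' hξ' hon
  obtain ⟨s', hs', h1', h2'⟩ := over_spec hF hWF hX hcam hη hμ hξ' hon
  have hss : s' = s := by
    have h3 : s' ^ 2 = s ^ 2 := by rw [hs, hs']
    exact Nat.pow_left_injective (n := 2) (by norm_num) h3
  funext u
  by_cases hu : u ∈ F
  · have h3 := h1' ⟨u, hu⟩
    have h4 := h1 ⟨u, hu⟩
    simp only at h3 h4
    rw [h3, h4, hss]
  · rw [h2' u hu, h2 u hu]

end Cfsg.Agent.Lib.NDF.CpOver
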