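import Mathlib.Algebra.Ring.Subring.Basic
import Mathlib.Data.FunLike.Fintype
import Mathlib.RingTheory.Ideal.Quotient.Basic
import Mathlib.RingTheory.Ideal.Maximal
import Mathlib.RingTheory.IntegralDomain
import Mathlib.RingTheory.Ideal.Quotient.Operations
import Mathlib.GroupTheory.SpecificGroups.Cyclic

/-!
# A non-cyclic section cannot act without fixed points (A1 of `Lib/NDF`)

`U` acts on the finite abelian group `N` through commuting automorphisms. `A` = the commutative subring of
`End(N)` generated by `U`, `𝔪` a maximal ideal, `F = A/𝔪` a finite field, `φ : U → Fˣ`. If `φ u = 1`, then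
`u - 1 ∈ 𝔪` is not a unit of `A`; if `u ∉ J`, then `u - 1` is injective on `N`, hence a unit of the finite ring `A`.
So `ker φ ≤ J`; take `c` with `φ c` generating the (cyclic) image.
-/

set_option autoImplicit false

namespace Cfsg.Agent.Lib.NDF.CyclicFpf

universe u

/-- (A1) A non-cyclic section cannot act without fixed points. -/
theorem cyclic_fpf {Γ : Type u} [Group Γ] [Finite Γ] {N U J : Subgroup Γ}
    (hNab : ∀ a ∈ N, ∀ b ∈ N, a * b = b * a) (hN1 : N ≠ ⊥)
    (hUN : ∀ u ∈ U, ∀ n ∈ N, u * n * u⁻¹ ∈ N)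
    (hcomm : ∀ u ∈ U, ∀ v ∈ U, ∀ n ∈ N, u * (v * n * v⁻¹) * u⁻¹ = v * (u * n * u⁻¹) * v⁻¹)
    (hJU : J ≤ U)
    (hfpf : ∀ u ∈ U, u ∉ J → ∀ n ∈ N, u * n * u⁻¹ = n → n = 1) :
    ∃ c ∈ U, ∀ u ∈ U, ∃ k : ℕ, u * (c ^ k)⁻¹ ∈ J := by
  classical
  let instN : CommGroup N :=
    { (inferInstance : Group N) with
      mul_comm := fun a b => Subtype.ext (hNab a a.2 b b.2) }
  -- the endomorphism ring
  let End' := AddMonoid.End (Additive N)
  have hfinE : Finite End' := DFunLike.finite (Additive N →+ Additive N)
  let act : U → End' := fun u =>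
    MonoidHom.toAdditive
      ({ toFun := fun n => ⟨(u : Γ) * (n : Γ) * (u : Γ)⁻¹, hUN u u.2 n n.2⟩
         map_one' := by
          apply Subtype.ext
          simp
         map_mul' := by
          intro a b
          apply Subtype.ext
          change (u : Γ) * ((a : Γ) * (b : Γ)) * (u : Γ)⁻¹ =
            ((u : Γ) * (a : Γ) * (u : Γ)⁻¹) * ((u : Γ) * (b : Γ) * (u : Γ)⁻¹)
          group } : N →* N)
  have hact : ∀ (u : U) (n : N), ((act u (Additive.ofMul n)).toMul : Γ) = (u : Γ) * (n : Γ) * (u : Γ)⁻¹ :=
    fun _ _ => rfl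
  have hext : ∀ x y : End', (∀ n : N, ((x (Additive.ofMul n)).toMul : Γ) = ((y (Additive.ofMul n)).toMul : Γ)) →
      x = y := by
    intro x y h
    apply AddMonoidHom.ext
    intro n
    apply Additive.toMul.injective
    apply Subtype.ext
    exact h n.toMul
  have hmulapp : ∀ (x y : End') (n : Additive N), (x * y) n = x (y n) := fun _ _ _ => rfl
  have hact_one : act 1 = 1 := by
    apply hext
    intro n
    rw [hact]
    simp
    rfl
  have hact_mul : ∀ u v : U, act (u * v) = act u * act v := by
    intro u v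
    apply hext
    intro n
    rw [hmulapp]
    change ((u * v : U) : Γ) * (n : Γ) * ((u * v : U) : Γ)⁻¹ = (u : Γ) * ((v : Γ) * (n : Γ) * (v : Γ)⁻¹) * (u : Γ)⁻¹
    rw [Subgroup.coe_mul]
    group
  have hact_comm : ∀ u v : U, act u * act v = act v * act u := by
    intro u v
    apply hext
    intro n
    rw [hmulapp, hmulapp]
    exact hcomm u u.2 v v.2 n n.2
  let S : Set End' := Set.range act
  have hS : ∀ x ∈ S, ∀ y ∈ S, x * y = y * x := by
    rintro _ ⟨u, rfl⟩ _ ⟨v, rfl⟩
    exact hact_comm u v
  let A := Subring.closure S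
  let instA : CommRing A := Subring.closureCommRingOfComm hS
  have hfinA : Finite A := inferInstance
  have hmemA : ∀ u : U, act u ∈ A := fun u => Subring.subset_closure ⟨u, rfl⟩
  -- `A` is not the zero ring
  have hnt : Nontrivial A := by
    have hne : ∃ n : N, n ≠ 1 := by
      by_contra h
      push Not at h
      apply hN1
      rw [Subgroup.eq_bot_iff_forall]
      intro x hx
      have := h ⟨x, hx⟩
      exact congrArg Subtype.val this
    obtain ⟨n, hn⟩ := hne
    refine ⟨⟨0, 1, ?_⟩⟩
    intro h
    have h1 : ((0 : A) : End') = ((1 : A) : End') := congrArg Subtype.val h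
    have h2 : ((0 : End') (Additive.ofMul n)) = ((1 : End') (Additive.ofMul n)) := by
      have h3 : (0 : End') = 1 := h1
      rw [h3]
    apply hn
    have h4 : (0 : Additive N) = Additive.ofMul n := h2
    exact (Additive.ofMul.injective h4).symm
  obtain ⟨m, hm⟩ := Ideal.exists_maximal A
  let instF : Field (A ⧸ m) := Ideal.Quotient.field m
  have hfinF : Finite (A ⧸ m) := Finite.of_surjective (Ideal.Quotient.mk m) Ideal.Quotient.mk_surjective
  -- the map to the units
  let ψ : U →* Aˣ :=
    { toFun := fun u =>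
        ⟨⟨act u, hmemA u⟩, ⟨act u⁻¹, hmemA u⁻¹⟩,
          Subtype.ext (by
            change act u * act u⁻¹ = 1
            rw [← hact_mul, mul_inv_cancel, hact_one]),
          Subtype.ext (by
            change act u⁻¹ * act u = 1
            rw [← hact_mul, inv_mul_cancel, hact_one])⟩
      map_one' := by
        apply Units.ext
        apply Subtype.ext
        exact hact_one
      map_mul' := by
        intro u v
        apply Units.ext
        apply Subtype.ext
        exact hact_mul u v }
  let φ : U →* (A ⧸ m)ˣ := (Units.map (Ideal.Quotient.mk m).toMonoidHom).comp ψ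
  have : IsCyclic (A ⧸ m)ˣ := inferInstance
  have : IsCyclic φ.range := Subgroup.isCyclic _
  obtain ⟨g, hg⟩ := IsCyclic.exists_generator (α := φ.range)
  obtain ⟨c, hc⟩ := g.2
  refine ⟨c, c.2, ?_⟩
  intro u hu
  have h1 : (⟨φ ⟨u, hu⟩, ⟨⟨u, hu⟩, rfl⟩⟩ : φ.range) ∈ Submonoid.powers g :=
    mem_powers_iff_mem_zpowers.2 (hg _)
  obtain ⟨k, hk⟩ := h1
  refine ⟨k, ?_⟩
  by_contra hJ
  let w : U := ⟨u, hu⟩ * (c ^ k)⁻¹
  have hw : (w : Γ) = u * ((c : Γ) ^ k)⁻¹ := by
    simp [w]
  have hφw : φ w = 1 := by
    have h2 : φ ⟨u, hu⟩ = (φ c) ^ k := by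
      have := congrArg Subtype.val hk
      rw [hc]
      simpa using this.symm
    simp only [w, map_mul, map_inv, map_pow, h2]
    group
  have hwJ : (w : Γ) ∉ J := by
    rw [hw]
    exact hJ
  -- `w - 1` lies in `m`
  let xA : A := (⟨act w, hmemA w⟩ : A) - 1
  have hxm : xA ∈ m := by
    rw [← Ideal.Quotient.eq_zero_iff_mem]
    have h3 : Ideal.Quotient.mk m (⟨act w, hmemA w⟩ : A) = 1 := by
      have := congrArg (Units.val) hφw
      exact this
    change Ideal.Quotient.mk m ((⟨act w, hmemA w⟩ : A) - 1) = 0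
    rw [map_sub, h3, map_one, sub_self]
  -- `w - 1` is injective on `N`
  have hinjN : ∀ n : Additive N, (xA : End') n = 0 → n = 0 := by
    intro n hn
    have h4 : (act w) n = n := by
      have h5 : (xA : End') = act w - 1 := rfl
      rw [h5] at hn
      have h6 : (act w - 1) n = act w n - n := rfl
      rw [h6, sub_eq_zero] at hn
      exact hn
    have h7 := congrArg (fun z => ((Additive.toMul z : N) : Γ)) h4
    have h8 := hfpf w w.2 hwJ ((Additive.toMul n : N) : Γ) (Additive.toMul n : N).2 h7
    apply Additive.toMul.injective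
    apply Subtype.ext
    exact h8
  -- a unit of `A`
  have hinjA : Function.Injective (fun y : A => xA * y) := by
    intro y y' hyy
    apply Subtype.ext
    apply AddMonoidHom.ext
    intro n
    have h9 : ((xA * y : A) : End') = ((xA * y' : A) : End') := congrArg Subtype.val hyy
    have h10 : (xA : End') ((y : End') n) = (xA : End') ((y' : End') n) := by
      have e1 : ((xA * y : A) : End') = (xA : End') * (y : End') := rfl
      have e2 : ((xA * y' : A) : End') = (xA : End') * (y' : End') := rfl
      rw [e1, e2] at h9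
      exact congrArg (fun f : End' => f n) h9
    have h11 : (xA : End') ((y : End') n - (y' : End') n) = 0 := by
      rw [map_sub, h10, sub_self]
    exact sub_eq_zero.1 (hinjN _ h11)
  obtain ⟨y, hy⟩ := (Finite.injective_iff_surjective.1 hinjA) 1
  have hy' : xA * y = 1 := hy
  have h12 : (1 : A) ∈ m := by
    rw [← hy']
    exact m.mul_mem_right y hxm
  exact hm.ne_top ((Ideal.eq_top_iff_one m).2 h12)

end Cfsg.Agent.Lib.NDF.CyclicFpf
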