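import Cfsg.Agent.Lib.NDF.Defs

/-!
# S4780, block D: the layer
-/

set_option autoImplicit false

namespace Cfsg.Agent.Lib.NDF.DDefs

universe u

variable {G : Type u} [Group G]

/-- The layer: `G' = N ⋊ W₁`, `L = W₁ ⊓ E`. -/
structure DL (H : Subgroup G) (p : ℕ) (N W₁ L : Subgroup G) : Prop where
  WG : W₁ ≤ commutator G
  NW : N ⊓ W₁ = ⊥
  dec : ∀ d ∈ commutator G, ∃ n ∈ N, ∃ w ∈ W₁, d = n * w
  Wp : IsPGroup p W₁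
  mL : ∀ x, x ∈ L ↔ x ∈ W₁ ∧ x ∈ (⁅H, H⁆ : Subgroup G)
  cL : Nat.card L = p
  iL : L.relIndex W₁ = p ^ 2
  zL : ∀ e ∈ L, ∀ w ∈ W₁, w * e = e * w
  fp : ∀ g ∈ W₁, g ∉ L → ∀ n ∈ N, g * n = n * g → n = 1

end Cfsg.Agent.Lib.NDF.DDefs
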