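import Cfsg.Agent.Lib.NoDiv.Defs

/-!
# No divisibility among degrees, four degrees: shared definitions of `Lib/NDF`

Commutators are written out as `a * b * a⁻¹ * b⁻¹`.
`St H Y`: the top structure. `E = ⁅H, H⁆ = G''`, `G / H` abelian of order `m`, `H / Y ≅ G' / E`, and
every element outside `H` has no fixed point on `H / Y`.
`PS Γ p`: `X = Γ'` is a Sylow `p`-subgroup, `X / X'` is elementary, every element of `Γ` is trivial or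
fixed point free on `X / X'`, and `(X, X')` is a Camina pair.
-/

set_option autoImplicit false

namespace Cfsg.Agent.Lib.NDF.Defs

open Cfsg Cfsg.Agent.Lib.NoDiv.Defs

universe u

variable {G : Type u} [Group G]

/-- The top structure. -/
structure St (H Y : Subgroup G) : Prop where
  nH : H.Normal
  nY : Y.Normal
  YH : Y ≤ H
  ne : ∃ c ∈ H, c ∉ Y
  out : ∃ g, g ∉ H
  ab : ∀ a b : G, a * b * a⁻¹ * b⁻¹ ∈ H
  HY : ∀ a ∈ H, ∀ b ∈ H, a * b * a⁻¹ * b⁻¹ ∈ Y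
  fpf : ∀ h, h ∉ H → ∀ c ∈ H, h * c * h⁻¹ * c⁻¹ ∈ Y → c ∈ Y
  Yz : ∀ y ∈ Y, ∀ g : G, g * y * g⁻¹ * y⁻¹ ∈ (⁅H, H⁆ : Subgroup G)
  GY : ∀ c ∈ H, ∃ d ∈ commutator G, d⁻¹ * c ∈ Y
  GE : commutator G ⊓ Y = ⁅H, H⁆
  E2 : ⁅commutator G, commutator G⁆ = ⁅H, H⁆
  cop : Nat.Coprime H.index (Y.relIndex H)
  nd : NoDiv G

/-- `γ₂(G')`. -/
def g2 (Γ : Type u) [Group Γ] : Subgroup Γ := ⁅commutator Γ, commutator Γ⁆
/-- `γ₃(G')`. -/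
def g3 (Γ : Type u) [Group Γ] : Subgroup Γ := ⁅g2 Γ, commutator Γ⁆
/-- `γ₄(G')`. -/
def g4 (Γ : Type u) [Group Γ] : Subgroup Γ := ⁅g3 Γ, commutator Γ⁆
/-- `γ₅(G')`. -/
def g5 (Γ : Type u) [Group Γ] : Subgroup Γ := ⁅g4 Γ, commutator Γ⁆

/-- The setting of the level analysis. -/
structure PS (Γ : Type u) [Group Γ] (p : ℕ) : Prop where
  hp : p.Prime
  hX : IsPGroup p (commutator Γ)
  hSyl : ¬ p ∣ (commutator Γ).index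
  nd : NoDiv Γ
  el : ∀ a ∈ commutator Γ, a ^ p ∈ g2 Γ
  dich : ∀ g : Γ, (∀ a ∈ commutator Γ, g * a * g⁻¹ * a⁻¹ ∈ g2 Γ) ∨
    (∀ a ∈ commutator Γ, g * a * g⁻¹ * a⁻¹ ∈ g2 Γ → a ∈ g2 Γ)
  cam : ∀ a ∈ commutator Γ, a ∉ g2 Γ → ∀ e ∈ g2 Γ, ∃ b ∈ commutator Γ, b * a * b⁻¹ = a * e

end Cfsg.Agent.Lib.NDF.Defs
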