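import Cfsg.Agent.Lib.NDF.Defs

/-!
# S4780, block I: the output of the structure step I1
-/

set_option autoImplicit false

namespace Cfsg.Agent.Lib.NDF.IDefs

open Cfsg Cfsg.Agent.Lib.NoDiv.Defs Cfsg.Agent.Lib.NDF.Defs

universe u

variable {G : Type u} [Group G]

/-- `P` the normal Sylow `p`, `Q` an abelian complement, `C₁ = C_P(Q)`, `W = G'`, `E = ⁅H, H⁆`. -/
structure I1D (H : Subgroup G) (p : ℕ) (P Q C₁ : Subgroup G) : Prop where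
  nP : P.Normal
  Pp : IsPGroup p P
  Qp : ¬ p ∣ Nat.card Q
  PQ : P ⊓ Q = ⊥
  dec : ∀ g : G, ∃ u ∈ P, ∃ q ∈ Q, g = u * q
  Qab : ∀ a ∈ Q, ∀ b ∈ Q, a * b = b * a
  WP : commutator G ≤ P
  PH : P ≤ H
  QH : ∀ x ∈ Q, x ∈ H → ∀ u ∈ P, x * u = u * x
  mC : ∀ z, z ∈ C₁ ↔ z ∈ P ∧ ∀ q ∈ Q, q * z = z * q
  nC : C₁.Normal
  WC : ∀ d ∈ commutator G, ∀ z ∈ C₁, d * z = z * d
  PWC : ∀ u ∈ P, ∃ d ∈ commutator G, ∃ z ∈ C₁, u = d * z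
  PP : ⁅P, P⁆ = ⁅H, H⁆
  camW : ∀ a ∈ commutator G, a ∉ (⁅H, H⁆ : Subgroup G) → ∀ e ∈ (⁅H, H⁆ : Subgroup G),
    ∃ b ∈ commutator G, b * a * b⁻¹ = a * e
  WCE : commutator G ⊓ C₁ ≤ ⁅H, H⁆

end Cfsg.Agent.Lib.NDF.IDefs
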