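import Cfsg.Agent.Lib.NDF.GLemma
import Cfsg.Agent.Lib.NDF.IDefs
import Cfsg.Agent.Lib.FGS.Comm

/-!
# S4780, (II): type (ii): `Δ = W ∩ C₁` is trivial.
-/

set_option autoImplicit false
set_option linter.unusedSectionVars false

namespace Cfsg.Agent.Lib.NDF.DeltaTrivial

open Cfsg Cfsg.Agent.Lib.NoDiv.Defs Cfsg.Agent.Lib.NDF.Defs Cfsg.Agent.Lib.NDF.IDefs

universe u

variable {G : Type u} [Group G] {H Y P Q C₁ : Subgroup G} {p : ℕ}

/-- In a nilpotent `W`, `[N, W] = N` gives `N = 1`. -/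
theorem eq_bot_of_comm_eq {N W : Subgroup G} (hW : Group.IsNilpotent ↥W) (hNW : N ≤ W)
    (h : ⁅N, W⁆ = N) : N = ⊥ := by
  obtain ⟨n, hn⟩ := nilpotent_iff_lowerCentralSeries.mp hW
  have htop : (⊤ : Subgroup ↥W).map W.subtype = W := by
    rw [← MonoidHom.range_eq_map, Subgroup.range_subtype]
  have key : ∀ k : ℕ, N ≤ ((⊤ : Subgroup ↥W).lowerCentralSeries k).map W.subtype := by
    intro k
    induction k with
    | zero =>
      show N ≤ (⊤ : Subgroup ↥W).map W.subtype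
      rw [htop]
      exact hNW
    | succ k ih =>
      show N ≤ (⁅(⊤ : Subgroup ↥W).lowerCentralSeries k, (⊤ : Subgroup ↥W)⁆).map W.subtype
      rw [Subgroup.map_commutator, htop]
      calc N = ⁅N, W⁆ := h.symm
        _ ≤ _ := Subgroup.commutator_mono ih le_rfl
  have := key n
  rw [hn, Subgroup.map_bot] at this
  exact le_bot_iff.mp this

/-- (II) Type (ii): `Δ = W ∩ C₁` is central in `G`. `Δ ≤ E` (`WCE`), so `Δ ≤ γ₃` (`ht`). `E ≠ γ₃`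
(`W` a `p`-group) so `g2 Γ ≠ g3 Γ`, `h2` gives `g₀ ∉ H` trivial on `E / γ₃` (Dedekind), A10 (`F = E`): fpf on
`γ₃ / γ₄`: `Δ ≤ γ₄`. If `γ₃ = γ₄`, `γ₃ = 1`. Otherwise `h3` gives `g₁ ∉ H` trivial on `γ₃ / γ₄`, A10
(`F = γ₃`): fpf on `γ₄ / γ₅`. But `h4`: `γ₄ ≤ Δ` central so `γ₅ = 1` and `g₁` fixes `γ₄`: `γ₄ = 1`. -/
theorem delta_trivial [Finite G] (s : St H Y) (hp : p.Prime) (hEp : IsPGroup p (⁅H, H⁆ : Subgroup G))
    (hE1 : (⁅H, H⁆ : Subgroup G) ≠ ⊥) (I : I1D H p P Q C₁) [C₁.Normal]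
    (ht : ∀ e ∈ (⁅H, H⁆ : Subgroup G), (∀ g : G, g * e * g⁻¹ * e⁻¹ ∈ g3 G) → e ∈ g3 G)
    (h4 : g4 (G ⧸ C₁) = ⊥)
    (h2 : g2 (G ⧸ C₁) ≠ g3 (G ⧸ C₁) → ∃ g : G ⧸ C₁,
      (¬ ∀ a ∈ commutator (G ⧸ C₁), g * a * g⁻¹ * a⁻¹ ∈ g2 (G ⧸ C₁)) ∧
      ∀ e ∈ g2 (G ⧸ C₁), g * e * g⁻¹ * e⁻¹ ∈ g3 (G ⧸ C₁))
    (h3 : g3 (G ⧸ C₁) ≠ g4 (G ⧸ C₁) → ∃ g : G ⧸ C₁,
      (¬ ∀ a ∈ commutator (G ⧸ C₁), g * a * g⁻¹ * a⁻¹ ∈ g2 (G ⧸ C₁)) ∧
      ∀ f ∈ g3 (G ⧸ C₁), g * f * g⁻¹ * f⁻¹ ∈ g4 (G ⧸ C₁)) :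
    commutator G ⊓ C₁ = ⊥ ∧ g4 G = ⊥ := by
  classical
  haveI : Fact p.Prime := ⟨hp⟩
  -- notation
  set W : Subgroup G := commutator G with hWdef
  haveI hWn : W.Normal := by rw [hWdef]; infer_instance
  have hE : (⁅H, H⁆ : Subgroup G) = g2 G := s.E2.symm
  have hg2 : g2 G = ⁅W, W⁆ := rfl
  have hg3 : g3 G = ⁅g2 G, W⁆ := rfl
  have hg4 : g4 G = ⁅g3 G, W⁆ := rfl
  have hg5 : g5 G = ⁅g4 G, W⁆ := rfl
  haveI hn2 : (g2 G).Normal := by rw [hg2]; exact Subgroup.commutator_normal W W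
  haveI hn3 : (g3 G).Normal := by rw [hg3]; exact Subgroup.commutator_normal _ _
  haveI hn4 : (g4 G).Normal := by rw [hg4]; exact Subgroup.commutator_normal _ _
  haveI hn5 : (g5 G).Normal := by rw [hg5]; exact Subgroup.commutator_normal _ _
  have h2W : g2 G ≤ W := by rw [hg2]; exact Subgroup.commutator_le_left W W
  have h32 : g3 G ≤ g2 G := by rw [hg3]; exact Subgroup.commutator_le_left _ _
  have h43 : g4 G ≤ g3 G := by rw [hg4]; exact Subgroup.commutator_le_left _ _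
  have h3W : g3 G ≤ W := h32.trans h2W
  have h4W : g4 G ≤ W := h43.trans h3W
  have hWnil : Group.IsNilpotent ↥W := (I.Pp.to_le I.WP).isNilpotent
  -- `Δ` is central
  have hΔc : ∀ z, z ∈ W ⊓ C₁ → ∀ g : G, g * z * g⁻¹ * z⁻¹ = 1 := by
    rintro z ⟨hzW, hzC⟩ g
    obtain ⟨u, hu, q, hq, rfl⟩ := I.dec g
    obtain ⟨d, hd, c, hc, rfl⟩ := I.PWC u hu
    have h1 : q * z = z * q := ((I.mC z).mp hzC).2 q hq
    have h5 : d * z = z * d := I.WC d hd z hzC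
    have h6 : z * c = c * z := I.WC z hzW c hc
    have : d * c * q * z = z * (d * c * q) := by
      calc d * c * q * z = d * c * (z * q) := by rw [mul_assoc _ q, h1]
        _ = d * (c * z) * q := by group
        _ = d * (z * c) * q := by rw [h6]
        _ = (d * z) * c * q := by group
        _ = z * (d * c * q) := by rw [h5]; group
    rw [this]
    group
  have hΔE : W ⊓ C₁ ≤ g2 G := by rw [← hE]; exact I.WCE
  have hΔ3 : W ⊓ C₁ ≤ g3 G := by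
    intro z hz
    apply ht z (by rw [hE]; exact hΔE hz)
    intro g
    rw [hΔc z hz g]
    exact one_mem _
  -- the quotient
  let π := QuotientGroup.mk' C₁
  have hπs : Function.Surjective π := QuotientGroup.mk'_surjective C₁
  have hπk : ∀ a, π a = 1 ↔ a ∈ C₁ := fun a => QuotientGroup.eq_one_iff a
  have hmapW : commutator (G ⧸ C₁) = W.map π := by
    rw [hWdef, _root_.commutator_def, _root_.commutator_def, Subgroup.map_commutator,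
      Subgroup.map_top_of_surjective π hπs]
  have hmap2 : g2 (G ⧸ C₁) = (g2 G).map π := by
    show ⁅commutator (G ⧸ C₁), commutator (G ⧸ C₁)⁆ = _
    rw [hmapW, ← Subgroup.map_commutator]
    rfl
  have hmap3 : g3 (G ⧸ C₁) = (g3 G).map π := by
    show ⁅g2 (G ⧸ C₁), commutator (G ⧸ C₁)⁆ = _
    rw [hmap2, hmapW, ← Subgroup.map_commutator]
    rfl
  have hmap4 : g4 (G ⧸ C₁) = (g4 G).map π := by
    show ⁅g3 (G ⧸ C₁), commutator (G ⧸ C₁)⁆ = _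
    rw [hmap3, hmapW, ← Subgroup.map_commutator]
    rfl
  -- Dedekind
  have hded : ∀ (A : Subgroup G) (hAW : A ≤ W) (B : Subgroup G), W ⊓ C₁ ≤ B → B ≤ W →
      ∀ a ∈ A, π a ∈ B.map π → a ∈ B := by
    intro A hAW B hΔB hBW a ha hm
    obtain ⟨b, hb, hbe⟩ := hm
    have h1 : b⁻¹ * a ∈ C₁ := by
      rw [← hπk, map_mul, map_inv, hbe, inv_mul_cancel]
    have h5 : b⁻¹ * a ∈ W := W.mul_mem (W.inv_mem (hBW hb)) (hAW ha)
    have h6 := hΔB ⟨h5, h1⟩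
    have : a = b * (b⁻¹ * a) := by group
    rw [this]
    exact B.mul_mem hb h6
  -- elements whose action on `W / W'` is nontrivial are outside `H`
  have hoH : ∀ (g : G), (¬ ∀ a ∈ commutator (G ⧸ C₁), π g * a * (π g)⁻¹ * a⁻¹ ∈ g2 (G ⧸ C₁)) → g ∉ H := by
    intro g hg hgH
    apply hg
    intro a ha
    rw [hmapW] at ha
    obtain ⟨a', ha', rfl⟩ := ha
    rw [hmap2]
    refine ⟨g * a' * g⁻¹ * a'⁻¹, ?_, by simp only [map_mul, map_inv]⟩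
    rw [← hE]
    have ha'H : a' ∈ H := I.PH (I.WP ha')
    exact Subgroup.commutator_mem_commutator hgH ha'H
  have hfpf : ∀ (g : G), g ∉ H → ∀ a ∈ W, g * a * g⁻¹ * a⁻¹ ∈ (⁅W, W⁆ : Subgroup G) → a ∈ (⁅W, W⁆ : Subgroup G) := by
    intro g hg a ha hc
    have haH : a ∈ H := I.PH (I.WP ha)
    have hE' : ⁅W, W⁆ = W ⊓ Y := by
      have h1 := s.GE
      have h5 := s.E2
      rw [← hWdef] at h1 h5
      rw [h5, h1]
    have hcY : g * a * g⁻¹ * a⁻¹ ∈ Y := by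
      rw [hE'] at hc
      exact hc.2
    have haY := s.fpf g hg a haH hcY
    rw [hE']
    exact ⟨ha, haY⟩
  -- three subgroups
  have h3s : ∀ (F : Subgroup G) [F.Normal], (⁅F, ⁅W, W⁆⁆ : Subgroup G) ≤ ⁅⁅F, W⁆, W⁆ := by
    intro F _
    haveI : (⁅F, W⁆ : Subgroup G).Normal := Subgroup.commutator_normal _ _
    haveI : (⁅⁅F, W⁆, W⁆ : Subgroup G).Normal := Subgroup.commutator_normal _ _
    rw [Subgroup.commutator_comm F]
    apply Cfsg.Agent.Lib.FGS.Comm.three_le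
    · rw [Subgroup.commutator_comm W F]
    · exact le_rfl
  -- `E ≠ γ₃`
  have hE3 : g2 G ≠ g3 G := by
    intro h
    apply hE1
    rw [hE]
    apply eq_bot_of_comm_eq hWnil h2W
    exact h.symm
  have hne2 : g2 (G ⧸ C₁) ≠ g3 (G ⧸ C₁) := by
    intro h
    apply hE3
    apply le_antisymm _ h32
    intro a ha
    apply hded (g2 G) h2W (g3 G) hΔ3 h3W a ha
    rw [← hmap3, ← h, hmap2]
    exact ⟨a, ha, rfl⟩
  obtain ⟨g₀', hg₀a, hg₀b⟩ := h2 hne2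
  obtain ⟨g₀, rfl⟩ := hπs g₀'
  have hg₀H : g₀ ∉ H := hoH g₀ hg₀a
  have hcomm_mem : ∀ (F : Subgroup G) [F.Normal] (g a : G), a ∈ F → g * a * g⁻¹ * a⁻¹ ∈ F := by
    intro F _ g a ha
    exact F.mul_mem (‹F.Normal›.conj_mem a ha g) (F.inv_mem ha)
  have hg₀e : ∀ e ∈ g2 G, g₀ * e * g₀⁻¹ * e⁻¹ ∈ g3 G := by
    intro e he
    apply hded (g2 G) h2W (g3 G) hΔ3 h3W _ (hcomm_mem _ _ _ he)
    rw [← hmap3]
    simp only [map_mul, map_inv]
    apply hg₀b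
    rw [hmap2]
    exact ⟨e, he, rfl⟩
  -- `g₀` is fpf on `γ₃ / γ₄`.
  have hfpf3 := Cfsg.Agent.Lib.NDF.GLemma.g_lemma hWn hn2 h2W g₀ hg₀e (hfpf g₀ hg₀H) (h3s (g2 G))
  have hΔ4 : W ⊓ C₁ ≤ g4 G := by
    intro z hz
    apply hfpf3 z (hΔ3 hz)
    rw [hΔc z hz g₀]
    exact one_mem _
  -- `γ₄` is central
  have h4C : g4 G ≤ C₁ := by
    intro a ha
    rw [← hπk]
    have : π a ∈ g4 (G ⧸ C₁) := by
      rw [hmap4]
      exact ⟨a, ha, rfl⟩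
    rw [h4] at this
    exact this
  have h4Δ : g4 G = W ⊓ C₁ := le_antisymm (le_inf h4W h4C) hΔ4
  suffices hfin : g4 G = ⊥ by
    refine ⟨?_, hfin⟩
    rw [← h4Δ, hfin]
  by_cases hc34 : g3 G = g4 G
  · have h5 : g3 G = ⊥ := by
      apply eq_bot_of_comm_eq hWnil h3W
      exact hc34.symm
    rw [← hc34, h5]
  have hne3 : g3 (G ⧸ C₁) ≠ g4 (G ⧸ C₁) := by
    intro h
    apply hc34
    apply le_antisymm _ h43
    intro a ha
    apply hded (g3 G) h3W (g4 G) hΔ4 h4W a ha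
    rw [← hmap4, ← h, hmap3]
    exact ⟨a, ha, rfl⟩
  obtain ⟨g₁', hg₁a, hg₁b⟩ := h3 hne3
  obtain ⟨g₁, rfl⟩ := hπs g₁'
  have hg₁H : g₁ ∉ H := hoH g₁ hg₁a
  have hg₁e : ∀ e ∈ g3 G, g₁ * e * g₁⁻¹ * e⁻¹ ∈ g4 G := by
    intro e he
    apply hded (g3 G) h3W (g4 G) hΔ4 h4W _ (hcomm_mem _ _ _ he)
    rw [← hmap4]
    simp only [map_mul, map_inv]
    apply hg₁b
    rw [hmap3]
    exact ⟨e, he, rfl⟩
  have hfpf4 := Cfsg.Agent.Lib.NDF.GLemma.g_lemma hWn hn3 h3W g₁ hg₁e (hfpf g₁ hg₁H) (h3s (g3 G))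
  -- `γ₅ = 1`
  have h5bot : ⁅⁅g3 G, W⁆, W⁆ = (⊥ : Subgroup G) := by
    rw [← hg4, eq_bot_iff, Subgroup.commutator_le]
    intro z hz w _
    have hzΔ : z ∈ W ⊓ C₁ := by rw [← h4Δ]; exact hz
    have h6 := hΔc z hzΔ w
    have h7 : w * z = z * w := by
      have := mul_inv_eq_one.mp h6
      exact mul_inv_eq_iff_eq_mul.mp this
    have h9 : z * w * z⁻¹ * w⁻¹ = 1 := by rw [← h7]; group
    rw [Subgroup.mem_bot, commutatorElement_def]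
    exact h9
  rw [eq_bot_iff]
  intro u hu
  have h8 := hfpf4 u (by rw [← hg4]; exact hu)
    (by
      have hzΔ : u ∈ W ⊓ C₁ := by rw [← h4Δ]; exact hu
      rw [hΔc u hzΔ g₁]
      exact one_mem _)
  rw [h5bot] at h8
  exact h8

end Cfsg.Agent.Lib.NDF.DeltaTrivial
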