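import Mathlib

/-!
# (A2) Frobenius action: the complement has a fixed point.

With `T v = ∏ x ∈ X, x • v`: if `T` is trivial then `∏_{y ∈ F} y • T (y⁻¹ • v) = 1`, and this product is
`∏_{x ∈ X} ∏_{y ∈ F} (y x y⁻¹) • v`. For `x ≠ 1` the map `y ↦ y x y⁻¹ x⁻¹` is a bijection of `F`, so the inner
product is `∏_{f ∈ F} f • (x • v)`, which is fixed by `F`, hence `1`. For `x = 1` it is `v ^ |F|`. So `v ^ |F| = 1`.
-/

set_option autoImplicit false

namespace Cfsg.Agent.Lib.NDF.FrobFix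

universe u v

/-- (A2) Frobenius action: the complement has a fixed point. -/
theorem frobFix {Γ : Type u} {V : Type v} [Group Γ] [Finite Γ] [CommGroup V] [Finite V]
    [MulDistribMulAction Γ V] (F X : Subgroup Γ) (hF : F.Normal) (hFX : F ⊓ X = ⊥)
    (hfpf : ∀ x ∈ X, x ≠ 1 → ∀ f ∈ F, x * f = f * x → f = 1)
    (hcop : Nat.Coprime (Nat.card F) (Nat.card V))
    (hVF : ∀ v : V, (∀ f ∈ F, f • v = v) → v = 1) (hV : ∃ v : V, v ≠ 1) :
    ∃ v : V, v ≠ 1 ∧ ∀ x ∈ X, x • v = v := by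
  classical
  haveI := Fintype.ofFinite F
  haveI := Fintype.ofFinite X
  let T : V → V := fun v => ∏ x : X, (x : Γ) • v
  have hsmul : ∀ (g : Γ) {ι : Type _} [Fintype ι] (f : ι → V), g • (∏ i, f i) = ∏ i, g • f i := by
    intro g ι _ f
    exact map_prod (MulDistribMulAction.toMonoidHom V g) f Finset.univ
  have hTfix : ∀ v, ∀ x ∈ X, x • T v = T v := by
    intro v x hx
    change x • (∏ x' : X, (x' : Γ) • v) = ∏ x' : X, (x' : Γ) • v
    rw [hsmul]
    refine Fintype.prod_equiv (Equiv.mulLeft (⟨x, hx⟩ : X)) _ _ (fun x' => ?_)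
    simp [smul_smul]
  by_contra hcon
  push Not at hcon
  have hT1 : ∀ v, T v = 1 := by
    intro v
    by_contra h
    obtain ⟨x, hx, hne⟩ := hcon (T v) h
    exact hne (hTfix v x hx)
  have key : ∀ v : V, v ^ Nat.card F = 1 := by
    intro v
    have h1 : ∏ y : F, (y : Γ) • T ((y : Γ)⁻¹ • v) = 1 := by
      apply Finset.prod_eq_one
      intro y _
      rw [hT1, smul_one]
    have h2 : ∏ y : F, (y : Γ) • T ((y : Γ)⁻¹ • v) =
        ∏ x : X, ∏ y : F, ((y : Γ) * x * (y : Γ)⁻¹) • v := by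
      rw [Finset.prod_comm]
      apply Finset.prod_congr rfl
      intro y _
      change (y : Γ) • (∏ x' : X, (x' : Γ) • ((y : Γ)⁻¹ • v)) = _
      rw [hsmul]
      apply Finset.prod_congr rfl
      intro x _
      simp only [smul_smul, mul_assoc]
    have h3 : ∀ x : X, x ≠ 1 → ∏ y : F, ((y : Γ) * x * (y : Γ)⁻¹) • v = 1 := by
      intro x hx
      have hx' : (x : Γ) ≠ 1 := by simpa using hx
      let c : F → F := fun y => ⟨(y : Γ) * ((x : Γ) * (y : Γ)⁻¹ * (x : Γ)⁻¹),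
        F.mul_mem y.2 (hF.conj_mem _ (F.inv_mem y.2) _)⟩
      have hc : Function.Injective c := by
        intro y y' hyy
        have hval : (y : Γ) * ((x : Γ) * (y : Γ)⁻¹ * (x : Γ)⁻¹) =
            (y' : Γ) * ((x : Γ) * (y' : Γ)⁻¹ * (x : Γ)⁻¹) := congrArg Subtype.val hyy
        have hcm : (x : Γ) * ((y' : Γ)⁻¹ * y) = ((y' : Γ)⁻¹ * y) * x := by
          have h4 : (y : Γ) * (x : Γ) * (y : Γ)⁻¹ = (y' : Γ) * (x : Γ) * (y' : Γ)⁻¹ := by
            have := congrArg (· * (x : Γ)) hval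
            simpa [mul_assoc] using this
          have h5 : (y' : Γ)⁻¹ * ((y : Γ) * (x : Γ) * (y : Γ)⁻¹) * y =
              (y' : Γ)⁻¹ * ((y' : Γ) * (x : Γ) * (y' : Γ)⁻¹) * y := by rw [h4]
          have h6 : (y' : Γ)⁻¹ * ((y' : Γ) * (x : Γ) * (y' : Γ)⁻¹) * y = (x : Γ) * ((y' : Γ)⁻¹ * y) := by
            group
          have h7 : (y' : Γ)⁻¹ * ((y : Γ) * (x : Γ) * (y : Γ)⁻¹) * y = ((y' : Γ)⁻¹ * y) * x := by
            group
          rw [h6, h7] at h5
          exact h5.symm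
        have := hfpf x x.2 hx' _ (F.mul_mem (F.inv_mem y'.2) y.2) hcm
        have h8 : (y : Γ) = y' := (inv_mul_eq_one.1 this).symm
        exact Subtype.ext h8
      have hcb : Function.Bijective c := Finite.injective_iff_bijective.1 hc
      have h9 : ∏ y : F, ((y : Γ) * x * (y : Γ)⁻¹) • v = ∏ y : F, (y : Γ) • ((x : Γ) • v) := by
        rw [← Function.Bijective.prod_comp hcb (fun y : F => (y : Γ) • ((x : Γ) • v))]
        apply Finset.prod_congr rfl
        intro y _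
        simp only [c, smul_smul]
        congr 1
        group
      rw [h9]
      apply hVF
      intro f hf
      rw [hsmul]
      refine Fintype.prod_equiv (Equiv.mulLeft (⟨f, hf⟩ : F)) _ _ (fun y => ?_)
      simp [smul_smul, mul_assoc]
    have h4 : ∏ x : X, ∏ y : F, ((y : Γ) * x * (y : Γ)⁻¹) • v = ∏ y : F, ((y : Γ) * ((1 : X) : Γ) * (y : Γ)⁻¹) • v :=
      Finset.prod_eq_single (1 : X) (fun x _ hx => h3 x hx) (fun h => absurd (Finset.mem_univ _) h)
    have h5 : ∏ y : F, ((y : Γ) * ((1 : X) : Γ) * (y : Γ)⁻¹) • v = v ^ Nat.card F := by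
      have : ∀ y : F, ((y : Γ) * ((1 : X) : Γ) * (y : Γ)⁻¹) • v = v := by
        intro y
        simp
      simp only [this]
      rw [Finset.prod_const, Finset.card_univ, Nat.card_eq_fintype_card]
    rw [← h5, ← h4, ← h2, h1]
  obtain ⟨v, hv⟩ := hV
  apply hv
  have h1 := orderOf_dvd_of_pow_eq_one (key v)
  have h2 := orderOf_dvd_natCard v
  have h3 : orderOf v ∣ 1 := by
    have := Nat.dvd_gcd h1 h2
    rwa [hcop] at this
  exact orderOf_eq_one_iff.1 (Nat.dvd_one.1 h3)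

end Cfsg.Agent.Lib.NDF.FrobFix
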