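import Cfsg.Agent.Lib.NoDiv.XLemma

/-!
# (A10) `x` trivial on `F / [F, W]` and fixed point free on `W / W'` is fixed point free on
`[F, W] / [F, W, W]`.
-/

set_option autoImplicit false

namespace Cfsg.Agent.Lib.NDF.GLemma

universe u

/-- (A10) -/
theorem g_lemma {G : Type u} [Group G] [Finite G] {W F : Subgroup G} (hW : W.Normal) (hF : F.Normal)
    (hFW : F ≤ W) (x : G)
    (hx1 : ∀ f ∈ F, x * f * x⁻¹ * f⁻¹ ∈ (⁅F, W⁆ : Subgroup G))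
    (hx2 : ∀ a ∈ W, x * a * x⁻¹ * a⁻¹ ∈ (⁅W, W⁆ : Subgroup G) → a ∈ (⁅W, W⁆ : Subgroup G))
    (hF2 : (⁅F, ⁅W, W⁆⁆ : Subgroup G) ≤ ⁅⁅F, W⁆, W⁆) :
    ∀ u ∈ (⁅F, W⁆ : Subgroup G), x * u * x⁻¹ * u⁻¹ ∈ (⁅⁅F, W⁆, W⁆ : Subgroup G) →
      u ∈ (⁅⁅F, W⁆, W⁆ : Subgroup G) := by
  classical
  haveI := hW
  haveI := hF
  set K₁ : Subgroup G := ⁅F, W⁆ with hK₁
  set K₂ : Subgroup G := ⁅K₁, W⁆ with hK₂
  haveI hK₁n : K₁.Normal := Subgroup.commutator_normal F W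
  haveI hK₂n : K₂.Normal := Subgroup.commutator_normal K₁ W
  have hK₁W : K₁ ≤ W := Subgroup.commutator_le_right F W
  let π : G →* G ⧸ K₂ := QuotientGroup.mk' K₂
  have hπ : ∀ g, π g = 1 ↔ g ∈ K₂ := fun g => QuotientGroup.eq_one_iff g
  -- commuting mod `K₂`
  have hc : ∀ k ∈ K₁, ∀ a ∈ W, π k * π a = π a * π k := by
    intro k hk a ha
    have h1 : k * a * k⁻¹ * a⁻¹ ∈ K₂ := by
      have := Subgroup.commutator_mem_commutator hk ha
      rwa [commutatorElement_def] at this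
    have h2 := (hπ _).2 h1
    simp only [map_mul, map_inv] at h2
    have h3 : π k * π a * (π k)⁻¹ = π a := by
      have := mul_eq_one_iff_eq_inv.mp h2
      rw [this, inv_inv]
    calc π k * π a = π k * π a * (π k)⁻¹ * π k := by group
      _ = π a * π k := by rw [h3]
  -- commutators in `K₁`
  have hfa : ∀ f ∈ F, ∀ a ∈ W, f * a * f⁻¹ * a⁻¹ ∈ K₁ := by
    intro f hf a ha
    have := Subgroup.commutator_mem_commutator hf ha
    rwa [commutatorElement_def] at this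
  -- `b ↦ [f, b]` is a homomorphism mod `K₂` on `W`
  have hhom : ∀ f ∈ F, ∀ b ∈ W, ∀ c ∈ W,
      π (f * (b * c) * f⁻¹ * (b * c)⁻¹) = π (f * b * f⁻¹ * b⁻¹) * π (f * c * f⁻¹ * c⁻¹) := by
    intro f hf b hb c hc'
    have h1 : f * (b * c) * f⁻¹ * (b * c)⁻¹ = (f * b * f⁻¹ * b⁻¹) * (b * (f * c * f⁻¹ * c⁻¹) * b⁻¹) := by
      group
    have h2 := hc _ (hfa f hf c hc') b hb
    rw [h1, map_mul (f := π) (f * b * f⁻¹ * b⁻¹)]
    congr 1
    rw [map_mul, map_mul, map_inv, ← h2]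
    group
  have hinvb : ∀ f ∈ F, ∀ b ∈ W, π (f * b⁻¹ * f⁻¹ * b⁻¹⁻¹) = (π (f * b * f⁻¹ * b⁻¹))⁻¹ := by
    intro f hf b hb
    have h := hhom f hf b hb b⁻¹ (W.inv_mem hb)
    have h1 : f * (b * b⁻¹) * f⁻¹ * (b * b⁻¹)⁻¹ = 1 := by group
    rw [h1, map_one] at h
    exact (eq_inv_of_mul_eq_one_right h.symm)
  -- `u ↦ [x, u]` is a homomorphism mod `K₂` on `K₁`
  have hxu : ∀ u ∈ K₁, x * u * x⁻¹ * u⁻¹ ∈ K₁ := by
    intro u hu
    exact K₁.mul_mem (hK₁n.conj_mem u hu x) (K₁.inv_mem hu)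
  have hhom2 : ∀ u ∈ K₁, ∀ v ∈ K₁,
      π (x * (u * v) * x⁻¹ * (u * v)⁻¹) = π (x * u * x⁻¹ * u⁻¹) * π (x * v * x⁻¹ * v⁻¹) := by
    intro u hu v hv
    have h1 : x * (u * v) * x⁻¹ * (u * v)⁻¹ = (x * u * x⁻¹ * u⁻¹) * (u * (x * v * x⁻¹ * v⁻¹) * u⁻¹) := by
      group
    have h2 := hc u hu _ (hK₁W (hxu v hv))
    rw [h1, map_mul (f := π) (x * u * x⁻¹ * u⁻¹)]
    congr 1
    rw [map_mul, map_mul, h2, map_inv]
    group
  -- the key identity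
  have hkey : ∀ f ∈ F, ∀ a ∈ W, π (x * (f * a * f⁻¹ * a⁻¹) * x⁻¹ * (f * a * f⁻¹ * a⁻¹)⁻¹) =
      π (f * (x * a * x⁻¹ * a⁻¹) * f⁻¹ * (x * a * x⁻¹ * a⁻¹)⁻¹) := by
    intro f hf a ha
    have hb : x * a * x⁻¹ ∈ W := hW.conj_mem a ha x
    set b := x * a * x⁻¹ with hbdef
    -- right side
    have hR := hhom f hf b hb a⁻¹ (W.inv_mem ha)
    rw [hinvb f hf a ha] at hR
    rw [hR]
    -- left side
    set k := x * f * x⁻¹ * f⁻¹ with hk
    have hkK : k ∈ K₁ := hx1 f hf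
    have h1 : x * (f * a * f⁻¹ * a⁻¹) * x⁻¹ =
        k * (f * b * f⁻¹ * b⁻¹) * (b * k⁻¹ * b⁻¹) := by
      rw [hk, hbdef]
      group
    rw [h1, map_mul (f := π) _ (f * a * f⁻¹ * a⁻¹)⁻¹]
    have h3 : π (k * (f * b * f⁻¹ * b⁻¹) * (b * k⁻¹ * b⁻¹)) = π (f * b * f⁻¹ * b⁻¹) := by
      have h4 := hc k hkK _ (hK₁W (hfa f hf b hb))
      have h5 := hc k hkK b hb
      rw [map_mul, map_mul, h4]
      have h6 : π (b * k⁻¹ * b⁻¹) = (π k)⁻¹ := by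
        rw [map_mul, map_mul, map_inv, map_inv]
        have : π b * (π k)⁻¹ = (π k)⁻¹ * π b := by
          rw [eq_inv_mul_iff_mul_eq, ← mul_assoc, h5, mul_assoc, mul_inv_cancel, mul_one]
        rw [this]
        group
      rw [h6]
      group
    rw [h3, map_inv]
  -- image subgroup
  let I : Subgroup G :=
    { carrier := {v | ∃ u ∈ K₁, π v = π (x * u * x⁻¹ * u⁻¹)}
      one_mem' := ⟨1, K₁.one_mem, by simp⟩
      mul_mem' := by
        rintro v₁ v₂ ⟨u₁, hu₁, h₁⟩ ⟨u₂, hu₂, h₂⟩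
        exact ⟨u₁ * u₂, K₁.mul_mem hu₁ hu₂, by rw [hhom2 u₁ hu₁ u₂ hu₂, map_mul, h₁, h₂]⟩
      inv_mem' := by
        rintro v ⟨u, hu, h⟩
        refine ⟨u⁻¹, K₁.inv_mem hu, ?_⟩
        have h1 := hhom2 u hu u⁻¹ (K₁.inv_mem hu)
        have h2 : x * (u * u⁻¹) * x⁻¹ * (u * u⁻¹)⁻¹ = 1 := by group
        rw [h2, map_one] at h1
        rw [map_inv, h]
        exact (eq_inv_of_mul_eq_one_right h1.symm).symm }
  have hI : K₁ ≤ I := by
    rw [hK₁, Subgroup.commutator_le]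
    intro f hf a ha
    rw [commutatorElement_def]
    obtain ⟨a', ha', h1⟩ := Cfsg.Agent.Lib.NoDiv.XLemma.exists_comm_mod
      (Subgroup.commutator_le_right W W) (Subgroup.commutator_normal W W) x
      (fun a ha => hW.conj_mem a ha x) hx2 a ha
    refine ⟨f * a' * f⁻¹ * a'⁻¹, hfa f hf a' ha', ?_⟩
    rw [hkey f hf a' ha']
    set d := x * a' * x⁻¹ * a'⁻¹ with hd
    have hdW : d ∈ W := W.mul_mem (hW.conj_mem a' ha' x) (W.inv_mem ha')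
    set w := a⁻¹ * d with hw
    have hwW : w ∈ (⁅W, W⁆ : Subgroup G) := h1
    have hdw : d = a * w := by rw [hw]; group
    have hwW' : w ∈ W := Subgroup.commutator_le_right W W hwW
    rw [hdw, hhom f hf a ha w hwW']
    have h2 : f * w * f⁻¹ * w⁻¹ ∈ K₂ := by
      apply hF2
      have := Subgroup.commutator_mem_commutator hf hwW
      rwa [commutatorElement_def] at this
    rw [(hπ _).2 h2, mul_one]
  -- finiteness
  let Kb : Subgroup (G ⧸ K₂) := K₁.map π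
  have hconj : ∀ t : Kb, π x * (t : G ⧸ K₂) * (π x)⁻¹ * (t : G ⧸ K₂)⁻¹ ∈ Kb := by
    rintro ⟨t, u, hu, rfl⟩
    refine ⟨x * u * x⁻¹ * u⁻¹, hxu u hu, ?_⟩
    simp [map_mul, map_inv]
  let ψ : Kb → Kb := fun t => ⟨_, hconj t⟩
  have hψs : Function.Surjective ψ := by
    rintro ⟨t, v, hv, rfl⟩
    obtain ⟨u, hu, h⟩ := hI hv
    refine ⟨⟨π u, u, hu, rfl⟩, ?_⟩
    apply Subtype.ext
    change π x * π u * (π x)⁻¹ * (π u)⁻¹ = π v
    rw [h]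
    simp [map_mul, map_inv]
  have hψi : Function.Injective ψ := Finite.injective_iff_surjective.mpr hψs
  intro u hu hxu'
  have h1 : ψ ⟨π u, u, hu, rfl⟩ = ψ 1 := by
    apply Subtype.ext
    change π x * π u * (π x)⁻¹ * (π u)⁻¹ = π x * 1 * (π x)⁻¹ * 1⁻¹
    have := (hπ _).2 hxu'
    simp only [map_mul, map_inv] at this
    rw [this]
    group
  have h2 := hψi h1
  have h3 : π u = 1 := congrArg Subtype.val h2
  exact (hπ u).1 h3

end Cfsg.Agent.Lib.NDF.GLemma
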