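import Cfsg.Agent.Lib.NDF.DeltaTrivial

/-!
# S4780, (IF), the core: type (i), `G` trivial on `E / γ₃`, gives `γ₃ = 1`.
-/

set_option autoImplicit false
set_option linter.unusedSectionVars false

namespace Cfsg.Agent.Lib.NDF.Gamma3Core

open Cfsg Cfsg.Agent.Lib.NoDiv.Defs Cfsg.Agent.Lib.NDF.Defs Cfsg.Agent.Lib.NDF.IDefs
open scoped commutatorElement

universe u

variable {G : Type u} [Group G] {H Y P Q C₁ : Subgroup G} {p : ℕ}

/-- `H` acts trivially on `γ₃ / γ₄`. -/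
theorem H_on_g3 (I : I1D H p P Q C₁) {h t : G} (hh : h ∈ H) (ht : t ∈ g3 G) :
    h * t * h⁻¹ * t⁻¹ ∈ g4 G := by
  set W : Subgroup G := commutator G with hWdef
  haveI hWn : W.Normal := by rw [hWdef]; infer_instance
  have hg3W : g3 G ≤ W := Subgroup.commutator_le_right _ _
  have htW : t ∈ W := hg3W ht
  obtain ⟨u, hu, q, hq, rfl⟩ := I.dec h
  obtain ⟨d, hd, z, hz, rfl⟩ := I.PWC u hu
  have hqH : q ∈ H := by
    have : q = (d * z)⁻¹ * (d * z * q) := by group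
    rw [this]
    exact H.mul_mem (H.inv_mem (I.PH hu)) hh
  have h1 : q * t = t * q := I.QH q hq hqH t (I.WP htW)
  have h2 : t * z = z * t := I.WC t htW z hz
  have e : d * z * q * t * (d * z * q)⁻¹ * t⁻¹ = d * t * d⁻¹ * t⁻¹ := by
    have e1 : d * z * q * t = d * t * z * q := by
      calc d * z * q * t = d * z * (q * t) := by group
        _ = d * z * (t * q) := by rw [h1]
        _ = d * (z * t) * q := by group
        _ = d * (t * z) * q := by rw [h2]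
        _ = d * t * z * q := by group
    rw [e1]
    group
  rw [e]
  have h3 : ⁅d, t⁆ ∈ (⁅W, g3 G⁆ : Subgroup G) := Subgroup.commutator_mem_commutator hd ht
  rw [Subgroup.commutator_comm, commutatorElement_def] at h3
  exact h3

/-- (IF), the core; `hfc` is the `M`-version of `fix_central`. -/
theorem gamma3_core [Finite G] (s : St H Y) (hp : p.Prime) (I : I1D H p P Q C₁)
    (hfc : ∀ T M : Subgroup G, T.Normal → M.Normal → T ≤ ⁅H, H⁆ → M ≤ T → M ≠ T →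
      (∀ t ∈ T, ∀ h ∈ H, h * t * h⁻¹ * t⁻¹ ∈ M) → ∃ g, g ∉ H ∧ ∃ t ∈ T, t ∉ M ∧ g * t * g⁻¹ * t⁻¹ ∈ M)
    (ht : ∀ g : G, ∀ e ∈ (⁅H, H⁆ : Subgroup G), g * e * g⁻¹ * e⁻¹ ∈ g3 G) : g3 G = ⊥ := by
  classical
  haveI : Fact p.Prime := ⟨hp⟩
  set W : Subgroup G := commutator G with hWdef
  haveI hWn : W.Normal := by rw [hWdef]; infer_instance
  have hE : (⁅H, H⁆ : Subgroup G) = g2 G := s.E2.symm
  have hg2 : g2 G = ⁅W, W⁆ := rfl
  have hg3 : g3 G = ⁅g2 G, W⁆ := rfl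
  have hg4 : g4 G = ⁅g3 G, W⁆ := rfl
  haveI hn2 : (g2 G).Normal := by rw [hg2]; exact Subgroup.commutator_normal W W
  haveI hn3 : (g3 G).Normal := by rw [hg3]; exact Subgroup.commutator_normal _ _
  haveI hn4 : (g4 G).Normal := by rw [hg4]; exact Subgroup.commutator_normal _ _
  have h2W : g2 G ≤ W := by rw [hg2]; exact Subgroup.commutator_le_left W W
  have h32 : g3 G ≤ g2 G := by rw [hg3]; exact Subgroup.commutator_le_left _ _
  have h43 : g4 G ≤ g3 G := by rw [hg4]; exact Subgroup.commutator_le_left _ _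
  have h3W : g3 G ≤ W := h32.trans h2W
  have hWnil : Group.IsNilpotent ↥W := (I.Pp.to_le I.WP).isNilpotent
  by_contra hne
  have hne34 : g4 G ≠ g3 G := by
    intro h
    exact hne (Cfsg.Agent.Lib.NDF.DeltaTrivial.eq_bot_of_comm_eq hWnil h3W h)
  obtain ⟨g, hg, t, ht3, ht4, hgt⟩ := hfc (g3 G) (g4 G) hn3 hn4 (by rw [hE]; exact h32) h43 hne34
    (fun t ht h hh => H_on_g3 I hh ht)
  -- `g` is fixed point free on `W / W'`
  have hfpf : ∀ a ∈ W, g * a * g⁻¹ * a⁻¹ ∈ (⁅W, W⁆ : Subgroup G) → a ∈ (⁅W, W⁆ : Subgroup G) := by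
    intro a ha hc
    have haH : a ∈ H := I.PH (I.WP ha)
    have hE' : ⁅W, W⁆ = W ⊓ Y := by
      have h1 := s.GE
      have h5 := s.E2
      rw [← hWdef] at h1 h5
      rw [h5, h1]
    have hcY : g * a * g⁻¹ * a⁻¹ ∈ Y := by
      rw [hE'] at hc
      exact hc.2
    have haY := s.fpf g hg a haH hcY
    rw [hE']
    exact ⟨ha, haY⟩
  -- three subgroups
  have h3s : ∀ (F : Subgroup G) [F.Normal], (⁅F, ⁅W, W⁆⁆ : Subgroup G) ≤ ⁅⁅F, W⁆, W⁆ := by
    intro F _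
    haveI : (⁅F, W⁆ : Subgroup G).Normal := Subgroup.commutator_normal _ _
    haveI : (⁅⁅F, W⁆, W⁆ : Subgroup G).Normal := Subgroup.commutator_normal _ _
    rw [Subgroup.commutator_comm F]
    apply Cfsg.Agent.Lib.FGS.Comm.three_le
    · rw [Subgroup.commutator_comm W F]
    · exact le_rfl
  have hge : ∀ e ∈ g2 G, g * e * g⁻¹ * e⁻¹ ∈ g3 G := by
    intro e he
    exact ht g e (by rw [hE]; exact he)
  exact ht4 (Cfsg.Agent.Lib.NDF.GLemma.g_lemma hWn hn2 h2W g hge hfpf (h3s (g2 G)) t ht3 hgt)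

end Cfsg.Agent.Lib.NDF.Gamma3Core
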