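import Cfsg.Agent.Lib.NDF.Alg4
import Cfsg.Agent.Lib.NDF.Beisiegel
import Cfsg.Agent.Lib.Coprime.Generation2

/-!
# (A15) The group form of class four.

Sections `U / V` as additive groups, commutator pairings between sections, Hall-Witt.
-/

set_option autoImplicit false
set_option linter.unusedSectionVars false

namespace Cfsg.Agent.Lib.NDF.Grp4

open scoped commutatorElement

universe u v

section SecDef

variable {G : Type u} [Group G]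

/-- Commutators of `U` lie in `V`. -/
def SecC (U V : Subgroup G) : Prop := ∀ a ∈ U, ∀ b ∈ U, ⁅a, b⁆ ∈ V

/-- The section `U / V`, written additively. -/
def Sec (U V : Subgroup G) : Type u := Additive (↥U ⧸ V.subgroupOf U)

variable {U V : Subgroup G} [V.Normal] [hS : Fact (SecC U V)]

/-- The commutative group structure of a section. -/
@[reducible] def secCG : CommGroup (↥U ⧸ V.subgroupOf U) :=
  { (QuotientGroup.Quotient.group (V.subgroupOf U)) with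
    mul_comm := by
      intro x y
      induction x using QuotientGroup.induction_on with | _ a => ?_
      induction y using QuotientGroup.induction_on with | _ b => ?_
      rw [← QuotientGroup.mk_mul, ← QuotientGroup.mk_mul, QuotientGroup.eq]
      change ((a * b)⁻¹ * (b * a) : ↥U).1 ∈ V
      have h := hS.out _ (U.inv_mem b.2) _ (U.inv_mem a.2)
      rw [commutatorElement_def] at h
      have h2 : (((a * b)⁻¹ * (b * a) : ↥U) : G) = (b : G)⁻¹ * (a : G)⁻¹ * (b : G)⁻¹⁻¹ * (a : G)⁻¹⁻¹ := by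
        simp only [Subgroup.coe_mul, Subgroup.coe_inv]
        group
      rw [h2]
      exact h }

instance secAdd : AddCommGroup (Sec U V) := @Additive.addCommGroup _ secCG

instance secFin [Finite G] : Finite (Sec U V) := by
  unfold Sec
  exact Finite.of_equiv _ (Additive.ofMul (α := ↥U ⧸ V.subgroupOf U))

/-- The class of an element in a section. -/
def mk (a : G) (ha : a ∈ U) : Sec U V :=
  Additive.ofMul ((⟨a, ha⟩ : ↥U) : ↥U ⧸ V.subgroupOf U)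

theorem mk_mul (a b : G) (ha : a ∈ U) (hb : b ∈ U) (hab : a * b ∈ U) :
    (mk (a * b) hab : Sec U V) = mk a ha + mk b hb := rfl

theorem mk_congr {a b : G} (h : a = b) (ha : a ∈ U) (hb : b ∈ U) :
    (mk a ha : Sec U V) = mk b hb := by
  subst h; rfl

theorem mk_eq_zero {a : G} (ha : a ∈ U) : (mk a ha : Sec U V) = 0 ↔ a ∈ V := by
  constructor
  · intro h
    have h1 : ((⟨a, ha⟩ : ↥U) : ↥U ⧸ V.subgroupOf U) = 1 := h
    have := (QuotientGroup.eq_one_iff _).1 h1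
    exact this
  · intro h
    have h1 : ((⟨a, ha⟩ : ↥U) : ↥U ⧸ V.subgroupOf U) = 1 := (QuotientGroup.eq_one_iff _).2 h
    exact h1

theorem mk_one (h : (1 : G) ∈ U) : (mk 1 h : Sec U V) = 0 := (mk_eq_zero h).2 V.one_mem

theorem mk_inv (a : G) (ha : a ∈ U) (hi : a⁻¹ ∈ U) : (mk a⁻¹ hi : Sec U V) = - mk a ha := by
  rw [eq_neg_iff_add_eq_zero, ← mk_mul a⁻¹ a hi ha (U.mul_mem hi ha)]
  exact (mk_eq_zero _).2 (by simp [V.one_mem])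

theorem mk_pow (a : G) (ha : a ∈ U) (n : ℕ) (hp : a ^ n ∈ U) : (mk (a ^ n) hp : Sec U V) = n • mk a ha := by
  induction n with
  | zero => simpa using mk_one (V := V) (by simpa using hp)
  | succ k ih =>
    have hk : a ^ k ∈ U := U.pow_mem ha k
    rw [mk_congr (pow_succ a k) hp (U.mul_mem hk ha), mk_mul (a ^ k) a hk ha, ih hk, succ_nsmul]

theorem exists_mk (x : Sec U V) : ∃ a, ∃ ha : a ∈ U, (mk a ha : Sec U V) = x := by
  induction x using QuotientGroup.induction_on with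
  | _ a => exact ⟨a.1, a.2, rfl⟩

theorem mk_eq_mk {a b : G} (ha : a ∈ U) (hb : b ∈ U) (h : a⁻¹ * b ∈ V) :
    (mk a ha : Sec U V) = mk b hb := by
  have h1 : (⟨a, ha⟩ : ↥U)⁻¹ * ⟨b, hb⟩ ∈ V.subgroupOf U := h
  exact QuotientGroup.eq.2 h1

theorem mk_eq_mk' {a b : G} (ha : a ∈ U) (hb : b ∈ U) (h : a * b⁻¹ ∈ V) :
    (mk a ha : Sec U V) = mk b hb := by
  apply mk_eq_mk
  have h1 := ‹V.Normal›.conj_mem _ (V.inv_mem h) a⁻¹
  have h2 : a⁻¹ * (a * b⁻¹)⁻¹ * a⁻¹⁻¹ = a⁻¹ * b := by group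
  rwa [h2] at h1

theorem mk_conj (hce : ∀ u ∈ U, ∀ g : G, ⁅g, u⁆ ∈ V) (g a : G) (ha : a ∈ U) (hg : g * a * g⁻¹ ∈ U) :
    (mk (g * a * g⁻¹) hg : Sec U V) = mk a ha := by
  apply mk_eq_mk'
  have := hce a ha g
  rwa [commutatorElement_def] at this

/-- A homomorphism out of a section. -/
def lift {M : Type v} [AddCommGroup M] (f : ↥U → M) (hmul : ∀ a b, f (a * b) = f a + f b)
    (hV : ∀ a : ↥U, (a : G) ∈ V → f a = 0) : Sec U V →+ M :=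
  let φ : ↥U →* Multiplicative M := MonoidHom.mk' (fun a => Multiplicative.ofAdd (f a))
    (fun a b => by rw [hmul]; rfl)
  let hφ : V.subgroupOf U ≤ φ.ker := fun a ha => by
    change Multiplicative.ofAdd (f a) = 1
    rw [hV a ha]
    rfl
  AddMonoidHom.mk' (fun x => Multiplicative.toAdd (QuotientGroup.lift (V.subgroupOf U) φ hφ
    (Additive.toMul x))) (fun x y => by
      change Multiplicative.toAdd (QuotientGroup.lift (V.subgroupOf U) φ hφ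
        (Additive.toMul x * Additive.toMul y)) = _
      rw [map_mul]
      rfl)

theorem lift_mk {M : Type v} [AddCommGroup M] (f : ↥U → M) (hmul : ∀ a b, f (a * b) = f a + f b)
    (hV : ∀ a : ↥U, (a : G) ∈ V → f a = 0) (a : G) (ha : a ∈ U) :
    lift f hmul hV (mk a ha) = f ⟨a, ha⟩ := rfl

end SecDef

section Pair

variable {G : Type u} [Group G]

/-- The data of a commutator pairing. -/
structure PairOK (U₁ V₁ U₂ V₂ U₃ V₃ : Subgroup G) : Prop where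
  m12 : ∀ a ∈ U₁, ∀ b ∈ U₂, ⁅a, b⁆ ∈ U₃
  v1 : ∀ a ∈ V₁, ∀ b ∈ U₂, ⁅a, b⁆ ∈ V₃
  v2 : ∀ a ∈ U₁, ∀ b ∈ V₂, ⁅a, b⁆ ∈ V₃
  ce : ∀ u ∈ U₃, ∀ g : G, ⁅g, u⁆ ∈ V₃

variable {U₁ V₁ U₂ V₂ U₃ V₃ : Subgroup G} [V₁.Normal] [V₂.Normal] [V₃.Normal] [U₃.Normal]
  [Fact (SecC U₁ V₁)] [Fact (SecC U₂ V₂)] [Fact (SecC U₃ V₃)] {M : Type v} [AddCommGroup M]

theorem comm_add_right (h : PairOK U₁ V₁ U₂ V₂ U₃ V₃) {a b c : G} (ha : a ∈ U₁) (hb : b ∈ U₂) (hc : c ∈ U₂) :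
    (mk ⁅a, b * c⁆ (h.m12 a ha _ (U₂.mul_mem hb hc)) : Sec U₃ V₃) =
      mk ⁅a, b⁆ (h.m12 a ha b hb) + mk ⁅a, c⁆ (h.m12 a ha c hc) := by
  have h1 : ⁅a, b * c⁆ = ⁅a, b⁆ * (b * ⁅a, c⁆ * b⁻¹) := by
    simp only [commutatorElement_def]; group
  have hm := h.m12 a ha c hc
  have hn : b * ⁅a, c⁆ * b⁻¹ ∈ U₃ := ‹U₃.Normal›.conj_mem _ hm b
  rw [mk_congr h1 _ (U₃.mul_mem (h.m12 a ha b hb) hn), mk_mul _ _ (h.m12 a ha b hb) hn,
    mk_conj h.ce b _ hm hn]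

theorem comm_add_left (h : PairOK U₁ V₁ U₂ V₂ U₃ V₃) {a a' b : G} (ha : a ∈ U₁) (ha' : a' ∈ U₁) (hb : b ∈ U₂) :
    (mk ⁅a * a', b⁆ (h.m12 _ (U₁.mul_mem ha ha') b hb) : Sec U₃ V₃) =
      mk ⁅a, b⁆ (h.m12 a ha b hb) + mk ⁅a', b⁆ (h.m12 a' ha' b hb) := by
  have h1 : ⁅a * a', b⁆ = (a * ⁅a', b⁆ * a⁻¹) * ⁅a, b⁆ := by
    simp only [commutatorElement_def]; group
  have hm := h.m12 a' ha' b hb
  have hn : a * ⁅a', b⁆ * a⁻¹ ∈ U₃ := ‹U₃.Normal›.conj_mem _ hm a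
  rw [mk_congr h1 _ (U₃.mul_mem hn (h.m12 a ha b hb)), mk_mul _ _ hn (h.m12 a ha b hb),
    mk_conj h.ce a _ hm hn, add_comm]

/-- The commutator pairing, inner map. -/
def pairIn (h : PairOK U₁ V₁ U₂ V₂ U₃ V₃) (ν : Sec U₃ V₃ →+ M) (a : ↥U₁) : Sec U₂ V₂ →+ M :=
  lift (fun b : ↥U₂ => ν (mk ⁅(a : G), (b : G)⁆ (h.m12 _ a.2 _ b.2)))
    (fun b c => by
      change ν (mk ⁅(a : G), (b : G) * (c : G)⁆ _) = _
      rw [comm_add_right h a.2 b.2 c.2, map_add])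
    (fun b hb => by
      change ν (mk ⁅(a : G), (b : G)⁆ _) = 0
      rw [(mk_eq_zero _).2 (h.v2 _ a.2 _ hb), map_zero])

/-- The commutator pairing. -/
def pair (h : PairOK U₁ V₁ U₂ V₂ U₃ V₃) (ν : Sec U₃ V₃ →+ M) : Sec U₁ V₁ →+ Sec U₂ V₂ →+ M :=
  lift (pairIn h ν)
    (fun a a' => by
      ext x
      obtain ⟨b, hb, rfl⟩ := exists_mk x
      change ν (mk ⁅(a : G) * (a' : G), b⁆ _) = ν (mk ⁅(a : G), b⁆ _) + ν (mk ⁅(a' : G), b⁆ _)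
      rw [comm_add_left h a.2 a'.2 hb, map_add])
    (fun a ha => by
      ext x
      obtain ⟨b, hb, rfl⟩ := exists_mk x
      change ν (mk ⁅(a : G), b⁆ _) = 0
      rw [(mk_eq_zero _).2 (h.v1 _ ha _ hb), map_zero])

theorem pair_mk (h : PairOK U₁ V₁ U₂ V₂ U₃ V₃) (ν : Sec U₃ V₃ →+ M) (a b : G) (ha : a ∈ U₁) (hb : b ∈ U₂) :
    pair h ν (mk a ha) (mk b hb) = ν (mk ⁅a, b⁆ (h.m12 a ha b hb)) := rfl

end Pair

section Bil

variable {p : ℕ} {S₁ S₂ S₃ : Type*} [AddCommGroup S₁] [AddCommGroup S₂] [AddCommGroup S₃]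
  [Module (ZMod p) S₁] [Module (ZMod p) S₂] [Module (ZMod p) S₃]

/-- A biadditive map between `ZMod p`-modules is bilinear. -/
def bil (f : S₁ →+ S₂ →+ S₃) : S₁ →ₗ[ZMod p] S₂ →ₗ[ZMod p] S₃ :=
  LinearMap.mk₂ (ZMod p) (fun a b => f a b)
    (fun a a' b => by simp)
    (fun c a b => ((AddMonoidHom.flip f b).toZModLinearMap p).map_smul c a)
    (fun a b b' => by simp)
    (fun c a b => ((f a).toZModLinearMap p).map_smul c b)

theorem bil_apply (f : S₁ →+ S₂ →+ S₃) (a : S₁) (b : S₂) : bil (p := p) f a b = f a b := rfl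

end Bil

section Main

variable (G : Type u) [Group G]

/-- Lower central series of `G`. -/
abbrev c2 : Subgroup G := ⁅(⊤ : Subgroup G), ⊤⁆
/-- Lower central series of `G`. -/
abbrev c3 : Subgroup G := ⁅c2 G, ⊤⁆
/-- Lower central series of `G`. -/
abbrev c4 : Subgroup G := ⁅c3 G, ⊤⁆
/-- Lower central series of `G`. -/
abbrev c5 : Subgroup G := ⁅c4 G, ⊤⁆

variable {G}

theorem mem2 (a b : G) : ⁅a, b⁆ ∈ c2 G :=
  Subgroup.commutator_mem_commutator (Subgroup.mem_top a) (Subgroup.mem_top b)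
theorem mem3 {a : G} (ha : a ∈ c2 G) (b : G) : ⁅a, b⁆ ∈ c3 G :=
  Subgroup.commutator_mem_commutator ha (Subgroup.mem_top b)
theorem mem4 {a : G} (ha : a ∈ c3 G) (b : G) : ⁅a, b⁆ ∈ c4 G :=
  Subgroup.commutator_mem_commutator ha (Subgroup.mem_top b)
theorem mem5 {a : G} (ha : a ∈ c4 G) (b : G) : ⁅a, b⁆ ∈ c5 G :=
  Subgroup.commutator_mem_commutator ha (Subgroup.mem_top b)
theorem comm_swap {H : Subgroup G} {a b : G} (h : ⁅b, a⁆ ∈ H) : ⁅a, b⁆ ∈ H := by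
  rw [← commutatorElement_inv]; exact H.inv_mem h

theorem le_norm (N : Subgroup G) [hN : N.Normal] (H : Subgroup G) : H ≤ Subgroup.normalizer (N : Set G) := by
  intro h _
  rw [Subgroup.mem_normalizer_iff]
  intro g
  constructor
  · exact fun hg => hN.conj_mem g hg h
  · intro hg
    have := hN.conj_mem _ hg h⁻¹
    simpa [mul_assoc] using this

theorem c22 {a b : G} (ha : a ∈ c2 G) (hb : b ∈ c2 G) : ⁅a, b⁆ ∈ c4 G := by
  have h : ⁅⁅(⊤ : Subgroup G), (⊤ : Subgroup G)⁆, c2 G⁆ ≤ c4 G := by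
    apply Cfsg.Agent.Lib.Coprime.Generation2.three_subgroups_rel _ _ _ _ _ _
      (le_norm _ _) (le_norm _ _) (le_norm _ _)
    · rw [Subgroup.commutator_comm (⊤ : Subgroup G) (c2 G)]
    · exact le_rfl
  exact h (Subgroup.commutator_mem_commutator ha hb)

theorem c32 {a b : G} (ha : a ∈ c3 G) (hb : b ∈ c2 G) : ⁅a, b⁆ ∈ c5 G := by
  have h : ⁅⁅(⊤ : Subgroup G), (⊤ : Subgroup G)⁆, c3 G⁆ ≤ c5 G := by
    apply Cfsg.Agent.Lib.Coprime.Generation2.three_subgroups_rel _ _ _ _ _ _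
      (le_norm _ _) (le_norm _ _) (le_norm _ _)
    · rw [Subgroup.commutator_comm (⊤ : Subgroup G) (c3 G)]
    · exact le_rfl
  exact comm_swap (h (Subgroup.commutator_mem_commutator hb ha))

instance factA : Fact (SecC (⊤ : Subgroup G) (c2 G)) := ⟨fun a _ b _ => mem2 a b⟩
instance factB : Fact (SecC (c2 G) (c3 G)) := ⟨fun a ha b _ => mem3 ha b⟩
instance factC : Fact (SecC (c3 G) (c4 G)) := ⟨fun a ha b _ => mem4 ha b⟩

theorem okBr : PairOK (⊤ : Subgroup G) (c2 G) ⊤ (c2 G) (c2 G) (c3 G) :=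
  ⟨fun a _ b _ => mem2 a b, fun a ha b _ => mem3 ha b, fun a _ b hb => comm_swap (mem3 hb a),
    fun u hu g => comm_swap (mem3 hu g)⟩

theorem okT : PairOK (c2 G) (c3 G) (⊤ : Subgroup G) (c2 G) (c3 G) (c4 G) :=
  ⟨fun a ha b _ => mem3 ha b, fun a ha b _ => mem4 ha b, fun _ ha _ hb => c22 ha hb,
    fun u hu g => comm_swap (mem4 hu g)⟩

section K

variable (K : Subgroup G) [K.Normal] [hK5 : Fact (c5 G ≤ K)]

instance factD : Fact (SecC (c4 G) K) := ⟨fun a ha b _ => hK5.out (mem5 ha b)⟩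

theorem okPsi : PairOK (c3 G) (c4 G) (⊤ : Subgroup G) (c2 G) (c4 G) K :=
  ⟨fun a ha b _ => mem4 ha b, fun a ha b _ => hK5.out (mem5 ha b), fun _ ha _ hb => hK5.out (c32 ha hb),
    fun u hu g => hK5.out (comm_swap (mem5 hu g))⟩

theorem okC : PairOK (c2 G) (c3 G) (c2 G) (c3 G) (c4 G) K :=
  ⟨fun _ ha _ hb => c22 ha hb, fun _ ha _ hb => hK5.out (c32 ha hb),
    fun _ ha _ hb => hK5.out (comm_swap (c32 hb ha)), fun u hu g => hK5.out (comm_swap (mem5 hu g))⟩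

end K

/-- The elementary hypothesis. -/
def Hel (p : ℕ) (G : Type u) [Group G] : Prop := ∀ a : G, a ^ p ∈ c2 G

theorem exp_step {p : ℕ} {U₁ V₁ : Subgroup G} [V₁.Normal] [U₁.Normal] [Fact (SecC U₁ V₁)]
    [Fact (SecC (⁅U₁, ⊤⁆ : Subgroup G) (⁅V₁, ⊤⁆ : Subgroup G))] (h : ∀ x : Sec U₁ V₁, p • x = 0)
    (hce : ∀ u ∈ (⁅U₁, ⊤⁆ : Subgroup G), ∀ g : G, ⁅g, u⁆ ∈ (⁅V₁, ⊤⁆ : Subgroup G)) :
    ∀ x : Sec (⁅U₁, ⊤⁆ : Subgroup G) (⁅V₁, ⊤⁆ : Subgroup G), p • x = 0 := by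
  set U₂ : Subgroup G := ⁅U₁, ⊤⁆ with hU₂
  set V₂ : Subgroup G := ⁅V₁, ⊤⁆ with hV₂
  have hm : ∀ a ∈ U₁, ∀ b : G, ⁅a, b⁆ ∈ U₂ := fun a ha b =>
    Subgroup.commutator_mem_commutator ha (Subgroup.mem_top b)
  -- additivity in the first variable
  have hadd : ∀ b : G, ∀ a a' : ↥U₁, (mk ⁅(a * a' : ↥U₁).1, b⁆ (hm _ (a * a').2 b) : Sec U₂ V₂) =
      mk ⁅(a : G), b⁆ (hm _ a.2 b) + mk ⁅(a' : G), b⁆ (hm _ a'.2 b) := by
    intro b a a'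
    have h1 : ⁅(a * a' : ↥U₁).1, b⁆ = ((a : G) * ⁅(a' : G), b⁆ * (a : G)⁻¹) * ⁅(a : G), b⁆ := by
      simp only [commutatorElement_def, Subgroup.coe_mul]; group
    have hm' := hm _ a'.2 b
    have hn : (a : G) * ⁅(a' : G), b⁆ * (a : G)⁻¹ ∈ U₂ :=
      (Subgroup.commutator_normal U₁ ⊤).conj_mem _ hm' a
    rw [mk_congr h1 _ (U₂.mul_mem hn (hm _ a.2 b)), mk_mul _ _ hn (hm _ a.2 b),
      mk_conj hce a _ hm' hn, add_comm]
  have hone : ∀ (a b : G) (ha : a ∈ U₁), p • (mk ⁅a, b⁆ (hm a ha b) : Sec U₂ V₂) = 0 := by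
    intro a b ha
    let f : Sec U₁ V₁ →+ Sec U₂ V₂ := lift (fun a : ↥U₁ => mk ⁅(a : G), b⁆ (hm _ a.2 b)) (hadd b)
      (fun a ha' => (mk_eq_zero _).2 (Subgroup.commutator_mem_commutator ha' (Subgroup.mem_top b)))
    have h1 : f (mk a ha) = mk ⁅a, b⁆ (hm a ha b) := rfl
    rw [← h1, ← map_nsmul, h, map_zero]
  let T : Subgroup G :=
    { carrier := {u | ∃ hu : u ∈ U₂, p • (mk u hu : Sec U₂ V₂) = 0}
      one_mem' := ⟨U₂.one_mem, by rw [mk_one, nsmul_zero]⟩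
      mul_mem' := by
        rintro u v ⟨hu, h1⟩ ⟨hv, h2⟩
        exact ⟨U₂.mul_mem hu hv, by rw [mk_mul u v hu hv, nsmul_add, h1, h2, add_zero]⟩
      inv_mem' := by
        rintro u ⟨hu, h1⟩
        exact ⟨U₂.inv_mem hu, by rw [mk_inv u hu, smul_neg, h1, neg_zero]⟩ }
  have hT : U₂ ≤ T := by
    rw [hU₂, Subgroup.commutator_le]
    intro a ha b _
    exact ⟨hm a ha b, hone a b ha⟩
  intro x
  obtain ⟨u, hu, rfl⟩ := exists_mk x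
  obtain ⟨_, h1⟩ := hT hu
  exact h1

section Exp

variable {p : ℕ} [hel : Fact (Hel p G)]

theorem expA : ∀ x : Sec (⊤ : Subgroup G) (c2 G), p • x = 0 := by
  intro x
  obtain ⟨a, ha, rfl⟩ := exists_mk x
  rw [← mk_pow a ha p (Subgroup.mem_top _)]
  exact (mk_eq_zero _).2 (hel.out a)

theorem expB : ∀ x : Sec (c2 G) (c3 G), p • x = 0 :=
  exp_step (U₁ := ⊤) (V₁ := c2 G) expA (fun u hu g => comm_swap (mem3 hu g))

theorem expC : ∀ x : Sec (c3 G) (c4 G), p • x = 0 :=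
  exp_step (U₁ := c2 G) (V₁ := c3 G) expB (fun u hu g => comm_swap (mem4 hu g))

end Exp

/-- The class of an element in `G / c2`. -/
abbrev mA (x : G) : Sec (⊤ : Subgroup G) (c2 G) := mk x (Subgroup.mem_top x)

theorem mA_inv (x : G) : mA x⁻¹ = - mA x := mk_inv x _ _

theorem mA_mul (x y : G) : mA (x * y) = mA x + mA y := rfl

theorem mA_surj (a : Sec (⊤ : Subgroup G) (c2 G)) : ∃ x : G, mA x = a := by
  obtain ⟨x, _, rfl⟩ := exists_mk a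
  exact ⟨x, rfl⟩

theorem mA_eq_zero {x : G} : mA x = 0 ↔ x ∈ c2 G := mk_eq_zero _

section Lin

variable (p : ℕ) [hel : Fact (Hel p G)]

instance factEA : Fact (∀ x : Sec (⊤ : Subgroup G) (c2 G), p • x = 0) := ⟨expA⟩
instance factEB : Fact (∀ x : Sec (c2 G) (c3 G), p • x = 0) := ⟨expB⟩
instance factEC : Fact (∀ x : Sec (c3 G) (c4 G), p • x = 0) := ⟨expC⟩

end Lin

/-- The module structure on an elementary section. -/
instance secMod {p : ℕ} {U V : Subgroup G} [V.Normal] [Fact (SecC U V)] [h : Fact (∀ x : Sec U V, p • x = 0)] :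
    Module (ZMod p) (Sec U V) := AddCommGroup.zmodModule h.out

section Lin2

variable (p : ℕ) [hel : Fact (Hel p G)]

/-- `[a, b]` modulo `c3`. -/
def brL : Sec (⊤ : Subgroup G) (c2 G) →ₗ[ZMod p] Sec (⊤ : Subgroup G) (c2 G) →ₗ[ZMod p] Sec (c2 G) (c3 G) :=
  bil (pair okBr (AddMonoidHom.id _))

/-- `[e, a]` modulo `c4`. -/
def TL : Sec (c2 G) (c3 G) →ₗ[ZMod p] Sec (⊤ : Subgroup G) (c2 G) →ₗ[ZMod p] Sec (c3 G) (c4 G) :=
  bil (pair okT (AddMonoidHom.id _))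

variable {p}

theorem brL_mk (x y : G) : brL p (mA x) (mA y) = mk ⁅x, y⁆ (mem2 x y) := rfl

theorem TL_mk {e : G} (he : e ∈ c2 G) (y : G) : TL p (mk e he) (mA y) = mk ⁅e, y⁆ (mem3 he y) := rfl

theorem brL_alt (a : Sec (⊤ : Subgroup G) (c2 G)) : brL p a a = 0 := by
  obtain ⟨x, rfl⟩ := mA_surj a
  rw [brL_mk]
  apply (mk_eq_zero _).2
  rw [commutatorElement_self]
  exact Subgroup.one_mem _

/-- Central commutator conjugation in `L₂`. -/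
theorem ce2 : ∀ u ∈ c2 G, ∀ g : G, ⁅g, u⁆ ∈ c3 G := fun _ hu g => comm_swap (mem3 hu g)
/-- Central commutator conjugation in `L₃`. -/
theorem ce3 : ∀ u ∈ c3 G, ∀ g : G, ⁅g, u⁆ ∈ c4 G := fun _ hu g => comm_swap (mem4 hu g)

theorem mem_c2_of_c3 {e : G} (he : e ∈ c3 G) : e ∈ c2 G := Subgroup.commutator_le_left _ _ he
theorem mem_c3_of_c4 {e : G} (he : e ∈ c4 G) : e ∈ c3 G := Subgroup.commutator_le_left _ _ he

/-- The sum of the three classes of a Hall-Witt product. -/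
theorem hw_sum {U V : Subgroup G} [V.Normal] [hUn : U.Normal] [Fact (SecC U V)]
    (hce : ∀ u ∈ U, ∀ g : G, ⁅g, u⁆ ∈ V) {x y z t₁ t₂ t₃ : G} (h₁ : t₁ ∈ U) (h₂ : t₂ ∈ U) (h₃ : t₃ ∈ U)
    (h : (z * t₃ * z⁻¹) * (y * t₂ * y⁻¹) * (x * t₁ * x⁻¹) = 1) :
    (mk t₃ h₃ : Sec U V) + mk t₂ h₂ + mk t₁ h₁ = 0 := by
  have c₁ := hUn.conj_mem _ h₁ x
  have c₂ := hUn.conj_mem _ h₂ y
  have c₃ := hUn.conj_mem _ h₃ z
  rw [← mk_conj hce x t₁ h₁ c₁, ← mk_conj hce y t₂ h₂ c₂, ← mk_conj hce z t₃ h₃ c₃,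
    ← mk_mul _ _ c₃ c₂ (U.mul_mem c₃ c₂), ← mk_mul _ _ (U.mul_mem c₃ c₂) c₁ (U.mul_mem (U.mul_mem c₃ c₂) c₁)]
  exact (mk_eq_zero _).2 (by rw [h]; exact V.one_mem)

theorem hall_witt (x y z : G) :
    (z * ⁅⁅z⁻¹, x⁆, y⁆ * z⁻¹) * (y * ⁅⁅y⁻¹, z⁆, x⁆ * y⁻¹) * (x * ⁅⁅x⁻¹, y⁆, z⁆ * x⁻¹) = 1 := by
  simp only [commutatorElement_def]
  group

theorem J3 (a b c : Sec (⊤ : Subgroup G) (c2 G)) :
    TL p (brL p a b) c + TL p (brL p b c) a + TL p (brL p c a) b = 0 := by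
  obtain ⟨x, rfl⟩ := mA_surj a
  obtain ⟨y, rfl⟩ := mA_surj b
  obtain ⟨z, rfl⟩ := mA_surj c
  have h := hw_sum (V := c4 G) ce3 (mem3 (mem2 x⁻¹ y) z) (mem3 (mem2 y⁻¹ z) x) (mem3 (mem2 z⁻¹ x) y)
    (hall_witt x y z)
  have e₁ : (mk ⁅⁅x⁻¹, y⁆, z⁆ (mem3 (mem2 x⁻¹ y) z) : Sec (c3 G) (c4 G)) = - TL p (brL p (mA x) (mA y)) (mA z) := by
    rw [← TL_mk (p := p) (mem2 x⁻¹ y) z, ← brL_mk (p := p) x⁻¹ y, mA_inv]
    simp
  have e₂ : (mk ⁅⁅y⁻¹, z⁆, x⁆ (mem3 (mem2 y⁻¹ z) x) : Sec (c3 G) (c4 G)) = - TL p (brL p (mA y) (mA z)) (mA x) := by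
    rw [← TL_mk (p := p) (mem2 y⁻¹ z) x, ← brL_mk (p := p) y⁻¹ z, mA_inv]
    simp
  have e₃ : (mk ⁅⁅z⁻¹, x⁆, y⁆ (mem3 (mem2 z⁻¹ x) y) : Sec (c3 G) (c4 G)) = - TL p (brL p (mA z) (mA x)) (mA y) := by
    rw [← TL_mk (p := p) (mem2 z⁻¹ x) y, ← brL_mk (p := p) z⁻¹ x, mA_inv]
    simp
  rw [e₁, e₂, e₃] at h
  have h2 : TL p (brL p (mA x) (mA y)) (mA z) + TL p (brL p (mA y) (mA z)) (mA x)
      + TL p (brL p (mA z) (mA x)) (mA y) = -(-TL p (brL p (mA z) (mA x)) (mA y) + -TL p (brL p (mA y) (mA z)) (mA x) + -TL p (brL p (mA x) (mA y)) (mA z)) := by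
    abel
  rw [h2, h, neg_zero]

section K

variable (K : Subgroup G) [K.Normal] [hK5 : Fact (c5 G ≤ K)] (ν : Sec (c4 G) K →+ ZMod p)

/-- `[f, a]` modulo `K`. -/
def PsiL : Sec (c3 G) (c4 G) →ₗ[ZMod p] Sec (⊤ : Subgroup G) (c2 G) →ₗ[ZMod p] ZMod p :=
  bil (pair (okPsi K) ν)

/-- `[e, e']` modulo `K`. -/
def cL : Sec (c2 G) (c3 G) →ₗ[ZMod p] Sec (c2 G) (c3 G) →ₗ[ZMod p] ZMod p :=
  bil (pair (okC K) ν)

variable {K ν}

theorem PsiL_mk {f : G} (hf : f ∈ c3 G) (y : G) :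
    PsiL K ν (mk f hf) (mA y) = ν (mk ⁅f, y⁆ (mem4 hf y)) := rfl

theorem cL_mk {e e' : G} (he : e ∈ c2 G) (he' : e' ∈ c2 G) :
    cL K ν (mk e he) (mk e' he') = ν (mk ⁅e, e'⁆ (c22 he he')) := rfl

theorem cL_alt (e : Sec (c2 G) (c3 G)) : cL K ν e e = 0 := by
  obtain ⟨e, he, rfl⟩ := exists_mk e
  rw [cL_mk, (mk_eq_zero _).2 (by rw [commutatorElement_self]; exact Subgroup.one_mem _), map_zero]

theorem cL_anti (e e' : Sec (c2 G) (c3 G)) : cL K ν e e' = - cL K ν e' e := by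
  have h := cL_alt (K := K) (ν := ν) (e + e')
  simp only [map_add, LinearMap.add_apply, cL_alt, zero_add, add_zero] at h
  exact eq_neg_of_add_eq_zero_right h

theorem ce4 : ∀ u ∈ c4 G, ∀ g : G, ⁅g, u⁆ ∈ K := fun _ hu g => hK5.out (comm_swap (mem5 hu g))

theorem J4 (e : Sec (c2 G) (c3 G)) (a b : Sec (⊤ : Subgroup G) (c2 G)) :
    PsiL K ν (TL p e a) b - PsiL K ν (TL p e b) a = cL K ν e (brL p a b) := by
  obtain ⟨e, he, rfl⟩ := exists_mk e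
  obtain ⟨y, rfl⟩ := mA_surj a
  obtain ⟨z, rfl⟩ := mA_surj b
  have hei : e⁻¹ ∈ c2 G := Subgroup.inv_mem _ he
  have m₁ : ⁅⁅e⁻¹, y⁆, z⁆ ∈ c4 G := mem4 (mem3 hei y) z
  have m₂ : ⁅⁅y⁻¹, z⁆, e⁆ ∈ c4 G := c22 (mem2 y⁻¹ z) he
  have m₃' : ⁅z⁻¹, e⁆ ∈ c3 G := comm_swap (mem3 he z⁻¹)
  have m₃ : ⁅⁅z⁻¹, e⁆, y⁆ ∈ c4 G := mem4 m₃' y
  have h := hw_sum (V := K) ce4 m₁ m₂ m₃ (hall_witt e y z)
  have h2 := congrArg ν h
  rw [map_add, map_add, map_zero] at h2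
  have e₁ : ν (mk ⁅⁅e⁻¹, y⁆, z⁆ m₁) = - PsiL K ν (TL p (mk e he) (mA y)) (mA z) := by
    rw [← PsiL_mk (K := K) (ν := ν) (mem3 hei y) z, ← TL_mk (p := p) hei y, mk_inv e he hei]
    simp
  have e₂ : ν (mk ⁅⁅y⁻¹, z⁆, e⁆ m₂) = cL K ν (mk e he) (brL p (mA y) (mA z)) := by
    rw [cL_anti, ← cL_mk (K := K) (ν := ν) (mem2 y⁻¹ z) he]
    rw [brL_mk (p := p)]
    have h3 : (mk ⁅y⁻¹, z⁆ (mem2 y⁻¹ z) : Sec (c2 G) (c3 G)) = - mk ⁅y, z⁆ (mem2 y z) := by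
      rw [← brL_mk (p := p) y⁻¹ z, ← brL_mk (p := p) y z, mA_inv]
      simp
    rw [h3]
    simp
  have e₃ : ν (mk ⁅⁅z⁻¹, e⁆, y⁆ m₃) = PsiL K ν (TL p (mk e he) (mA z)) (mA y) := by
    rw [← PsiL_mk (K := K) (ν := ν) m₃' y, TL_mk (p := p) he z]
    have h3 : (mk ⁅e, z⁆ (mem3 he z) : Sec (c3 G) (c4 G)) = mk ⁅z⁻¹, e⁆ m₃' := by
      have h4 : ⁅e, z⁆ = z * ⁅z⁻¹, e⁆ * z⁻¹ := by
        simp only [commutatorElement_def]; group
      have hn := (Subgroup.commutator_normal (c2 G) ⊤).conj_mem _ m₃' z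
      rw [mk_congr h4 _ hn, mk_conj ce3 z _ m₃' hn]
    rw [h3]
  rw [e₁, e₂, e₃] at h2
  linear_combination -h2

/-- The Camina hypothesis. -/
def Cam (K : Subgroup G) : Prop := ∀ a : G, a ∉ c2 G → ∀ e ∈ c2 G, ∃ b, (b * a * b⁻¹)⁻¹ * (a * e) ∈ K

theorem cam_calc {U V : Subgroup G} [V.Normal] [hUn : U.Normal] [Fact (SecC U V)]
    (hce : ∀ u ∈ U, ∀ g : G, ⁅g, u⁆ ∈ V) {K' : Subgroup G} (hKU : K' ≤ U) (hKV : K' ≤ V) {x b e : G}
    (he : e ∈ U) (hb : (b * x * b⁻¹)⁻¹ * (x * e) ∈ K') :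
    ∃ h' : ⁅x, b⁻¹⁆ ∈ U, (mk ⁅x, b⁻¹⁆ h' : Sec U V) = mk e he := by
  set k := (b * x * b⁻¹)⁻¹ * (x * e) with hk
  have h1 : ⁅x, b⁻¹⁆ = (b⁻¹ * x) * (e * k⁻¹) * (b⁻¹ * x)⁻¹ := by
    rw [hk]
    simp only [commutatorElement_def]
    group
  have hm : e * k⁻¹ ∈ U := U.mul_mem he (U.inv_mem (hKU hb))
  have hn := hUn.conj_mem _ hm (b⁻¹ * x)
  refine ⟨h1 ▸ hn, ?_⟩
  rw [mk_congr h1 _ hn, mk_conj hce _ _ hm hn, mk_mul e k⁻¹ he (U.inv_mem (hKU hb)),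
    (mk_eq_zero _).2 (V.inv_mem (hKV hb)), add_zero]

variable [hK4 : Fact (K ≤ c4 G)]

omit hK5 in
theorem K_le_c3 : K ≤ c3 G := fun _ hk => mem_c3_of_c4 (hK4.out hk)

omit hK5 in
theorem K_le_c2 : K ≤ c2 G := fun _ hk => mem_c2_of_c3 (K_le_c3 hk)

omit hK5 in
theorem P1 (hcam : Cam K) (a : Sec (⊤ : Subgroup G) (c2 G)) (ha : a ≠ 0) :
    Function.Surjective (brL p a) := by
  intro t
  obtain ⟨x, rfl⟩ := mA_surj a
  obtain ⟨e, he, rfl⟩ := exists_mk t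
  have hx : x ∉ c2 G := fun h => ha (mA_eq_zero.2 h)
  obtain ⟨b, hb⟩ := hcam x hx e he
  obtain ⟨h', h''⟩ := cam_calc (U := c2 G) (V := c3 G) ce2 K_le_c2 K_le_c3 he hb
  exact ⟨mA b⁻¹, by rw [brL_mk]; exact h''⟩

theorem P2 (hP2 : ∀ e ∈ c2 G, e ∉ c3 G → ∀ f ∈ c3 G, ∃ a, ⁅e, a⁆ * f⁻¹ ∈ c4 G)
    (e : Sec (c2 G) (c3 G)) (he : e ≠ 0) : Function.Surjective (TL p e) := by
  intro t
  obtain ⟨e, he', rfl⟩ := exists_mk e
  obtain ⟨f, hf, rfl⟩ := exists_mk t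
  have hx : e ∉ c3 G := fun h => he ((mk_eq_zero _).2 h)
  obtain ⟨a, ha⟩ := hP2 e he' hx f hf
  exact ⟨mA a, by rw [TL_mk]; exact mk_eq_mk' _ _ ha⟩

theorem P3 (hν : Function.Injective ν) (hP3 : ∀ f ∈ c3 G, f ∉ c4 G → ∃ a, ⁅f, a⁆ ∉ K)
    (f : Sec (c3 G) (c4 G)) (hf : f ≠ 0) : PsiL K ν f ≠ 0 := by
  intro h
  obtain ⟨f, hf', rfl⟩ := exists_mk f
  have hx : f ∉ c4 G := fun h => hf ((mk_eq_zero _).2 h)
  obtain ⟨a, ha⟩ := hP3 f hf' hx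
  have h1 : PsiL K ν (mk f hf') (mA a) = 0 := by rw [h]; rfl
  rw [PsiL_mk] at h1
  have h2 : (mk ⁅f, a⁆ (mem4 hf' a) : Sec (c4 G) K) = 0 := hν (by rw [h1, map_zero])
  exact ha ((mk_eq_zero _).1 h2)

theorem C_nd (hν : Function.Injective ν)
    (hnd : ∀ e ∈ c2 G, e ∉ c3 G → ∃ e' ∈ c2 G, ⁅e, e'⁆ ∉ K)
    (e : Sec (c2 G) (c3 G)) (he : e ≠ 0) : cL K ν e ≠ 0 := by
  intro h
  obtain ⟨e, he', rfl⟩ := exists_mk e
  have hx : e ∉ c3 G := fun h => he ((mk_eq_zero _).2 h)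
  obtain ⟨a, ha, ha'⟩ := hnd e he' hx
  have h1 : cL K ν (mk e he') (mk a ha) = 0 := by rw [h]; rfl
  rw [cL_mk] at h1
  have h2 : (mk ⁅e, a⁆ (c22 he' ha) : Sec (c4 G) K) = 0 := hν (by rw [h1, map_zero])
  exact ha' ((mk_eq_zero _).1 h2)

theorem C_zero (hnd : ∀ e ∈ c2 G, ∀ e' ∈ c2 G, ⁅e, e'⁆ ∈ K) (e e' : Sec (c2 G) (c3 G)) :
    cL K ν e e' = 0 := by
  obtain ⟨e, he, rfl⟩ := exists_mk e
  obtain ⟨e', he', rfl⟩ := exists_mk e'
  rw [cL_mk, (mk_eq_zero _).2 (hnd e he e' he'), map_zero]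

end K

theorem prime_le_card {W : Type*} [AddCommGroup W] [Module (ZMod p) W] [Finite W] [Fact p.Prime] {v : W}
    (hv : v ≠ 0) : p ≤ Nat.card W := by
  have hinj : Function.Injective (fun t : ZMod p => t • v) := by
    intro s t hst
    exact smul_left_injective (ZMod p) hv hst
  have := Nat.card_le_card_of_injective _ hinj
  rwa [Nat.card_zmod] at this

section P4

variable [Fact p.Prime] [Finite G] (K : Subgroup G) [K.Normal] [hK4 : Fact (K ≤ c4 G)]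

theorem P4 (hcam : Cam K) (a : Sec (⊤ : Subgroup G) (c2 G)) (ha : a ≠ 0) :
    Nat.card (Sec (c3 G) (c4 G)) * p ≤
      Nat.card (LinearMap.range ((TL (G := G) p).flip a)) * Nat.card (LinearMap.ker (brL p a)) := by
  classical
  obtain ⟨x, rfl⟩ := mA_surj a
  have hx : x ∉ c2 G := fun h => ha (mA_eq_zero.2 h)
  set R := LinearMap.range ((TL (G := G) p).flip (mA x)) with hR
  set S := LinearMap.ker (brL (G := G) p (mA x)) with hS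
  -- elements of `S`
  have hmemS : ∀ b : G, mA b ∈ S → ⁅x, b⁆ ∈ c3 G := by
    intro b hb
    have h1 : brL p (mA x) (mA b) = 0 := hb
    rw [brL_mk] at h1
    exact (mk_eq_zero _).1 h1
  have hmemS' : ∀ b : G, ⁅x, b⁆ ∈ c3 G → mA b ∈ S := by
    intro b hb
    change brL p (mA x) (mA b) = 0
    rw [brL_mk]
    exact (mk_eq_zero _).2 hb
  -- additivity of `b ↦ [x, b]` modulo `c4`
  have hadd : ∀ (b c : G) (hb : ⁅x, b⁆ ∈ c3 G) (hc : ⁅x, c⁆ ∈ c3 G) (hbc : ⁅x, b * c⁆ ∈ c3 G),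
      (mk ⁅x, b * c⁆ hbc : Sec (c3 G) (c4 G)) = mk ⁅x, b⁆ hb + mk ⁅x, c⁆ hc := by
    intro b c hb hc hbc
    have h1 : ⁅x, b * c⁆ = ⁅x, b⁆ * (b * ⁅x, c⁆ * b⁻¹) := by
      simp only [commutatorElement_def]; group
    have hn := (Subgroup.commutator_normal (c2 G) ⊤).conj_mem _ hc b
    rw [mk_congr h1 _ (Subgroup.mul_mem _ hb hn), mk_mul _ _ hb hn, mk_conj ce3 b _ hc hn]
  have hRm : ∀ (e : G) (he : e ∈ c2 G) (h : ⁅x, e⁆ ∈ c3 G), (mk ⁅x, e⁆ h : Sec (c3 G) (c4 G)) ∈ R := by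
    intro e he h
    refine ⟨- mk e he, ?_⟩
    change TL p (- mk e he) (mA x) = _
    rw [map_neg, LinearMap.neg_apply, TL_mk]
    rw [← mk_inv _ (mem3 he x) (by rw [commutatorElement_inv]; exact h)]
    exact mk_congr (commutatorElement_inv _ _) _ _
  -- dependence only on the class
  have hwd : ∀ (b b' : G) (hb : ⁅x, b⁆ ∈ c3 G) (hb' : ⁅x, b'⁆ ∈ c3 G), mA b = mA b' →
      R.mkQ (mk ⁅x, b⁆ hb) = R.mkQ (mk ⁅x, b'⁆ hb') := by
    intro b b' hb hb' h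
    have he : b⁻¹ * b' ∈ c2 G := by
      have h1 : mA (b⁻¹ * b') = 0 := by
        rw [mA_mul, mA_inv, h]
        simp
      exact mA_eq_zero.1 h1
    have hxe : ⁅x, b⁻¹ * b'⁆ ∈ c3 G := comm_swap (mem3 he x)
    have hbb : b * (b⁻¹ * b') = b' := by group
    have h2 := hadd b (b⁻¹ * b') hb hxe (by rw [hbb]; exact hb')
    have h3 : ⁅x, b * (b⁻¹ * b')⁆ = ⁅x, b'⁆ := by rw [hbb]
    rw [mk_congr h3 _ hb'] at h2
    have h0 : R.mkQ (mk ⁅x, b⁻¹ * b'⁆ hxe) = 0 := (Submodule.Quotient.mk_eq_zero R).2 (hRm _ he hxe)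
    rw [h2, map_add, h0, add_zero]
  -- representatives
  have hrep : ∀ y : S, ∃ b : G, mA b = y ∧ ⁅x, b⁆ ∈ c3 G := by
    intro y
    obtain ⟨b, hb⟩ := mA_surj (y : Sec (⊤ : Subgroup G) (c2 G))
    exact ⟨b, hb, hmemS b (hb ▸ y.2)⟩
  choose rep hrep1 hrep2 using hrep
  let g : S → Sec (c3 G) (c4 G) ⧸ R := fun y => R.mkQ (mk ⁅x, rep y⁆ (hrep2 y))
  have hg : ∀ (b : G) (hb : ⁅x, b⁆ ∈ c3 G) (y : S), mA b = y → g y = R.mkQ (mk ⁅x, b⁆ hb) := by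
    intro b hb y hy
    exact hwd _ _ _ _ ((hrep1 y).trans hy.symm)
  have hgadd : ∀ y y', g (y + y') = g y + g y' := by
    intro y y'
    have h1 : ⁅x, rep y * rep y'⁆ ∈ c3 G := by
      apply hmemS
      rw [mA_mul, hrep1, hrep1]
      exact (y + y').2
    rw [hg _ h1 (y + y') (by rw [mA_mul, hrep1, hrep1]; rfl), hadd _ _ (hrep2 y) (hrep2 y') h1, map_add]
  let gL : S →ₗ[ZMod p] (Sec (c3 G) (c4 G) ⧸ R) := (AddMonoidHom.mk' g hgadd).toZModLinearMap p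
  have hgL : ∀ y, gL y = g y := fun y => rfl
  have hsurj : Function.Surjective gL := by
    intro q
    obtain ⟨f', rfl⟩ := R.mkQ_surjective q
    obtain ⟨f, hf, rfl⟩ := exists_mk f'
    obtain ⟨b, hb⟩ := hcam x hx f (mem_c2_of_c3 hf)
    obtain ⟨h', h''⟩ := cam_calc (U := c3 G) (V := c4 G) ce3 (K' := K)
      (fun _ hk => mem_c3_of_c4 (hK4.out hk)) hK4.out hf hb
    refine ⟨⟨mA b⁻¹, hmemS' _ h'⟩, ?_⟩
    rw [hgL, hg _ h' _ rfl, h'']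
  haveI : Finite (Sec (c3 G) (c4 G) ⧸ R) := Finite.of_surjective R.mkQ R.mkQ_surjective
  have hcard1 := Cfsg.Agent.Lib.NDF.Alg4.card_of_surj gL hsurj
  have hcard2 := Submodule.card_eq_card_quotient_mul_card R
  have hker : p ≤ Nat.card (LinearMap.ker gL) := by
    have hm : (⟨mA x, hmemS' x (by rw [commutatorElement_self]; exact Subgroup.one_mem _)⟩ : S) ∈
        LinearMap.ker gL := by
      rw [LinearMap.mem_ker, hgL,
        hg x (by rw [commutatorElement_self]; exact Subgroup.one_mem _) _ rfl]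
      rw [(mk_eq_zero _).2 (by rw [commutatorElement_self]; exact Subgroup.one_mem _), map_zero]
    refine prime_le_card (v := (⟨_, hm⟩ : LinearMap.ker gL)) ?_
    intro h
    have h1 := congrArg (fun t : LinearMap.ker gL => ((t : S) : Sec (⊤ : Subgroup G) (c2 G))) h
    exact ha h1
  rw [hcard1, hcard2]
  calc Nat.card R * Nat.card (Sec (c3 G) (c4 G) ⧸ R) * p
      ≤ Nat.card R * Nat.card (Sec (c3 G) (c4 G) ⧸ R) * Nat.card (LinearMap.ker gL) :=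
        Nat.mul_le_mul_left _ hker
    _ = Nat.card R * (Nat.card (LinearMap.ker gL) * Nat.card (Sec (c3 G) (c4 G) ⧸ R)) := by ring

end P4

theorem exists_q (h2 : p = 2) : ∃ q : Sec (⊤ : Subgroup G) (c2 G) → Sec (c2 G) (c3 G),
    ∀ a b, q (a + b) = q a + q b + brL p a b := by
  classical
  have hsq : ∀ x : G, x ^ 2 ∈ c2 G := fun x => by
    have := hel.out x
    rwa [h2] at this
  have h2L : ∀ t : Sec (c2 G) (c3 G), - t = t := by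
    intro t
    have : (2 : ℕ) • t = 0 := by
      have h := (expB (p := p) (G := G)) t
      rwa [h2] at h
    rw [two_nsmul] at this
    exact neg_eq_of_add_eq_zero_right this
  let Q : G → Sec (c2 G) (c3 G) := fun x => mk (x ^ 2) (hsq x)
  have hQmul : ∀ x y : G, Q (x * y) = Q x + Q y + brL p (mA x) (mA y) := by
    intro x y
    have h1 : (x * y) ^ 2 = x ^ 2 * (⁅x⁻¹, y⁆ * y ^ 2) := by
      simp only [commutatorElement_def, pow_two]; group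
    have hm2 := mem2 x⁻¹ y
    change mk ((x * y) ^ 2) (hsq _) = _
    rw [mk_congr h1 _ (Subgroup.mul_mem _ (hsq x) (Subgroup.mul_mem _ hm2 (hsq y))),
      mk_mul _ _ (hsq x) (Subgroup.mul_mem _ hm2 (hsq y)), mk_mul _ _ hm2 (hsq y)]
    have h3 : (mk ⁅x⁻¹, y⁆ hm2 : Sec (c2 G) (c3 G)) = brL p (mA x) (mA y) := by
      rw [← brL_mk (p := p) x⁻¹ y, mA_inv]
      simp only [map_neg, LinearMap.neg_apply]
      exact h2L _
    rw [h3]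
    change Q x + _ = _
    change Q x + (brL p (mA x) (mA y) + Q y) = _
    abel
  have hQe : ∀ e : G, e ∈ c2 G → Q e = 0 := by
    intro e he
    change mk (e ^ 2) (hsq e) = 0
    rw [mk_pow e he 2 (hsq e)]
    have h := (expB (p := p) (G := G)) (mk e he)
    rwa [h2] at h
  choose rep hrep using (mA_surj (G := G))
  refine ⟨fun a => Q (rep a), ?_⟩
  intro a b
  have he : (rep a * rep b)⁻¹ * rep (a + b) ∈ c2 G := by
    apply mA_eq_zero.1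
    rw [mA_mul, mA_inv, mA_mul, hrep, hrep, hrep]
    abel
  have h1 : rep (a + b) = (rep a * rep b) * ((rep a * rep b)⁻¹ * rep (a + b)) := by group
  change Q (rep (a + b)) = _
  rw [h1, hQmul, (mA_eq_zero.2 he), map_zero, hQe _ he, add_zero, add_zero, hQmul, hrep, hrep]

end Lin2

theorem sec_nontrivial {U V : Subgroup G} [V.Normal] [Fact (SecC U V)] (h : ∃ u ∈ U, u ∉ V) :
    Nontrivial (Sec U V) := by
  obtain ⟨u, hu, hu'⟩ := h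
  exact ⟨⟨mk u hu, 0, fun h0 => hu' ((mk_eq_zero _).1 h0)⟩⟩

/-- The abstract form of the group theorem. -/
theorem grp4_abs [Finite G] {p : ℕ} [hp : Fact p.Prime] (K : Subgroup G) [K.Normal]
    (hK4 : K ≤ c4 G) (hK5 : c5 G ≤ K) (hKi : K.relIndex (c4 G) = p)
    (hel : ∀ a : G, a ^ p ∈ c2 G) (hcam : Cam K)
    (hP2 : ∀ e ∈ c2 G, e ∉ c3 G → ∀ f ∈ c3 G, ∃ a, ⁅e, a⁆ * f⁻¹ ∈ c4 G)
    (hP3 : ∀ f ∈ c3 G, f ∉ c4 G → ∃ a, ⁅f, a⁆ ∉ K)
    (hnd : (∀ e ∈ c2 G, ∀ e' ∈ c2 G, ⁅e, e'⁆ ∈ K) ∨ (∀ e ∈ c2 G, e ∉ c3 G → ∃ e' ∈ c2 G, ⁅e, e'⁆ ∉ K)) :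
    False := by
  classical
  haveI fK4 : Fact (K ≤ c4 G) := ⟨hK4⟩
  haveI fK5 : Fact (c5 G ≤ K) := ⟨hK5⟩
  haveI fel : Fact (Hel p G) := ⟨hel⟩
  -- nontriviality
  have hne4 : ∃ t ∈ c4 G, t ∉ K := by
    by_contra h
    push Not at h
    have h1 : K.relIndex (c4 G) = 1 := Subgroup.relIndex_eq_one.2 h
    rw [hKi] at h1
    exact hp.out.one_lt.ne' h1
  have hle34 : ¬ c3 G ≤ c4 G := by
    intro h
    obtain ⟨t, ht, ht'⟩ := hne4
    exact ht' (hK5 (Subgroup.commutator_mono h le_rfl ht))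
  have hle23 : ¬ c2 G ≤ c3 G := fun h => hle34 (Subgroup.commutator_mono h le_rfl)
  have hle12 : ¬ (⊤ : Subgroup G) ≤ c2 G := fun h => hle23 (Subgroup.commutator_mono h le_rfl)
  haveI nA : Nontrivial (Sec (⊤ : Subgroup G) (c2 G)) := sec_nontrivial (by
    rw [SetLike.not_le_iff_exists] at hle12
    exact hle12)
  haveI nB : Nontrivial (Sec (c2 G) (c3 G)) := sec_nontrivial (by
    rw [SetLike.not_le_iff_exists] at hle23
    exact hle23)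
  haveI nC : Nontrivial (Sec (c3 G) (c4 G)) := sec_nontrivial (by
    rw [SetLike.not_le_iff_exists] at hle34
    exact hle34)
  -- the identification of `c4 / K` with `ZMod p`
  have hcardN : Nat.card (Sec (c4 G) K) = p := by
    rw [← hKi]
    rfl
  obtain ⟨ν, hν⟩ : ∃ ν : Sec (c4 G) K →+ ZMod p, Function.Injective ν := by
    haveI hcyc : IsAddCyclic (Sec (c4 G) K) := isAddCyclic_of_prime_card hcardN
    have e := zmodAddCyclicAddEquiv hcyc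
    rw [hcardN] at e
    exact ⟨e.symm.toAddMonoidHom, e.symm.injective⟩
  have hP1' := P1 (p := p) (K := K) hcam
  have hP2' := P2 (p := p) hP2
  have hP3' := P3 (p := p) (K := K) (ν := ν) hν hP3
  have hJ3' := J3 (p := p) (G := G)
  have hJ4' := J4 (p := p) (K := K) (ν := ν)
  have hP4' := P4 (p := p) K hcam
  rcases hnd with hnd | hnd
  · refine Cfsg.Agent.Lib.NDF.Alg4.alg4_c0 (brL p) (TL p) (PsiL K ν) brL_alt hP1' hP2' hP3' hJ3' ?_ hP4'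
    intro e a b
    have h := hJ4' e a b
    rw [C_zero hnd] at h
    exact sub_eq_zero.1 h
  · have hBeis : Nat.card (Sec (c2 G) (c3 G)) ^ 2 ≤ Nat.card (Sec (⊤ : Subgroup G) (c2 G)) :=
      Cfsg.Agent.Lib.NDF.Beisiegel.beisiegel_alg (brL p) brL_alt hP1' exists_q
    exact Cfsg.Agent.Lib.NDF.Alg4.alg4_c1 (brL p) (TL p) (PsiL K ν) (cL K ν) brL_alt cL_alt
      (fun e he => C_nd hν hnd e he) hP1' hP2' hP3' hJ3' hJ4' hP4' hBeis

end Main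

/-- (A15) The group form of class four. `γ₂ γ₃ γ₄ γ₅` are the lower central terms of `X`, `K ≤ γ₄`
normal in `X` of index `p`, `γ₅ ≤ K`. -/
theorem grp4 {Γ : Type u} [Group Γ] [Finite Γ] {p : ℕ} [Fact p.Prime] {X K : Subgroup Γ}
    (hXp : IsPGroup p X)
    (hKX : ∀ x ∈ X, ∀ k ∈ K, x * k * x⁻¹ ∈ K)
    (hK4 : K ≤ ⁅⁅⁅X, X⁆, X⁆, X⁆) (hK5 : (⁅⁅⁅⁅X, X⁆, X⁆, X⁆, X⁆ : Subgroup Γ) ≤ K)
    (hKi : K.relIndex ⁅⁅⁅X, X⁆, X⁆, X⁆ = p)
    (hel : ∀ a ∈ X, a ^ p ∈ (⁅X, X⁆ : Subgroup Γ))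
    (hcam : ∀ a ∈ X, a ∉ (⁅X, X⁆ : Subgroup Γ) → ∀ e ∈ (⁅X, X⁆ : Subgroup Γ), ∃ b ∈ X,
      (b * a * b⁻¹)⁻¹ * (a * e) ∈ K)
    (hP2 : ∀ e ∈ (⁅X, X⁆ : Subgroup Γ), e ∉ (⁅⁅X, X⁆, X⁆ : Subgroup Γ) →
      ∀ f ∈ (⁅⁅X, X⁆, X⁆ : Subgroup Γ), ∃ a ∈ X, (e * a * e⁻¹ * a⁻¹) * f⁻¹ ∈ (⁅⁅⁅X, X⁆, X⁆, X⁆ : Subgroup Γ))
    (hP3 : ∀ f ∈ (⁅⁅X, X⁆, X⁆ : Subgroup Γ), f ∉ (⁅⁅⁅X, X⁆, X⁆, X⁆ : Subgroup Γ) →
      ∃ a ∈ X, f * a * f⁻¹ * a⁻¹ ∉ K)
    (hnd : (∀ e ∈ (⁅X, X⁆ : Subgroup Γ), ∀ e' ∈ (⁅X, X⁆ : Subgroup Γ), e * e' * e⁻¹ * e'⁻¹ ∈ K) ∨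
      (∀ e ∈ (⁅X, X⁆ : Subgroup Γ), e ∉ (⁅⁅X, X⁆, X⁆ : Subgroup Γ) →
        ∃ e' ∈ (⁅X, X⁆ : Subgroup Γ), e * e' * e⁻¹ * e'⁻¹ ∉ K)) : False := by
  classical
  let ι : X →* Γ := X.subtype
  have hι : Function.Injective ι := Subtype.val_injective
  have h1 : (⊤ : Subgroup X).map ι = X := by
    change (⊤ : Subgroup X).map X.subtype = X
    rw [← MonoidHom.range_eq_map, Subgroup.range_subtype]
  have e2 : (c2 X).map ι = ⁅X, X⁆ := by rw [Subgroup.map_commutator, h1]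
  have e3 : (c3 X).map ι = ⁅⁅X, X⁆, X⁆ := by rw [Subgroup.map_commutator, e2, h1]
  have e4 : (c4 X).map ι = ⁅⁅⁅X, X⁆, X⁆, X⁆ := by rw [Subgroup.map_commutator, e3, h1]
  have e5 : (c5 X).map ι = ⁅⁅⁅⁅X, X⁆, X⁆, X⁆, X⁆ := by rw [Subgroup.map_commutator, e4, h1]
  have m2 : ∀ a : X, a ∈ c2 X ↔ (a : Γ) ∈ (⁅X, X⁆ : Subgroup Γ) := fun a => by
    rw [← e2]; exact (Subgroup.mem_map_iff_mem hι).symm
  have m3 : ∀ a : X, a ∈ c3 X ↔ (a : Γ) ∈ (⁅⁅X, X⁆, X⁆ : Subgroup Γ) := fun a => by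
    rw [← e3]; exact (Subgroup.mem_map_iff_mem hι).symm
  have m4 : ∀ a : X, a ∈ c4 X ↔ (a : Γ) ∈ (⁅⁅⁅X, X⁆, X⁆, X⁆ : Subgroup Γ) := fun a => by
    rw [← e4]; exact (Subgroup.mem_map_iff_mem hι).symm
  have m5 : ∀ a : X, a ∈ c5 X ↔ (a : Γ) ∈ (⁅⁅⁅⁅X, X⁆, X⁆, X⁆, X⁆ : Subgroup Γ) := fun a => by
    rw [← e5]; exact (Subgroup.mem_map_iff_mem hι).symm
  let K' : Subgroup X := K.subgroupOf X
  have mK : ∀ a : X, a ∈ K' ↔ (a : Γ) ∈ K := fun a => Subgroup.mem_subgroupOf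
  haveI hKn : K'.Normal := ⟨fun n hn g => (mK _).2 (by
    have := hKX g g.2 n ((mK n).1 hn)
    simpa using this)⟩
  refine grp4_abs (G := X) (p := p) K' ?_ ?_ ?_ ?_ ?_ ?_ ?_ ?_
  · intro a ha
    exact (m4 a).2 (hK4 ((mK a).1 ha))
  · intro a ha
    exact (mK a).2 (hK5 ((m5 a).1 ha))
  · have : K'.relIndex (c4 X) = K.relIndex ((c4 X).map ι) := Subgroup.relIndex_comap K ι (c4 X)
    rw [this, e4, hKi]
  · intro a
    apply (m2 _).2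
    have := hel a a.2
    simpa using this
  · intro a ha e he
    obtain ⟨b, hb, hb'⟩ := hcam a a.2 (fun h => ha ((m2 a).2 h)) e ((m2 e).1 he)
    refine ⟨⟨b, hb⟩, (mK _).2 ?_⟩
    simpa using hb'
  · intro e he he' f hf
    obtain ⟨a, ha, ha'⟩ := hP2 e ((m2 e).1 he) (fun h => he' ((m3 e).2 h)) f ((m3 f).1 hf)
    refine ⟨⟨a, ha⟩, (m4 _).2 ?_⟩
    simpa [commutatorElement_def] using ha'
  · intro f hf hf'
    obtain ⟨a, ha, ha'⟩ := hP3 f ((m3 f).1 hf) (fun h => hf' ((m4 f).2 h))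
    refine ⟨⟨a, ha⟩, fun h => ha' ?_⟩
    have := (mK _).1 h
    simpa [commutatorElement_def] using this
  · rcases hnd with hnd | hnd
    · left
      intro e he e' he'
      apply (mK _).2
      have := hnd e ((m2 e).1 he) e' ((m2 e').1 he')
      simpa [commutatorElement_def] using this
    · right
      intro e he he'
      obtain ⟨e', h1', h2'⟩ := hnd e ((m2 e).1 he) (fun h => he' ((m3 e).2 h))
      have hX : e' ∈ X := by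
        have : (⁅X, X⁆ : Subgroup Γ) ≤ X := by
          rw [Subgroup.commutator_le]
          intro a ha b hb
          rw [commutatorElement_def]
          exact X.mul_mem (X.mul_mem (X.mul_mem ha hb) (X.inv_mem ha)) (X.inv_mem hb)
        exact this h1'
      refine ⟨⟨e', hX⟩, (m2 _).2 h1', fun h => h2' ?_⟩
      have := (mK _).1 h
      simpa [commutatorElement_def] using this

end Cfsg.Agent.Lib.NDF.Grp4
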