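import Cfsg.Agent.Lib.NDF.IIDefs
import Cfsg.Agent.Lib.NDF.CyclicFpf
import Cfsg.Agent.Lib.NoDiv.Camina
import Cfsg.Agent.Lib.Char.GoingDown

/-!
# S4780, block II: group theory of the complement `L` (T-lemmas). All short, elementwise.
Free module, stubs: see the docstrings.
-/

set_option autoImplicit false
set_option linter.unusedSectionVars false

namespace Cfsg.Agent.Lib.NDF.IIBasic

open Cfsg Cfsg.Agent.Lib.NoDiv.Defs Cfsg.Agent.Lib.NDF.Defs Cfsg.Agent.Lib.NDF.IIDefs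
open Cfsg.Agent.Lib.NoDiv.XLemma

universe u

variable {G : Type u} [Group G] {H Y E L : Subgroup G}

theorem en (h : IID H Y E L) : E.Normal := by
  rw [h.hE]
  haveI := h.st.nH
  exact Subgroup.commutator_normal H H

/-- `E = G' ∩ Y`. -/
theorem E_le_Y (h : IID H Y E L) : E ≤ Y := by
  rw [h.hE, ← h.st.GE]
  exact inf_le_right

theorem E_le_G' (h : IID H Y E L) : E ≤ commutator G := by
  rw [h.hE, ← h.st.GE]
  exact inf_le_left

theorem G'_le_H (h : IID H Y E L) : commutator G ≤ H := by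
  rw [commutator_def, Subgroup.commutator_le]
  intro a _ b _
  exact h.st.ab a b

theorem comm_mem (a b : G) : a * b * a⁻¹ * b⁻¹ ∈ commutator G := by
  have := Subgroup.commutator_mem_commutator (Subgroup.mem_top a) (Subgroup.mem_top b)
  rwa [commutatorElement_def] at this

theorem hLB (h : IID H Y E L) : ∀ a b : L, a * b * a⁻¹ * b⁻¹ ∈ BL L := by
  intro a b
  rw [Subgroup.mem_subgroupOf]
  have := comm_mem (a : G) (b : G)
  simpa using this

theorem hBn (h : IID H Y E L) : (BL L).Normal := by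
  haveI : (commutator G).Normal := inferInstance
  exact Subgroup.Normal.subgroupOf ‹_› L

theorem hRn (h : IID H Y E L) : (RL H L).Normal := h.st.nH.subgroupOf L

theorem hBR (h : IID H Y E L) : BL L ≤ RL H L := fun _ hb => G'_le_H h hb

/-- A commutator in `E` and in `L` is trivial. -/
theorem comm_of_mem (h : IID H Y E L) {a b : L} (hab : (a : G) * b * (a : G)⁻¹ * (b : G)⁻¹ ∈ E) :
    a * b = b * a := by
  have h1 : (a : G) * b * (a : G)⁻¹ * (b : G)⁻¹ ∈ L :=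
    L.mul_mem (L.mul_mem (L.mul_mem a.2 b.2) (L.inv_mem a.2)) (L.inv_mem b.2)
  have h2 := h.disj _ h1 hab
  apply Subtype.ext
  have h3 : (a : G) * b * (a : G)⁻¹ = b := mul_inv_eq_one.1 h2
  exact mul_inv_eq_iff_eq_mul.1 h3

/-- `[a, b] ∈ ⁅G', G'⁆ = E` (`St.E2`) and `∈ L`. -/
theorem hBab (h : IID H Y E L) : ∀ a ∈ BL L, ∀ b ∈ BL L, a * b = b * a := by
  intro a ha b hb
  apply comm_of_mem h
  rw [h.hE, ← h.st.E2, ← commutatorElement_def]
  exact Subgroup.commutator_mem_commutator ha hb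

/-- `b ∈ G' ∩ Y = E`, `b ∈ L`. -/
theorem hBY (h : IID H Y E L) : ∀ b : L, b ∈ BL L → (b : G) ∈ Y → b = 1 := by
  intro b hb hbY
  have h1 : (b : G) ∈ commutator G ⊓ Y := ⟨hb, hbY⟩
  rw [h.st.GE, ← h.hE] at h1
  exact Subtype.ext (h.disj _ b.2 h1)

/-- `[g, z] ∈ E` (`St.Yz`) and `∈ L`. -/
theorem hZ (h : IID H Y E L) : ∀ z : L, (z : G) ∈ Y → ∀ g : L, g * z = z * g := by
  intro z hz g
  apply comm_of_mem h
  rw [h.hE]
  exact h.st.Yz z hz g

/-- `St.fpf`, `hBY`. -/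
theorem hfB (h : IID H Y E L) : ∀ g : L, g ∉ RL H L → ∀ b ∈ BL L, g * b = b * g → b = 1 := by
  intro g hg b hb hgb
  apply hBY h b hb
  refine h.st.fpf g hg b (hBR h hb) ?_
  have h1 : (g : G) * b = b * g := congrArg Subtype.val hgb
  rw [h1]
  have : (b : G) * g * (g : G)⁻¹ * (b : G)⁻¹ = 1 := by group
  rw [this]
  exact Y.one_mem

/-- Lift to `L` modulo `Y` of an element of `H`. -/
theorem exists_lift (h : IID H Y E L) {c : G} (hc : c ∈ H) :
    ∃ l ∈ L, l ∈ commutator G ∧ l⁻¹ * c ∈ Y := by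
  obtain ⟨d, hd, hdc⟩ := h.st.GY c hc
  obtain ⟨e, he, l, hl, rfl⟩ := h.dec d
  have heG := E_le_G' h he
  refine ⟨l, hl, ?_, ?_⟩
  · have := (commutator G).mul_mem ((commutator G).inv_mem heG) hd
    simpa using this
  · have h1 : l⁻¹ * e * l ∈ Y := by
      have := (en h).conj_mem e he l⁻¹
      simpa using E_le_Y h this
    have h2 := Y.mul_mem h1 hdc
    have h3 : l⁻¹ * e * l * ((e * l)⁻¹ * c) = l⁻¹ * c := by group
    rwa [h3] at h2

/-- `r ∈ H`: `St.GY` gives `d ∈ G'`, `d⁻¹ r ∈ Y`, `d = e b` (`dec`), `b ∈ L ∩ G'` since `E ≤ G'`;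
`z = b⁻¹ r ∈ L ∩ Y` since `E ≤ Y`, `Y` normal. -/
theorem hRdec (h : IID H Y E L) : ∀ r ∈ RL H L, ∃ b ∈ BL L, ∃ z : L, (z : G) ∈ Y ∧ r = b * z := by
  intro r hr
  obtain ⟨l, hl, hlG, hlY⟩ := exists_lift h hr
  refine ⟨⟨l, hl⟩, hlG, ⟨l, hl⟩⁻¹ * r, hlY, by simp⟩

/-- `hRdec`, `hBab`, `hZ`. -/
theorem hRB (h : IID H Y E L) : ∀ r ∈ RL H L, ∀ b ∈ BL L, r * b = b * r := by
  intro r hr b hb
  obtain ⟨b', hb', z, hz, rfl⟩ := hRdec h r hr
  calc b' * z * b = b' * (z * b) := by rw [mul_assoc]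
    _ = b' * (b * z) := by rw [hZ h z hz b]
    _ = (b' * b) * z := by rw [mul_assoc]
    _ = (b * b') * z := by rw [hBab h b' hb' b hb]
    _ = b * (b' * z) := by rw [mul_assoc]

/-- `St.ne`: `c ∈ H ∖ Y`, `d ∈ G'`, `d⁻¹ c ∈ Y`, `d = e l`: `l ∈ BL`, `l ∉ Y`, so `l ≠ 1`. -/
theorem BL_ne (h : IID H Y E L) : BL L ≠ ⊥ := by
  intro h0
  obtain ⟨c, hc, hcY⟩ := h.st.ne
  obtain ⟨l, hl, hlG, hlY⟩ := exists_lift h hc
  have h1 : (⟨l, hl⟩ : L) ∈ BL L := hlG
  rw [h0, Subgroup.mem_bot] at h1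
  have h2 : l = 1 := congrArg Subtype.val h1
  rw [h2] at hlY
  apply hcY
  simpa using hlY

/-- `BL → H / Y` is bijective (`hBY`, and `hRdec`-style surjectivity). -/
theorem card_BL [Finite G] (h : IID H Y E L) : Nat.card (BL L) = Y.relIndex H := by
  classical
  let f : BL L → H ⧸ Y.subgroupOf H := fun b =>
    QuotientGroup.mk ⟨(b : L), G'_le_H h b.2⟩
  have hinj : Function.Injective f := by
    intro b b' hbb
    have h1 := QuotientGroup.eq.1 hbb
    have h2 : ((b : L) : G)⁻¹ * ((b' : L) : G) ∈ Y := by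
      simpa [Subgroup.mem_subgroupOf] using h1
    have h3 : (b : L)⁻¹ * (b' : L) = 1 := by
      apply hBY h _ ((BL L).mul_mem ((BL L).inv_mem b.2) b'.2)
      simpa using h2
    apply Subtype.ext
    exact inv_mul_eq_one.1 h3
  have hsurj : Function.Surjective f := by
    intro x
    obtain ⟨⟨c, hc⟩, rfl⟩ := QuotientGroup.mk_surjective x
    obtain ⟨l, hl, hlG, hlY⟩ := exists_lift h hc
    refine ⟨⟨⟨l, hl⟩, hlG⟩, ?_⟩
    apply QuotientGroup.eq.2
    simpa [Subgroup.mem_subgroupOf] using hlY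
  exact Nat.card_congr (Equiv.ofBijective f ⟨hinj, hsurj⟩)

/-- `L → G / H` is onto (`dec`, `E ≤ H`) with kernel `RL`. -/
theorem idx_RL [Finite G] (h : IID H Y E L) : (RL H L).index = H.index := by
  haveI := h.st.nH
  have h1 : H.relIndex (L ⊔ H) = H.relIndex L := Subgroup.relIndex_sup_right L H
  have h2 : L ⊔ H = ⊤ := by
    rw [eq_top_iff]
    intro g _
    obtain ⟨e, he, l, hl, rfl⟩ := h.dec g
    have heH : e ∈ H := h.st.YH (E_le_Y h he)
    exact (L ⊔ H).mul_mem (Subgroup.mem_sup_right heH) (Subgroup.mem_sup_left hl)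
  rw [h2, Subgroup.relIndex_top_right] at h1
  exact h1.symm

theorem cop_BR [Finite G] (h : IID H Y E L) : Nat.Coprime (Nat.card (BL L)) (RL H L).index := by
  rw [card_BL h, idx_RL h]
  exact h.st.cop.symm

/-- From `II`. -/
theorem cop_BE [Finite G] (h : IID H Y E L) : Nat.Coprime (Nat.card (BL L)) (Nat.card E) := by
  rw [card_BL h]
  apply Nat.coprime_of_dvd
  intro k hk h1 h2
  exact h.II k hk h1 h2

/-- `|Hom(E, ℂˣ)| = |E : E'|` (`Char.GoingDown.card_dualOf` with `L = commutator E`; `dualOf` is `⊤`). -/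
theorem card_V [Finite G] : Nat.card (E →* ℂˣ) = (commutator E).index := by
  have h1 := Cfsg.Agent.Lib.Char.GoingDown.card_dualOf (K := E) (L := commutator E) inferInstance
    (fun a b => comm_mem a b)
  rw [← h1]
  have h2 : Cfsg.Agent.Lib.Char.GoingDown.dualOf (commutator E) = ⊤ := by
    rw [eq_top_iff]
    intro μ _ l hl
    exact Cfsg.Agent.Lib.NoDiv.Camina.hom_commutator μ hl
  rw [h2, Subgroup.card_top]

theorem cop_BV [Finite G] (h : IID H Y E L) : Nat.Coprime (Nat.card (BL L)) (Nat.card (E →* ℂˣ)) := by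
  rw [card_V]
  exact Nat.Coprime.coprime_dvd_right (Subgroup.index_dvd_card _) (cop_BE h)

/-- `E ≠ ⊥` solvable, so `E' ≠ E`; `NoDiv.Camina.exists_hom_ne`. -/
theorem exV [Finite G] [Group.IsSolvable G] (h : IID H Y E L) : ∃ δ : E →* ℂˣ, δ ≠ 1 := by
  haveI : Nontrivial E := (Subgroup.nontrivial_iff_ne_bot E).2 h.E1
  have h1 : commutator E < ⊤ := Group.IsSolvable.commutator_lt_top_of_nontrivial E
  obtain ⟨x, -, hx⟩ := SetLike.exists_of_lt h1
  obtain ⟨β, -, hβ⟩ := Cfsg.Agent.Lib.NoDiv.Camina.exists_hom_ne (K := E) (L := commutator E) inferInstance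
    (fun a b => comm_mem a b) hx
  exact ⟨β, fun h0 => hβ (by rw [h0]; rfl)⟩

/-- `L / R` is cyclic: `NDF.CyclicFpf.cyclic_fpf` with `Γ = L`, `N = BL`, `U = ⊤`, `J = RL`; `hRB` and `hLB` give `hcomm`. -/
theorem cyc [Finite G] (h : IID H Y E L) : ∃ c : L, ∀ g : L, ∃ k : ℕ, g * (c ^ k)⁻¹ ∈ RL H L := by
  obtain ⟨c, -, hc⟩ := Cfsg.Agent.Lib.NDF.CyclicFpf.cyclic_fpf (Γ := L) (N := BL L) (U := ⊤) (J := RL H L)
    (hBab h) (BL_ne h) (fun u _ n hn => (hBn h).conj_mem n hn u)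
    (by
      intro u _ v _ n hn
      have hr : u⁻¹ * v⁻¹ * u * v ∈ RL H L := by
        have := hBR h (hLB h u⁻¹ v⁻¹)
        simpa using this
      have h1 := hRB h _ hr n hn
      have h2 : u * v = v * u * (u⁻¹ * v⁻¹ * u * v) := by group
      calc u * (v * n * v⁻¹) * u⁻¹ = (u * v) * n * (u * v)⁻¹ := by group
        _ = v * u * ((u⁻¹ * v⁻¹ * u * v) * n) * (u⁻¹ * v⁻¹ * u * v)⁻¹ * (v * u)⁻¹ := by
            rw [h2]; group
        _ = v * u * (n * (u⁻¹ * v⁻¹ * u * v)) * (u⁻¹ * v⁻¹ * u * v)⁻¹ * (v * u)⁻¹ := by rw [h1]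
        _ = v * (u * n * u⁻¹) * v⁻¹ := by group)
    le_top
    (by
      intro u _ hu n hn hun
      refine hfB h u hu n hn ?_
      exact mul_inv_eq_iff_eq_mul.1 hun)
  exact ⟨c, fun g => hc g (Subgroup.mem_top g)⟩

end Cfsg.Agent.Lib.NDF.IIBasic
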