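import Cfsg.Agent.Lib.NDF.UniqueOver
import Cfsg.Agent.Lib.Char.BrauerPerm
import Cfsg.Agent.Lib.Char.Linear
import Cfsg.Agent.Lib.Char.Degree

/-!
# Fixed irreducible characters over a central subgroup (A7 of `Lib/NDF`)

`⟨α⟩` is a `q`-group. A fixed class has size prime to `q`, so contains a fixed element, which lies in the central `N`:
`#fixed classes = |C_N(α)| = #fixed Irr(X)`, and also `= #fixed Irr(N)` (Brauer's permutation lemma in `N`).
For a fixed `μ`: `∑_{χ over μ} χ(1)² = |X:N|` is prime to `q`, `α` permutes these `χ`, so there is a fixed `χ` over `μ`.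
So fixed `χ` ↦ fixed `μ` is onto, with equal cardinalities, hence bijective.
-/

set_option autoImplicit false

namespace Cfsg.Agent.Lib.NDF.UniqueFixed

open Cfsg Module
open Cfsg.Agent.Lib.Char.Basic Cfsg.Agent.Lib.Char.Ortho Cfsg.Agent.Lib.Char.Complete
open Cfsg.Agent.Lib.Char.Conj Cfsg.Agent.Lib.Char.Linear Cfsg.Agent.Lib.Char.Degree
open Cfsg.Agent.Lib.Char.CentralCount Cfsg.Agent.Lib.Char.BrauerPerm
open Cfsg.Agent.Lib.NDF.UniqueOver
open scoped ComplexConjugate

universe u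

/-- A permutation of order a power of `q` with an invariant weight of total weight prime to `q` has a fixed point. -/
theorem exists_fixed_of_weight {S : Type*} [Fintype S] (σ : Equiv.Perm S) (w : S → ℕ)
    (hw : ∀ s, w (σ s) = w s) {q k : ℕ} (hq : q.Prime) (hσ : σ ^ (q ^ k) = 1)
    (h : ¬ q ∣ ∑ s, w s) : ∃ s, σ s = s := by
  classical
  haveI : Fact q.Prime := ⟨hq⟩
  let T := Σ s : S, Fin (w s)
  let τ : Equiv.Perm T := Equiv.sigmaCongr σ (fun s => finCongr (hw s).symm)
  have hτ1 : ∀ x : T, (τ x).1 = σ x.1 := fun _ => rfl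
  have hτ2 : ∀ x : T, ((τ x).2 : ℕ) = x.2 := fun _ => rfl
  have key : ∀ (m : ℕ) (x : T), ((τ ^ m) x).1 = (σ ^ m) x.1 ∧ (((τ ^ m) x).2 : ℕ) = x.2 := by
    intro m
    induction m with
    | zero => intro x; exact ⟨rfl, rfl⟩
    | succ m ih =>
      intro x
      rw [pow_succ, pow_succ, Equiv.Perm.mul_apply, Equiv.Perm.mul_apply]
      obtain ⟨h1, h2⟩ := ih (τ x)
      exact ⟨h1.trans (congrArg _ (hτ1 x)), h2.trans (hτ2 x)⟩
  have hτ : τ ^ (q ^ k) = 1 := by
    apply Equiv.ext
    intro x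
    obtain ⟨h1, h2⟩ := key (q ^ k) x
    rw [hσ] at h1
    have e : ∀ y z : T, y.1 = z.1 → (y.2 : ℕ) = z.2 → y = z := by
      rintro ⟨a, i⟩ ⟨b, j⟩ hab hij
      cases hab
      congr
      exact Fin.ext hij
    exact e _ _ h1 h2
  have hcard : Fintype.card T = ∑ s, w s := by
    simp [T]
  obtain ⟨x, hx⟩ := Equiv.Perm.exists_fixed_point_of_prime (p := q) (n := k) (by rw [hcard]; exact h) hτ
  refine ⟨x.1, ?_⟩
  have := congrArg Sigma.fst hx
  exact this

section Main

variable {X : Type u} [Group X] [Fintype X] {N : Subgroup X} [Fintype N]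

omit [Fintype X] [Fintype N] in
/-- Powers of an automorphism are iterates. -/
theorem pow_apply (α : MulAut X) (m : ℕ) (x : X) : (α ^ m) x = α^[m] x := by
  induction m generalizing x with
  | zero => rfl
  | succ m ih =>
    rw [pow_succ, MulAut.mul_apply, ih, Function.iterate_succ_apply]

omit [Fintype N] in
/-- The conjugation of a character by an automorphism. -/
noncomputable def sigma (α : MulAut X) : Equiv.Perm (IrrCharacter X) where
  toFun χ := ⟨(χ : X → ℂ) ∘ α, isIrrCharacter_comp_mulEquiv α χ.2⟩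
  invFun χ := ⟨(χ : X → ℂ) ∘ α.symm, isIrrCharacter_comp_mulEquiv α.symm χ.2⟩
  left_inv χ := by
    apply Subtype.ext
    funext x
    simp
  right_inv χ := by
    apply Subtype.ext
    funext x
    simp

omit [Fintype N] in
theorem sigma_apply (α : MulAut X) (χ : IrrCharacter X) (x : X) :
    ((sigma α χ : IrrCharacter X) : X → ℂ) x = (χ : X → ℂ) (α x) := rfl

omit [Fintype N] in
theorem sigma_pow (α : MulAut X) (m : ℕ) (χ : IrrCharacter X) (x : X) :
    (((sigma α ^ m) χ : IrrCharacter X) : X → ℂ) x = (χ : X → ℂ) ((α ^ m) x) := by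
  induction m generalizing χ x with
  | zero => rfl
  | succ m ih =>
    rw [pow_succ, Equiv.Perm.mul_apply, ih, sigma_apply, pow_succ', MulAut.mul_apply]

omit [Fintype N] in
theorem sigma_pow_eq_one (α : MulAut X) {m : ℕ} (hα : α ^ m = 1) : sigma α ^ m = 1 := by
  apply Equiv.ext
  intro χ
  apply Subtype.ext
  funext x
  rw [sigma_pow, hα]
  rfl

/-- Existence: there is a fixed character over a fixed central character. -/
theorem exists_fixed_over (hNc : ∀ n ∈ N, ∀ x, x * n = n * x) (α : MulAut X) {q k : ℕ} (hq : q.Prime)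
    (hα : α ^ (q ^ k) = 1) (hcop : ¬ q ∣ Nat.card X) (hαN : ∀ n ∈ N, α n ∈ N)
    (hαs : ∀ n ∈ N, ∃ m ∈ N, α m = n)
    (μ : N →* ℂˣ) (hμ : ∀ n : N, μ ⟨α n, hαN n n.2⟩ = μ n) :
    ∃ χ : IrrCharacter X, sigma α χ = χ ∧ Ov μ χ := by
  classical
  have := finite_irrCharacter (G := X)
  letI := Fintype.ofFinite (IrrCharacter X)
  have hiff : ∀ χ : IrrCharacter X, Ov μ (sigma α χ) ↔ Ov μ χ := by
    intro χ
    constructor
    · intro h n
      obtain ⟨m, hm, hmn⟩ := hαs n n.2
      have h1 := h ⟨m, hm⟩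
      rw [sigma_apply, sigma_apply, map_one] at h1
      have h2 : μ ⟨m, hm⟩ = μ n := by
        rw [← hμ ⟨m, hm⟩]
        congr 1
        exact Subtype.ext hmn
      rw [h2] at h1
      change (χ : X → ℂ) (α m) = _ at h1
      rw [hmn] at h1
      exact h1
    · intro h n
      rw [sigma_apply, sigma_apply, map_one]
      have h1 := h ⟨α n, hαN n n.2⟩
      rw [hμ n] at h1
      exact h1
  let τ : Equiv.Perm {χ : IrrCharacter X // Ov μ χ} := (sigma α).subtypePerm hiff
  have hτ : τ ^ (q ^ k) = 1 := by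
    apply Equiv.ext
    intro χ
    apply Subtype.ext
    have h1 : (((τ ^ (q ^ k)) χ : {χ : IrrCharacter X // Ov μ χ}) : IrrCharacter X) = (sigma α ^ (q ^ k)) χ.1 := by
      rw [Equiv.Perm.subtypePerm_pow]
      rfl
    rw [h1, sigma_pow_eq_one α hα]
    rfl
  let w : {χ : IrrCharacter X // Ov μ χ} → ℕ := fun χ => charDegree (χ.1 : X → ℂ) ^ 2
  have hw : ∀ s, w (τ s) = w s := by
    intro s
    change charDegree ((sigma α s.1 : IrrCharacter X) : X → ℂ) ^ 2 = _
    congr 1
    obtain ⟨d, -, hd⟩ := exists_pos_deg_of_isIrr s.1.2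
    rw [charDegree_eq_of_eq_natCast hd]
    apply charDegree_eq_of_eq_natCast
    rw [sigma_apply, map_one]
    exact hd
  have hsum : (∑ s, w s) * Nat.card N = Nat.card X := by
    have h1 := sum_over hNc μ (1 : X)
    rw [dif_pos (one_mem N)] at h1
    have h3 : μ ⟨1, one_mem N⟩ = 1 := map_one μ
    rw [h3, Units.val_one, mul_one] at h1
    have h2 : ∑ χ : IrrCharacter X, (if Ov μ χ then (χ : X → ℂ) 1 * (χ : X → ℂ) 1 else 0) =
        ((∑ s, w s : ℕ) : ℂ) := by
      rw [← Finset.sum_filter, Finset.sum_subtype (p := Ov μ) (Finset.univ.filter (Ov μ)) (by simp)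
        (fun χ : IrrCharacter X => (χ : X → ℂ) 1 * (χ : X → ℂ) 1), Nat.cast_sum]
      refine Finset.sum_congr rfl ?_
      intro s _
      change _ = ((charDegree (s.1 : X → ℂ) ^ 2 : ℕ) : ℂ)
      rw [Nat.cast_pow, charDegree_natCast (isCharacter_of_isIrrCharacter s.1.2), sq]
    rw [h2] at h1
    have h4 : ((Nat.card N * ∑ s, w s : ℕ) : ℂ) = (Nat.card X : ℂ) := by
      push_cast
      push_cast at h1
      exact h1
    rw [mul_comm]
    exact_mod_cast h4
  have hnd : ¬ q ∣ ∑ s, w s := fun h => hcop (hsum ▸ h.mul_right _)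
  obtain ⟨s, hs⟩ := exists_fixed_of_weight τ w hw hq hτ hnd
  exact ⟨s.1, congrArg Subtype.val hs, s.2⟩

/-- A fixed class contains a fixed element. -/
theorem exists_fixed_in_class (α : MulAut X) {q k : ℕ} (hq : q.Prime) (hα : α ^ (q ^ k) = 1)
    (hcop : ¬ q ∣ Nat.card X) (x₀ : X) (hx₀ : IsConj (α x₀) x₀) : ∃ x, IsConj x x₀ ∧ α x = x := by
  classical
  haveI : Fact q.Prime := ⟨hq⟩
  let S := {x : X // IsConj x x₀}
  have hSmem : ∀ x : S, IsConj (α x.1) x₀ := fun x =>
    ((α : X ≃* X).toMonoidHom.map_isConj x.2).trans hx₀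
  let f : S → S := fun x => ⟨α x.1, hSmem x⟩
  have hf : Function.Injective f := by
    intro a b h
    apply Subtype.ext
    apply α.injective
    exact congrArg Subtype.val h
  let σ : Equiv.Perm S := Equiv.ofBijective f (Finite.injective_iff_bijective.1 hf)
  have hσ1 : ∀ x : S, (σ x).1 = α x.1 := fun _ => rfl
  have key : ∀ (m : ℕ) (x : S), ((σ ^ m) x).1 = (α ^ m) x.1 := by
    intro m
    induction m with
    | zero => intro x; rfl
    | succ m ih =>
      intro x
      rw [pow_succ, pow_succ, Equiv.Perm.mul_apply, MulAut.mul_apply, ih, hσ1]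
  have hσ : σ ^ (q ^ k) = 1 := by
    apply Equiv.ext
    intro x
    apply Subtype.ext
    rw [key, hα]
    rfl
  letI : Fintype S := Fintype.ofFinite S
  have hnd : ¬ q ∣ Fintype.card S := by
    intro h
    apply hcop
    rw [← card_isConj_mul_card_centralizer x₀, ← Nat.card_eq_fintype_card] at *
    exact h.mul_right _
  obtain ⟨x, hx⟩ := Equiv.Perm.exists_fixed_point_of_prime (p := q) (n := k) hnd hσ
  exact ⟨x.1, x.2, congrArg Subtype.val hx⟩

/-- The central character of `χ`. -/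
noncomputable def cenChar (hNc : ∀ n ∈ N, ∀ x, x * n = n * x) (χ : IrrCharacter X) : N →* ℂˣ :=
  MonoidHom.toHomUnits
    { toFun := fun n => (χ : X → ℂ) n / (χ : X → ℂ) 1
      map_one' := div_self (irr_one_ne_zero χ.2)
      map_mul' := by
        intro a b
        have h1 := irr_one_ne_zero χ.2
        have h2 := char_mul_central χ.2 (z := (b : X)) (by
          rw [Subgroup.mem_center_iff]
          exact fun g => hNc b b.2 g) (a : X)
        rw [Subgroup.coe_mul]
        field_simp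
        exact h2 }

omit [Fintype X] [Fintype N] in
theorem cenChar_apply [Fintype X] (hNc : ∀ n ∈ N, ∀ x, x * n = n * x) (χ : IrrCharacter X) (n : N) :
    ((cenChar hNc χ n : ℂˣ) : ℂ) = (χ : X → ℂ) n / (χ : X → ℂ) 1 := rfl

/-- (A7) Fixed irreducible characters over a central subgroup (Glauberman counting). -/
theorem unique_fixed_irr {X : Type u} [Group X] [Fintype X] {N : Subgroup X} [Fintype N]
    (hNc : ∀ n ∈ N, ∀ x, x * n = n * x) (α : MulAut X) {q k : ℕ} (hq : q.Prime) (hα : α ^ (q ^ k) = 1)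
    (hcop : ¬ q ∣ Nat.card X) (hαN : ∀ n ∈ N, α n ∈ N) (hfix : ∀ x, α x = x → x ∈ N)
    (μ : N →* ℂˣ) (hμ : ∀ n : N, μ ⟨α n, hαN n n.2⟩ = μ n) :
    ∃! χ : IrrCharacter X, (∀ x, (χ : X → ℂ) (α x) = (χ : X → ℂ) x) ∧
      ∀ n : N, (χ : X → ℂ) n = ((μ n : ℂˣ) : ℂ) * (χ : X → ℂ) 1 := by
  classical
  have hfinX := finite_irrCharacter (G := X)
  have hfinN := finite_irrCharacter (G := N)
  -- the restriction of `α` to `N`
  let αN₀ : N →* N := (α.toMonoidHom.comp N.subtype).codRestrict N (fun n => hαN n n.2)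
  have hαN₀ : ∀ n : N, ((αN₀ n : N) : X) = α n := fun _ => rfl
  have hinj : Function.Injective αN₀ := by
    intro a b h
    apply Subtype.ext
    apply α.injective
    have := congrArg Subtype.val h
    exact this
  have hbij : Function.Bijective αN₀ := ⟨hinj, Finite.surjective_of_injective hinj⟩
  let αN : N ≃* N := MulEquiv.ofBijective αN₀ hbij
  have hαNa : ∀ n : N, ((αN n : N) : X) = α n := fun _ => rfl
  have hαs : ∀ n ∈ N, ∃ m ∈ N, α m = n := by
    intro n hn
    obtain ⟨m, hm⟩ := hbij.2 ⟨n, hn⟩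
    exact ⟨m, m.2, congrArg Subtype.val hm⟩
  have hcomm : ∀ a b : N, a * b = b * a := fun a b => Subtype.ext (hNc b b.2 a)
  -- the count of fixed classes of `X`
  have hc1 : Nat.card {C : ConjClasses X // ConjClasses.map (α : X ≃* X).toMonoidHom C = C} =
      Nat.card {n : N // α (n : X) = n} := by
    symm
    apply Nat.card_congr
    refine Equiv.ofBijective (fun n => ⟨ConjClasses.mk (n.1 : X), ?_⟩) ⟨?_, ?_⟩
    · change ConjClasses.mk (α (n.1 : X)) = _
      rw [n.2]
    · rintro ⟨a, ha⟩ ⟨b, hb⟩ h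
      apply Subtype.ext
      apply Subtype.ext
      have h1 : IsConj (a : X) (b : X) := ConjClasses.mk_eq_mk_iff_isConj.1 (congrArg Subtype.val h)
      obtain ⟨c, hc⟩ := isConj_iff.1 h1
      rw [← hc, hNc a a.2 c]
      group
    · rintro ⟨C, hC⟩
      obtain ⟨x₀, rfl⟩ := ConjClasses.mk_surjective C
      have hx₀ : IsConj (α x₀) x₀ := ConjClasses.mk_eq_mk_iff_isConj.1 hC
      obtain ⟨x, hxc, hxα⟩ := exists_fixed_in_class α hq hα hcop x₀ hx₀
      refine ⟨⟨⟨x, hfix x hxα⟩, hxα⟩, Subtype.ext ?_⟩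
      exact ConjClasses.mk_eq_mk_iff_isConj.2 hxc
  -- the count of fixed classes of `N`
  have hc2 : Nat.card {C : ConjClasses N // ConjClasses.map αN.toMonoidHom C = C} =
      Nat.card {n : N // α (n : X) = n} := by
    symm
    apply Nat.card_congr
    refine Equiv.ofBijective (fun n => ⟨ConjClasses.mk n.1, ?_⟩) ⟨?_, ?_⟩
    · change ConjClasses.mk (αN n.1) = _
      have : αN n.1 = n.1 := Subtype.ext n.2
      rw [this]
    · rintro ⟨a, ha⟩ ⟨b, hb⟩ h
      have h1 : IsConj a b := ConjClasses.mk_eq_mk_iff_isConj.1 (congrArg Subtype.val h)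
      obtain ⟨c, hc⟩ := isConj_iff.1 h1
      have hab : a = b := by
        rw [← hc, hcomm c a]
        group
      exact Subtype.ext hab
    · rintro ⟨C, hC⟩
      obtain ⟨x₀, rfl⟩ := ConjClasses.mk_surjective C
      have hx₀ : IsConj (αN x₀) x₀ := ConjClasses.mk_eq_mk_iff_isConj.1 hC
      obtain ⟨c, hc⟩ := isConj_iff.1 hx₀
      have h1 : αN x₀ = x₀ := by
        calc αN x₀ = c * αN x₀ * c⁻¹ := by
              rw [hcomm c]
              group
          _ = x₀ := hc
      refine ⟨⟨x₀, congrArg Subtype.val h1⟩, rfl⟩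
  have hcard : Nat.card {χ : IrrCharacter X // (χ : X → ℂ) ∘ α = (χ : X → ℂ)} =
      Nat.card {ν : IrrCharacter N // (ν : N → ℂ) ∘ αN = (ν : N → ℂ)} := by
    rw [← card_fixed_classes_eq_card_fixed_irr, ← card_fixed_classes_eq_card_fixed_irr, hc1, hc2]
  have hfinFx : Finite {χ : IrrCharacter X // (χ : X → ℂ) ∘ α = (χ : X → ℂ)} := inferInstance
  have hfinFN : Finite {ν : IrrCharacter N // (ν : N → ℂ) ∘ αN = (ν : N → ℂ)} := inferInstance
  -- the map
  let c : {χ : IrrCharacter X // (χ : X → ℂ) ∘ α = (χ : X → ℂ)} →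
      {ν : IrrCharacter N // (ν : N → ℂ) ∘ αN = (ν : N → ℂ)} := fun χ =>
    ⟨⟨fun n => ((cenChar hNc χ.1 n : ℂˣ) : ℂ), isIrrCharacter_of_hom _⟩, by
      funext n
      change ((cenChar hNc χ.1 (αN n) : ℂˣ) : ℂ) = ((cenChar hNc χ.1 n : ℂˣ) : ℂ)
      rw [cenChar_apply, cenChar_apply, hαNa]
      have h1 := congrFun χ.2 (n : X)
      simp only [Function.comp] at h1
      rw [h1]⟩
  have hcs : Function.Surjective c := by
    rintro ⟨ν, hν⟩
    have hdeg := isIrr_deg_one_of_comm hcomm ν.2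
    obtain ⟨lam, hlam⟩ := exists_hom_of_deg_one (isCharacter_of_isIrrCharacter ν.2) hdeg
    have hinv : ∀ n : N, lam ⟨α n, hαN n n.2⟩ = lam n := by
      intro n
      have h1 := congrFun hν n
      simp only [Function.comp] at h1
      rw [hlam] at h1
      exact Units.ext h1
    obtain ⟨χ, hχ1, hχ2⟩ := exists_fixed_over hNc α hq hα hcop hαN hαs lam hinv
    refine ⟨⟨χ, congrArg Subtype.val hχ1⟩, ?_⟩
    apply Subtype.ext
    apply Subtype.ext
    funext n
    change ((cenChar hNc χ n : ℂˣ) : ℂ) = (ν : N → ℂ) n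
    rw [cenChar_apply, hχ2 n, hlam, mul_div_assoc, div_self (irr_one_ne_zero χ.2), mul_one]
  have hci : Function.Injective c := (Function.Surjective.bijective_of_nat_card_le hcs hcard.le).1
  obtain ⟨χ, hχ1, hχ2⟩ := exists_fixed_over hNc α hq hα hcop hαN hαs μ hμ
  have hχf : (χ : X → ℂ) ∘ α = (χ : X → ℂ) := congrArg Subtype.val hχ1
  refine ⟨χ, ⟨fun x => congrFun hχf x, hχ2⟩, ?_⟩
  rintro χ' ⟨h1, h2⟩
  have hχ'f : (χ' : X → ℂ) ∘ α = (χ' : X → ℂ) := funext h1
  have h3 : c ⟨χ', hχ'f⟩ = c ⟨χ, hχf⟩ := by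
    apply Subtype.ext
    apply Subtype.ext
    funext n
    change ((cenChar hNc χ' n : ℂˣ) : ℂ) = ((cenChar hNc χ n : ℂˣ) : ℂ)
    rw [cenChar_apply, cenChar_apply, hχ2 n, h2 n, mul_div_assoc, mul_div_assoc, div_self (irr_one_ne_zero χ.2),
      div_self (irr_one_ne_zero χ'.2)]
  exact congrArg Subtype.val (hci h3)

end Main

end Cfsg.Agent.Lib.NDF.UniqueFixed
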