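import Cfsg.Agent.Lib.NDF.IIBasic
import Cfsg.Agent.Lib.NoDiv.Mid
import Cfsg.Agent.Lib.Char.BrauerPerm
import Cfsg.Agent.Lib.NDF.UniqueFixed
import Cfsg.Agent.Lib.CharDeg.SmallDegree

/-!
# S4780, block II, S2: characters of `E` under `L`.
-/

set_option autoImplicit false
set_option linter.unusedSectionVars false

namespace Cfsg.Agent.Lib.NDF.IIChar

open Cfsg Cfsg.Agent.Lib.NoDiv.Defs Cfsg.Agent.Lib.NDF.Defs Cfsg.Agent.Lib.NDF.IIDefs
open Cfsg.Agent.Lib.NoDiv.XLemma Cfsg.Agent.Lib.NDF.IIBasic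
open Cfsg.Agent.Lib.Char.Basic Cfsg.Agent.Lib.Char.Conj Cfsg.Agent.Lib.Char.CliffordCorr
open Cfsg.Agent.Lib.Char.Ortho Cfsg.Agent.Lib.Char.Degree Cfsg.Agent.Lib.Char.Complete Cfsg.Agent.Lib.Char.Clifford

universe u

variable {G : Type u} [Group G] {H Y E L : Subgroup G}

/-- (C1) Only the trivial irreducible character is fixed by an element of prime power order, coprime to
`|E|`, without fixed points on `E`. Proof: `BrauerPerm.card_fixed_classes_eq_card_fixed_irr` with `α = conj x`: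
a fixed class has a fixed element (`IsPGroup.card_modEq_card_fixedPoints`, class size divides `|E|`), which is `1`.
So one fixed class, one fixed character, the trivial one. -/
theorem fix_trivial [Fintype E] (hE : E.Normal) {x : G} {q k : ℕ} (hq : q.Prime) (hx : x ^ (q ^ k) = 1)
    (hqE : ¬ q ∣ Nat.card E) (hC : ∀ e ∈ E, x * e = e * x → e = 1) {θ : E → ℂ}
    (hθ : IsIrrCharacter E θ) (hfix : conjOn hE x θ = θ) : θ = fun _ => 1 := by
  classical
  haveI := hE
  let α : MulAut E := MulAut.conjNormal x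
  have hαapp : ∀ e : E, ((α e : E) : G) = x * e * x⁻¹ := fun e => by simp [α]
  have hα : α ^ (q ^ k) = 1 := by
    have : α ^ (q ^ k) = MulAut.conjNormal (x ^ (q ^ k)) := (map_pow _ _ _).symm
    rw [this, hx, map_one]
  have hfix' : ∀ e : E, α e = e → e ∈ (⊥ : Subgroup E) := by
    intro e he
    have h1 : x * e * x⁻¹ = e := by
      rw [← hαapp, he]
    have h2 := hC e e.2 (mul_inv_eq_iff_eq_mul.1 h1)
    exact Subgroup.mem_bot.2 (Subtype.ext h2)
  obtain ⟨χ₀, -, huniq⟩ := Cfsg.Agent.Lib.NDF.UniqueFixed.unique_fixed_irr (X := E) (N := (⊥ : Subgroup E))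
    (fun n hn x => by rw [Subgroup.mem_bot.1 hn, one_mul, mul_one]) α hq hα hqE
    (fun n hn => by rw [Subgroup.mem_bot.1 hn, map_one]; exact Subgroup.one_mem _) hfix' 1
    (fun n => by simp)
  have hover : ∀ χ : IrrCharacter E, ∀ n : (⊥ : Subgroup E),
      (χ : E → ℂ) n = (((1 : (⊥ : Subgroup E) →* ℂˣ) n : ℂˣ) : ℂ) * (χ : E → ℂ) 1 := by
    rintro χ ⟨n, hn⟩
    have h1 : n = 1 := Subgroup.mem_bot.1 hn
    subst h1
    simp
  have h1 : (⟨θ, hθ⟩ : IrrCharacter E) = χ₀ := by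
    apply huniq
    refine ⟨fun e => ?_, hover _⟩
    have := congrFun hfix e
    rw [conjOn_apply] at this
    exact this
  have htriv : IsIrrCharacter E (fun _ => (1 : ℂ)) := by
    have := Cfsg.Agent.Lib.Char.Linear.isIrrCharacter_of_hom (1 : E →* ℂˣ)
    simpa using this
  have h2 : (⟨fun _ => (1 : ℂ), htriv⟩ : IrrCharacter E) = χ₀ := by
    apply huniq
    exact ⟨fun e => rfl, hover _⟩
  have h3 := congrArg Subtype.val (h1.trans h2.symm)
  exact h3

/-- (C1') `b ∈ BL`, `b ≠ 1` fixes only the trivial character: a power of prime order, `cop_BE`, `IID.fpfB`, `fix_trivial`. -/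
theorem b_fix [Finite G] [Fintype E] (h : IID H Y E L) (hE : E.Normal) {b : L} (hb : b ∈ BL L) (hb1 : b ≠ 1)
    {θ : E → ℂ} (hθ : IsIrrCharacter E θ) (hfix : conjOn hE (b : G) θ = θ) : θ = fun _ => 1 := by
  classical
  have hord : orderOf b ≠ 1 := fun h1 => hb1 (orderOf_eq_one_iff.1 h1)
  set q := (orderOf b).minFac with hq
  have hqp : q.Prime := Nat.minFac_prime hord
  obtain ⟨n, hn⟩ : q ∣ orderOf b := Nat.minFac_dvd _
  have hnpos : 0 < orderOf b := orderOf_pos b
  have hn0 : n ≠ 0 := by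
    rintro rfl
    rw [mul_zero] at hn
    omega
  let b' : L := b ^ n
  have hb'B : b' ∈ BL L := Subgroup.pow_mem _ hb n
  have hb'q : b' ^ q = 1 := by
    change (b ^ n) ^ q = 1
    rw [← pow_mul, mul_comm, ← hn, pow_orderOf_eq_one]
  have hb'1 : b' ≠ 1 := by
    intro h1
    have h2 := orderOf_dvd_of_pow_eq_one h1
    have h3 : orderOf b ≤ n := Nat.le_of_dvd (Nat.pos_of_ne_zero hn0) h2
    rw [hn] at h3
    have := hqp.two_le
    nlinarith [Nat.pos_of_ne_zero hn0]
  have hfix' : conjOn hE (b' : G) θ = θ := by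
    have h1 : (b : G) ∈ inertia hE θ := hfix
    have h2 := Subgroup.pow_mem _ h1 n
    have h3 : ((b ^ n : L) : G) = (b : G) ^ n := by simp
    change conjOn hE ((b ^ n : L) : G) θ = θ
    rw [h3]
    exact h2
  have hqB : q ∣ Nat.card (BL L) := by
    have h1 : q ∣ orderOf (⟨b, hb⟩ : BL L) := by
      rw [Subgroup.orderOf_mk]
      exact Nat.minFac_dvd _
    exact h1.trans (orderOf_dvd_natCard _)
  have hqE : ¬ q ∣ Nat.card E := fun h1 => by
    have := Nat.dvd_gcd hqB h1
    rw [cop_BE h] at this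
    exact hqp.one_lt.ne' (Nat.dvd_one.1 this)
  refine fix_trivial hE (x := (b' : G)) (q := q) (k := 1) hqp ?_ hqE ?_ hθ hfix'
  · rw [pow_one]
    have := congrArg Subtype.val hb'q
    simpa using this
  · intro e he hcomm
    refine h.fpfB (b' : G) hb'B b'.2 ?_ e he hcomm
    intro h1
    exact hb'1 (Subtype.ext h1)

/-- (C2) `E` lies in the inertia group (class function), `G = E L`. -/
theorem index_LI [Finite G] [Fintype E] (h : IID H Y E L) (hE : E.Normal) {θ : E → ℂ}
    (hθ : IsClassFunction E θ) : (LI hE L θ).index = (inertia hE θ).index := by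
  classical
  set T := inertia hE θ with hT
  have hET : E ≤ T := le_inertia hE hθ
  let f : L ⧸ T.subgroupOf L → G ⧸ T := Quotient.map' (fun l : L => (l : G)) (by
    intro a b hab
    rw [QuotientGroup.leftRel_apply] at hab ⊢
    exact hab)
  have hinj : Function.Injective f := by
    intro x y
    obtain ⟨a, rfl⟩ := QuotientGroup.mk_surjective x
    obtain ⟨b, rfl⟩ := QuotientGroup.mk_surjective y
    intro hxy
    have h1 := QuotientGroup.eq.1 hxy
    exact QuotientGroup.eq.2 h1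
  have hsurj : Function.Surjective f := by
    intro x
    obtain ⟨g, rfl⟩ := QuotientGroup.mk_surjective x
    obtain ⟨e, he, l, hl, rfl⟩ := h.dec g
    refine ⟨QuotientGroup.mk ⟨l, hl⟩, ?_⟩
    apply QuotientGroup.eq.2
    have h1 : (l)⁻¹ * (e * l) ∈ E := by
      have := hE.conj_mem e he l⁻¹
      simpa [mul_assoc] using this
    exact hET h1
  exact Nat.card_congr (Equiv.ofBijective f ⟨hinj, hsurj⟩)

/-- (C3) `T = inertia (lin δ) = E L_δ`; `t = e l ↦ δ e` is a homomorphism `T →* ℂˣ` over `δ`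
(`E ∩ L = 1`, `l` fixes `δ`); `CliffordCorr.isIrrCharacter_indFun_of_lies_over`: the induced character is irreducible of
degree `|G : T|`. -/
theorem index_mem_lin [Fintype G] [Fintype E] (h : IID H Y E L) (hE : E.Normal) (δ : E →* ℂˣ) :
    (LI hE L (lin δ)).index ∈ charDegrees G := by
  classical
  set T := inertia hE (lin δ) with hT
  have hlinirr : IsIrrCharacter E (lin δ) := Cfsg.Agent.Lib.Char.Linear.isIrrCharacter_of_hom δ
  have hcf : IsClassFunction E (lin δ) := isClassFunction_of_isIrrCharacter hlinirr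
  have hET : E ≤ T := le_inertia hE hcf
  -- the projection to `E`
  have hdec : ∀ g : G, ∃ e : E, ∃ l ∈ L, g = e * l := fun g => by
    obtain ⟨e, he, l, hl, rfl⟩ := h.dec g
    exact ⟨⟨e, he⟩, l, hl, rfl⟩
  choose p q hq hpq using hdec
  have huniq : ∀ (g : G) (e : E) (l : G), l ∈ L → g = e * l → p g = e := by
    intro g e l hl hg
    have h1 : (p g : G) * q g = e * l := by rw [← hpq g, hg]
    have h2 : (e : G)⁻¹ * p g = l * (q g)⁻¹ := by
      calc (e : G)⁻¹ * p g = (e : G)⁻¹ * ((p g : G) * q g) * (q g)⁻¹ := by group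
        _ = (e : G)⁻¹ * (e * l) * (q g)⁻¹ := by rw [h1]
        _ = l * (q g)⁻¹ := by group
    have h3 : l * (q g)⁻¹ ∈ L := L.mul_mem hl (L.inv_mem (hq g))
    have h4 : (e : G)⁻¹ * p g ∈ E := E.mul_mem (E.inv_mem e.2) (p g).2
    rw [h2] at h4
    have h5 := h.disj _ h3 h4
    rw [← h2] at h5
    exact Subtype.ext (inv_mul_eq_one.1 h5).symm
  have hqT : ∀ t ∈ T, q t ∈ T := by
    intro t ht
    have h1 : q t = (p t : G)⁻¹ * t := by
      have := hpq t
      calc q t = (p t : G)⁻¹ * ((p t : G) * q t) := by group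
        _ = (p t : G)⁻¹ * t := by rw [← this]
    rw [h1]
    exact T.mul_mem (T.inv_mem (hET (p t).2)) ht
  have hfixδ : ∀ l ∈ T, ∀ e : E, δ ⟨l * e * l⁻¹, hE.conj_mem e e.2 l⟩ = δ e := by
    intro l hl e
    have h1 : conjOn hE l (lin δ) = lin δ := hl
    have h2 : conjHom hE l δ = δ := (conjHom_eq_iff hE l δ).2 h1
    have := DFunLike.congr_fun h2 e
    rwa [conjHom_apply] at this
  let ψ : T →* ℂˣ := MonoidHom.mk' (fun t => δ (p (t : G))) (by
    intro a b
    have hb := hpq (b : G)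
    have ha := hpq (a : G)
    have h1 : p ((a * b : T) : G) =
        p (a : G) * ⟨q (a : G) * (p (b : G) : G) * (q (a : G))⁻¹, hE.conj_mem _ (p (b : G)).2 _⟩ := by
      apply huniq _ _ (q (a : G) * q (b : G)) (L.mul_mem (hq _) (hq _))
      change (a : G) * (b : G) = _
      conv_lhs => rw [ha, hb]
      change _ = ((p (a : G) : G) * (q (a : G) * (p (b : G) : G) * (q (a : G))⁻¹)) * (q (a : G) * q (b : G))
      group
    rw [h1, map_mul, hfixδ _ (hqT _ a.2)])
  have hψE : ∀ e : E, ψ ⟨e, hET e.2⟩ = δ e := by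
    intro e
    change δ (p (e : G)) = δ e
    rw [huniq (e : G) e 1 L.one_mem (by simp)]
  have hψirr : IsIrrCharacter T (fun t => ((ψ t : ℂˣ) : ℂ)) :=
    Cfsg.Agent.Lib.Char.Linear.isIrrCharacter_of_hom ψ
  have hres : Cfsg.Agent.Lib.Char.CliffordCorr.res hET (fun t => ((ψ t : ℂˣ) : ℂ)) = lin δ := by
    funext e
    have := hψE e
    simp only [Cfsg.Agent.Lib.Char.CliffordCorr.res, lin]
    exact congrArg Units.val this
  have hcon : classInner (Cfsg.Agent.Lib.Char.CliffordCorr.res hET (fun t => ((ψ t : ℂˣ) : ℂ))) (lin δ) ≠ 0 := by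
    rw [hres, classInner_irr hlinirr hlinirr]
    simp
  obtain ⟨hind, -⟩ := isIrrCharacter_indFun_of_lies_over hE hET hlinirr rfl hψirr hcon
  have hdeg : charDegree (indFun T (fun t => ((ψ t : ℂˣ) : ℂ))) = T.index := by
    apply charDegree_eq_of_eq_natCast
    rw [Cfsg.Agent.Lib.Char.Induced.indFun_one]
    simp
  rw [index_LI h hE hcf, ← hT, ← hdeg]
  exact Cfsg.Agent.Lib.NoDiv.Mid.charDegree_mem _ hind

/-- (C4) `NoDiv.Mid.deg_data` + `index_LI`. -/
theorem deg_LI [Fintype G] [Fintype E] (h : IID H Y E L) (hE : E.Normal) {θ : E → ℂ}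
    (hθ : IsIrrCharacter E θ) {χ : G → ℂ} (hχ : IsIrrCharacter G χ)
    (hcon : classInner (fun n : E => χ n) θ ≠ 0) :
    ∃ e : ℕ, 0 < e ∧ charDegree χ = e * (LI hE L θ).index * charDegree θ := by
  obtain ⟨e, he, h1, -⟩ := Cfsg.Agent.Lib.NoDiv.Mid.deg_data hE hθ hχ hcon
  refine ⟨e, he, ?_⟩
  rw [index_LI h hE (isClassFunction_of_isIrrCharacter hθ)]
  exact h1

/-- (C4') Some irreducible `χ` lies over `θ` (induce: `Clifford.exists_irr_constituent`, Frobenius reciprocity). -/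
theorem exists_over [Fintype G] [Fintype E] {θ : E → ℂ} (hθ : IsIrrCharacter E θ) :
    ∃ χ : G → ℂ, IsIrrCharacter G χ ∧ classInner (fun n : E => χ n) θ ≠ 0 :=
  Cfsg.Agent.Lib.CharDeg.SmallDegree.exists_irr_constituent_restrict E hθ

/-- (C5, F2) If `θ ≠ 1` is irreducible, the stabiliser is not inside `R`: else `m = |L : R|` divides
`|L : L_θ|`, and `L_θ ∩ B = 1` (`b_fix`) gives `|R : L_θ| ≥ |B| > 1`; `deg_LI`, `exists_over`: `χ(1)` is a proper multiple
of `m`. Contradiction with `St.nd`, `IID.idx`. -/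
theorem exists_out [Fintype G] [Fintype E] (h : IID H Y E L) (hE : E.Normal) {θ : E → ℂ}
    (hθ : IsIrrCharacter E θ) (hθ1 : θ ≠ fun _ => 1) : ∃ l ∈ LI hE L θ, l ∉ RL H L := by
  classical
  by_contra hcon
  push Not at hcon
  have hle : LI hE L θ ≤ RL H L := fun l hl => hcon l hl
  obtain ⟨χ, hχ, hχc⟩ := exists_over (G := G) hθ
  obtain ⟨e, he, hdeg⟩ := deg_LI h hE hθ hχ hχc
  have hrel := Subgroup.relIndex_mul_index hle
  rw [idx_RL h] at hrel
  set t := (LI hE L θ).relIndex (RL H L) with ht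
  have ht1 : t ≠ 1 := by
    intro h1
    have h2 : RL H L ≤ LI hE L θ := Subgroup.relIndex_eq_one.1 h1
    obtain ⟨⟨b, hb⟩, hb1⟩ := (Subgroup.ne_bot_iff_exists_ne_one (H := BL L)).1 (BL_ne h)
    have hb1' : b ≠ 1 := by simpa using hb1
    exact hθ1 (b_fix h hE hb hb1' hθ (h2 (hBR h hb)))
  have hidxpos : (LI hE L θ).index ≠ 0 := Subgroup.index_ne_zero_of_finite
  have ht0 : t ≠ 0 := by
    intro h0
    rw [h0, zero_mul] at hrel
    exact hidxpos hrel.symm
  have hm1 : 1 < H.index := by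
    obtain ⟨g, hg⟩ := h.st.out
    have h0 : H.index ≠ 0 := Subgroup.index_ne_zero_of_finite
    have h1 : H.index ≠ 1 := fun h1 => hg (Subgroup.index_eq_one.1 h1 ▸ Subgroup.mem_top g)
    omega
  have hθd : 0 < charDegree θ := by
    have hd := charDegree_natCast (isCharacter_of_isIrrCharacter hθ)
    have h0 := irr_one_ne_zero hθ
    rw [← hd] at h0
    exact Nat.pos_of_ne_zero (fun h1 => h0 (by rw [h1]; simp))
  have hχm : charDegree χ = H.index * (e * t * charDegree θ) := by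
    rw [hdeg, ← hrel]
    ring
  have hdvd : H.index ∣ charDegree χ := ⟨_, hχm⟩
  have hlt : H.index < charDegree χ := by
    rw [hχm]
    have h2 : 2 ≤ e * t * charDegree θ := by
      have h3 : 2 ≤ t := by omega
      have h4 : 1 ≤ e * charDegree θ := Nat.mul_pos he hθd
      calc 2 ≤ t := h3
        _ ≤ t * (e * charDegree θ) := Nat.le_mul_of_pos_right _ h4
        _ = e * t * charDegree θ := by ring
    nlinarith
  exact h.st.nd _ h.idx _ (Cfsg.Agent.Lib.NoDiv.Mid.charDegree_mem _ hχ) hm1 hlt hdvd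

/-- (C6, F3) `x ∈ L_θ ∩ R` lies in `Y`: `x = b z` (`hRdec`), `l ∈ L_θ ∖ R` (`exists_out`). `L_θ` is abelian
(`L_θ' ≤ L_θ ∩ B = 1`, `hLB`, `b_fix`). So `[l, b] = [l, x] = 1`, `b = 1` by `hfB`. -/
theorem LI_R_le_Y [Fintype G] [Fintype E] (h : IID H Y E L) (hE : E.Normal) {θ : E → ℂ}
    (hθ : IsIrrCharacter E θ) (hθ1 : θ ≠ fun _ => 1) {x : L} (hx : x ∈ LI hE L θ) (hxR : x ∈ RL H L) :
    (x : G) ∈ Y := by
  obtain ⟨b, hb, z, hz, rfl⟩ := hRdec h x hxR
  obtain ⟨l, hl, hlR⟩ := exists_out h hE hθ hθ1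
  have hc : l * (b * z) * l⁻¹ * (b * z)⁻¹ = 1 := by
    by_contra hne
    have h1 : l * (b * z) * l⁻¹ * (b * z)⁻¹ ∈ BL L := hLB h _ _
    have h2 : l * (b * z) * l⁻¹ * (b * z)⁻¹ ∈ LI hE L θ :=
      Subgroup.mul_mem _ (Subgroup.mul_mem _ (Subgroup.mul_mem _ hl hx) (Subgroup.inv_mem _ hl))
        (Subgroup.inv_mem _ hx)
    exact hθ1 (b_fix h hE h1 hne hθ h2)
  have hc1 : l * (b * z) = (b * z) * l := by
    have h3 : l * (b * z) * l⁻¹ = b * z := mul_inv_eq_one.1 hc
    exact mul_inv_eq_iff_eq_mul.1 h3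
  have hzl := hZ h z hz l
  have hlb : l * b = b * l := by
    have h4 : l * b * z = b * l * z := by
      calc l * b * z = l * (b * z) := by rw [mul_assoc]
        _ = b * z * l := hc1
        _ = b * (z * l) := by rw [mul_assoc]
        _ = b * (l * z) := by rw [hzl]
        _ = b * l * z := by rw [mul_assoc]
    exact mul_right_cancel h4
  have hb1 := hfB h l hlR b hb hlb
  rw [hb1, one_mul]
  exact hz

end Cfsg.Agent.Lib.NDF.IIChar
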