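import Cfsg.Agent.Lib.NDF.Defs
import Cfsg.Agent.Lib.NoDiv.XLemma

/-!
# S4780, block II: definitions.

`IID H Y E L`: `E = ⁅H, H⁆`, `L` a complement of `E` in `G`, `BL = L ∩ G'`, `RL = L ∩ H`.
`actV`: the action of `L` on `Hom(E, ℂˣ)`, `(l • δ) e = δ (l⁻¹ e l)`.
`LI hE L θ`: the stabiliser in `L` of a function `θ` on `E`.
-/

set_option autoImplicit false
set_option linter.unusedSectionVars false

namespace Cfsg.Agent.Lib.NDF.IIDefs

open Cfsg Cfsg.Agent.Lib.NoDiv.Defs Cfsg.Agent.Lib.NDF.Defs Cfsg.Agent.Lib.NoDiv.XLemma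
open Cfsg.Agent.Lib.Char.Basic Cfsg.Agent.Lib.Char.Conj Cfsg.Agent.Lib.Char.CliffordCorr

universe u

variable {G : Type u} [Group G]

/-- The setting of block II. -/
structure IID (H Y E L : Subgroup G) : Prop where
  st : St H Y
  hE : E = ⁅H, H⁆
  E1 : E ≠ ⊥
  II : ∀ p : ℕ, p.Prime → p ∣ Y.relIndex H → ¬ p ∣ Nat.card E
  cam : ∀ c ∈ H, c ∉ Y → ∀ e ∈ E, ∃ b ∈ H, b * c * b⁻¹ = c * e
  idx : H.index ∈ charDegrees G
  dec : ∀ g : G, ∃ e ∈ E, ∃ l ∈ L, g = e * l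
  disj : ∀ l ∈ L, l ∈ E → l = 1
  fpfB : ∀ d ∈ commutator G, d ∈ L → d ≠ 1 → ∀ e ∈ E, d * e = e * d → e = 1

/-- `B = L ∩ G'`. -/
abbrev BL (L : Subgroup G) : Subgroup L := (commutator G).subgroupOf L

/-- `R = L ∩ H`. -/
abbrev RL (H L : Subgroup G) : Subgroup L := H.subgroupOf L

variable {E : Subgroup G}

/-- A linear character as a function. -/
def lin (δ : E →* ℂˣ) : E → ℂ := fun e => ((δ e : ℂˣ) : ℂ)

/-- The stabiliser in `L` of a function on `E`. -/
def LI (hE : E.Normal) (L : Subgroup G) (θ : E → ℂ) : Subgroup L := (inertia hE θ).subgroupOf L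

theorem mem_LI (hE : E.Normal) (L : Subgroup G) (θ : E → ℂ) (l : L) :
    l ∈ LI hE L θ ↔ conjOn hE (l : G) θ = θ := Iff.rfl

theorem conjHom_conjHom (hE : E.Normal) (g g' : G) (δ : E →* ℂˣ) :
    conjHom hE g (conjHom hE g' δ) = conjHom hE (g' * g) δ := by
  ext e
  simp only [conjHom_apply]
  congr 3
  group

theorem conjHom_one (hE : E.Normal) (δ : E →* ℂˣ) : conjHom hE 1 δ = δ := by
  ext e
  simp only [conjHom_apply]
  congr 3
  simp

/-- The action of `L` on `Hom(E, ℂˣ)`. -/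
@[reducible] def actV (hE : E.Normal) (L : Subgroup G) : MulDistribMulAction L (E →* ℂˣ) where
  smul l δ := conjHom hE ((l : G)⁻¹) δ
  one_smul δ := by
    change conjHom hE (((1 : L) : G)⁻¹) δ = δ
    simpa using conjHom_one hE δ
  mul_smul l l' δ := by
    change conjHom hE (((l * l' : L) : G)⁻¹) δ = conjHom hE ((l : G)⁻¹) (conjHom hE ((l' : G)⁻¹) δ)
    rw [conjHom_conjHom]
    simp
  smul_mul l δ δ' := conjHom_mul hE _ δ δ'
  smul_one l := by
    ext e
    rfl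

theorem smul_def (hE : E.Normal) (L : Subgroup G) (l : L) (δ : E →* ℂˣ) :
    (actV hE L).toSMul.smul l δ = conjHom hE ((l : G)⁻¹) δ := rfl

/-- Fixing a linear character, in terms of `conjHom`. -/
theorem conjHom_inv_eq_iff (hE : E.Normal) (g : G) (δ : E →* ℂˣ) :
    conjHom hE g⁻¹ δ = δ ↔ conjHom hE g δ = δ := by
  constructor
  · intro h
    have h1 := conjHom_conjHom hE g g⁻¹ δ
    rw [h, inv_mul_cancel, conjHom_one] at h1
    exact h1
  · intro h
    have h1 := conjHom_conjHom hE g⁻¹ g δ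
    rw [h, mul_inv_cancel, conjHom_one] at h1
    exact h1

theorem conjHom_eq_iff (hE : E.Normal) (g : G) (δ : E →* ℂˣ) :
    conjHom hE g δ = δ ↔ conjOn hE g (lin δ) = lin δ := by
  constructor
  · intro h
    funext e
    have := DFunLike.congr_fun h e
    rw [conjHom_apply] at this
    simp only [conjOn_apply, lin]
    rw [this]
  · intro h
    ext e
    exact congrFun h e

/-- The stabiliser for `actV` is `LI`. -/
theorem stabilizer_actV (hE : E.Normal) (L : Subgroup G) (δ : E →* ℂˣ) :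
    @MulAction.stabilizer L (E →* ℂˣ) _ (actV hE L).toMulAction δ = LI hE L (lin δ) := by
  ext l
  change conjHom hE ((l : G)⁻¹) δ = δ ↔ conjOn hE (l : G) (lin δ) = lin δ
  rw [conjHom_inv_eq_iff, conjHom_eq_iff]

/-- The output of the linear part S3. -/
structure S3D (hE : E.Normal) (H L : Subgroup G) [Fintype E] (R₂ : Subgroup L) (d₀ : ℕ) : Prop where
  n : R₂.Normal
  le : R₂ ≤ RL H L
  triv : ∀ r ∈ R₂, ∀ δ : E →* ℂˣ, conjHom hE (r : G) δ = δ
  hR : ∀ r ∈ RL H L, ∀ δ : E →* ℂˣ, δ ≠ 1 → conjHom hE (r : G) δ = δ → r ∈ R₂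
  mem : d₀ ∈ charDegrees G
  one : 1 < d₀
  nm : ¬ H.index ∣ d₀
  hd : ∀ δ : E →* ℂˣ, δ ≠ 1 → (LI hE L (lin δ)).index = d₀

end Cfsg.Agent.Lib.NDF.IIDefs
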