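import Cfsg.Agent.Lib.NDF.Beisiegel
import Cfsg.Agent.Lib.Char.Complete
import Cfsg.Agent.Lib.NoDiv.Q78

/-!
# S4780, block II, S4 (M4): Beisiegel's bound for `E`. Abstract: `X` with central elementary nontrivial `X'`, nonlinear characters vanish off `X'`.

(a) `Z(X) ≤ X'`: `x` central, `ξ` nonlinear (exists as `X` is not abelian): `ξ(x) ≠ 0` (`Q78.ne_zero_of_comm`), so `x ∈ X'`.
(b) `x^r ∈ X'`: class 2, `[x^r, y] = [x, y]^r = 1`, (a).
(c) `X` an `r`-group: `x ^ r ^ 2 = 1` by (b).
(d) `a ∉ X'`, `e ∈ X'`: `a` and `a e` have the same values on all irreducible characters (linear ones are trivial on `X'`, nonlinear ones vanish): `Complete.isConj_iff_forall_irr`.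
`NDF.Beisiegel.beisiegel_grp`.
-/

set_option autoImplicit false
set_option linter.unusedSectionVars false

namespace Cfsg.Agent.Lib.NDF.IIM4

open Cfsg
open Cfsg.Agent.Lib.Char.Basic

universe u

variable {X : Type u} [Group X]

/-- A homomorphism to an abelian group kills the commutator subgroup. -/
lemma hom_comm_eq_one (β : X →* ℂˣ) {e : X} (he : e ∈ commutator X) : β e = 1 := by
  have : commutator X ≤ β.ker := by
    rw [commutator_eq_closure, Subgroup.closure_le]
    rintro _ ⟨a, b, rfl⟩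
    change β _ = 1
    simp only [commutatorElement_def, map_mul, map_inv]
    rw [mul_comm (β a) (β b)]
    group
  exact this he

lemma comm_mem_X (a b : X) : a * b * a⁻¹ * b⁻¹ ∈ commutator X := by
  rw [commutator_eq_closure]
  exact Subgroup.subset_closure ⟨a, b, rfl⟩

/-- The power formula for commutators in class two. -/
lemma pow_comm (hZ : ∀ e ∈ commutator X, ∀ x : X, x * e = e * x) (x y : X) (n : ℕ) :
    x ^ n * y * (x ^ n)⁻¹ * y⁻¹ = (x * y * x⁻¹ * y⁻¹) ^ n := by
  induction n with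
  | zero => simp
  | succ n ih =>
    have hc := comm_mem_X x y
    have e1 : x ^ (n + 1) * y * (x ^ (n + 1))⁻¹ * y⁻¹ =
        x * (x ^ n * y * (x ^ n)⁻¹ * y⁻¹) * x⁻¹ * (x * y * x⁻¹ * y⁻¹) := by
      rw [pow_succ']
      group
    rw [e1, ih, pow_succ]
    have hp : (x * y * x⁻¹ * y⁻¹) ^ n ∈ commutator X := pow_mem hc n
    rw [hZ _ hp x]
    group

/-- M4. -/
theorem beis {X : Type u} [Group X] [Fintype X] {r : ℕ} (hr : r.Prime)
    (hZ : ∀ e ∈ commutator X, ∀ x : X, x * e = e * x) (hel : ∀ e ∈ commutator X, e ^ r = 1)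
    (hne : commutator X ≠ ⊥)
    (hv : ∀ θ : X → ℂ, IsIrrCharacter X θ → θ 1 ≠ 1 → ∀ x, x ∉ commutator X → θ x = 0) :
    Nat.card (commutator X) ^ 2 ≤ (commutator X).index := by
  -- linear characters
  have hlin : ∀ ξ : X → ℂ, IsIrrCharacter X ξ → ξ 1 = 1 → ∀ a, ∀ e ∈ commutator X, ξ (a * e) = ξ a := by
    intro ξ hξ h1 a e he
    obtain ⟨β, rfl⟩ := Cfsg.Agent.Lib.Char.Linear.exists_hom_of_deg_one (isCharacter_of_isIrrCharacter hξ) h1
    simp [map_mul, hom_comm_eq_one β he]
  -- a nonlinear character exists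
  have hex : ∃ ξ : X → ℂ, IsIrrCharacter X ξ ∧ ξ 1 ≠ 1 := by
    by_contra hcon
    push Not at hcon
    apply hne
    rw [Subgroup.eq_bot_iff_forall]
    intro e he
    have h1 : IsConj e 1 := by
      rw [Cfsg.Agent.Lib.Char.Complete.isConj_iff_forall_irr]
      intro χ
      have h2 := hlin χ.1 χ.2 (hcon χ.1 χ.2) 1 e he
      rw [one_mul] at h2
      exact h2
    exact isConj_one_right.mp h1.symm
  obtain ⟨ξ, hξ, hξ1⟩ := hex
  -- (a)
  have hcent : ∀ x : X, (∀ t : X, x * t = t * x) → x ∈ commutator X := by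
    intro x hx
    by_contra hxn
    refine Cfsg.Agent.Lib.NoDiv.Q78.ne_zero_of_comm hξ x ?_ (hv ξ hξ hξ1 x hxn)
    intro t
    have : x * t * x⁻¹ * t⁻¹ = 1 := by
      rw [hx t]
      group
    rw [this]
  -- (b)
  have hpow : ∀ x : X, x ^ r ∈ commutator X := by
    intro x
    apply hcent
    intro t
    have h1 := pow_comm hZ x t r
    rw [hel _ (comm_mem_X x t)] at h1
    have h2 : x ^ r * t * (x ^ r)⁻¹ = t := by
      rw [mul_inv_eq_one] at h1
      exact h1
    rw [mul_inv_eq_iff_eq_mul] at h2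
    exact h2
  -- (c)
  have hX : IsPGroup r X := by
    intro x
    refine ⟨2, ?_⟩
    rw [pow_two, pow_mul]
    exact hel _ (hpow x)
  -- (d)
  have hcam : ∀ a, a ∉ commutator X → ∀ e ∈ commutator X, ∃ b, b * a * b⁻¹ = a * e := by
    intro a ha e he
    have h1 : IsConj a (a * e) := by
      rw [Cfsg.Agent.Lib.Char.Complete.isConj_iff_forall_irr]
      intro χ
      by_cases h1 : χ.1 1 = 1
      · exact (hlin χ.1 χ.2 h1 a e he).symm
      · have hae : a * e ∉ commutator X := by
          intro hm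
          apply ha
          have := mul_mem hm (inv_mem he)
          simpa using this
        exact (hv χ.1 χ.2 h1 a ha).trans (hv χ.1 χ.2 h1 _ hae).symm
    obtain ⟨c, hc⟩ := isConj_iff.mp h1
    exact ⟨c, hc⟩
  exact Cfsg.Agent.Lib.NDF.Beisiegel.beisiegel_grp hr hX hZ hpow hcam

end Cfsg.Agent.Lib.NDF.IIM4
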