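import Cfsg.Agent.Lib.NDF.IIBasic
import Cfsg.Agent.Lib.NDF.IIChar
import Cfsg.Agent.Lib.NDF.CommonG
import Cfsg.Agent.Lib.NDF.CoveringCount
import Cfsg.Agent.Lib.Char.Linear

/-!
# S4780, block II, S4 (M5): the final count.

`letI := actV hE L`, `stabilizer_actV`. `v ^ 2 = |E : E'| = |V|` (`card_V`, `hv`). `CommonG.exists_common_g` (`d = d₀`, `S3D.hd`, `S3D.nm`, `idx_RL`, `cyc`, ...) gives `g`,
`CoveringCount.covering_count`: `c ≥ 2`, `c² ≤ v²`, `|B| (c - 1) = v² - 1`. So `c ≤ v`, `v + 1 ≤ |B|`.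
`|B| ≤ |E'| - 1`: `b ↦ b n b⁻¹` is injective from `B` into `E' ∖ 1` for `n ∈ E'`, `n ≠ 1` (`IID.fpfB`). `|E'| ≤ v` by `hbeis`. Contradiction.
-/

set_option autoImplicit false
set_option linter.unusedSectionVars false

namespace Cfsg.Agent.Lib.NDF.IIM5

open Cfsg Cfsg.Agent.Lib.NoDiv.Defs Cfsg.Agent.Lib.NDF.Defs Cfsg.Agent.Lib.NDF.IIDefs
open Cfsg.Agent.Lib.NoDiv.XLemma Cfsg.Agent.Lib.NDF.IIBasic
open Cfsg.Agent.Lib.Char.Basic Cfsg.Agent.Lib.Char.Conj Cfsg.Agent.Lib.Char.CliffordCorr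

universe u

variable {G : Type u} [Group G] {H Y E L : Subgroup G}

/-- Elements of the commutator subgroup of `E` stay there under conjugation in `G`. -/
lemma conj_mem_comm (hE : E.Normal) (g : G) {n : E} (hn : n ∈ commutator E) :
    (⟨g * n * g⁻¹, hE.conj_mem n n.2 g⟩ : E) ∈ commutator E := by
  have h1 : commutator E ≤ (commutator E).comap (MulAut.conjNormal g : E ≃* E).toMonoidHom := by
    intro x hx
    rw [Subgroup.mem_comap]
    have hc : (commutator E).Characteristic := inferInstance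
    have := (Subgroup.characteristic_iff_map_eq.1 hc) (MulAut.conjNormal g : E ≃* E)
    rw [← this]
    exact Subgroup.mem_map_of_mem _ hx
  have h2 := h1 hn
  rw [Subgroup.mem_comap] at h2
  have e : (⟨g * n * g⁻¹, hE.conj_mem n n.2 g⟩ : E) = (MulAut.conjNormal g : E ≃* E).toMonoidHom n := by
    apply Subtype.ext
    simp
  rw [e]
  exact h2

/-- `|B| + 1 ≤ |E'|`. -/
lemma card_BL_lt (h : IID H Y E L) (hE : E.Normal) [Finite G] (hne : commutator E ≠ ⊥) :
    Nat.card (BL L) + 1 ≤ Nat.card (commutator E) := by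
  classical
  haveI : Nontrivial (commutator E) := (Subgroup.nontrivial_iff_ne_bot _).2 hne
  obtain ⟨n, hn, hn1⟩ := Subgroup.exists_ne_one_of_nontrivial (commutator E)
  let f : BL L → commutator E := fun b =>
    ⟨⟨((b : L) : G) * n * ((b : L) : G)⁻¹, hE.conj_mem n n.2 _⟩, conj_mem_comm hE _ hn⟩
  have hfe : ∀ b : BL L, (((f b : commutator E) : E) : G) = ((b : L) : G) * n * ((b : L) : G)⁻¹ := fun _ => rfl
  have hn1' : (n : G) ≠ 1 := fun h0 => hn1 (Subtype.ext h0)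
  have hinj : Function.Injective f := by
    intro b b' hbb
    have e1 : ((b : L) : G) * n * ((b : L) : G)⁻¹ = ((b' : L) : G) * n * ((b' : L) : G)⁻¹ := by
      rw [← hfe, ← hfe, hbb]
    by_contra hne'
    have hd1 : ((b' : L) : G)⁻¹ * ((b : L) : G) ≠ 1 := by
      intro h0
      apply hne'
      apply Subtype.ext
      apply Subtype.ext
      exact (inv_mul_eq_one.1 h0).symm
    have hdG : ((b' : L) : G)⁻¹ * ((b : L) : G) ∈ commutator G :=
      mul_mem (inv_mem (Subgroup.mem_subgroupOf.1 b'.2)) (Subgroup.mem_subgroupOf.1 b.2)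
    have hdL : ((b' : L) : G)⁻¹ * ((b : L) : G) ∈ L := mul_mem (inv_mem (b' : L).2) (b : L).2
    refine hn1' (h.fpfB _ hdG hdL hd1 (n : G) n.2 ?_)
    have e2 : ((b : L) : G) * n = ((b' : L) : G) * n * ((b' : L) : G)⁻¹ * ((b : L) : G) := by
      rw [← e1]
      group
    calc ((b' : L) : G)⁻¹ * ((b : L) : G) * n = ((b' : L) : G)⁻¹ * (((b : L) : G) * n) := by group
      _ = ((b' : L) : G)⁻¹ * (((b' : L) : G) * n * ((b' : L) : G)⁻¹ * ((b : L) : G)) := by rw [e2]
      _ = n * (((b' : L) : G)⁻¹ * ((b : L) : G)) := by group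
  have hnot : ¬ Function.Surjective f := by
    intro hs
    obtain ⟨b, hb⟩ := hs 1
    have e1 : ((b : L) : G) * n * ((b : L) : G)⁻¹ = 1 := by
      rw [← hfe, hb]
      rfl
    apply hn1'
    have e2 : ((b : L) : G) * n = ((b : L) : G) := mul_inv_eq_one.1 e1
    exact mul_eq_left.1 e2
  haveI := Fintype.ofFinite (BL L)
  haveI := Fintype.ofFinite (commutator E)
  rw [Nat.card_eq_fintype_card, Nat.card_eq_fintype_card]
  exact Fintype.card_lt_of_injective_not_surjective f hinj hnot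

/-- M5. -/
theorem final_count [Fintype G] [Group.IsSolvable G] [Fintype E] (h : IID H Y E L) (hE : E.Normal)
    {R₂ : Subgroup L} {d₀ : ℕ} (hS : S3D hE H L R₂ d₀) (hne : commutator E ≠ ⊥) {v : ℕ}
    (hv : v ^ 2 = (commutator E).index) (hbeis : Nat.card (commutator E) ^ 2 ≤ (commutator E).index) :
    False := by
  classical
  letI A := actV hE L
  have hsmul : ∀ (l : L) (δ : E →* ℂˣ), l • δ = conjHom hE ((l : G)⁻¹) δ := fun _ _ => rfl
  have hfix : ∀ (l : L) (δ : E →* ℂˣ), l • δ = δ ↔ conjHom hE (l : G) δ = δ := by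
    intro l δ
    rw [hsmul]
    exact conjHom_inv_eq_iff hE _ δ
  have hBV : ∀ b ∈ BL L, b ≠ 1 → ∀ δ : E →* ℂˣ, b • δ = δ → δ = 1 := by
    intro b hb hb1 δ hδ
    have h1 : conjOn hE (b : G) (lin δ) = lin δ := (conjHom_eq_iff hE _ δ).1 ((hfix b δ).1 hδ)
    have h2 := Cfsg.Agent.Lib.NDF.IIChar.b_fix h hE hb hb1
      (Cfsg.Agent.Lib.Char.Linear.isIrrCharacter_of_hom δ) h1
    ext e
    have h3 := congrFun h2 e
    simpa [lin] using h3
  haveI hVf : Finite (E →* ℂˣ) := by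
    apply Nat.finite_of_card_ne_zero
    rw [card_V]
    exact Subgroup.index_ne_zero_of_finite
  obtain ⟨g, hg, hcov⟩ := Cfsg.Agent.Lib.NDF.CommonG.exists_common_g (L := L) (V := E →* ℂˣ) (B := BL L) (R := RL H L) (R₂ := R₂)
    (hBR h) (hBn h) (hRn h) (hLB h) (cop_BR h) (hfB h) hBV (exV h) (cyc h) hS.n hS.le
    (fun r hr δ => (hfix r δ).2 (hS.triv r hr δ))
    (fun r hr δ hδ hrδ => hS.hR r hr δ hδ ((hfix r δ).1 hrδ))
    (d := d₀)
    (fun δ hδ => by
      rw [stabilizer_actV]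
      exact hS.hd δ hδ)
    (by
      rw [idx_RL h]
      exact hS.nm)
  obtain ⟨c, hc2, hcv, hcount⟩ := Cfsg.Agent.Lib.NDF.CoveringCount.covering_count (L := L) (V := E →* ℂˣ) (B := BL L)
    (hBn h) (hBab h) (BL_ne h) hBV g (hfB h g hg) hcov (exV h)
  have hcardV : Nat.card (E →* ℂˣ) = v ^ 2 := by
    rw [card_V, hv]
  rw [hcardV] at hcv hcount
  have hcv' : c ≤ v := by
    by_contra hlt
    have : v ^ 2 < c ^ 2 := Nat.pow_lt_pow_left (not_le.1 hlt) (by norm_num)
    omega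
  have hB := card_BL_lt h hE hne
  have hE' : Nat.card (commutator E) ≤ v := by
    by_contra hlt
    have h1 : v ^ 2 < Nat.card (commutator E) ^ 2 := Nat.pow_lt_pow_left (not_le.1 hlt) (by norm_num)
    omega
  -- the arithmetic
  have hv1 : 1 ≤ v := by omega
  obtain ⟨w, rfl⟩ : ∃ w, v = w + 1 := ⟨v - 1, by omega⟩
  obtain ⟨d, rfl⟩ : ∃ d, c = d + 1 := ⟨c - 1, by omega⟩
  have hd1 : 1 ≤ d := by omega
  have hdw : d ≤ w := by omega
  have e1 : Nat.card (BL L) * d = w * (w + 2) := by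
    have e2 : (w + 1) ^ 2 - 1 = w * (w + 2) := by
      have : (w + 1) ^ 2 = w * (w + 2) + 1 := by ring
      omega
    rw [Nat.add_sub_cancel] at hcount
    rw [hcount, e2]
  have hBw : Nat.card (BL L) ≤ w := by omega
  have e3 : Nat.card (BL L) * d ≤ w * w := Nat.mul_le_mul hBw hdw
  have e4 : w * (w + 2) = w * w + 2 * w := by ring
  have hw : 0 < w := by omega
  omega

end Cfsg.Agent.Lib.NDF.IIM5
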