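import Cfsg.Agent.Lib.NDF.IIDefs
import Cfsg.Agent.Lib.Coprime.SchurZassenhaus

/-!
# S4780, block II, S1: the complement `L`.

`|E|` and `|G' : E| = |H : Y|` are coprime (`hII`; `St.GE`, `St.GY`). Schur-Zassenhaus (Mathlib) gives a
complement `B₀` of `E` in `G'`. For `g ∈ G`, `g B₀ g⁻¹` is also one, so (`Lib.Coprime.SchurZassenhaus.conj_of_isComplement`,
`G` is solvable) `L = N_G(B₀)` satisfies `G = E L` (Frattini; write it inside `↥(commutator G)` or use the cardinality form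
`conj_of_card`). `G' ∩ L = B₀`: `d = e b`, `e = d b⁻¹ ∈ L ∩ E = 1`.
`fpfB`: `b ∈ B₀`, `b ≠ 1`, `e ∈ E`, `b e = e b`. `b ∉ Y` (`G' ∩ Y = E`, `E ∩ B₀ = 1`). `hcam`: `b e` is conjugate to `b`,
so `orderOf (b e) = orderOf b`; but `b`, `e` commute with coprime orders: `orderOf (b e) = orderOf b * orderOf e`: `e = 1`.
`disj`: `e ∈ E ∩ N(B₀)`: `[e, b] ∈ E ∩ B₀ = 1` for all `b ∈ B₀`, and `B₀ ≠ 1` (`St.ne`), so `e = 1` by `fpfB`.
-/

set_option autoImplicit false
set_option linter.unusedSectionVars false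

namespace Cfsg.Agent.Lib.NDF.IIS1

open Cfsg Cfsg.Agent.Lib.NoDiv.Defs Cfsg.Agent.Lib.NDF.Defs Cfsg.Agent.Lib.NDF.IIDefs
open Pointwise

universe u

variable {G : Type u} [Group G] {H Y : Subgroup G}

/-- S1. -/
theorem exists_L [Finite G] [Group.IsSolvable G] (s : St H Y) (hE1 : (⁅H, H⁆ : Subgroup G) ≠ ⊥)
    (hII : ∀ p : ℕ, p.Prime → p ∣ Y.relIndex H → ¬ p ∣ Nat.card (⁅H, H⁆ : Subgroup G))
    (hcam : ∀ c ∈ H, c ∉ Y → ∀ e ∈ (⁅H, H⁆ : Subgroup G), ∃ b ∈ H, b * c * b⁻¹ = c * e)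
    (hidx : H.index ∈ charDegrees G) :
    ∃ L : Subgroup G, IID H Y ⁅H, H⁆ L := by
  classical
  haveI hnH := s.nH
  haveI hnY := s.nY
  haveI hEn : (⁅H, H⁆ : Subgroup G).Normal := Subgroup.commutator_normal H H
  have hEG : (⁅H, H⁆ : Subgroup G) ≤ commutator G := by
    rw [← s.GE]
    exact inf_le_left
  have hEY : (⁅H, H⁆ : Subgroup G) ≤ Y := by
    rw [← s.GE]
    exact inf_le_right
  have hGH : commutator G ≤ H := by
    rw [commutator_def, Subgroup.commutator_le]
    intro a _ b _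
    exact s.ab a b
  have hsup : commutator G ⊔ Y = H := by
    apply le_antisymm (sup_le hGH s.YH)
    intro c hc
    obtain ⟨d, hd, hdc⟩ := s.GY c hc
    have : c = d * (d⁻¹ * c) := by group
    rw [this]
    exact Subgroup.mul_mem_sup hd hdc
  have hri : (⁅H, H⁆ : Subgroup G).relIndex (commutator G) = Y.relIndex H := by
    calc (⁅H, H⁆ : Subgroup G).relIndex (commutator G) = (commutator G ⊓ Y).relIndex (commutator G) := by
          rw [s.GE]
      _ = Y.relIndex (commutator G) := Subgroup.inf_relIndex_left _ _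
      _ = Y.relIndex (commutator G ⊔ Y) := (Subgroup.relIndex_sup_right _ _).symm
      _ = Y.relIndex H := by rw [hsup]
  have hcop : Nat.Coprime (Nat.card (⁅H, H⁆ : Subgroup G)) (Y.relIndex H) := by
    by_contra hc
    obtain ⟨p, hp, h1, h2⟩ := Nat.Prime.not_coprime_iff_dvd.1 hc
    exact hII p hp h2 h1
  -- the complement inside `G'`
  let N : Subgroup (commutator G) := (⁅H, H⁆ : Subgroup G).subgroupOf (commutator G)
  haveI hNn : N.Normal := Subgroup.Normal.subgroupOf hEn _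
  have hNc : Nat.card N = Nat.card (⁅H, H⁆ : Subgroup G) :=
    Nat.card_congr (Subgroup.subgroupOfEquivOfLe hEG).toEquiv
  have hNi : N.index = Y.relIndex H := hri
  obtain ⟨B1, hB1⟩ := Subgroup.exists_right_complement'_of_coprime (N := N) (by rw [hNc, hNi]; exact hcop)
  have hB1c : Nat.card B1 = Y.relIndex H := by rw [← hB1.symm.index_eq_card, hNi]
  let B₀ : Subgroup G := B1.map (commutator G).subtype
  have hB0G : B₀ ≤ commutator G := by
    rintro _ ⟨y, _, rfl⟩
    exact y.2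
  have hB0mem : ∀ z : commutator G, (z : G) ∈ B₀ ↔ z ∈ B1 := by
    intro z
    constructor
    · rintro ⟨y, hy, e⟩
      have : y = z := Subtype.ext e
      rwa [← this]
    · intro hz
      exact ⟨z, hz, rfl⟩
  have hB0c : Nat.card B₀ = Y.relIndex H := by
    rw [← hB1c]
    exact Subgroup.card_map_of_injective (commutator G).subtype_injective
  have hEB : ∀ x, x ∈ (⁅H, H⁆ : Subgroup G) → x ∈ B₀ → x = 1 := by
    intro x hx hb
    have h1 : x ∈ commutator G := hB0G hb
    have h2 : (⟨x, h1⟩ : commutator G) ∈ N := hx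
    have h3 : (⟨x, h1⟩ : commutator G) ∈ B1 := (hB0mem ⟨x, h1⟩).1 hb
    have h4 := Subgroup.disjoint_def.1 hB1.disjoint h2 h3
    exact congrArg Subtype.val h4
  have hprod : ∀ d ∈ commutator G, ∃ e ∈ (⁅H, H⁆ : Subgroup G), ∃ b ∈ B₀, d = e * b := by
    intro d hd
    obtain ⟨⟨a, b⟩, hab, -⟩ := hB1.existsUnique ⟨d, hd⟩
    refine ⟨a.1.1, a.2, b.1.1, (hB0mem b.1).2 b.2, ?_⟩
    exact (congrArg Subtype.val hab).symm
  -- no fixed points
  have hfpf0 : ∀ b ∈ B₀, b ≠ 1 → ∀ e ∈ (⁅H, H⁆ : Subgroup G), b * e = e * b → e = 1 := by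
    intro b hb hb1 e he hc
    have hbY : b ∉ Y := by
      intro hbY
      apply hb1
      apply hEB b _ hb
      rw [← s.GE]
      exact ⟨hB0G hb, hbY⟩
    obtain ⟨c, -, hce⟩ := hcam b (hGH (hB0G hb)) hbY e he
    have h1 : orderOf (b * e) = orderOf b := by
      rw [← hce]
      have h2 : c * b * c⁻¹ = MulAut.conj c b := rfl
      rw [h2]
      exact orderOf_injective (MulAut.conj c).toMonoidHom (MulAut.conj c).injective b
    have hco : (orderOf b).Coprime (orderOf e) := by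
      have h3 : orderOf b ∣ Y.relIndex H := by
        rw [← hB0c]
        exact Subgroup.orderOf_dvd_natCard B₀ hb
      have h4 : orderOf e ∣ Nat.card (⁅H, H⁆ : Subgroup G) := Subgroup.orderOf_dvd_natCard _ he
      exact (hcop.coprime_dvd_left h4).coprime_dvd_right h3 |>.symm
    have h2 := Commute.orderOf_mul_eq_mul_orderOf_of_coprime (show Commute b e from hc) hco
    rw [h1] at h2
    have hpos : 0 < orderOf b := orderOf_pos b
    have h3 : orderOf e = 1 := by
      have h4 : orderOf b * orderOf e = orderOf b * 1 := by rw [mul_one]; exact h2.symm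
      exact Nat.eq_of_mul_eq_mul_left hpos h4
    exact orderOf_eq_one_iff.1 h3
  -- a non-trivial element of `B₀`
  obtain ⟨b₁, hb₁, hb₁1⟩ : ∃ b ∈ B₀, b ≠ 1 := by
    obtain ⟨c, hcH, hcY⟩ := s.ne
    obtain ⟨d, hd, hdc⟩ := s.GY c hcH
    obtain ⟨e, he, b, hb, rfl⟩ := hprod d hd
    refine ⟨b, hb, ?_⟩
    rintro rfl
    apply hcY
    have h1 : c = e * 1 * ((e * 1)⁻¹ * c) := by group
    rw [h1]
    refine mul_mem ?_ hdc
    rw [mul_one]
    exact hEY he
  let L : Subgroup G := Subgroup.normalizer (B₀ : Set G)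
  have hLm : ∀ l, l ∈ L ↔ ∀ x, x ∈ B₀ ↔ l * x * l⁻¹ ∈ B₀ := fun l => Subgroup.mem_normalizer_iff
  have hB0L : B₀ ≤ L := Subgroup.le_normalizer
  have hdisj : ∀ l ∈ L, l ∈ (⁅H, H⁆ : Subgroup G) → l = 1 := by
    intro l hl hlE
    apply hfpf0 b₁ hb₁ hb₁1 l hlE
    have h1 : l * b₁ * l⁻¹ * b₁⁻¹ = 1 := by
      apply hEB
      · have h2 : b₁ * l⁻¹ * b₁⁻¹ ∈ (⁅H, H⁆ : Subgroup G) := hEn.conj_mem _ (inv_mem hlE) _
        have h3 : l * b₁ * l⁻¹ * b₁⁻¹ = l * (b₁ * l⁻¹ * b₁⁻¹) := by group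
        rw [h3]
        exact mul_mem hlE h2
      · exact mul_mem (((hLm l).1 hl b₁).1 hb₁) (inv_mem hb₁)
    have h2 : l * b₁ = b₁ * l := by
      have h3 : l * b₁ = (l * b₁ * l⁻¹ * b₁⁻¹) * (b₁ * l) := by group
      rw [h3, h1, one_mul]
    exact h2.symm
  refine ⟨L, ?_⟩
  refine ⟨s, rfl, hE1, hII, hcam, hidx, ?_, hdisj, ?_⟩
  · -- Frattini
    intro g
    let K1 : Subgroup (commutator G) := (B₀.map (MulAut.conj g).toMonoidHom).subgroupOf (commutator G)
    have hK1le : B₀.map (MulAut.conj g).toMonoidHom ≤ commutator G := by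
      rintro _ ⟨y, hy, rfl⟩
      exact (inferInstance : (commutator G).Normal).conj_mem _ (hB0G hy) _
    have hK1c : Nat.card K1 = Nat.card B1 := by
      have h1 : Nat.card K1 = Nat.card (B₀.map (MulAut.conj g).toMonoidHom) :=
        Nat.card_congr (Subgroup.subgroupOfEquivOfLe hK1le).toEquiv
      rw [h1, Subgroup.card_map_of_injective (MulAut.conj g).injective, hB0c, hB1c]
    haveI hsolN : Group.IsSolvable N := inferInstance
    obtain ⟨x, hx⟩ := Cfsg.Agent.Lib.Coprime.SchurZassenhaus.conj_of_card N B1 K1 (Or.inl hsolN)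
      hB1.card_mul hK1c (by rw [hNc, hB1c]; exact hcop)
    have hiff : ∀ z : commutator G, g⁻¹ * (z : G) * g ∈ B₀ ↔ (x : G)⁻¹ * (z : G) * (x : G) ∈ B₀ := by
      intro z
      have h1 : z ∈ MulAut.conj x • B1 ↔ z ∈ K1 := by rw [hx]
      rw [Cfsg.Agent.Lib.Coprime.SchurZassenhaus.mem_conj_smul_iff] at h1
      have h2 : z ∈ K1 ↔ g⁻¹ * (z : G) * g ∈ B₀ := by
        show (z : G) ∈ B₀.map (MulAut.conj g).toMonoidHom ↔ _
        constructor
        · rintro ⟨y, hy, e⟩
          have e' : g * y * g⁻¹ = (z : G) := e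
          rw [← e']
          have : g⁻¹ * (g * y * g⁻¹) * g = y := by group
          rwa [this]
        · intro hz
          refine ⟨_, hz, ?_⟩
          show g * (g⁻¹ * (z : G) * g) * g⁻¹ = z
          group
      have h3 : x⁻¹ * z * x ∈ B1 ↔ (x : G)⁻¹ * (z : G) * (x : G) ∈ B₀ := by
        rw [← hB0mem]
        rfl
      rw [← h2, ← h1, h3]
    let u : G := (x : G)⁻¹ * g
    have hu : u ∈ L := by
      rw [hLm]
      intro w
      constructor
      · intro hw
        have h1 : g * w * g⁻¹ ∈ commutator G :=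
          (inferInstance : (commutator G).Normal).conj_mem _ (hB0G hw) _
        have h2 := (hiff ⟨_, h1⟩).1 (by
          have : g⁻¹ * (g * w * g⁻¹) * g = w := by group
          show g⁻¹ * (g * w * g⁻¹) * g ∈ B₀
          rwa [this])
        have h3 : u * w * u⁻¹ = (x : G)⁻¹ * (g * w * g⁻¹) * (x : G) := by
          simp only [u]
          group
        rw [h3]
        exact h2
      · intro hw
        have h1 : (x : G) * (u * w * u⁻¹) * (x : G)⁻¹ ∈ commutator G :=
          mul_mem (mul_mem x.2 (hB0G hw)) (inv_mem x.2)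
        have h2 := (hiff ⟨_, h1⟩).2 (by
          have h4 : (x : G)⁻¹ * ((x : G) * (u * w * u⁻¹) * (x : G)⁻¹) * (x : G) = u * w * u⁻¹ := by group
          show (x : G)⁻¹ * ((x : G) * (u * w * u⁻¹) * (x : G)⁻¹) * (x : G) ∈ B₀
          rwa [h4])
        have h3 : g⁻¹ * ((x : G) * (u * w * u⁻¹) * (x : G)⁻¹) * g = w := by
          simp only [u]
          group
        have h5 : g⁻¹ * ((x : G) * (u * w * u⁻¹) * (x : G)⁻¹) * g ∈ B₀ := h2
        rwa [h3] at h5
    obtain ⟨e, he, b, hb, hxe⟩ := hprod x x.2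
    refine ⟨e, he, b * u, mul_mem (hB0L hb) hu, ?_⟩
    simp only [u]
    rw [hxe]
    group
  · intro d hd hdL hd1 e he hc
    obtain ⟨e₀, he₀, b₀, hb₀, rfl⟩ := hprod d hd
    have h1 : e₀ = 1 := by
      apply hdisj _ _ he₀
      have : e₀ = e₀ * b₀ * b₀⁻¹ := by group
      rw [this]
      exact mul_mem hdL (inv_mem (hB0L hb₀))
    subst h1
    rw [one_mul] at hd1 hc
    exact hfpf0 b₀ hb₀ hd1 e he hc

end Cfsg.Agent.Lib.NDF.IIS1
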