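import Cfsg.Agent.Lib.NDF.FrobFix

/-!
# (A4) A point with maximal stabiliser in the divisibility order.

The abelian lemma `abelian_max`: a finite abelian group `Q` with a subgroup `R` has a subgroup `A`, meeting `R`
trivially, whose order is divisible by the order of each subgroup meeting `R` trivially. (Swap of the Sylow parts.)

The core `max_stab_core` is the faithful case `R₂ = 1`: lift `A` (from `Γ / B`) by Schur-Zassenhaus to a subgroup
`U` with `U ∩ R = 1`, and apply `frobFix` to `B` and `U`. The general case is the image in `MulAut V`.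
-/

set_option autoImplicit false

namespace Cfsg.Agent.Lib.NDF.MaxStab

open Cfsg.Agent.Lib.NDF.FrobFix

universe u v

theorem eq_one_of_pow_coprime {X : Type*} [Group X] {x : X} {a b : ℕ} (h : Nat.Coprime a b)
    (ha : x ^ a = 1) (hb : x ^ b = 1) : x = 1 := by
  have h1 := orderOf_dvd_of_pow_eq_one ha
  have h2 := orderOf_dvd_of_pow_eq_one hb
  have h3 : orderOf x ∣ 1 := by
    have := Nat.dvd_gcd h1 h2
    rwa [h] at this
  exact orderOf_eq_one_iff.1 (Nat.dvd_one.1 h3)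

/-- The abelian lemma, for a commutative group. -/
theorem abelian_max' {Q : Type*} [CommGroup Q] [Finite Q] (R : Subgroup Q) :
    ∃ A : Subgroup Q, A ⊓ R = ⊥ ∧ ∀ C : Subgroup Q, C ⊓ R = ⊥ → Nat.card C ∣ Nat.card A := by
  classical
  haveI : Nonempty {A : Subgroup Q // A ⊓ R = ⊥} := ⟨⟨⊥, bot_inf_eq _⟩⟩
  obtain ⟨⟨A, hAR⟩, hmax⟩ := Finite.exists_max (fun A : {A : Subgroup Q // A ⊓ R = ⊥} => Nat.card A.1)
  refine ⟨A, hAR, fun C hCR => ?_⟩
  by_contra hnd
  have hApos : Nat.card A ≠ 0 := Nat.card_pos.ne'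
  have hCpos : Nat.card C ≠ 0 := Nat.card_pos.ne'
  rw [← Nat.factorization_prime_le_iff_dvd hCpos hApos] at hnd
  push Not at hnd
  obtain ⟨ℓ, hℓ, hlt⟩ := hnd
  haveI : Fact ℓ.Prime := ⟨hℓ⟩
  set a := Nat.card A with ha
  set w := (Nat.card C).factorization ℓ with hw
  set e := a.factorization ℓ with he
  have hm : ℓ ^ e * a / ℓ ^ e = a := by
    exact Nat.mul_div_cancel_left _ (pow_pos hℓ.pos _)
  obtain ⟨m, hmdef⟩ : ℓ ^ e ∣ a := Nat.ordProj_dvd a ℓ
  have hmcop : Nat.Coprime ℓ m := by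
    have h1 : ¬ ℓ ∣ m := by
      intro hd
      have : ℓ ^ (e + 1) ∣ a := by
        rw [hmdef, pow_succ]
        exact Nat.mul_dvd_mul_left _ hd
      have h2 := (hℓ.pow_dvd_iff_le_factorization hApos).1 this
      omega
    exact (Nat.Prime.coprime_iff_not_dvd hℓ).2 h1
  have hmpos : 0 < m := by
    rcases Nat.eq_zero_or_pos m with h | h
    · rw [h, mul_zero] at hmdef
      exact absurd hmdef hApos
    · exact h
  -- the part `A₁`
  let g : A →* Q := (powMonoidHom (ℓ ^ e)).comp A.subtype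
  let A₁ : Subgroup Q := g.range
  have hA₁pow : ∀ y ∈ A₁, y ^ m = 1 := by
    rintro y ⟨x, rfl⟩
    change (((x : A) : Q) ^ (ℓ ^ e)) ^ m = 1
    rw [← pow_mul, ← hmdef]
    have := pow_card_eq_one' (x := x)
    have h2 : ((x ^ Nat.card A : A) : Q) = 1 := by rw [this]; rfl
    rw [Subgroup.coe_pow] at h2
    exact h2
  have hA₁le : A₁ ≤ A := by
    rintro y ⟨x, rfl⟩
    exact A.pow_mem x.2 _
  have hker : Nat.card g.ker * Nat.card A₁ = a := by
    rw [← Subgroup.index_ker g]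
    exact Subgroup.card_mul_index g.ker
  have hkerp : Nat.card g.ker ∣ ℓ ^ e := by
    have hp : IsPGroup ℓ g.ker := by
      intro x
      refine ⟨e, ?_⟩
      apply Subtype.ext
      apply Subtype.ext
      have : g (x : A) = 1 := x.2
      simpa [g] using this
    obtain ⟨k, hk⟩ := hp.exists_card_eq
    have h1 : Nat.card g.ker ∣ a := ⟨_, hker.symm⟩
    rw [hk] at h1 ⊢
    rw [hmdef] at h1
    exact (Nat.Coprime.dvd_of_dvd_mul_right (Nat.Coprime.pow_left _ hmcop) h1)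
  have hA₁card : m ≤ Nat.card A₁ := by
    obtain ⟨t, ht⟩ := hkerp
    have h1 : Nat.card g.ker * Nat.card A₁ = Nat.card g.ker * (t * m) := by
      rw [hker, hmdef, ht]
      ring
    have hkpos : 0 < Nat.card g.ker := Nat.card_pos
    have h2 := Nat.eq_of_mul_eq_mul_left hkpos h1
    rw [h2]
    have htpos : 0 < t := by
      rcases Nat.eq_zero_or_pos t with h | h
      · rw [h, mul_zero] at ht
        exact absurd ht (pow_ne_zero _ hℓ.ne_zero)
      · exact h
    nlinarith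
  -- the part `A₂`
  obtain ⟨K, hK⟩ := Sylow.exists_subgroup_card_pow_prime (G := C) ℓ (n := w)
    (Nat.ordProj_dvd (Nat.card C) ℓ)
  let A₂ : Subgroup Q := K.map C.subtype
  have hA₂card : Nat.card A₂ = ℓ ^ w := by
    rw [Subgroup.card_map_of_injective (Subgroup.subtype_injective C), hK]
  have hA₂le : A₂ ≤ C := by
    rintro _ ⟨x, -, rfl⟩
    exact x.2
  have hA₂pow : ∀ z ∈ A₂, z ^ (ℓ ^ w) = 1 := by
    intro z hz
    have := pow_card_eq_one' (x := (⟨z, hz⟩ : A₂))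
    rw [hA₂card] at this
    have h2 := congrArg Subtype.val this
    simpa using h2
  have hdisj : ∀ y ∈ A₁, y ∈ A₂ → y = 1 := fun y hy hy' =>
    eq_one_of_pow_coprime (a := m) (b := ℓ ^ w)
      (Nat.Coprime.symm (Nat.Coprime.pow_left _ hmcop)) (hA₁pow y hy) (hA₂pow y hy')
  -- the subgroup `U`
  have hUR : (A₁ ⊔ A₂) ⊓ R = ⊥ := by
    rw [eq_bot_iff]
    rintro x ⟨hx, hxR⟩
    obtain ⟨y, hy, z, hz, rfl⟩ := Subgroup.mem_sup.1 hx
    have h1 : z ^ m ∈ R := by
      have := R.pow_mem hxR m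
      rwa [mul_pow, hA₁pow y hy, one_mul] at this
    have h2 : z ^ m ∈ C ⊓ R := ⟨C.pow_mem (hA₂le hz) _, h1⟩
    rw [hCR] at h2
    have h3 : z = 1 := eq_one_of_pow_coprime (a := m) (b := ℓ ^ w)
      (Nat.Coprime.symm (Nat.Coprime.pow_left _ hmcop)) h2 (hA₂pow z hz)
    subst h3
    rw [mul_one] at hxR ⊢
    have h4 : y ∈ A ⊓ R := ⟨hA₁le hy, hxR⟩
    rw [hAR] at h4
    exact h4
  have hcardU : Nat.card A₁ * Nat.card A₂ ≤ Nat.card (A₁ ⊔ A₂ : Subgroup Q) := by
    rw [← Nat.card_prod]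
    refine Nat.card_le_card_of_injective
      (fun p : A₁ × A₂ => (⟨(p.1 : Q) * (p.2 : Q), Subgroup.mul_mem_sup p.1.2 p.2.2⟩ : (A₁ ⊔ A₂ : Subgroup Q))) ?_
    rintro ⟨⟨u, hu⟩, ⟨v, hv⟩⟩ ⟨⟨u', hu'⟩, ⟨v', hv'⟩⟩ h
    have h0 : u * v = u' * v' := congrArg Subtype.val h
    have h2 : u'⁻¹ * u = v' * v⁻¹ := by
      calc u'⁻¹ * u = u'⁻¹ * (u * v) * v⁻¹ := by simp [mul_assoc]
        _ = u'⁻¹ * (u' * v') * v⁻¹ := by rw [h0]
        _ = v' * v⁻¹ := by simp
    have h5 : u'⁻¹ * u = 1 := hdisj _ (A₁.mul_mem (A₁.inv_mem hu') hu) (by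
      rw [h2]
      exact A₂.mul_mem hv' (A₂.inv_mem hv))
    have h6 : u' = u := inv_mul_eq_one.1 h5
    subst h6
    have h7 : v = v' := mul_left_cancel h0
    subst h7
    rfl
  have hle := hmax ⟨_, hUR⟩
  simp only at hle
  have h1 : ℓ ^ e * m < ℓ ^ w * m :=
    Nat.mul_lt_mul_of_pos_right (Nat.pow_lt_pow_right hℓ.one_lt hlt) hmpos
  have h2 : m * ℓ ^ w ≤ Nat.card A₁ * Nat.card A₂ := by
    rw [hA₂card]
    exact Nat.mul_le_mul_right _ hA₁card
  have h3 : Nat.card (A₁ ⊔ A₂ : Subgroup Q) ≤ ℓ ^ e * m := by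
    rw [← hmdef]
    exact hle
  nlinarith

/-- The abelian lemma. -/
theorem abelian_max {Q : Type*} [inst : Group Q] [Finite Q] (hcomm : ∀ a b : Q, a * b = b * a)
    (R : Subgroup Q) :
    ∃ A : Subgroup Q, A ⊓ R = ⊥ ∧ ∀ C : Subgroup Q, C ⊓ R = ⊥ → Nat.card C ∣ Nat.card A :=
  @abelian_max' Q { inst with mul_comm := hcomm } _ R

/-- The faithful case. -/
theorem max_stab_core {Γ : Type*} {V : Type*} [Group Γ] [Finite Γ] [CommGroup V] [Finite V]
    [MulDistribMulAction Γ V] {B R : Subgroup Γ} (hB1 : B ≠ ⊥) (hBR : B ≤ R) (hBn : B.Normal)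
    (hRn : R.Normal) (hLB : ∀ a b : Γ, a * b * a⁻¹ * b⁻¹ ∈ B)
    (hcopR : Nat.Coprime (Nat.card B) R.index)
    (hfB : ∀ g, g ∉ R → ∀ b ∈ B, g * b = b * g → b = 1)
    (hBV : ∀ b ∈ B, b ≠ 1 → ∀ v : V, b • v = v → v = 1)
    (hcopV : Nat.Coprime (Nat.card B) (Nat.card V)) (hV : ∃ v : V, v ≠ 1) :
    ∃ l₀ : V, l₀ ≠ 1 ∧ ∀ T : Subgroup Γ, T ⊓ R = ⊥ →
      Nat.card T ∣ Nat.card (MulAction.stabilizer Γ l₀) := by
  classical
  haveI := hBn
  haveI := hRn
  let π : Γ →* Γ ⧸ B := QuotientGroup.mk' B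
  have hπs : Function.Surjective π := QuotientGroup.mk'_surjective B
  have hπk : ∀ x, π x = 1 ↔ x ∈ B := fun x => QuotientGroup.eq_one_iff x
  have hcomm : ∀ a b : Γ ⧸ B, a * b = b * a := by
    intro a b
    obtain ⟨a', rfl⟩ := hπs a
    obtain ⟨b', rfl⟩ := hπs b
    have h1 := (hπk _).2 (hLB a' b')
    rw [map_mul, map_mul, map_mul, map_inv, map_inv] at h1
    have h2 : π a' * π b' * (π b' * π a')⁻¹ = 1 := by
      rw [mul_inv_rev, ← mul_assoc]
      exact h1
    exact mul_inv_eq_one.1 h2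
  obtain ⟨A, hAR, hA⟩ := abelian_max hcomm (R.map π)
  -- `|A|` divides the index of `R`
  have hAidx : Nat.card A ∣ R.index := by
    let τ : Γ ⧸ B →* Γ ⧸ R := QuotientGroup.map B R (MonoidHom.id Γ) (fun x hx => hBR hx)
    have hinj : Function.Injective (τ.comp A.subtype) := by
      rw [injective_iff_map_eq_one]
      rintro ⟨x, hx⟩ h
      obtain ⟨x', rfl⟩ := hπs x
      have h1 : (QuotientGroup.mk' R x' : Γ ⧸ R) = 1 := h
      have h2 : x' ∈ R := (QuotientGroup.eq_one_iff x').1 h1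
      have h3 : π x' ∈ A ⊓ R.map π := ⟨hx, ⟨x', h2, rfl⟩⟩
      rw [hAR] at h3
      exact Subtype.ext h3
    exact Subgroup.card_dvd_of_injective _ hinj
  have hcopA : Nat.Coprime (Nat.card B) (Nat.card A) := Nat.Coprime.coprime_dvd_right hAidx hcopR
  -- the preimage and the complement
  let P : Subgroup Γ := A.comap π
  have hBP : B ≤ P := fun x hx => by
    change π x ∈ A
    rw [(hπk x).2 hx]
    exact A.one_mem
  let N : Subgroup P := B.subgroupOf P
  haveI hNn : N.Normal := inferInstance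
  have hNcard : Nat.card N = Nat.card B := by
    exact Nat.card_congr (Subgroup.subgroupOfEquivOfLe hBP).toEquiv
  let gg : P →* Γ ⧸ B := π.comp P.subtype
  have hggk : gg.ker = N := by
    ext x
    rw [MonoidHom.mem_ker, Subgroup.mem_subgroupOf]
    exact hπk _
  have hggr : gg.range = A := by
    ext y
    constructor
    · rintro ⟨x, rfl⟩
      exact x.2
    · intro hy
      obtain ⟨x, rfl⟩ := hπs y
      exact ⟨⟨x, hy⟩, rfl⟩
  have hNidx : N.index = Nat.card A := by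
    rw [← hggk, Subgroup.index_ker, hggr]
  have hcopN : Nat.Coprime (Nat.card N) N.index := by
    rw [hNcard, hNidx]
    exact hcopA
  obtain ⟨U₀, hU₀⟩ := Subgroup.exists_right_complement'_of_coprime hcopN
  have hU₀card : Nat.card U₀ = Nat.card A := by
    have h1 := hU₀.card_mul_card
    have h2 := Subgroup.card_mul_index N
    rw [hNidx] at h2
    have hpos : 0 < Nat.card N := Nat.card_pos
    exact Nat.eq_of_mul_eq_mul_left hpos (by rw [h1, h2])
  let U : Subgroup Γ := U₀.map P.subtype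
  have hUcard : Nat.card U = Nat.card A := by
    rw [Subgroup.card_map_of_injective (Subgroup.subtype_injective P), hU₀card]
  have hUR : U ⊓ R = ⊥ := by
    rw [eq_bot_iff]
    rintro x ⟨⟨u, hu, rfl⟩, hxR⟩
    have h1 : π u ∈ A ⊓ R.map π := ⟨u.2, ⟨u, hxR, rfl⟩⟩
    rw [hAR] at h1
    have h2 : (u : Γ) ∈ B := (hπk _).1 h1
    have h3 : u ∈ N := Subgroup.mem_subgroupOf.2 h2
    have h4 : u = 1 := Subgroup.disjoint_def.1 hU₀.disjoint h3 hu
    rw [h4]
    exact Subgroup.one_mem _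
  -- the fixed point
  obtain ⟨b₀, hb₀, hb₀1⟩ : ∃ b ∈ B, b ≠ 1 := by
    obtain ⟨⟨b, hb⟩, hb1⟩ := (Subgroup.ne_bot_iff_exists_ne_one (H := B)).1 hB1
    exact ⟨b, hb, by simpa using hb1⟩
  obtain ⟨l₀, hl₀, hl₀U⟩ := frobFix B U hBn
    (by
      rw [eq_bot_iff]
      rintro x ⟨hxB, hxU⟩
      have : x ∈ U ⊓ R := ⟨hxU, hBR hxB⟩
      rwa [hUR] at this)
    (by
      intro x hx hx1 f hf hxf
      refine hfB x ?_ f hf hxf
      intro hxR
      have : x ∈ U ⊓ R := ⟨hx, hxR⟩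
      rw [hUR] at this
      exact hx1 this)
    hcopV (fun v hv => hBV b₀ hb₀ hb₀1 v (hv b₀ hb₀)) hV
  refine ⟨l₀, hl₀, fun T hT => ?_⟩
  have hUS : U ≤ MulAction.stabilizer Γ l₀ := fun x hx => hl₀U x hx
  have hdvd : Nat.card A ∣ Nat.card (MulAction.stabilizer Γ l₀) := by
    rw [← hUcard]
    exact Subgroup.card_dvd_of_le hUS
  refine dvd_trans ?_ hdvd
  have hinjT : Function.Injective (π.comp T.subtype) := by
    rw [injective_iff_map_eq_one]
    rintro ⟨t, ht⟩ h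
    have h1 : t ∈ B := (hπk t).1 h
    have h2 : t ∈ T ⊓ R := ⟨ht, hBR h1⟩
    rw [hT] at h2
    exact Subtype.ext h2
  have hTcard : Nat.card T = Nat.card (T.map π) := by
    have h1 : (π.comp T.subtype).range = T.map π := by
      rw [MonoidHom.range_comp, Subgroup.range_subtype]
    rw [← h1]
    exact Nat.card_congr (MonoidHom.ofInjective hinjT).toEquiv
  rw [hTcard]
  apply hA
  rw [eq_bot_iff]
  rintro x ⟨⟨t, ht, rfl⟩, ⟨r, hr, hrt⟩⟩
  have h1 : r⁻¹ * t ∈ B := by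
    apply (hπk _).1
    rw [map_mul, map_inv, inv_mul_eq_one]
    exact hrt
  have h2 : t ∈ R := by
    have := R.mul_mem hr (hBR h1)
    simpa using this
  have h3 : t ∈ T ⊓ R := ⟨ht, h2⟩
  rw [hT] at h3
  have h4 : t = 1 := h3
  rw [h4, map_one]
  exact Subgroup.one_mem _

/-- Comap under a surjection: the orders multiply. -/
theorem card_comap_surj {X Y : Type*} [Group X] [Group Y] [Finite X] [Finite Y] {f : X →* Y}
    (hf : Function.Surjective f) (K : Subgroup Y) :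
    Nat.card (K.comap f) = Nat.card f.ker * Nat.card K := by
  have h1 := Subgroup.card_mul_index (K.comap f)
  have h2 := Subgroup.card_mul_index K
  have h3 := Subgroup.card_mul_index f.ker
  rw [Subgroup.index_comap_of_surjective K hf] at h1
  rw [Subgroup.index_ker, MonoidHom.range_eq_top.2 hf, Subgroup.card_top] at h3
  have hpos : 0 < K.index := Nat.pos_of_ne_zero Subgroup.index_ne_zero_of_finite
  apply Nat.eq_of_mul_eq_mul_right hpos
  rw [h1, mul_assoc, h2, h3]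

/-- (A4) A point with maximal stabiliser in the divisibility order. -/
theorem max_stab {L : Type u} {V : Type v} [Group L] [Finite L] [CommGroup V] [Finite V]
    [MulDistribMulAction L V] {B R R₂ : Subgroup L} (hB1 : B ≠ ⊥) (hBR : B ≤ R) (hBn : B.Normal)
    (hRn : R.Normal) (hLB : ∀ a b : L, a * b * a⁻¹ * b⁻¹ ∈ B)
    (hcopR : Nat.Coprime (Nat.card B) R.index)
    (hfB : ∀ g, g ∉ R → ∀ b ∈ B, g * b = b * g → b = 1)
    (hBV : ∀ b ∈ B, b ≠ 1 → ∀ v : V, b • v = v → v = 1)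
    (hcopV : Nat.Coprime (Nat.card B) (Nat.card V)) (hV : ∃ v : V, v ≠ 1)
    (hR₂n : R₂.Normal) (hR₂R : R₂ ≤ R) (hR₂V : ∀ r ∈ R₂, ∀ v : V, r • v = v)
    (hR₂ : ∀ r ∈ R, ∀ v : V, v ≠ 1 → r • v = v → r ∈ R₂) :
    ∃ l₀ : V, l₀ ≠ 1 ∧ ∀ T : Subgroup L, (∀ t ∈ T, t ∈ R → t ∈ R₂) →
      Nat.card T ∣ Nat.card (MulAction.stabilizer L l₀) := by
  classical
  obtain ⟨v₀, hv₀⟩ := hV
  let ρ : L →* MulAut V := MulDistribMulAction.toMulAut L V
  let f : L →* ρ.range := ρ.rangeRestrict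
  have hfs : Function.Surjective f := MonoidHom.rangeRestrict_surjective ρ
  haveI : Finite ρ.range := Finite.of_surjective f hfs
  have hact : ∀ (g : L) (v : V), (f g) • v = g • v := fun _ _ => rfl
  -- the kernel
  have htriv : ∀ b ∈ B, (∀ v : V, b • v = v) → b = 1 := by
    intro b hb h
    by_contra hb1
    exact hv₀ (hBV b hb hb1 v₀ (h v₀))
  have hkerR : ∀ k, (∀ v : V, k • v = v) → k ∈ R := by
    intro k hk
    by_contra hkR
    obtain ⟨⟨b, hb⟩, hb1⟩ := (Subgroup.ne_bot_iff_exists_ne_one (H := B)).1 hB1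
    have hb1' : b ≠ 1 := by simpa using hb1
    apply hb1'
    refine hfB k hkR b hb ?_
    have h1 : k * b * k⁻¹ * b⁻¹ ∈ B := hLB k b
    have h2 : k * b * k⁻¹ * b⁻¹ = 1 := by
      apply htriv _ h1
      intro v
      have hk' : ∀ v : V, k⁻¹ • v = v := fun v => by
        rw [inv_smul_eq_iff]
        exact (hk v).symm
      simp only [mul_smul, hk', hk]
      simp
    have h3 : k * b * k⁻¹ = b := mul_inv_eq_one.1 h2
    exact (mul_inv_eq_iff_eq_mul.1 h3)
  have hker : ∀ k, f k = 1 ↔ k ∈ R₂ := by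
    intro k
    constructor
    · intro h
      have h1 : ∀ v : V, k • v = v := fun v => by
        rw [← hact, h, one_smul]
      exact hR₂ k (hkerR k h1) v₀ hv₀ (h1 v₀)
    · intro h
      apply Subtype.ext
      ext v
      exact hR₂V k h v
  have hBinj : ∀ b ∈ B, f b = 1 → b = 1 := by
    intro b hb h
    exact htriv b hb (fun v => by rw [← hact, h, one_smul])
  have hcardB : Nat.card (B.map f) ∣ Nat.card B := Subgroup.card_map_dvd _ _
  obtain ⟨l₀, hl₀, hmain⟩ := max_stab_core (Γ := ρ.range) (V := V) (B := B.map f) (R := R.map f)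
    (by
      obtain ⟨⟨b, hb⟩, hb1⟩ := (Subgroup.ne_bot_iff_exists_ne_one (H := B)).1 hB1
      have hb1' : b ≠ 1 := by simpa using hb1
      intro h
      have : f b ∈ B.map f := ⟨b, hb, rfl⟩
      rw [h] at this
      exact hb1' (hBinj b hb this))
    (Subgroup.map_mono hBR) (hBn.map f hfs) (hRn.map f hfs)
    (by
      intro a b
      obtain ⟨a', rfl⟩ := hfs a
      obtain ⟨b', rfl⟩ := hfs b
      exact ⟨_, hLB a' b', by simp⟩)
    (Nat.Coprime.coprime_dvd_left hcardB (Nat.Coprime.coprime_dvd_right (Subgroup.index_map_dvd R hfs) hcopR))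
    (by
      rintro g hg _ ⟨b, hb, rfl⟩ hcm
      obtain ⟨g', rfl⟩ := hfs g
      have hg' : g' ∉ R := fun h => hg ⟨g', h, rfl⟩
      have h1 : g' * b * g'⁻¹ * b⁻¹ ∈ B := hLB g' b
      have h2 : f (g' * b * g'⁻¹ * b⁻¹) = 1 := by
        rw [map_mul, map_mul, map_mul, map_inv, map_inv, hcm]
        group
      have h3 := hBinj _ h1 h2
      have h4 : g' * b * g'⁻¹ = b := mul_inv_eq_one.1 h3
      rw [hfB g' hg' b hb (mul_inv_eq_iff_eq_mul.1 h4), map_one])
    (by
      rintro _ ⟨b, hb, rfl⟩ hb1 v hv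
      have hb1' : b ≠ 1 := by
        rintro rfl
        exact hb1 (map_one f)
      exact hBV b hb hb1' v hv)
    (Nat.Coprime.coprime_dvd_left hcardB hcopV) ⟨v₀, hv₀⟩
  refine ⟨l₀, hl₀, fun T hT => ?_⟩
  have h1 := hmain (T.map f) (by
    rw [eq_bot_iff]
    rintro _ ⟨⟨t, ht, rfl⟩, ⟨r, hr, hrt⟩⟩
    have h2 : r⁻¹ * t ∈ R₂ := by
      apply (hker _).1
      rw [map_mul, map_inv, inv_mul_eq_one]
      exact hrt
    have h3 : t ∈ R := by
      have := R.mul_mem hr (hR₂R h2)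
      simpa using this
    exact (Subgroup.mem_bot).2 ((hker t).2 (hT t ht h3)))
  have hkc : f.ker = R₂ := by
    ext k
    exact hker k
  have hS : (MulAction.stabilizer ρ.range l₀).comap f = MulAction.stabilizer L l₀ := by
    ext g
    rfl
  have h2 : Nat.card (MulAction.stabilizer L l₀) = Nat.card f.ker * Nat.card (MulAction.stabilizer ρ.range l₀) := by
    rw [← hS]
    exact card_comap_surj hfs _
  have h3 : Nat.card T ∣ Nat.card ((T.map f).comap f) :=
    Subgroup.card_dvd_of_le (Subgroup.le_comap_map f T)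
  rw [card_comap_surj hfs] at h3
  rw [h2]
  exact dvd_trans h3 (Nat.mul_dvd_mul_left _ h1)

end Cfsg.Agent.Lib.NDF.MaxStab
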