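import Mathlib

/-!
# (A3) Uniform kernels: a central element fixing a nontrivial point fixes all.
-/

set_option autoImplicit false

namespace Cfsg.Agent.Lib.NDF.UniformFix

universe u v

/-- A self-map of a finite type has an idempotent iterate. -/
theorem exists_iter_idem {V : Type v} [Finite V] (f : V → V) :
    ∃ n : ℕ, 1 ≤ n ∧ ∀ x, f^[n] (f^[n] x) = f^[n] x := by
  obtain ⟨a, b, hab, h⟩ := Finite.exists_ne_map_eq_of_infinite (fun n : ℕ => f^[n])
  wlog hlt : a < b generalizing a b
  · exact this b a hab.symm h.symm (lt_of_le_of_ne (not_lt.mp hlt) hab.symm)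
  obtain ⟨k, rfl⟩ : ∃ k, b = a + (k + 1) := ⟨b - a - 1, by omega⟩
  have hper : ∀ m, a ≤ m → f^[m + (k + 1)] = f^[m] := by
    intro m hm
    obtain ⟨c, rfl⟩ : ∃ c, m = c + a := ⟨m - a, by omega⟩
    have h' : f^[a + (k + 1)] = f^[a] := h.symm
    rw [add_assoc, Function.iterate_add, h', ← Function.iterate_add]
  have hper2 : ∀ t m, a ≤ m → f^[m + t * (k + 1)] = f^[m] := by
    intro t
    induction t with
    | zero => intro m _; simp
    | succ t ih =>
      intro m hm
      have : m + (t + 1) * (k + 1) = (m + t * (k + 1)) + (k + 1) := by ring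
      rw [this, hper _ (by omega), ih m hm]
  refine ⟨(a + 1) * (k + 1), by nlinarith, fun x => ?_⟩
  have h1 : f^[(a + 1) * (k + 1) + (a + 1) * (k + 1)] = f^[(a + 1) * (k + 1)] :=
    hper2 (a + 1) _ (by nlinarith)
  have := congrFun h1 x
  rwa [Function.iterate_add, Function.comp_apply] at this

/-- (A3) Uniform kernels: a central element fixing a nontrivial point fixes all. -/
theorem uniform_fix {L : Type u} {V : Type v} [Group L] [Finite L] [CommGroup V] [Finite V]
    [MulDistribMulAction L V]
    (hac : ∀ ν μ : V, ν ≠ 1 → μ ≠ 1 → (MulAction.stabilizer L ν).index ∣ (MulAction.stabilizer L μ).index →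
      (MulAction.stabilizer L ν).index = (MulAction.stabilizer L μ).index)
    (z : L) (hz : ∀ g : L, g * z = z * g) {ν : V} (hν : ν ≠ 1) (hzν : z • ν = ν) (μ : V) : z • μ = μ := by
  classical
  -- the map `φ`
  let φ : V →* V :=
    { toFun := fun x => (z • x) * x⁻¹
      map_one' := by simp
      map_mul' := fun x y => by
        simp only [smul_mul', mul_inv]
        exact mul_mul_mul_comm _ _ _ _ }
  have hφ : ∀ x, φ x = 1 ↔ z • x = x := fun x => by
    change (z • x) * x⁻¹ = 1 ↔ _
    exact mul_inv_eq_one
  have hcomm : ∀ (g : L) (x : V), φ (g • x) = g • φ x := fun g x => by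
    change (z • (g • x)) * (g • x)⁻¹ = g • ((z • x) * x⁻¹)
    rw [smul_mul', smul_inv', smul_smul, smul_smul, hz]
  have hcommk : ∀ (k : ℕ) (g : L) (x : V), φ^[k] (g • x) = g • φ^[k] x := by
    intro k
    induction k with
    | zero => intro g x; rfl
    | succ k ih =>
      intro g x
      rw [Function.iterate_succ_apply', Function.iterate_succ_apply', ih, hcomm]
  have hmapk : ∀ (k : ℕ) (x y : V), φ^[k] (x * y) = φ^[k] x * φ^[k] y := by
    intro k
    induction k with
    | zero => intro x y; rfl
    | succ k ih =>
      intro x y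
      rw [Function.iterate_succ_apply', Function.iterate_succ_apply', Function.iterate_succ_apply',
        ih, map_mul]
  have honek : ∀ k : ℕ, φ^[k] (1 : V) = 1 := by
    intro k
    induction k with
    | zero => rfl
    | succ k ih => rw [Function.iterate_succ_apply', ih, map_one]
  have hinvk : ∀ (k : ℕ) (x : V), φ^[k] x⁻¹ = (φ^[k] x)⁻¹ := by
    intro k x
    have := hmapk k x⁻¹ x
    rw [inv_mul_cancel, honek] at this
    exact eq_inv_of_mul_eq_one_left this.symm
  -- Step 1
  have step1 : ∀ (k : ℕ) (x : V), φ^[k] x = 1 → φ x = 1 := by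
    intro k
    induction k with
    | zero =>
      intro x hx
      have : x = 1 := hx
      rw [this, map_one]
    | succ k ih =>
      intro x hx
      rw [Function.iterate_succ_apply] at hx
      have hw := ih (φ x) hx
      by_cases hw1 : φ x = 1
      · exact hw1
      · have hx1 : x ≠ 1 := by
          rintro rfl
          exact hw1 (map_one φ)
        have hle : MulAction.stabilizer L x ≤ MulAction.stabilizer L (φ x) := by
          intro g hg
          rw [MulAction.mem_stabilizer_iff] at hg ⊢
          rw [← hcomm, hg]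
        have heq := hac (φ x) x hw1 hx1 (Subgroup.index_dvd_of_le hle)
        have hstab : MulAction.stabilizer L x = MulAction.stabilizer L (φ x) :=
          Subgroup.eq_of_le_of_card_ge hle (by
            have h1 := Subgroup.card_mul_index (MulAction.stabilizer L x)
            have h2 := Subgroup.card_mul_index (MulAction.stabilizer L (φ x))
            rw [heq] at h2
            have hpos : (MulAction.stabilizer L x).index ≠ 0 := Subgroup.index_ne_zero_of_finite
            have hne : Nat.card L ≠ 0 := Nat.card_pos.ne'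
            have : Nat.card (MulAction.stabilizer L (φ x)) = Nat.card (MulAction.stabilizer L x) := by
              apply Nat.eq_of_mul_eq_mul_right (Nat.pos_of_ne_zero hpos)
              rw [h1]
              exact h2
            omega)
        have hzw : z ∈ MulAction.stabilizer L (φ x) := (hφ _).1 hw
        rw [← hstab] at hzw
        exact (hφ x).2 hzw
  obtain ⟨n, hn1, hidem⟩ := exists_iter_idem (⇑φ)
  have hνe : φ^[n] ν = 1 := by
    obtain ⟨m, rfl⟩ : ∃ m, n = m + 1 := ⟨n - 1, by omega⟩
    rw [Function.iterate_succ_apply, (hφ ν).2 hzν, honek]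
  -- Step 2: `e μ = 1`
  have hμe : φ^[n] μ = 1 := by
    by_contra hne
    set μ₁ := φ^[n] μ with hμ₁
    have heμ₁ : φ^[n] μ₁ = μ₁ := hidem μ
    have hνμ : ν * μ₁ ≠ 1 := by
      intro h
      apply hne
      have := congrArg (φ^[n]) h
      rw [hmapk, hνe, heμ₁, one_mul, honek] at this
      exact this
    have hle1 : MulAction.stabilizer L (ν * μ₁) ≤ MulAction.stabilizer L μ₁ := by
      intro g hg
      rw [MulAction.mem_stabilizer_iff] at hg ⊢
      have := congrArg (φ^[n]) hg
      rw [hcommk, hmapk, hνe, heμ₁, one_mul] at this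
      exact this
    have hle2 : MulAction.stabilizer L (ν * μ₁) ≤ MulAction.stabilizer L ν := by
      intro g hg
      have h1 := hle1 hg
      rw [MulAction.mem_stabilizer_iff] at hg h1 ⊢
      rw [smul_mul', h1] at hg
      exact mul_right_cancel hg
    have heq := hac ν (ν * μ₁) hν hνμ (Subgroup.index_dvd_of_le hle2)
    have hstab : MulAction.stabilizer L (ν * μ₁) = MulAction.stabilizer L ν :=
      Subgroup.eq_of_le_of_card_ge hle2 (by
        have h1 := Subgroup.card_mul_index (MulAction.stabilizer L ν)
        have h2 := Subgroup.card_mul_index (MulAction.stabilizer L (ν * μ₁))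
        rw [← heq] at h2
        have hpos : (MulAction.stabilizer L ν).index ≠ 0 := Subgroup.index_ne_zero_of_finite
        have : Nat.card (MulAction.stabilizer L ν) = Nat.card (MulAction.stabilizer L (ν * μ₁)) := by
          apply Nat.eq_of_mul_eq_mul_right (Nat.pos_of_ne_zero hpos)
          linarith [h1, h2]
        omega)
    have hzs : z ∈ MulAction.stabilizer L (ν * μ₁) := by
      rw [hstab]
      exact hzν
    have hzμ₁ := hle1 hzs
    have hφμ₁ : φ μ₁ = 1 := (hφ _).2 hzμ₁
    apply hne
    obtain ⟨m, hm⟩ : ∃ m, n = m + 1 := ⟨n - 1, by omega⟩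
    have : φ^[n] μ₁ = 1 := by
      rw [hm, Function.iterate_succ_apply, hφμ₁, honek]
    rw [heμ₁] at this
    exact this
  exact (hφ μ).1 (step1 n μ hμe)

end Cfsg.Agent.Lib.NDF.UniformFix
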