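import Cfsg.Agent.Lib.NDF.IIChar
import Cfsg.Agent.Lib.NDF.MaxStab
import Cfsg.Agent.Lib.NDF.UniformFix

/-!
# S4780, block II, S3: the linear part.

`letI := actV hE L`, `stabilizer_actV`, `finite_hom`. `hac` of `uniform_fix`: `|L : L_ν|` are in `cd(G)` (`index_mem_lin`), `> 1`
(`b_fix`, `BL_ne`), `St.nd`. `R₂ := {r ∈ R | r fixes all of V}`, normal in `L`. `hR`: `r ∈ R` fixes `δ ≠ 1`: `(r : G) ∈ Y`
(`LI_R_le_Y`), central in `L` (`hZ`), `uniform_fix`: `r ∈ R₂`. `max_stab`: `l₀`. `d₀ = |L : L_{l₀}|`.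
`irr`: `|L_θ|` divides `|L_{l₀}|`, so `d₀ ∣ |L : L_θ| ∣ χ(1)` (`deg_LI`); `St.nd`: `χ(1) = d₀`, `θ(1) = 1`.
`hd`: `lin δ` (`isIrrCharacter_of_hom`) for `δ ≠ 1`: `d₀ ∣ |L : L_δ| ∈ cd(G)`: equal. `nm`: `m ∣ d₀` gives `m = d₀` (`St.nd`, `IID.idx`);
`BL ∩ L_{l₀} = 1`, `BL` normal, so `|BL| ∣ d₀ = m`, contra `cop_BR`, `BL_ne`.
-/

set_option autoImplicit false
set_option linter.unusedSectionVars false

namespace Cfsg.Agent.Lib.NDF.IIS3

open Cfsg Cfsg.Agent.Lib.NoDiv.Defs Cfsg.Agent.Lib.NDF.Defs Cfsg.Agent.Lib.NDF.IIDefs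
open Cfsg.Agent.Lib.NoDiv.XLemma Cfsg.Agent.Lib.NDF.IIBasic Cfsg.Agent.Lib.NDF.IIChar
open Cfsg.Agent.Lib.Char.Basic Cfsg.Agent.Lib.Char.Conj Cfsg.Agent.Lib.Char.CliffordCorr
open Cfsg.Agent.Lib.Char.Ortho Cfsg.Agent.Lib.Char.Degree

universe u

variable {G : Type u} [Group G] {H Y E L : Subgroup G}

/-- S3. -/
theorem s3 [Fintype G] [Group.IsSolvable G] [Fintype E] (h : IID H Y E L) (hE : E.Normal) :
    ∃ (R₂ : Subgroup L) (d₀ : ℕ), S3D hE H L R₂ d₀ ∧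
      ∀ θ : E → ℂ, IsIrrCharacter E θ → θ ≠ (fun _ => 1) → (∀ x ∈ LI hE L θ, x ∈ RL H L → x ∈ R₂) →
        ∀ χ : G → ℂ, IsIrrCharacter G χ → classInner (fun n : E => χ n) θ ≠ 0 →
          charDegree χ = d₀ ∧ charDegree θ = 1 := by
  classical
  letI inst := actV hE L
  haveI hVf : Finite (E →* ℂˣ) := Cfsg.Agent.Lib.Char.GoingDown.finite_hom (K := E)
  have hsmul : ∀ (l : L) (δ : E →* ℂˣ), l • δ = δ ↔ conjHom hE (l : G) δ = δ :=
    fun l δ => conjHom_inv_eq_iff hE _ δ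
  have hlinirr : ∀ δ : E →* ℂˣ, IsIrrCharacter E (lin δ) :=
    fun δ => Cfsg.Agent.Lib.Char.Linear.isIrrCharacter_of_hom δ
  have hlinne : ∀ δ : E →* ℂˣ, δ ≠ 1 → lin δ ≠ fun _ => 1 := by
    intro δ hδ hl
    apply hδ
    ext e
    have := congrFun hl e
    simpa [lin] using this
  have hstab : ∀ δ : E →* ℂˣ, MulAction.stabilizer L δ = LI hE L (lin δ) :=
    fun δ => stabilizer_actV hE L δ
  have hB1 : ∃ b : L, b ∈ BL L ∧ b ≠ 1 := by
    have hne := BL_ne h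
    obtain ⟨b, hb, hb1⟩ := (Subgroup.ne_bot_iff_exists_ne_one.mp hne |>.imp fun x hx => hx) |> fun ⟨x, hx⟩ =>
      (⟨x.1, x.2, fun h0 => hx (Subtype.ext h0)⟩ : ∃ b : L, b ∈ BL L ∧ b ≠ 1)
    exact ⟨b, hb, hb1⟩
  have hBfix : ∀ b : L, b ∈ BL L → b ≠ 1 → ∀ δ : E →* ℂˣ, conjHom hE (b : G) δ = δ → δ = 1 := by
    intro b hb hb1 δ hfix
    by_contra hδ
    exact hlinne δ hδ (b_fix h hE hb hb1 (hlinirr δ) ((conjHom_eq_iff hE _ δ).mp hfix))
  have hgt : ∀ δ : E →* ℂˣ, δ ≠ 1 → 1 < (LI hE L (lin δ)).index := by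
    intro δ hδ
    obtain ⟨b, hb, hb1⟩ := hB1
    by_contra hle
    have h0 : (LI hE L (lin δ)).index ≠ 0 := Subgroup.index_ne_zero_of_finite
    have h1 : (LI hE L (lin δ)).index = 1 := by omega
    have h2 : LI hE L (lin δ) = ⊤ := Subgroup.index_eq_one.mp h1
    have h3 : b ∈ LI hE L (lin δ) := by rw [h2]; trivial
    exact hδ (hBfix b hb hb1 δ ((conjHom_eq_iff hE _ δ).mpr h3))
  have hnd : ∀ a ∈ charDegrees G, ∀ b ∈ charDegrees G, 1 < a → a ∣ b → 0 < b → a = b := by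
    intro a ha b hb h1 hdvd h0
    by_contra hne
    have hlt : a < b := lt_of_le_of_ne (Nat.le_of_dvd h0 hdvd) hne
    exact h.st.nd a ha b hb h1 hlt hdvd
  have hpos : ∀ δ : E →* ℂˣ, 0 < (LI hE L (lin δ)).index :=
    fun δ => Nat.pos_of_ne_zero Subgroup.index_ne_zero_of_finite
  have hac : ∀ ν μ : E →* ℂˣ, ν ≠ 1 → μ ≠ 1 →
      (MulAction.stabilizer L ν).index ∣ (MulAction.stabilizer L μ).index →
      (MulAction.stabilizer L ν).index = (MulAction.stabilizer L μ).index := by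
    intro ν μ hν hμ hd
    rw [hstab, hstab] at hd ⊢
    exact hnd _ (index_mem_lin h hE ν) _ (index_mem_lin h hE μ) (hgt ν hν) hd (hpos μ)
  -- the kernel part
  let R₂ : Subgroup L :=
    { carrier := {r | r ∈ RL H L ∧ ∀ δ : E →* ℂˣ, r • δ = δ}
      mul_mem' := by
        rintro a b ⟨ha, ha'⟩ ⟨hb, hb'⟩
        exact ⟨mul_mem ha hb, fun δ => by rw [mul_smul, hb', ha']⟩
      one_mem' := ⟨one_mem _, fun δ => one_smul _ δ⟩
      inv_mem' := by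
        rintro a ⟨ha, ha'⟩
        exact ⟨inv_mem ha, fun δ => by rw [inv_smul_eq_iff, ha']⟩ }
  have hmemR₂ : ∀ r : L, r ∈ R₂ ↔ r ∈ RL H L ∧ ∀ δ : E →* ℂˣ, r • δ = δ := fun r => Iff.rfl
  have hR₂n : R₂.Normal := by
    constructor
    intro n hn g
    obtain ⟨h1, h2⟩ := (hmemR₂ n).mp hn
    refine (hmemR₂ _).mpr ⟨(hRn h).conj_mem n h1 g, fun δ => ?_⟩
    rw [mul_smul, mul_smul, h2, smul_inv_smul]
  have hR₂R : R₂ ≤ RL H L := fun r hr => ((hmemR₂ r).mp hr).1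
  have hR₂V : ∀ r ∈ R₂, ∀ v : E →* ℂˣ, r • v = v := fun r hr => ((hmemR₂ r).mp hr).2
  have hR : ∀ r ∈ RL H L, ∀ δ : E →* ℂˣ, δ ≠ 1 → conjHom hE (r : G) δ = δ → r ∈ R₂ := by
    intro r hr δ hδ hfix
    refine (hmemR₂ r).mpr ⟨hr, fun μ => ?_⟩
    have hx : r ∈ LI hE L (lin δ) := (conjHom_eq_iff hE _ δ).mp hfix
    have hrY : (r : G) ∈ Y := LI_R_le_Y h hE (hlinirr δ) (hlinne δ hδ) hx hr
    exact Cfsg.Agent.Lib.NDF.UniformFix.uniform_fix hac r (hZ h r hrY) hδ ((hsmul r δ).mpr hfix) μ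
  have hBV : ∀ b ∈ BL L, b ≠ 1 → ∀ v : E →* ℂˣ, b • v = v → v = 1 :=
    fun b hb hb1 v hv => hBfix b hb hb1 v ((hsmul b v).mp hv)
  obtain ⟨l₀, hl₀, hT⟩ := Cfsg.Agent.Lib.NDF.MaxStab.max_stab (B := BL L) (R := RL H L) (R₂ := R₂)
    (BL_ne h) (hBR h) (hBn h) (hRn h) (hLB h) (cop_BR h) (hfB h) hBV (cop_BV h) (exV h) hR₂n hR₂R hR₂V
    (fun r hr v hv hrv => hR r hr v hv ((hsmul r v).mp hrv))
  set d₀ : ℕ := (LI hE L (lin l₀)).index with hd₀
  have hLcard : ∀ T : Subgroup L, Nat.card T * T.index = Nat.card L := fun T => T.card_mul_index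
  have hdvd : ∀ T : Subgroup L, (∀ t ∈ T, t ∈ RL H L → t ∈ R₂) → d₀ ∣ T.index := by
    intro T hcond
    obtain ⟨c, hc⟩ := hT T hcond
    rw [hstab] at hc
    have h1 := hLcard T
    have h2 := hLcard (LI hE L (lin l₀))
    rw [hc] at h2
    have h3 : Nat.card T * T.index = Nat.card T * (c * d₀) := by
      rw [h1, ← h2, hd₀]; ring
    have hTpos : 0 < Nat.card T := Nat.card_pos
    have h4 := Nat.eq_of_mul_eq_mul_left hTpos h3
    exact ⟨c, by rw [h4]; ring⟩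
  have hmem₀ : d₀ ∈ charDegrees G := index_mem_lin h hE l₀
  have hone : 1 < d₀ := hgt l₀ hl₀
  refine ⟨R₂, d₀, ⟨hR₂n, hR₂R, ?_, hR, hmem₀, hone, ?_, ?_⟩, ?_⟩
  · intro r hr δ
    exact (hsmul r δ).mp (hR₂V r hr δ)
  · -- `¬ m ∣ d₀`
    intro hm
    have hm1 : 1 < H.index := by
      obtain ⟨g, hg⟩ := h.st.out
      apply Subgroup.one_lt_index_of_ne_top
      rintro rfl
      exact hg trivial
    have hmd : H.index = d₀ := hnd _ h.idx _ hmem₀ hm1 hm (by omega)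
    -- `BL` meets the stabiliser trivially
    haveI := hBn h
    let π : (LI hE L (lin l₀)) →* L ⧸ BL L := (QuotientGroup.mk' (BL L)).comp (LI hE L (lin l₀)).subtype
    have hπ : Function.Injective π := by
      rw [injective_iff_map_eq_one]
      rintro ⟨s, hs⟩ hs1
      have h1 : s ∈ BL L := (QuotientGroup.eq_one_iff s).mp hs1
      by_contra hne
      have hs' : s ≠ 1 := fun h0 => hne (Subtype.ext h0)
      exact hl₀ (hBfix s h1 hs' l₀ ((conjHom_eq_iff hE _ l₀).mpr hs))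
    have h1 : Nat.card (LI hE L (lin l₀)) ∣ (BL L).index := by
      rw [Subgroup.index_eq_card]
      exact Subgroup.card_dvd_of_injective π hπ
    obtain ⟨c, hc⟩ := h1
    have h2 := hLcard (BL L)
    have h3 := hLcard (LI hE L (lin l₀))
    have h4 : Nat.card (LI hE L (lin l₀)) * (Nat.card (BL L) * c) =
        Nat.card (LI hE L (lin l₀)) * d₀ := by
      have h4a : Nat.card (BL L) * (Nat.card (LI hE L (lin l₀)) * c) =
          Nat.card (LI hE L (lin l₀)) * (LI hE L (lin l₀)).index := by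
        rw [← hc, h2, h3]
      rw [hd₀, ← h4a]
      ring
    have h5 : Nat.card (BL L) * c = d₀ :=
      Nat.eq_of_mul_eq_mul_left Nat.card_pos h4
    have h6 : Nat.card (BL L) ∣ (RL H L).index := by
      rw [idx_RL h, hmd, ← h5]
      exact dvd_mul_right _ _
    have h7 : Nat.card (BL L) = 1 := Nat.Coprime.eq_one_of_dvd (cop_BR h) h6
    exact BL_ne h (Subgroup.eq_bot_of_card_eq _ h7)
  · intro δ hδ
    have h1 := hdvd (LI hE L (lin δ)) (fun t ht htR => hR t htR δ hδ ((conjHom_eq_iff hE _ δ).mpr ht))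
    exact (hnd _ hmem₀ _ (index_mem_lin h hE δ) hone h1 (hpos δ)).symm
  · intro θ hθ _ hcond χ hχ hcon
    obtain ⟨e, he, hdeg⟩ := deg_LI h hE hθ hχ hcon
    obtain ⟨c, hc⟩ := hdvd _ hcond
    have hχmem : charDegree χ ∈ charDegrees G := ⟨⟨χ, hχ⟩, rfl⟩
    have hχpos : 0 < charDegree χ := Cfsg.Agent.Lib.Char.Degree.charDegree_pos hχ
    have h1 : d₀ ∣ charDegree χ := by
      rw [hdeg, hc]
      exact ⟨e * c * charDegree θ, by ring⟩
    have h2 := hnd _ hmem₀ _ hχmem hone h1 hχpos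
    refine ⟨h2.symm, ?_⟩
    have h3 : d₀ * (e * c * charDegree θ) = d₀ * 1 := by
      rw [mul_one]
      nth_rewrite 2 [h2]
      rw [hdeg, hc]
      ring
    have h4 := Nat.eq_of_mul_eq_mul_left (by omega) h3
    exact Nat.eq_one_of_mul_eq_one_left h4

end Cfsg.Agent.Lib.NDF.IIS3
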