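import Cfsg.Agent.Lib.NDF.IIChar
import Cfsg.Agent.Lib.Char.Linear
import Cfsg.Agent.Lib.Char.Clifford
import Cfsg.Agent.Lib.Char.Complete
import Cfsg.Agent.Lib.Dade.NilDual

/-!
# S4780, block II, S5: `E` abelian: `cd(G) ⊆ {1, m, d₀}`.

`χ ∈ Irr(G)`. Constituents of `χ|E` are linear (`E` abelian): `lin δ`. If some `δ ≠ 1`: `S3D.hR` gives the hypothesis of `hirr`,
so `χ(1) = d₀`. Otherwise `χ|E = χ(1)·1`: `E ≤ ker χ`, `χ` comes from `G / E`: `hq`.
-/

set_option autoImplicit false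
set_option linter.unusedSectionVars false

namespace Cfsg.Agent.Lib.NDF.IIS5

open Cfsg Cfsg.Agent.Lib.NoDiv.Defs Cfsg.Agent.Lib.NDF.Defs Cfsg.Agent.Lib.NDF.IIDefs
open Cfsg.Agent.Lib.NoDiv.XLemma Cfsg.Agent.Lib.NDF.IIBasic Cfsg.Agent.Lib.NDF.IIChar
open Cfsg.Agent.Lib.Char.Basic Cfsg.Agent.Lib.Char.Conj Cfsg.Agent.Lib.Char.CliffordCorr
open Cfsg.Agent.Lib.Char.Ortho Cfsg.Agent.Lib.Char.Degree
open Cfsg.Agent.Lib.Char.Linear Cfsg.Agent.Lib.Char.Complete Cfsg.Agent.Lib.Char.Clifford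

universe u

variable {G : Type u} [Group G] {H Y E L : Subgroup G}

/-- The trivial character of `E` is irreducible. -/
theorem irr_one [Finite E] : IsIrrCharacter E (fun _ => (1 : ℂ)) := by
  have := isIrrCharacter_of_hom (G := E) (1 : E →* ℂˣ)
  simpa using this

/-- If only the trivial character of `E` lies under `χ`, then `E` is in the kernel of `χ`. -/
theorem ker_of_trivial [Fintype G] [Fintype E] {χ : G → ℂ} (hχ : IsIrrCharacter G χ)
    (htriv : ∀ ξ : E → ℂ, IsIrrCharacter E ξ → classInner (fun n : E => χ n) ξ ≠ 0 → ξ = fun _ => 1) :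
    ∀ e ∈ E, χ e = χ 1 := by
  have hχc := isCharacter_of_isIrrCharacter hχ
  have hcf : IsClassFunction E (fun n : E => χ n) :=
    isClassFunction_of_isCharacter (isCharacter_restrict E hχc)
  set c : ℂ := classInner (fun n : E => χ n) (fun _ => 1) with hc
  have hone : IsIrrCharacter E (fun _ => (1 : ℂ)) := irr_one
  have hf : IsClassFunction E (fun n : E => χ n - c * 1) := by
    intro a b
    have := hcf a b
    simp only at this ⊢
    rw [this]
  have h0 : (fun n : E => χ n - c * 1) = 0 := by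
    apply eq_zero_of_classInner_irr_eq_zero hf
    intro ξ hξ
    have hsplit : classInner (fun n : E => χ n - c * 1) ξ =
        classInner (fun n : E => χ n) ξ - c * classInner (fun _ : E => (1 : ℂ)) ξ := by
      simp only [classInner, sub_mul, Finset.sum_sub_distrib, mul_sub, Finset.mul_sum, mul_one]
      congr 1
      apply Finset.sum_congr rfl
      intro x _
      ring
    rw [hsplit]
    by_cases hξ1 : ξ = fun _ => 1
    · subst hξ1
      rw [classInner_self_of_isIrr hone]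
      simp [hc]
    · have h1 : classInner (fun n : E => χ n) ξ = 0 := by
        by_contra hne
        exact hξ1 (htriv ξ hξ hne)
      have h2 : classInner (fun _ : E => (1 : ℂ)) ξ = 0 :=
        classInner_eq_zero_of_isIrr_of_ne hone hξ (Ne.symm hξ1)
      rw [h1, h2]
      simp
  have hval : ∀ n : E, χ n = c := by
    intro n
    have := congrFun h0 n
    simp only [Pi.zero_apply, mul_one, sub_eq_zero] at this
    exact this
  intro e he
  have h1 := hval ⟨e, he⟩
  have h2 := hval 1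
  simp only [OneMemClass.coe_one] at h2
  rw [h2]
  exact h1

/-- An irreducible character of an abelian group is linear. -/
theorem lin_of_irr_ab [Fintype E] (hab : ∀ a ∈ E, ∀ b ∈ E, a * b = b * a) {ξ : E → ℂ}
    (hξ : IsIrrCharacter E ξ) : ∃ δ : E →* ℂˣ, ξ = lin δ := by
  obtain ⟨γ, hγ⟩ := Cfsg.Agent.Lib.Dade.NilDual.exists_hom_of_irr (A := E)
    (fun a b => Subtype.ext (hab a a.2 b b.2)) ⟨ξ, hξ⟩
  exact ⟨γ, hγ⟩

/-- S5. -/
theorem s5 [Fintype G] [Fintype E] (h : IID H Y E L) (hE : E.Normal) {R₂ : Subgroup L} {d₀ : ℕ}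
    (hS : S3D hE H L R₂ d₀)
    (hirr : ∀ θ : E → ℂ, IsIrrCharacter E θ → θ ≠ (fun _ => 1) → (∀ x ∈ LI hE L θ, x ∈ RL H L → x ∈ R₂) →
        ∀ χ : G → ℂ, IsIrrCharacter G χ → classInner (fun n : E => χ n) θ ≠ 0 →
          charDegree χ = d₀ ∧ charDegree θ = 1)
    (hab : ∀ a ∈ E, ∀ b ∈ E, a * b = b * a)
    (hq : ∀ χ : G → ℂ, IsIrrCharacter G χ → (∀ e ∈ E, χ e = χ 1) → charDegree χ = 1 ∨ charDegree χ = H.index) :
    ∀ d ∈ charDegrees G, d = 1 ∨ d = H.index ∨ d = d₀ := by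
  rintro d ⟨⟨χ, hχ⟩, rfl⟩
  by_cases ht : ∀ ξ : E → ℂ, IsIrrCharacter E ξ → classInner (fun n : E => χ n) ξ ≠ 0 → ξ = fun _ => 1
  · rcases hq χ hχ (ker_of_trivial hχ ht) with h1 | h1
    · exact Or.inl h1
    · exact Or.inr (Or.inl h1)
  · push Not at ht
    obtain ⟨ξ, hξ, hcon, hne⟩ := ht
    obtain ⟨δ, rfl⟩ := lin_of_irr_ab hab hξ
    have hδ : δ ≠ 1 := by
      rintro rfl
      apply hne
      funext e
      simp [lin]
    have := (hirr (lin δ) hξ hne (fun x hx hxR => hS.hR x hxR δ hδ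
      ((conjHom_eq_iff hE _ δ).mpr hx)) χ hχ hcon).1
    exact Or.inr (Or.inr this)

/-- The hypothesis `hq` of `s5`, from the degrees of `G / E` (`hq'` is `St.noE` of `St.quot`). -/
theorem hq_of_quot [Fintype G] {E : Subgroup G} [E.Normal] {m : ℕ}
    (hq' : ∀ d ∈ charDegrees (G ⧸ E), d = 1 ∨ d = m) :
    ∀ χ : G → ℂ, IsIrrCharacter G χ → (∀ e ∈ E, χ e = χ 1) → charDegree χ = 1 ∨ charDegree χ = m := by
  intro χ hχ hk
  obtain ⟨φ, hφ, hχφ⟩ := isIrrCharacter_descend (QuotientGroup.mk' E) (QuotientGroup.mk'_surjective _) hχ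
    (fun k hk' => by
      rw [QuotientGroup.ker_mk'] at hk'
      exact hk k hk')
  have hd : charDegree χ = charDegree φ := by
    have : χ 1 = φ 1 := by
      rw [hχφ]
      simp
    simp [charDegree, this]
  rw [hd]
  exact hq' _ ⟨⟨φ, hφ⟩, rfl⟩

end Cfsg.Agent.Lib.NDF.IIS5
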