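import Cfsg.Agent.Lib.NDF.DDefs
import Cfsg.Agent.Lib.NDF.CyclicFpf

/-!
# S4780, block D (D2): an odd prime is impossible in the layer
-/

set_option autoImplicit false
set_option linter.unusedSectionVars false

namespace Cfsg.Agent.Lib.NDF.LayerOdd

open Cfsg Cfsg.Agent.Lib.NoDiv.Defs Cfsg.Agent.Lib.NDF.Defs Cfsg.Agent.Lib.NDF.DDefs Subgroup
open scoped commutatorElement

universe u

section class2

variable {G : Type u} [Group G]

theorem pow_comm_aux {x y c : G} (hyx : y * x = c * (x * y)) (hcx : Commute c x)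
    (hcy : Commute c y) (n : ℕ) : y ^ n * x = c ^ n * (x * y ^ n) := by
  induction n with
  | zero => simp
  | succ n ih =>
    have h1 : y ^ n * c = c * y ^ n := ((hcy.pow_right n).eq).symm
    calc y ^ (n + 1) * x = y ^ n * (y * x) := by rw [pow_succ, mul_assoc]
      _ = (y ^ n * c) * (x * y) := by rw [hyx]; simp only [mul_assoc]
      _ = c * (y ^ n * x) * y := by rw [h1]; simp only [mul_assoc]
      _ = c * (c ^ n * (x * y ^ n)) * y := by rw [ih]
      _ = c ^ (n + 1) * (x * y ^ (n + 1)) := by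
        rw [pow_succ' c, pow_succ y]; simp only [mul_assoc]

theorem mul_pow_aux {x y c : G} (hyx : y * x = c * (x * y)) (hcx : Commute c x)
    (hcy : Commute c y) (n : ℕ) : (x * y) ^ n = x ^ n * y ^ n * c ^ (n.choose 2) := by
  induction n with
  | zero => simp
  | succ n ih =>
    have h1 : c ^ (n.choose 2) * x = x * c ^ (n.choose 2) := (hcx.pow_left _).eq
    have h2 : c ^ n * x = x * c ^ n := (hcx.pow_left _).eq
    have h3 : c ^ (n.choose 2) * y = y * c ^ (n.choose 2) := (hcy.pow_left _).eq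
    have h4 : c ^ n * y ^ n = y ^ n * c ^ n := ((hcy.pow_pow n n).eq)
    have h5 : (n + 1).choose 2 = n + n.choose 2 := by
      rw [Nat.choose_succ_succ' n 1, Nat.choose_one_right]
    calc (x * y) ^ (n + 1) = x ^ n * y ^ n * c ^ (n.choose 2) * (x * y) := by rw [pow_succ, ih]
      _ = x ^ n * (y ^ n * x) * (c ^ (n.choose 2) * y) := by
        rw [← mul_assoc, mul_assoc (x ^ n * y ^ n), h1]; simp only [mul_assoc]
      _ = x ^ n * (c ^ n * (x * y ^ n)) * (c ^ (n.choose 2) * y) := by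
        rw [pow_comm_aux hyx hcx hcy n]
      _ = x ^ n * (c ^ n * x) * (y ^ n * (c ^ (n.choose 2) * y)) := by simp only [mul_assoc]
      _ = x ^ n * (x * c ^ n) * (y ^ n * (y * c ^ (n.choose 2))) := by rw [h2, h3]
      _ = x ^ (n + 1) * (c ^ n * y ^ n) * y * c ^ (n.choose 2) := by
        rw [pow_succ x]; simp only [mul_assoc]
      _ = x ^ (n + 1) * (y ^ n * c ^ n) * y * c ^ (n.choose 2) := by rw [h4]
      _ = x ^ (n + 1) * y ^ n * (c ^ n * y) * c ^ (n.choose 2) := by simp only [mul_assoc]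
      _ = x ^ (n + 1) * y ^ n * (y * c ^ n) * c ^ (n.choose 2) := by rw [(hcy.pow_left n).eq]
      _ = x ^ (n + 1) * y ^ (n + 1) * c ^ ((n + 1).choose 2) := by
        rw [h5, pow_add c, pow_succ y]; simp only [mul_assoc]

end class2



variable {G : Type u} [Group G] {H Y : Subgroup G} {p : ℕ}

/-- (D2) Post 7, (e): `p` odd is impossible: `x ↦ x ^ p` is a homomorphism of `W₁` to `L`, there is
`a ∉ L` with `a ^ p = 1`; `cyclic_fpf`. -/
theorem layer_odd [Finite G] (s : St H Y) (hp : p.Prime) (hodd : p ≠ 2)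
    (hel : ∀ c ∈ H, c ^ p ∈ Y) (hnc : ∀ c ∈ H, ∃ c' ∈ H, ∀ k : ℕ, c' * (c ^ k)⁻¹ ∉ Y)
    {N W₁ L : Subgroup G} (hN : Chief ⊥ N) (hNab : ∀ a ∈ N, ∀ b ∈ N, a * b = b * a)
    (D : DL H p N W₁ L) : False := by
  classical
  haveI hpf : Fact p.Prime := ⟨hp⟩
  have hG'H : commutator G ≤ H := by
    rw [_root_.commutator_def, Subgroup.commutator_le]
    intro a _ b _
    rw [commutatorElement_def]
    exact s.ab a b
  have hWH : ∀ x ∈ W₁, x ∈ H := fun x hx => hG'H (D.WG hx)
  have hLW : L ≤ W₁ := fun x hx => ((D.mL x).mp hx).1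
  -- order of `W₁`
  have hW3 : Nat.card W₁ = p ^ 3 := by
    have h2 : (L.subgroupOf W₁).index * Nat.card ↥(L.subgroupOf W₁) = Nat.card W₁ :=
      (L.subgroupOf W₁).index_mul_card
    have h3 : Nat.card ↥(L.subgroupOf W₁) = Nat.card ↥L :=
      Nat.card_congr (Subgroup.subgroupOfEquivOfLe hLW).toEquiv
    have h4 : (L.subgroupOf W₁).index = p ^ 2 := D.iL
    rw [h3, h4, D.cL] at h2
    rw [← h2]
    ring
  have hpL : ∀ e ∈ L, e ^ p = 1 := by
    intro e he
    have h1 : orderOf (⟨e, he⟩ : ↥L) ∣ p := by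
      rw [← D.cL]; exact orderOf_dvd_natCard _
    have h2 := Subgroup.orderOf_mk e he
    rw [h2] at h1
    exact orderOf_dvd_iff_pow_eq_one.mp h1
  have hcomL : ∀ x ∈ W₁, ∀ y ∈ W₁, y * x * y⁻¹ * x⁻¹ ∈ L := by
    intro x hx y hy
    rw [D.mL]
    refine ⟨mul_mem (mul_mem (mul_mem hy hx) (inv_mem hy)) (inv_mem hx), ?_⟩
    rw [← s.E2, ← commutatorElement_def]
    exact Subgroup.commutator_mem_commutator (D.WG hy) (D.WG hx)
  have hpowL : ∀ x ∈ W₁, x ^ p ∈ L := by
    intro x hx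
    rw [D.mL]
    refine ⟨pow_mem hx p, ?_⟩
    rw [← s.GE]
    exact ⟨pow_mem (D.WG hx) p, hel x (hWH x hx)⟩
  have hmulpow : ∀ x ∈ W₁, ∀ y ∈ W₁, (x * y) ^ p = x ^ p * y ^ p := by
    intro x hx y hy
    set c := y * x * y⁻¹ * x⁻¹ with hc
    have hcL : c ∈ L := hcomL x hx y hy
    have hyx : y * x = c * (x * y) := by rw [hc]; group
    have hcx : Commute c x := (D.zL c hcL x hx).symm
    have hcy : Commute c y := (D.zL c hcL y hy).symm
    rw [mul_pow_aux hyx hcx hcy p]
    obtain ⟨m, hm⟩ := hp.eq_two_or_odd'.resolve_left hodd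
    have h1 : p.choose 2 = p * m := by
      rw [Nat.choose_two_right, hm]
      have : (2 * m + 1) * (2 * m + 1 - 1) = (2 * m + 1) * m * 2 := by
        rw [Nat.add_sub_cancel]; ring
      rw [this, Nat.mul_div_cancel _ (by norm_num)]
    rw [h1, pow_mul, hpL c hcL, one_pow, mul_one]
  -- the homomorphism
  let φ : ↥W₁ →* ↥L := MonoidHom.mk' (fun x => ⟨(x : G) ^ p, hpowL x x.2⟩) (by
    intro x y
    apply Subtype.ext
    exact hmulpow x x.2 y y.2)
  have hker : p ^ 2 ≤ Nat.card φ.ker := by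
    have h1 : Nat.card φ.ker * φ.ker.index = Nat.card W₁ := φ.ker.card_mul_index
    rw [Subgroup.index_ker, hW3] at h1
    have h2 : Nat.card φ.range ≤ p := by
      rw [← D.cL]; exact Subgroup.card_le_card_group _
    have h3 : Nat.card φ.ker * Nat.card φ.range ≤ Nat.card φ.ker * p := Nat.mul_le_mul_left _ h2
    rw [h1] at h3
    have hp0 := hp.pos
    have : p ^ 3 = p ^ 2 * p := by ring
    rw [this] at h3
    exact Nat.le_of_mul_le_mul_right h3 hp0
  obtain ⟨a, haW, haL, hap⟩ : ∃ a ∈ W₁, a ∉ L ∧ a ^ p = 1 := by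
    by_contra hcon
    push_neg at hcon
    have h1 : ∀ x : ↥φ.ker, ((x : ↥W₁) : G) ∈ L := by
      intro x
      by_contra hx
      have h2 : φ x = 1 := x.2
      apply hcon _ (x : ↥W₁).2 hx
      have := congrArg Subtype.val h2
      exact this
    let f : ↥φ.ker → ↥L := fun x => ⟨_, h1 x⟩
    have hf : Function.Injective f := by
      intro x y hxy
      have h5 := congrArg Subtype.val hxy
      exact Subtype.ext (Subtype.ext h5)
    have h2 := Nat.card_le_card_of_injective f hf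
    rw [D.cL] at h2
    have h3 := hker.trans h2
    have h4 : p * p ≤ p * 1 := by
      rw [mul_one, ← pow_two]; exact h3
    have := Nat.le_of_mul_le_mul_left h4 hp.pos
    exact absurd hp.one_lt (by omega)
  -- `W₁ / L` is not cyclic
  have hnoncyc : ∀ c ∈ W₁, ¬ ∀ u ∈ W₁, ∃ k : ℕ, u * (c ^ k)⁻¹ ∈ L := by
    intro c hc hall
    haveI : (L.subgroupOf W₁).Normal := by
      constructor
      intro n hn g
      rw [Subgroup.mem_subgroupOf] at hn ⊢
      have h1 : (g : G) * n = n * g := D.zL n hn g g.2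
      have h2 : (g : G) * n * (g : G)⁻¹ = n := by rw [h1, mul_inv_cancel_right]
      simpa [h2] using hn
    set g : ↥W₁ ⧸ L.subgroupOf W₁ := QuotientGroup.mk ⟨c, hc⟩ with hg
    have h1 : ∀ q : ↥W₁ ⧸ L.subgroupOf W₁, q ∈ zpowers g := by
      intro q
      obtain ⟨u, rfl⟩ := QuotientGroup.mk_surjective q
      obtain ⟨k, hk⟩ := hall u u.2
      refine ⟨(k : ℤ), ?_⟩
      show g ^ (k : ℤ) = _
      rw [zpow_natCast, hg, ← QuotientGroup.mk_pow, QuotientGroup.eq]
      rw [Subgroup.mem_subgroupOf]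
      have h3 : (u : G) * (c ^ k)⁻¹ ∈ L := hk
      -- conjugate by `c ^ k`
      have h6 : (c ^ k)⁻¹ * ((u : G) * (c ^ k)⁻¹) * (c ^ k) = (c ^ k)⁻¹ * (u : G) := by group
      have h7 : (c ^ k)⁻¹ * ((u : G) * (c ^ k)⁻¹) * (c ^ k) = (u : G) * (c ^ k)⁻¹ := by
        have h8 := D.zL _ h3 ((c ^ k)⁻¹) (inv_mem (pow_mem hc k))
        rw [h8, inv_mul_cancel_right]
      have h9 : (c ^ k)⁻¹ * (u : G) = (u : G) * (c ^ k)⁻¹ := by rw [← h6, h7]
      show ((⟨c, hc⟩ : ↥W₁) ^ k : ↥W₁)⁻¹.1 * (u : G) ∈ L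
      have h10 : ((⟨c, hc⟩ : ↥W₁) ^ k : ↥W₁)⁻¹.1 = (c ^ k)⁻¹ := by simp
      rw [h10, h9]
      exact h3
    have h2 : orderOf g = Nat.card (↥W₁ ⧸ L.subgroupOf W₁) := orderOf_eq_card_of_forall_mem_zpowers h1
    rw [← Subgroup.index_eq_card] at h2
    have h3 : (L.subgroupOf W₁).index = p ^ 2 := D.iL
    rw [h3] at h2
    have h4 : g ^ p = 1 := by
      rw [hg, ← QuotientGroup.mk_pow, QuotientGroup.eq_one_iff, Subgroup.mem_subgroupOf]
      exact hpowL c hc
    have h5 := orderOf_dvd_of_pow_eq_one h4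
    rw [h2] at h5
    have h6 := Nat.le_of_dvd hp.pos h5
    have h7 : p * p ≤ p * 1 := by rw [mul_one, ← pow_two]; exact h6
    have := Nat.le_of_mul_le_mul_left h7 hp.pos
    exact absurd hp.one_lt (by omega)
  have hN1nb : N ≠ ⊥ := hN.ne.symm
  -- `C_N(L) = 1`
  have hNL : ∀ n ∈ N, (∀ e ∈ L, e * n = n * e) → n = 1 := by
    by_contra hcon
    push_neg at hcon
    obtain ⟨n₀, hn₀, hn₀L, hn₀1⟩ := hcon
    let N₁ : Subgroup G := N ⊓ centralizer (L : Set G)
    have hmemN₁ : ∀ n, n ∈ N₁ ↔ n ∈ N ∧ ∀ e ∈ L, e * n = n * e := by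
      intro n
      simp only [N₁, Subgroup.mem_inf, Subgroup.mem_centralizer_iff, SetLike.mem_coe]
    have hN₁ne : N₁ ≠ ⊥ := by
      intro h
      have : n₀ ∈ N₁ := (hmemN₁ n₀).mpr ⟨hn₀, hn₀L⟩
      rw [h, Subgroup.mem_bot] at this
      exact hn₀1 this
    obtain ⟨c, hc, hcall⟩ := Cfsg.Agent.Lib.NDF.CyclicFpf.cyclic_fpf (N := N₁) (U := W₁) (J := L)
      (fun a ha b hb => hNab a ((hmemN₁ a).mp ha).1 b ((hmemN₁ b).mp hb).1)
      hN₁ne
      (by
        intro u hu n hn
        rw [hmemN₁]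
        obtain ⟨h1, h2⟩ := (hmemN₁ n).mp hn
        refine ⟨hN.nL.conj_mem n h1 u, ?_⟩
        intro e he
        have h3 : Commute e u := (D.zL e he u hu).symm
        have h4 : Commute e n := h2 e he
        exact (((h3.mul_right h4).mul_right h3.inv_right) : Commute e (u * n * u⁻¹)).eq)
      (by
        intro u hu v hv n hn
        obtain ⟨h1, h2⟩ := (hmemN₁ n).mp hn
        set l := u⁻¹ * v⁻¹ * u⁻¹⁻¹ * v⁻¹⁻¹ with hl
        have hlL : l ∈ L := hcomL v⁻¹ (inv_mem hv) u⁻¹ (inv_mem hu)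
        have h3 : u * v = v * u * l := by rw [hl]; group
        have h4 : l * n * l⁻¹ = n := by rw [h2 l hlL, mul_inv_cancel_right]
        calc u * (v * n * v⁻¹) * u⁻¹ = (u * v) * n * (u * v)⁻¹ := by group
          _ = v * u * (l * n * l⁻¹) * u⁻¹ * v⁻¹ := by rw [h3]; group
          _ = v * (u * n * u⁻¹) * v⁻¹ := by rw [h4]; group)
      hLW
      (by
        intro u hu huL n hn hun
        obtain ⟨h1, _⟩ := (hmemN₁ n).mp hn
        refine D.fp u hu huL n h1 ?_
        calc u * n = u * n * u⁻¹ * u := by group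
          _ = n * u := by rw [hun])
    exact hnoncyc c hc hcall
  -- the noncyclic subgroup `⟨a⟩ × L`
  let U : Subgroup G :=
    { carrier := {x | ∃ i : ℕ, ∃ e ∈ L, x = a ^ i * e}
      mul_mem' := by
        rintro _ _ ⟨i, e, he, rfl⟩ ⟨j, f, hf, rfl⟩
        refine ⟨i + j, e * f, mul_mem he hf, ?_⟩
        have h1 : e * a ^ j = a ^ j * e := ((D.zL e he _ (pow_mem haW j))).symm
        calc a ^ i * e * (a ^ j * f) = a ^ i * (e * a ^ j) * f := by simp only [mul_assoc]
          _ = a ^ (i + j) * (e * f) := by rw [h1, pow_add]; simp only [mul_assoc]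
      one_mem' := ⟨0, 1, one_mem _, by simp⟩
      inv_mem' := by
        rintro _ ⟨i, e, he, rfl⟩
        refine ⟨i * (p - 1), e⁻¹, inv_mem he, ?_⟩
        have h1 : (a ^ i)⁻¹ = a ^ (i * (p - 1)) := by
          have h2 : a ^ (i * (p - 1)) * a ^ i = 1 := by
            rw [← pow_add]
            have h3 : i * (p - 1) + i = p * i := by
              obtain ⟨q, rfl⟩ : ∃ q, p = q + 1 := ⟨p - 1, by have := hp.pos; omega⟩
              simp only [Nat.add_sub_cancel]
              ring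
            rw [h3, pow_mul, hap, one_pow]
          exact inv_eq_of_mul_eq_one_left h2
        have h4 : e⁻¹ * a ^ (i * (p - 1)) = a ^ (i * (p - 1)) * e⁻¹ :=
          (D.zL e⁻¹ (inv_mem he) _ (pow_mem haW _)).symm
        rw [mul_inv_rev, h1, h4] }
  have hmemU : ∀ x, x ∈ U ↔ ∃ i : ℕ, ∃ e ∈ L, x = a ^ i * e := fun x => Iff.rfl
  have hUW : ∀ x ∈ U, x ∈ W₁ := by
    rintro _ ⟨i, e, he, rfl⟩
    exact mul_mem (pow_mem haW i) (hLW he)
  have hUcomm : ∀ u ∈ U, ∀ v ∈ U, u * v = v * u := by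
    rintro _ ⟨i, e, he, rfl⟩ _ ⟨j, f, hf, rfl⟩
    have h1 : Commute (a ^ i * e) (a ^ j * f) := by
      have h2 : Commute (a ^ i) (a ^ j) := (Commute.refl a).pow_pow i j
      have h3 : Commute (a ^ i) f := D.zL f hf _ (pow_mem haW i)
      have h4 : Commute e (a ^ j) := (D.zL e he _ (pow_mem haW j)).symm
      have h5 : Commute e f := D.zL f hf e (hLW he)
      exact ((h2.mul_right h3).mul_left (h4.mul_right h5))
    exact h1.eq
  have hUp : ∀ u ∈ U, u ^ p = 1 := by
    rintro _ ⟨i, e, he, rfl⟩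
    have h1 : Commute (a ^ i) e := D.zL e he _ (pow_mem haW i)
    rw [h1.mul_pow, hpL e he, mul_one, ← pow_mul, mul_comm, pow_mul, hap, one_pow]
  have haU : a ∈ U := ⟨1, 1, one_mem _, by simp⟩
  have hLU : L ≤ U := fun e he => ⟨0, e, he, by simp⟩
  obtain ⟨c, hcU, hcall⟩ := Cfsg.Agent.Lib.NDF.CyclicFpf.cyclic_fpf (N := N) (U := U) (J := ⊥)
    hNab hN1nb
    (fun u _ n hn => hN.nL.conj_mem n hn u)
    (by
      intro u hu v hv n _
      calc u * (v * n * v⁻¹) * u⁻¹ = (u * v) * n * (u * v)⁻¹ := by group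
        _ = (v * u) * n * (v * u)⁻¹ := by rw [hUcomm u hu v hv]
        _ = v * (u * n * u⁻¹) * v⁻¹ := by group)
    bot_le
    (by
      intro u hu hu1 n hn hun
      have hcomm : u * n = n * u := by
        calc u * n = u * n * u⁻¹ * u := by group
          _ = n * u := by rw [hun]
      by_cases huL : u ∈ L
      · refine hNL n hn ?_
        intro e he
        have hu1' : (⟨u, huL⟩ : ↥L) ≠ 1 := by
          intro h
          apply hu1
          rw [Subgroup.mem_bot]
          exact congrArg Subtype.val h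
        have h2 : (⟨e, he⟩ : ↥L) ∈ zpowers (⟨u, huL⟩ : ↥L) :=
          mem_zpowers_of_prime_card D.cL hu1'
        obtain ⟨k, hk⟩ := mem_zpowers_iff.mp h2
        have h3 : u ^ k = e := congrArg Subtype.val hk
        rw [← h3]
        exact ((show Commute u n from hcomm).zpow_left k).eq
      · exact D.fp u (hUW u hu) huL n hn hcomm)
  -- contradiction
  have hcp : c ^ p = 1 := hUp c hcU
  have hUz : ∀ u ∈ U, u ∈ zpowers c := by
    intro u hu
    obtain ⟨k, hk⟩ := hcall u hu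
    rw [Subgroup.mem_bot] at hk
    rw [mul_inv_eq_one] at hk
    rw [hk]
    exact pow_mem (mem_zpowers c) k
  have hcardz : Nat.card (zpowers c) ≤ p := by
    rw [Nat.card_zpowers]
    exact Nat.le_of_dvd hp.pos (orderOf_dvd_of_pow_eq_one hcp)
  have hLz : L = zpowers c := by
    apply Subgroup.eq_of_le_of_card_ge (fun x hx => hUz x (hLU hx))
    rw [D.cL]
    exact hcardz
  apply haL
  rw [hLz]
  exact hUz a haU

end Cfsg.Agent.Lib.NDF.LayerOdd
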