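import Cfsg.Agent.Lib.NDF.Defs
import Cfsg.Agent.Lib.Char.CliffordCorr

/-!
# S4780, block P: shared definitions of the level analysis

`X = commutator Γ`; `Cen A K = {g | ∀ a ∈ A, [g, a] ∈ K}`; `H0 = Cen X γ₂`.
`Over hNX θ μ`: the character `θ` of `X` lies over the homomorphism `μ` of the subgroup `N ≤ X`
(only used for `N` central in `X`). `Uq hNX`: over every nontrivial `μ` there is exactly one
irreducible character of `X`. `Cpl Q p`: `Q` is an abelian complement of `X` of order prime to `p`.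
-/

set_option autoImplicit false

namespace Cfsg.Agent.Lib.NDF.PSDefs

open Cfsg Cfsg.Agent.Lib.NoDiv.Defs Cfsg.Agent.Lib.NDF.Defs

universe u

variable {Γ : Type u} [Group Γ]

instance g2_normal : (g2 Γ).Normal := by unfold g2; infer_instance
instance g3_normal : (g3 Γ).Normal := by unfold g3; infer_instance
instance g4_normal : (g4 Γ).Normal := by unfold g4; infer_instance
instance g5_normal : (g5 Γ).Normal := by unfold g5; infer_instance

theorem g2_le : g2 Γ ≤ commutator Γ := Subgroup.commutator_le_left _ _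
theorem g3_le : g3 Γ ≤ g2 Γ := Subgroup.commutator_le_left _ _
theorem g4_le : g4 Γ ≤ g3 Γ := Subgroup.commutator_le_left _ _
theorem g5_le : g5 Γ ≤ g4 Γ := Subgroup.commutator_le_left _ _

/-- `{g | ∀ a ∈ A, [g, a] ∈ K}`. -/
def Cen (A K : Subgroup Γ) [hK : K.Normal] : Subgroup Γ := relCen hK ⊤ A

theorem mem_Cen {A K : Subgroup Γ} [hK : K.Normal] {g : Γ} :
    g ∈ Cen A K ↔ ∀ a ∈ A, g * a * g⁻¹ * a⁻¹ ∈ K := by
  unfold Cen
  rw [mem_relCen]
  simp

/-- The elements trivial on `X / γ₂`. -/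
abbrev H0 (Γ : Type u) [Group Γ] : Subgroup Γ := Cen (commutator Γ) (g2 Γ)

/-- `θ` lies over `μ`. -/
def Over {N : Subgroup Γ} (hNX : N ≤ commutator Γ) (θ : commutator Γ → ℂ) (μ : N →* ℂˣ) : Prop :=
  ∀ n : N, θ ⟨n, hNX n.2⟩ = ((μ n : ℂˣ) : ℂ) * θ 1

/-- Exactly one irreducible character over each nontrivial `μ`. -/
def Uq {N : Subgroup Γ} (hNX : N ≤ commutator Γ) : Prop :=
  ∀ μ : N →* ℂˣ, μ ≠ 1 → ∃ θ : commutator Γ → ℂ, IsIrrCharacter (commutator Γ) θ ∧ Over hNX θ μ ∧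
    ∀ θ' : commutator Γ → ℂ, IsIrrCharacter (commutator Γ) θ' → Over hNX θ' μ → θ' = θ

/-- An abelian complement of `X` of order prime to `p`. -/
structure Cpl (Q : Subgroup Γ) (p : ℕ) : Prop where
  comm : ∀ a ∈ Q, ∀ b ∈ Q, a * b = b * a
  decomp : ∀ g : Γ, ∃ a ∈ commutator Γ, ∃ q ∈ Q, g = a * q
  cop : ∀ q ∈ Q, Nat.Coprime (orderOf q) p

end Cfsg.Agent.Lib.NDF.PSDefs
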