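import Cfsg.Agent.Lib.NDF.PSDefs
import Cfsg.Agent.Lib.NoDiv.Camina
import Cfsg.Agent.Lib.Char.Degree

/-!
# S4780, P15: a Camina pair `(X, X')`: nonlinear characters vanish off `X'`, and the degree bound
-/

set_option autoImplicit false
set_option linter.unusedSectionVars false
set_option linter.style.haveILetI false
set_option linter.unusedSimpArgs false

namespace Cfsg.Agent.Lib.NDF.PSDegGt

open Cfsg Cfsg.Agent.Lib.NoDiv.Defs Cfsg.Agent.Lib.NDF.Defs Cfsg.Agent.Lib.NDF.PSDefs
open Cfsg.Agent.Lib.Char.Basic Cfsg.Agent.Lib.Char.Conj Cfsg.Agent.Lib.Char.Linear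
open Cfsg.Agent.Lib.Char.Degree Cfsg.Agent.Lib.Char.Ortho Cfsg.Agent.Lib.Char.Complete
open Cfsg.Agent.Lib.Char.Eigen
open scoped ComplexConjugate

universe u

variable {X : Type u} [Group X] [Fintype X]

/-- The centraliser of `a` has the index of `X'`. -/
theorem card_centralizer_of_cam
    (hcam : ∀ a, a ∉ commutator X → ∀ e ∈ commutator X, ∃ b, b * a * b⁻¹ = a * e)
    {a : X} (ha : a ∉ commutator X) :
    Nat.card (Subgroup.centralizer ({a} : Set X)) = (commutator X).index := by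
  classical
  have hmem : ∀ x : {x : X // IsConj x a}, a⁻¹ * (x : X) ∈ commutator X := by
    rintro ⟨x, hx⟩
    obtain ⟨b, hb⟩ := isConj_iff.mp (IsConj.symm hx)
    change a⁻¹ * x ∈ _
    have h9 : a⁻¹ * x = a⁻¹ * b * a⁻¹⁻¹ * b⁻¹ := by rw [← hb]; group
    rw [h9]
    exact Subgroup.commutator_mem_commutator (Subgroup.mem_top _) (Subgroup.mem_top _)
  let φ : {x : X // IsConj x a} → commutator X := fun x => ⟨_, hmem x⟩
  have hinj : Function.Injective φ := by
    intro y z hyz
    have h8 : a⁻¹ * (y : X) = a⁻¹ * (z : X) := congrArg Subtype.val hyz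
    exact Subtype.ext (mul_left_cancel h8)
  have hsurj : Function.Surjective φ := by
    rintro ⟨e, he⟩
    obtain ⟨b, hb⟩ := hcam a ha e he
    refine ⟨⟨a * e, ?_⟩, ?_⟩
    · rw [← hb]
      exact (isConj_iff.mpr ⟨b, rfl⟩).symm
    · apply Subtype.ext
      change a⁻¹ * (a * e) = e
      group
  have h1 : Nat.card {x : X // IsConj x a} = Nat.card (commutator X) :=
    Nat.card_congr (Equiv.ofBijective φ ⟨hinj, hsurj⟩)
  have h5 := card_isConj_mul_card_centralizer a
  have h6 := (commutator X).card_mul_index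
  rw [h1] at h5
  have hpos : 0 < Nat.card (commutator X) := Nat.card_pos
  exact Nat.eq_of_mul_eq_mul_left hpos (h5.trans h6.symm)

/-- Nonlinear characters vanish off `X'`. -/
theorem vanish_of_cam
    (hcam : ∀ a, a ∉ commutator X → ∀ e ∈ commutator X, ∃ b, b * a * b⁻¹ = a * e)
    {a : X} (ha : a ∉ commutator X) {θ : X → ℂ} (hθ : IsIrrCharacter X θ) (hθ1 : θ 1 ≠ 1) :
    θ a = 0 := by
  classical
  have := finite_irrCharacter (G := X)
  letI := Fintype.ofFinite (IrrCharacter X)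
  have h1 := sum_irr_mul_conj a a
  rw [if_pos (IsConj.refl a), card_centralizer_of_cam hcam ha] at h1
  have hlin : ∀ χ : IrrCharacter X, (χ : X → ℂ) 1 = 1 → Complex.normSq ((χ : X → ℂ) a) = 1 := by
    intro χ hχ
    obtain ⟨lam, hlam⟩ := exists_hom_of_deg_one (isCharacter_of_isIrrCharacter χ.2) hχ
    rw [hlam]
    have h3 : ‖((lam a : ℂˣ) : ℂ)‖ = 1 := by
      have hk0 := orderOf_pos a
      have h4 : ((lam a : ℂˣ) : ℂ) ^ orderOf a = 1 := by
        rw [← Units.val_pow_eq_pow_val, ← map_pow, pow_orderOf_eq_one, map_one, Units.val_one]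
      exact Complex.norm_eq_one_of_pow_eq_one h4 hk0.ne'
    rw [Complex.normSq_eq_norm_sq, h3]
    simp
  have h2 : ∑ χ : IrrCharacter X, Complex.normSq ((χ : X → ℂ) a) = ((commutator X).index : ℝ) := by
    have h3 : ((∑ χ : IrrCharacter X, Complex.normSq ((χ : X → ℂ) a) : ℝ) : ℂ) =
        ((commutator X).index : ℂ) := by
      rw [← h1, Complex.ofReal_sum]
      refine Finset.sum_congr rfl fun χ _ => ?_
      rw [Complex.mul_conj]
    exact_mod_cast h3
  have h4 : ∑ χ : IrrCharacter X, (if (χ : X → ℂ) 1 = 1 then (1 : ℝ) else 0) =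
      ((commutator X).index : ℝ) := by
    rw [Finset.sum_boole]
    have h3 : (Finset.univ.filter fun χ : IrrCharacter X => (χ : X → ℂ) 1 = 1).card =
        (commutator X).index := by
      rw [← card_linear_eq_index, Nat.card_eq_fintype_card, Fintype.card_subtype]
    rw [h3]
  have hle : ∀ χ ∈ (Finset.univ : Finset (IrrCharacter X)),
      (if (χ : X → ℂ) 1 = 1 then (1 : ℝ) else 0) ≤ Complex.normSq ((χ : X → ℂ) a) := by
    intro χ _
    by_cases hχ : (χ : X → ℂ) 1 = 1
    · rw [if_pos hχ, hlin χ hχ]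
    · rw [if_neg hχ]
      exact Complex.normSq_nonneg _
  have heq := (Finset.sum_eq_sum_iff_of_le hle).1 (h4.trans h2.symm)
  have h5 := heq ⟨θ, hθ⟩ (Finset.mem_univ _)
  change (if θ 1 = 1 then (1 : ℝ) else 0) = Complex.normSq (θ a) at h5
  rw [if_neg hθ1] at h5
  exact Complex.normSq_eq_zero.1 h5.symm

/-- The degree bound, abstractly. -/
theorem deg_gt_abs
    (hcam : ∀ a, a ∉ commutator X → ∀ e ∈ commutator X, ∃ b, b * a * b⁻¹ = a * e)
    {θ : X → ℂ} (hθ : IsIrrCharacter X θ)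
    (hnt : ∃ f ∈ (⁅commutator X, (⊤ : Subgroup X)⁆ : Subgroup X), θ f ≠ θ 1) :
    (commutator X).index < charDegree θ ^ 2 := by
  classical
  have hθc := isCharacter_of_isIrrCharacter hθ
  obtain ⟨f, hf, hfne⟩ := hnt
  have hle : (⁅commutator X, (⊤ : Subgroup X)⁆ : Subgroup X) ≤ commutator X :=
    Subgroup.commutator_le_left _ _
  have hθ1 : θ 1 ≠ 1 := by
    intro h1
    obtain ⟨lam, hlam⟩ := exists_hom_of_deg_one hθc h1
    apply hfne
    rw [h1, hlam]
    have := Cfsg.Agent.Lib.NoDiv.Camina.hom_commutator lam (hle hf)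
    change ((lam f : ℂˣ) : ℂ) = 1
    rw [this]
    rfl
  have hv : ∀ a, a ∉ commutator X → θ a = 0 := fun a ha => vanish_of_cam hcam ha hθ hθ1
  set d := charDegree θ with hd
  have hnorm : ∀ g, ‖θ g‖ ≤ (d : ℝ) := norm_le_charDegree hθc
  -- strictness
  obtain ⟨e₀, he₀, hlt⟩ : ∃ e ∈ commutator X, ‖θ e‖ < (d : ℝ) := by
    by_contra hcon
    push Not at hcon
    have hall : ∀ e ∈ commutator X, ‖θ e‖ = (d : ℝ) := fun e he =>
      le_antisymm (hnorm e) (hcon e he)
    apply hfne
    have hk : (⁅commutator X, (⊤ : Subgroup X)⁆ : Subgroup X) ≤ charKer hθc := by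
      rw [Subgroup.commutator_le]
      intro e he x _
      obtain ⟨n, ρ, hρ, hρθ⟩ := hθ
      subst hρθ
      have hfin : charDegree ρ.character = Module.finrank ℂ (Fin n → ℂ) := charDegree_character ρ
      have h1 := hall e he
      rw [hd, hfin] at h1
      obtain ⟨ω, hω⟩ := (norm_character_eq_iff_scalar ρ e).1 h1
      have hcm : ρ (e * x) = ρ (x * e) := by
        rw [map_mul, map_mul, hω]
        ext v
        simp
      rw [mem_charKer, commutatorElement_def, character_eq_one_iff]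
      calc ρ (e * x * e⁻¹ * x⁻¹) = ρ (e * x) * ρ (e⁻¹ * x⁻¹) := by
            rw [← map_mul]; congr 1; group
        _ = ρ (x * e) * ρ (e⁻¹ * x⁻¹) := by rw [hcm]
        _ = 1 := by
            rw [← map_mul]
            have : x * e * (e⁻¹ * x⁻¹) = 1 := by group
            rw [this, map_one]
    exact hk hf
  -- the sum
  have h1 : ∑ g, ‖θ g‖ ^ 2 = (Nat.card X : ℝ) := by
    have h2 := classInner_self_eq θ
    rw [classInner_self_of_isIrr hθ] at h2
    have h3 : (1 : ℝ) = (Nat.card X : ℝ)⁻¹ * ∑ g, ‖θ g‖ ^ 2 := by exact_mod_cast h2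
    have hne : (Nat.card X : ℝ) ≠ 0 := Nat.cast_ne_zero.mpr Nat.card_pos.ne'
    field_simp at h3
    linarith
  have h2 : ∑ g, ‖θ g‖ ^ 2 = ∑ g : commutator X, ‖θ g‖ ^ 2 := by
    have h3 : ∑ g, ‖θ g‖ ^ 2 = ∑ g ∈ Finset.univ.filter (· ∈ commutator X), ‖θ g‖ ^ 2 := by
      symm
      apply Finset.sum_subset (Finset.filter_subset _ _)
      intro g _ hg
      have hg' : g ∉ commutator X := by
        simpa using hg
      rw [hv g hg']
      simp
    rw [h3]
    refine Finset.sum_subtype _ ?_ _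
    intro g
    simp
  have h3 : ∑ g : commutator X, ‖θ g‖ ^ 2 < ∑ _g : commutator X, (d : ℝ) ^ 2 := by
    apply Finset.sum_lt_sum
    · intro g _
      exact pow_le_pow_left₀ (norm_nonneg _) (hnorm g) 2
    · refine ⟨⟨e₀, he₀⟩, Finset.mem_univ _, ?_⟩
      exact pow_lt_pow_left₀ hlt (norm_nonneg _) (by norm_num)
  rw [Finset.sum_const, nsmul_eq_mul, Finset.card_univ, ← Nat.card_eq_fintype_card, ← h2, h1] at h3
  have h4 : Nat.card X < Nat.card (commutator X) * d ^ 2 := by exact_mod_cast h3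
  rw [← (commutator X).card_mul_index] at h4
  exact Nat.lt_of_mul_lt_mul_left h4

/-- (P15) Vanishing off `γ₂` and the degree bound used at level 4. -/
theorem deg_gt_of_camina {Γ : Type u} [Group Γ] {p : ℕ} [Fintype Γ] [Fintype (commutator Γ)] (h : PS Γ p)
    {θ : commutator Γ → ℂ} (hθ : IsIrrCharacter (commutator Γ) θ)
    (hnt : ∃ f : commutator Γ, (f : Γ) ∈ g3 Γ ∧ θ f ≠ θ 1) :
    (g2 Γ).relIndex (commutator Γ) < charDegree θ ^ 2 := by
  classical
  have hmem : ∀ c : commutator Γ, (c : Γ) ∈ g2 Γ ↔ c ∈ commutator (commutator Γ) := fun c =>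
    Cfsg.Agent.Lib.NoDiv.Camina.mem_comm_iff c
  have hsub : (g2 Γ).subgroupOf (commutator Γ) = commutator (commutator Γ) := by
    ext c
    exact hmem c
  have hcam : ∀ a, a ∉ commutator (commutator Γ) → ∀ e ∈ commutator (commutator Γ), ∃ b, b * a * b⁻¹ = a * e := by
    intro a ha e he
    obtain ⟨b, hb, hbe⟩ := h.cam a a.2 (fun h1 => ha ((hmem a).1 h1)) e ((hmem e).2 he)
    exact ⟨⟨b, hb⟩, Subtype.ext hbe⟩
  have hnt' : ∃ f ∈ (⁅commutator (commutator Γ), (⊤ : Subgroup (commutator Γ))⁆ : Subgroup (commutator Γ)), θ f ≠ θ 1 := by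
    obtain ⟨f, hf, hfne⟩ := hnt
    refine ⟨f, ?_, hfne⟩
    have h1 : (⁅commutator (commutator Γ), (⊤ : Subgroup (commutator Γ))⁆ : Subgroup (commutator Γ)).map (commutator Γ).subtype = g3 Γ := by
      rw [Subgroup.map_commutator, Subgroup.map_subtype_commutator]
      have h2 : (⊤ : Subgroup (commutator Γ)).map (commutator Γ).subtype = commutator Γ := by
        rw [← MonoidHom.range_eq_map, Subgroup.range_subtype]
      rw [h2]
      rfl
    rw [← h1] at hf
    obtain ⟨y, hy, hyf⟩ := hf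
    have : y = f := Subtype.ext hyf
    rwa [← this]
  have := deg_gt_abs hcam hθ hnt'
  change ((g2 Γ).subgroupOf (commutator Γ)).index < _
  rw [hsub]
  exact this

end Cfsg.Agent.Lib.NDF.PSDegGt
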