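import Cfsg.Agent.Lib.NDF.PSDefs
import Cfsg.Agent.Lib.Coprime.Generation2

/-!
# S4780, block P: (P11) `H0 ≤ Cen γ₂ γ₃`, by the three subgroups lemma.
-/

set_option autoImplicit false
set_option linter.unusedSectionVars false

namespace Cfsg.Agent.Lib.NDF.PSH0

open Cfsg Cfsg.Agent.Lib.NoDiv.Defs Cfsg.Agent.Lib.NDF.Defs Cfsg.Agent.Lib.NDF.PSDefs
open scoped commutatorElement

universe u

variable {Γ : Type u} [Group Γ]

/-- (P11) `H0 ≤ Cen γ₂ γ₃` (three subgroups). -/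
theorem H0_le_T2 [Finite Γ] : H0 Γ ≤ Cen (g2 Γ) (g3 Γ) := by
  have hN : Subgroup.normalizer ((g3 Γ : Subgroup Γ) : Set Γ) = ⊤ :=
    Subgroup.normalizer_eq_top_iff.mpr inferInstance
  have h1 : ⁅H0 Γ, commutator Γ⁆ ≤ g2 Γ := by
    rw [Subgroup.commutator_le]
    intro g hg a ha
    exact (mem_Cen.mp hg) a ha
  have h1' : ⁅commutator Γ, H0 Γ⁆ ≤ g2 Γ := by
    rw [Subgroup.commutator_comm]
    exact h1
  have h2 : ⁅⁅commutator Γ, H0 Γ⁆, commutator Γ⁆ ≤ g3 Γ :=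
    Subgroup.commutator_mono h1' le_rfl
  have h3 : ⁅⁅H0 Γ, commutator Γ⁆, commutator Γ⁆ ≤ g3 Γ :=
    Subgroup.commutator_mono h1 le_rfl
  have h4 : ⁅⁅commutator Γ, commutator Γ⁆, H0 Γ⁆ ≤ g3 Γ :=
    Cfsg.Agent.Lib.Coprime.Generation2.three_subgroups_rel _ _ _ _ h2 h3
      (by rw [hN]; exact le_top) (by rw [hN]; exact le_top) (by rw [hN]; exact le_top)
  intro g hg
  apply mem_Cen.mpr
  intro e he
  have h5 : ⁅e, g⁆ ∈ g3 Γ := by
    rw [Subgroup.commutator_le] at h4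
    exact h4 e he g hg
  have h6 : g * e * g⁻¹ * e⁻¹ = (⁅e, g⁆)⁻¹ := by
    rw [commutatorElement_inv]
    rfl
  rw [h6]
  exact (g3 Γ).inv_mem h5

end Cfsg.Agent.Lib.NDF.PSH0
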