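import Cfsg.Agent.Lib.Char.CentralCount

/-!
# Characters over a central character (A8 of `Lib/NDF`)

For `N` central and `μ : N → ℂˣ`: `∑_n μ(n)⁻¹ χ(x n)` is `|N| χ(x)` if `χ` lies over `μ`, and `0` otherwise. With column
orthogonality: `|N| ∑_{χ over μ} χ(x) χ(1) = |X| μ(x)` for `x ∈ N`, `0` for `x ∉ N`.
-/

set_option autoImplicit false

namespace Cfsg.Agent.Lib.NDF.UniqueOver

open Cfsg Module
open Cfsg.Agent.Lib.Char.Basic Cfsg.Agent.Lib.Char.Ortho Cfsg.Agent.Lib.Char.Complete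
open Cfsg.Agent.Lib.Char.CentralCount
open scoped ComplexConjugate

universe u

variable {X : Type u} [Group X] [Fintype X] {N : Subgroup X} [Fintype N]

/-- `χ` lies over `μ`. -/
def Ov (μ : N →* ℂˣ) (χ : IrrCharacter X) : Prop :=
  ∀ n : N, (χ : X → ℂ) n = ((μ n : ℂˣ) : ℂ) * (χ : X → ℂ) 1

omit [Fintype N] in
/-- The degree is real. -/
theorem conj_one (χ : IrrCharacter X) : conj ((χ : X → ℂ) 1) = (χ : X → ℂ) 1 := by
  obtain ⟨n, -, hn⟩ := exists_pos_deg_of_isIrr χ.2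
  rw [hn]
  simp

/-- The projection onto the `μ`-part. -/
theorem inner_sum (hNc : ∀ n ∈ N, ∀ x, x * n = n * x) (μ : N →* ℂˣ) (χ : IrrCharacter X) (x : X)
    [Decidable (Ov μ χ)] :
    ∑ n : N, ((μ n : ℂˣ) : ℂ)⁻¹ * (χ : X → ℂ) (x * n) =
      if Ov μ χ then (Nat.card N : ℂ) * (χ : X → ℂ) x else 0 := by
  have h1 : (χ : X → ℂ) 1 ≠ 0 := irr_one_ne_zero χ.2
  have hcen : ∀ n : N, (n : X) ∈ Subgroup.center X := fun n => by
    rw [Subgroup.mem_center_iff]
    exact fun g => hNc n n.2 g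
  have hmul : ∀ (g : X) (n : N), (χ : X → ℂ) (g * n) = (χ : X → ℂ) g * (χ : X → ℂ) n / (χ : X → ℂ) 1 := by
    intro g n
    rw [eq_div_iff h1]
    exact char_mul_central χ.2 (hcen n) g
  split_ifs with hO
  · have h2 : ∀ n : N, ((μ n : ℂˣ) : ℂ)⁻¹ * (χ : X → ℂ) (x * n) = (χ : X → ℂ) x := by
      intro n
      have h3 : ((μ n : ℂˣ) : ℂ) ≠ 0 := Units.ne_zero _
      rw [hmul, hO n]
      field_simp
    simp_rw [h2]
    rw [Finset.sum_const, Finset.card_univ, nsmul_eq_mul, Nat.card_eq_fintype_card]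
  · unfold Ov at hO
    push Not at hO
    obtain ⟨n₀, hn₀⟩ := hO
    set T := ∑ n : N, ((μ n : ℂˣ) : ℂ)⁻¹ * (χ : X → ℂ) (x * n) with hT
    set c : ℂ := ((μ n₀ : ℂˣ) : ℂ)⁻¹ * ((χ : X → ℂ) n₀ / (χ : X → ℂ) 1) with hc
    have hc1 : c ≠ 1 := by
      intro h
      apply hn₀
      have h3 : ((μ n₀ : ℂˣ) : ℂ) ≠ 0 := Units.ne_zero _
      rw [hc] at h
      field_simp at h
      rw [h]
    have h4 : T = c * T := by
      rw [hT, Finset.mul_sum]
      calc ∑ n : N, ((μ n : ℂˣ) : ℂ)⁻¹ * (χ : X → ℂ) (x * n)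
          = ∑ n : N, ((μ (Equiv.mulLeft n₀ n) : ℂˣ) : ℂ)⁻¹ * (χ : X → ℂ) (x * (Equiv.mulLeft n₀ n : N)) :=
            (Equiv.sum_comp (Equiv.mulLeft n₀) fun n : N => ((μ n : ℂˣ) : ℂ)⁻¹ * (χ : X → ℂ) (x * n)).symm
        _ = _ := by
          refine Finset.sum_congr rfl ?_
          intro n _
          have h5 : x * ((n₀ * n : N) : X) = (x * n) * n₀ := by
            rw [Subgroup.coe_mul, mul_assoc]
            congr 1
            exact (hNc n₀ n₀.2 n).symm
          simp only [Equiv.coe_mulLeft]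
          rw [h5, hmul (x * n) n₀, map_mul, Units.val_mul, hc, mul_inv]
          ring
    have h6 : (1 - c) * T = 0 := by
      rw [sub_mul, one_mul, ← h4, sub_self]
    rcases mul_eq_zero.1 h6 with h7 | h7
    · exact absurd (sub_eq_zero.1 h7).symm hc1
    · exact h7

open scoped Classical in
/-- The sum of the degrees weighted. -/
theorem sum_over [Fintype (IrrCharacter X)] (hNc : ∀ n ∈ N, ∀ x, x * n = n * x) (μ : N →* ℂˣ) (x : X) :
    (Nat.card N : ℂ) * ∑ χ : IrrCharacter X, (if Ov μ χ then (χ : X → ℂ) x * (χ : X → ℂ) 1 else 0) =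
      (Nat.card X : ℂ) * (if h : x ∈ N then ((μ ⟨x, h⟩ : ℂˣ) : ℂ) else 0) := by
  have hA : ∑ n : N, ((μ n : ℂˣ) : ℂ)⁻¹ * ∑ χ : IrrCharacter X, (χ : X → ℂ) (x * n) * conj ((χ : X → ℂ) 1) =
      (Nat.card X : ℂ) * (if h : x ∈ N then ((μ ⟨x, h⟩ : ℂˣ) : ℂ) else 0) := by
    have h1 : ∀ n : N, ((μ n : ℂˣ) : ℂ)⁻¹ * ∑ χ : IrrCharacter X, (χ : X → ℂ) (x * n) * conj ((χ : X → ℂ) 1) =
        ((μ n : ℂˣ) : ℂ)⁻¹ * (if x * n = 1 then (Nat.card X : ℂ) else 0) := by
      intro n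
      rw [sum_irr_mul_conj]
      congr 1
      by_cases h : x * n = 1
      · rw [if_pos h, if_pos (by rw [h])]
        have : Nat.card (Subgroup.centralizer ({1} : Set X)) = Nat.card X := by
          rw [Subgroup.centralizer_eq_top_iff_subset.2 (by simp [Subgroup.center])]
          exact Nat.card_congr Subgroup.topEquiv.toEquiv
        rw [this]
      · rw [if_neg h, if_neg]
        intro hc
        exact h (isConj_one_right.1 hc.symm)
    simp_rw [h1]
    split_ifs with hx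
    · rw [Finset.sum_eq_single (⟨x, hx⟩⁻¹ : N)]
      · rw [if_pos (by simp)]
        simp only [map_inv, Units.val_inv_eq_inv_val, inv_inv]
        ring
      · intro n _ hn
        rw [if_neg, mul_zero]
        intro h
        apply hn
        apply Subtype.ext
        simp only [InvMemClass.coe_inv]
        exact eq_inv_of_mul_eq_one_right h
      · intro h
        exact absurd (Finset.mem_univ _) h
    · rw [mul_zero]
      apply Finset.sum_eq_zero
      intro n _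
      rw [if_neg, mul_zero]
      intro h
      apply hx
      have : x = (n : X)⁻¹ := eq_inv_of_mul_eq_one_left h
      rw [this]
      exact inv_mem n.2
  rw [← hA]
  have hB : ∀ n : N, ((μ n : ℂˣ) : ℂ)⁻¹ * ∑ χ : IrrCharacter X, (χ : X → ℂ) (x * n) * conj ((χ : X → ℂ) 1) =
      ∑ χ : IrrCharacter X, (χ : X → ℂ) 1 * (((μ n : ℂˣ) : ℂ)⁻¹ * (χ : X → ℂ) (x * n)) := by
    intro n
    rw [Finset.mul_sum]
    refine Finset.sum_congr rfl ?_
    intro χ _
    rw [conj_one]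
    ring
  simp_rw [hB]
  rw [Finset.sum_comm, Finset.mul_sum]
  refine Finset.sum_congr rfl ?_
  intro χ _
  rw [← Finset.mul_sum, inner_sum hNc]
  split_ifs <;> ring

/-- (A8) A unique character over a central character is fully ramified. -/
theorem unique_over {X : Type u} [Group X] [Fintype X] {N : Subgroup X} [Fintype N]
    (hNc : ∀ n ∈ N, ∀ x, x * n = n * x) (μ : N →* ℂˣ) (χ₀ : IrrCharacter X)
    (h₀ : ∀ n : N, (χ₀ : X → ℂ) n = ((μ n : ℂˣ) : ℂ) * (χ₀ : X → ℂ) 1)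
    (huniq : ∀ χ : IrrCharacter X, (∀ n : N, (χ : X → ℂ) n = ((μ n : ℂˣ) : ℂ) * (χ : X → ℂ) 1) → χ = χ₀) :
    (χ₀ : X → ℂ) 1 ^ 2 = (N.index : ℂ) ∧ ∀ x, x ∉ N → (χ₀ : X → ℂ) x = 0 := by
  classical
  have := finite_irrCharacter (G := X)
  let := Fintype.ofFinite (IrrCharacter X)
  have hS : ∀ x : X, ∑ χ : IrrCharacter X, (if Ov μ χ then (χ : X → ℂ) x * (χ : X → ℂ) 1 else 0) =
      (χ₀ : X → ℂ) x * (χ₀ : X → ℂ) 1 := by
    intro x
    rw [Finset.sum_eq_single χ₀]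
    · rw [if_pos (show Ov μ χ₀ from h₀)]
    · intro χ _ hχ
      rw [if_neg]
      exact fun h => hχ (huniq χ h)
    · intro h
      exact absurd (Finset.mem_univ _) h
  have hN0 : (Nat.card N : ℂ) ≠ 0 := Nat.cast_ne_zero.2 Nat.card_pos.ne'
  have h1 : ∀ x : X, ((Nat.card N : ℂ)) * ((χ₀ : X → ℂ) x * (χ₀ : X → ℂ) 1) =
      (Nat.card X : ℂ) * (if h : x ∈ N then ((μ ⟨x, h⟩ : ℂˣ) : ℂ) else 0) := by
    intro x
    rw [← hS x]
    convert sum_over hNc μ x
  constructor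
  · have h2 := h1 1
    rw [dif_pos (one_mem N)] at h2
    have h3 : μ ⟨1, one_mem N⟩ = 1 := map_one μ
    rw [h3, Units.val_one, mul_one] at h2
    have h4 : (Nat.card X : ℂ) = (Nat.card N : ℂ) * (N.index : ℂ) := by
      exact_mod_cast (Subgroup.card_mul_index N).symm
    rw [h4] at h2
    have h5 := mul_left_cancel₀ hN0 h2
    rw [sq]
    exact h5
  · intro x hx
    have h2 := h1 x
    rw [dif_neg hx, mul_zero] at h2
    have h3 := (mul_eq_zero.1 h2).resolve_left hN0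
    exact (mul_eq_zero.1 h3).resolve_right (irr_one_ne_zero χ₀.2)

end Cfsg.Agent.Lib.NDF.UniqueOver
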