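import Cfsg.Agent.Lib.NDF.PSDefs
import Cfsg.Agent.Lib.NDF.UniqueOver

/-! # S4780, block P: (P9) level 2 -/

set_option autoImplicit false
set_option linter.unusedSectionVars false

namespace Cfsg.Agent.Lib.NDF.PSLv2

open Cfsg Cfsg.Agent.Lib.NoDiv.Defs Cfsg.Agent.Lib.NDF.Defs Cfsg.Agent.Lib.NDF.PSDefs
open Cfsg.Agent.Lib.Char.Basic Cfsg.Agent.Lib.Char.Ortho Cfsg.Agent.Lib.Char.Complete
open Cfsg.Agent.Lib.Char.CentralCount Cfsg.Agent.Lib.NDF.UniqueOver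
open scoped ComplexConjugate commutatorElement

universe u

section abs

variable {X : Type u} [Group X] [Fintype X] {N : Subgroup X} [Fintype N]

/-- Vanishing off `N`. -/
theorem vanish (hNc : ∀ n ∈ N, ∀ x, x * n = n * x)
    (hcam : ∀ a, a ∉ N → ∀ e ∈ N, ∃ b, b * a * b⁻¹ = a * e)
    (μ : N →* ℂˣ) (hμ : μ ≠ 1) {θ : X → ℂ} (hθ : IsIrrCharacter X θ)
    (hO : ∀ n : N, θ n = ((μ n : ℂˣ) : ℂ) * θ 1) {a : X} (ha : a ∉ N) : θ a = 0 := by
  have h1 : θ 1 ≠ 0 := irr_one_ne_zero hθ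
  obtain ⟨e, he⟩ : ∃ e : N, μ e ≠ 1 := by
    by_contra hcon
    push Not at hcon
    exact hμ (MonoidHom.ext hcon)
  obtain ⟨b, hb⟩ := hcam a ha e e.2
  have h2 : θ (b * a * b⁻¹) = θ a := isClassFunction_of_isIrrCharacter hθ a b
  rw [hb] at h2
  have hcen : (e : X) ∈ Subgroup.center X := by
    rw [Subgroup.mem_center_iff]
    exact fun g => hNc e e.2 g
  have h3 := char_mul_central hθ hcen a
  rw [hO e, h2] at h3
  have h4 : θ a * (1 - ((μ e : ℂˣ) : ℂ)) * θ 1 = 0 := by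
    linear_combination h3
  have h5 : θ a * (1 - ((μ e : ℂˣ) : ℂ)) = 0 := (mul_eq_zero.mp h4).resolve_right h1
  refine (mul_eq_zero.mp h5).resolve_right ?_
  intro h6
  apply he
  apply Units.ext
  rw [Units.val_one]
  linear_combination -h6

/-- Every central character lies under an irreducible character. -/
theorem exists_over (hNc : ∀ n ∈ N, ∀ x, x * n = n * x) (μ : N →* ℂˣ) :
    ∃ θ : X → ℂ, IsIrrCharacter X θ ∧ ∀ n : N, θ n = ((μ n : ℂˣ) : ℂ) * θ 1 := by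
  classical
  haveI := finite_irrCharacter (G := X)
  letI := Fintype.ofFinite (IrrCharacter X)
  have h := sum_over hNc μ (1 : X)
  rw [dif_pos (one_mem N)] at h
  by_contra hne
  push Not at hne
  have h0 : ∑ χ : IrrCharacter X, (if Ov μ χ then (χ : X → ℂ) 1 * (χ : X → ℂ) 1 else 0) = 0 := by
    apply Finset.sum_eq_zero
    intro χ _
    rw [if_neg]
    intro hO
    obtain ⟨n, hn⟩ := hne χ.1 χ.2
    exact hn (hO n)
  have h1 : μ ⟨1, one_mem N⟩ = 1 := map_one μ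
  have h2 : (Nat.card X : ℂ) ≠ 0 := Nat.cast_ne_zero.2 Nat.card_pos.ne'
  apply h2
  have h3 : (Nat.card N : ℂ) * ∑ χ : IrrCharacter X,
      (if Ov μ χ then (χ : X → ℂ) 1 * (χ : X → ℂ) 1 else 0) =
      (Nat.card X : ℂ) * ((μ ⟨1, one_mem N⟩ : ℂˣ) : ℂ) := by
    convert h
  rw [h0, mul_zero, h1, Units.val_one, mul_one] at h3
  exact h3.symm

/-- Uniqueness. -/
theorem eq_of_over (hNc : ∀ n ∈ N, ∀ x, x * n = n * x)
    (hcam : ∀ a, a ∉ N → ∀ e ∈ N, ∃ b, b * a * b⁻¹ = a * e)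
    (μ : N →* ℂˣ) (hμ : μ ≠ 1) {θ θ' : X → ℂ} (hθ : IsIrrCharacter X θ)
    (hθ' : IsIrrCharacter X θ')
    (hO : ∀ n : N, θ n = ((μ n : ℂˣ) : ℂ) * θ 1)
    (hO' : ∀ n : N, θ' n = ((μ n : ℂˣ) : ℂ) * θ' 1) : θ = θ' := by
  classical
  by_contra hne
  have h0 := classInner_eq_zero_of_isIrr_of_ne hθ hθ' hne
  set c := θ 1 * conj (θ' 1) with hc
  have hc0 : c ≠ 0 := by
    rw [hc]
    exact mul_ne_zero (irr_one_ne_zero hθ) ((map_ne_zero _).mpr (irr_one_ne_zero hθ'))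
  have hterm : ∀ g : X, θ g * conj (θ' g) = if g ∈ N then c else 0 := by
    intro g
    split_ifs with hg
    · have h1 := hO ⟨g, hg⟩
      have h2 := hO' ⟨g, hg⟩
      simp only at h1 h2
      rw [h1, h2, map_mul]
      have h3 : ((μ ⟨g, hg⟩ : ℂˣ) : ℂ) * conj ((μ ⟨g, hg⟩ : ℂˣ) : ℂ) = 1 := by
        have h4 : ‖((μ ⟨g, hg⟩ : ℂˣ) : ℂ)‖ = 1 := by
          apply Complex.norm_eq_one_of_pow_eq_one (n := orderOf (⟨g, hg⟩ : N))
          · rw [← Units.val_pow_eq_pow_val, ← map_pow, pow_orderOf_eq_one, map_one, Units.val_one]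
          · exact (orderOf_pos _).ne'
        rw [Complex.mul_conj, Complex.normSq_eq_norm_sq, h4]
        simp
      rw [hc]
      linear_combination (θ 1 * conj (θ' 1)) * h3
    · rw [vanish hNc hcam μ hμ hθ hO hg, zero_mul]
  rw [classInner_def] at h0
  simp_rw [hterm] at h0
  rw [Finset.sum_ite, Finset.sum_const_zero, add_zero, Finset.sum_const, nsmul_eq_mul] at h0
  have h1 : (Finset.univ.filter (fun g : X => g ∈ N)).card ≠ 0 := by
    apply Finset.card_ne_zero_of_mem (a := (1 : X))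
    simp [one_mem]
  have h2 : (Nat.card X : ℂ)⁻¹ ≠ 0 := inv_ne_zero (Nat.cast_ne_zero.2 Nat.card_pos.ne')
  rcases mul_eq_zero.mp h0 with h3 | h3
  · exact h2 h3
  · rcases mul_eq_zero.mp h3 with h4 | h4
    · exact h1 (Nat.cast_eq_zero.mp h4)
    · exact hc0 h4

end abs

variable {Γ : Type u} [Group Γ] {p : ℕ}

/-- (P9) Level 2. -/
theorem lv2 [Fintype Γ] [Fintype (commutator Γ)] (h : PS Γ p) (h3 : g3 Γ = ⊥) :
    Uq (g2_le : g2 Γ ≤ commutator Γ) := by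
  classical
  intro μ hμ
  let N : Subgroup (commutator Γ) := (g2 Γ).subgroupOf (commutator Γ)
  have hNc : ∀ n ∈ N, ∀ x, x * n = n * x := by
    intro n hn x
    apply Subtype.ext
    have h1 : (n : Γ) ∈ g2 Γ := Subgroup.mem_subgroupOf.mp hn
    have h2 : ⁅(n : Γ), (x : Γ)⁆ ∈ g3 Γ := Subgroup.commutator_mem_commutator h1 x.2
    rw [h3, Subgroup.mem_bot, commutatorElement_eq_one_iff_mul_comm] at h2
    exact h2.symm
  have hcam : ∀ a, a ∉ N → ∀ e ∈ N, ∃ b, b * a * b⁻¹ = a * e := by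
    intro a ha e he
    obtain ⟨b, hb, hb'⟩ := h.cam a a.2 (fun h1 => ha (Subgroup.mem_subgroupOf.mpr h1)) e
      (Subgroup.mem_subgroupOf.mp he)
    exact ⟨⟨b, hb⟩, Subtype.ext hb'⟩
  let μ' : N →* ℂˣ := μ.comp (Subgroup.subgroupOfEquivOfLe g2_le).toMonoidHom
  have hμapp : ∀ n : g2 Γ, μ' ⟨⟨n, g2_le n.2⟩, Subgroup.mem_subgroupOf.mpr n.2⟩ = μ n := fun n => rfl
  have hμ' : μ' ≠ 1 := by
    intro h1
    apply hμ
    ext n
    rw [← hμapp n, h1]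
    rfl
  have hov : ∀ θ' : commutator Γ → ℂ, Over g2_le θ' μ ↔
      ∀ n : N, θ' n = ((μ' n : ℂˣ) : ℂ) * θ' 1 := by
    intro θ'
    constructor
    · intro h1 n
      exact h1 ⟨n.1.1, Subgroup.mem_subgroupOf.mp n.2⟩
    · intro h1 n
      exact h1 ⟨⟨n, g2_le n.2⟩, Subgroup.mem_subgroupOf.mpr n.2⟩
  obtain ⟨θ, hθ, hO⟩ := exists_over hNc μ'
  refine ⟨θ, hθ, (hov θ).mpr hO, ?_⟩
  intro θ' hθ' hO'
  exact eq_of_over hNc hcam μ' hμ' hθ' hθ ((hov θ').mp hO') hO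

end Cfsg.Agent.Lib.NDF.PSLv2
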