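import Cfsg.Agent.Lib.NDF.PSDefs
import Cfsg.Agent.Lib.NDF.UniqueOver
import Cfsg.Agent.Lib.NoDiv.Q78
import Cfsg.Agent.Lib.Char.RelGraph

/-!
# S4780, block P: (P13) `[e, X] = γ₃`

For `e ∉ γ₃`, the values `[e, a]` form a subgroup `I` of `γ₃`. A `μ ≠ 1` trivial on `I ≠ γ₃` would
have a character `θ` over it with `θ(e) ≠ 0`, but `θ` vanishes off `γ₃`.
-/

set_option autoImplicit false

namespace Cfsg.Agent.Lib.NDF.PSP2

open Cfsg Cfsg.Agent.Lib.NoDiv.Defs Cfsg.Agent.Lib.NDF.Defs Cfsg.Agent.Lib.NDF.PSDefs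
open Cfsg.Agent.Lib.Char.Basic Cfsg.Agent.Lib.Char.Ortho Cfsg.Agent.Lib.Char.RelGraph
open Cfsg.Agent.Lib.Char.CentralCount Cfsg.Agent.Lib.Char.Complete Cfsg.Agent.Lib.Char.Linear
open scoped ComplexConjugate

universe u

variable {Γ : Type u} [Group Γ] {p : ℕ}

/-- The homomorphism on `N.subgroupOf X`. -/
noncomputable def lift' {N X : Subgroup Γ} (hNX : N ≤ X) (μ : N →* ℂˣ) : N.subgroupOf X →* ℂˣ :=
  μ.comp (Subgroup.subgroupOfEquivOfLe hNX).toMonoidHom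

theorem lift'_apply {N X : Subgroup Γ} (hNX : N ≤ X) (μ : N →* ℂˣ) (m : N.subgroupOf X) :
    lift' hNX μ m = μ ⟨((m : X) : Γ), Subgroup.mem_subgroupOf.1 m.2⟩ := rfl

section Fin

variable [Fintype Γ] [Fintype (commutator Γ)]

set_option linter.unusedSectionVars false

/-- Over a central subgroup every homomorphism has an irreducible character above it. -/
theorem exists_over_Over {N : Subgroup Γ} (hNn : N.Normal) (hNX : N ≤ commutator Γ)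
    (hNc : ∀ n ∈ N, ∀ x ∈ commutator Γ, x * n = n * x) (μ : N →* ℂˣ) :
    ∃ θ : commutator Γ → ℂ, IsIrrCharacter (commutator Γ) θ ∧ Over hNX θ μ := by
  classical
  let M : Subgroup (commutator Γ) := N.subgroupOf (commutator Γ)
  letI : Fintype M := Fintype.ofFinite _
  have hMn : M.Normal := inferInstance
  have hc : ∀ n ∈ M, ∀ t : commutator Γ, t * n * t⁻¹ = n := by
    intro n hn t
    have h1 := hNc n (Subgroup.mem_subgroupOf.1 hn) t t.2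
    apply Subtype.ext
    simp only [Subgroup.coe_mul, InvMemClass.coe_inv]
    rw [h1]
    group
  obtain ⟨θ, hθ, hov⟩ := exists_over (G := commutator Γ) (N := M)
    (isIrrCharacter_of_hom (lift' hNX μ))
  refine ⟨θ, hθ, ?_⟩
  intro n
  have h2 := Cfsg.Agent.Lib.NoDiv.Q78.restrict_central hMn hc hθ hov
    ⟨⟨n, hNX n.2⟩, Subgroup.mem_subgroupOf.2 n.2⟩
  have h3 : lift' hNX μ ⟨⟨n, hNX n.2⟩, Subgroup.mem_subgroupOf.2 n.2⟩ = μ n := rfl
  rw [h3] at h2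
  simp only at h2
  rw [h2]
  ring

/-- Translation of `Over` to the language of a central subgroup of `X`. -/
theorem over_iff {N : Subgroup Γ} (hNX : N ≤ commutator Γ) (μ : N →* ℂˣ) {θ : commutator Γ → ℂ} :
    Over hNX θ μ ↔ ∀ m : N.subgroupOf (commutator Γ),
      θ m = ((lift' hNX μ m : ℂˣ) : ℂ) * θ 1 := by
  constructor
  · intro h m
    exact h ⟨((m : commutator Γ) : Γ), Subgroup.mem_subgroupOf.1 m.2⟩
  · intro h n
    exact h ⟨⟨n, hNX n.2⟩, Subgroup.mem_subgroupOf.2 n.2⟩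

/-- (P13) `[e, X] = γ₃` from `Uq` at `γ₃`. -/
theorem p2_of_uq (h : PS Γ p) (h4 : g4 Γ = ⊥)
    (hU : Uq ((g3_le.trans g2_le) : g3 Γ ≤ commutator Γ)) :
    ∀ e ∈ g2 Γ, e ∉ g3 Γ → ∀ f ∈ g3 Γ, ∃ a ∈ commutator Γ, e * a * e⁻¹ * a⁻¹ = f := by
  classical
  intro e he heN f₀ hf₀
  by_contra hcon
  push Not at hcon
  have hNX : g3 Γ ≤ commutator Γ := g3_le.trans g2_le
  have hNc : ∀ n ∈ g3 Γ, ∀ x ∈ commutator Γ, x * n = n * x := by
    intro n hn x hx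
    have h1 : n * x * n⁻¹ * x⁻¹ ∈ g4 Γ := Subgroup.commutator_mem_commutator hn hx
    rw [h4, Subgroup.mem_bot] at h1
    have h2 : n * x = x * n := by
      have : n * x * n⁻¹ * x⁻¹ * (x * n) = x * n := by rw [h1, one_mul]
      rw [← this]
      group
    exact h2.symm
  have hmem : ∀ a ∈ commutator Γ, e * a * e⁻¹ * a⁻¹ ∈ g3 Γ := fun a ha =>
    Subgroup.commutator_mem_commutator he ha
  -- the subgroup of values of `[e, ·]`
  let I : Subgroup (g3 Γ) :=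
    { carrier := {f | ∃ a ∈ commutator Γ, e * a * e⁻¹ * a⁻¹ = (f : Γ)}
      one_mem' := ⟨1, one_mem _, by simp⟩
      mul_mem' := by
        rintro f₁ f₂ ⟨a₁, ha₁, h₁⟩ ⟨a₂, ha₂, h₂⟩
        refine ⟨a₁ * a₂, mul_mem ha₁ ha₂, ?_⟩
        have h5 : a₁ * (e * a₂ * e⁻¹ * a₂⁻¹) = (e * a₂ * e⁻¹ * a₂⁻¹) * a₁ :=
          hNc _ (hmem a₂ ha₂) a₁ ha₁
        rw [Subgroup.coe_mul, ← h₁, ← h₂]
        calc e * (a₁ * a₂) * e⁻¹ * (a₁ * a₂)⁻¹
            = e * a₁ * e⁻¹ * a₁⁻¹ * (a₁ * (e * a₂ * e⁻¹ * a₂⁻¹)) * a₁⁻¹ := by group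
          _ = _ := by rw [h5]; group
      inv_mem' := by
        rintro f ⟨a, ha, hf⟩
        refine ⟨a⁻¹, inv_mem ha, ?_⟩
        rw [InvMemClass.coe_inv, ← hf]
        have h5 : a⁻¹ * (e * a * e⁻¹ * a⁻¹) = (e * a * e⁻¹ * a⁻¹) * a⁻¹ :=
          hNc _ (hmem a ha) a⁻¹ (inv_mem ha)
        have h6 : e * a⁻¹ * e⁻¹ * a⁻¹⁻¹ * (e * a * e⁻¹ * a⁻¹) = 1 := by
          calc e * a⁻¹ * e⁻¹ * a⁻¹⁻¹ * (e * a * e⁻¹ * a⁻¹)
              = e * a⁻¹ * e⁻¹ * a * ((e * a * e⁻¹ * a⁻¹) * a⁻¹) * a := by group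
            _ = 1 := by rw [← h5]; group
        exact eq_inv_of_mul_eq_one_left h6 }
  have hab : ∀ a b : g3 Γ, a * b = b * a := fun a b =>
    Subtype.ext (hNc b b.2 a (hNX a.2))
  have hIn : I.Normal := ⟨fun n hn g => by
    have : g * n * g⁻¹ = n := by rw [hab g n]; group
    rwa [this]⟩
  have hf₀I : (⟨f₀, hf₀⟩ : g3 Γ) ∉ I := by
    rintro ⟨a, ha, hf⟩
    exact hcon a ha hf
  obtain ⟨μ, hμI, hμf⟩ := Cfsg.Agent.Lib.NoDiv.Q78.exists_sep hIn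
    (fun a b => by
      have : a * b * a⁻¹ * b⁻¹ = 1 := by rw [hab a b]; group
      rw [this]
      exact I.one_mem) hf₀I
  have hμ : μ ≠ 1 := fun h0 => hμf (by rw [h0]; rfl)
  obtain ⟨θ, hθ, hO, huq⟩ := hU μ hμ
  -- `θ` is fully ramified
  let M : Subgroup (commutator Γ) := (g3 Γ).subgroupOf (commutator Γ)
  letI : Fintype M := Fintype.ofFinite _
  have hMc : ∀ n ∈ M, ∀ x : commutator Γ, x * n = n * x := by
    intro n hn x
    exact Subtype.ext (hNc n (Subgroup.mem_subgroupOf.1 hn) x x.2)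
  have hvan := (Cfsg.Agent.Lib.NDF.UniqueOver.unique_over hMc (lift' hNX μ) ⟨θ, hθ⟩
    ((over_iff hNX μ).1 hO) (fun χ hχ => Subtype.ext (huq χ χ.2 ((over_iff hNX μ).2 hχ)))).2
  have hne0 : θ ⟨e, g2_le he⟩ ≠ 0 := by
    apply Cfsg.Agent.Lib.NoDiv.Q78.ne_zero_of_comm hθ
    intro t
    have h6 : ((⟨e, g2_le he⟩ : commutator Γ) * t * (⟨e, g2_le he⟩ : commutator Γ)⁻¹ * t⁻¹) =
        ⟨e * t * e⁻¹ * (t : Γ)⁻¹, hNX (hmem t t.2)⟩ := by
      apply Subtype.ext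
      simp only [Subgroup.coe_mul, InvMemClass.coe_inv]
    rw [h6]
    have h7 := hO ⟨e * t * e⁻¹ * (t : Γ)⁻¹, hmem t t.2⟩
    simp only at h7
    rw [h7]
    rw [hμI _ ⟨t, t.2, rfl⟩]
    simp
  exact hne0 (hvan _ (fun hM => heN (Subgroup.mem_subgroupOf.1 hM)))

end Fin

end Cfsg.Agent.Lib.NDF.PSP2
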