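import Cfsg.Agent.Lib.NDF.PSDefs
import Cfsg.Agent.Lib.NDF.UniqueFixed
import Cfsg.Agent.Lib.NoDiv.Q78
import Cfsg.Agent.Lib.Char.RelGraph

/-!
# S4780, block P, (P7): uniqueness over `μ` from fixers

`θ` over `μ` exists (a constituent of the induced character, `Q78.restrict_central`).
For `θ₁, θ₂` over `μ` with fixers `y₁, y₂ ∈ Q`: the fixer `y_i` fixes `μ`, and there is exactly one `y_i`-fixed character
over `μ` (A7). `conjOn y₂ θ₁` is over `μ` and `y₁`-fixed (`Q` abelian), hence equal to `θ₁`; so `θ₁` is `y₂`-fixed over `μ`,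
and `θ₁ = θ₂`.
-/

set_option autoImplicit false
set_option linter.unusedSectionVars false

namespace Cfsg.Agent.Lib.NDF.PSUq

open Cfsg Cfsg.Agent.Lib.NoDiv.Defs Cfsg.Agent.Lib.NDF.Defs Cfsg.Agent.Lib.NDF.PSDefs
open Cfsg.Agent.Lib.Char.Basic Cfsg.Agent.Lib.Char.Conj Cfsg.Agent.Lib.Char.CliffordCorr
open Cfsg.Agent.Lib.Char.Linear Cfsg.Agent.Lib.Char.Degree Cfsg.Agent.Lib.Char.Ortho
open Cfsg.Agent.Lib.Char.Induced Cfsg.Agent.Lib.Char.Complete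

universe u

variable {Γ : Type u} [Group Γ] {p : ℕ}

section Fin

variable [Fintype Γ] [Fintype (commutator Γ)]

/-- A fixer of a character over `μ` fixes `μ`. -/
theorem fixes_hom {N : Subgroup Γ} (hNn : N.Normal) (hNX : N ≤ commutator Γ) {μ : N →* ℂˣ}
    {θ : commutator Γ → ℂ} (hθ : IsIrrCharacter (commutator Γ) θ) (hO : Over hNX θ μ) {y : Γ}
    (hy : conjOn (inferInstance : (commutator Γ).Normal) y θ = θ) (n : N) :
    μ ⟨y * n * y⁻¹, hNn.conj_mem n n.2 y⟩ = μ n := by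
  have h1 := congrFun hy ⟨n, hNX n.2⟩
  rw [conjOn_apply] at h1
  have h2 := hO ⟨y * n * y⁻¹, hNn.conj_mem n n.2 y⟩
  have h3 := hO n
  have h4 : (⟨y * (n : Γ) * y⁻¹, (inferInstance : (commutator Γ).Normal).conj_mem _ (hNX n.2) y⟩ : commutator Γ) =
      ⟨y * n * y⁻¹, hNX (hNn.conj_mem n n.2 y)⟩ := rfl
  change θ ⟨y * (n : Γ) * y⁻¹, _⟩ = _ at h1
  have h0 : θ 1 ≠ 0 := irr_one_ne_zero hθ
  have h5 : ((μ ⟨y * n * y⁻¹, hNn.conj_mem n n.2 y⟩ : ℂˣ) : ℂ) * θ 1 = ((μ n : ℂˣ) : ℂ) * θ 1 := by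
    rw [← h2, ← h3]
    exact h1
  exact Units.ext (mul_right_cancel₀ h0 h5)

/-- There is only one `y`-fixed irreducible character over `μ`, for a fixer `y` as in (P7). -/
theorem unique_fixed (h : PS Γ p) {N : Subgroup Γ} (hNn : N.Normal) (hNX : N ≤ commutator Γ)
    (hNc : ∀ n ∈ N, ∀ x ∈ commutator Γ, x * n = n * x) {μ : N →* ℂˣ} {y : Γ}
    (hμ : ∀ n : N, μ ⟨y * n * y⁻¹, hNn.conj_mem n n.2 y⟩ = μ n)
    (hC : ∀ x ∈ commutator Γ, y * x = x * y → x ∈ N) {q k : ℕ} (hq : q.Prime) (hqp : q ≠ p)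
    (hy : y ^ (q ^ k) = 1) {θ₁ θ₂ : commutator Γ → ℂ} (h₁ : IsIrrCharacter (commutator Γ) θ₁)
    (h₂ : IsIrrCharacter (commutator Γ) θ₂) (hO₁ : Over hNX θ₁ μ) (hO₂ : Over hNX θ₂ μ)
    (hf₁ : conjOn (inferInstance : (commutator Γ).Normal) y θ₁ = θ₁)
    (hf₂ : conjOn (inferInstance : (commutator Γ).Normal) y θ₂ = θ₂) : θ₁ = θ₂ := by
  classical
  let _ : Fintype (N.subgroupOf (commutator Γ)) := Fintype.ofFinite _
  let α : MulAut (commutator Γ) := MulAut.conjNormal y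
  have hα : ∀ x : commutator Γ, ((α x : commutator Γ) : Γ) = y * x * y⁻¹ := fun x => by
    simp [α]
  have hα1 : α ^ (q ^ k) = 1 := by
    have : α ^ (q ^ k) = MulAut.conjNormal (y ^ (q ^ k)) := (map_pow _ _ _).symm
    rw [this, hy, map_one]
  have hcop : ¬ q ∣ Nat.card (commutator Γ) := by
    have : Fact p.Prime := ⟨h.hp⟩
    obtain ⟨m, hm⟩ := IsPGroup.iff_card.1 h.hX
    rw [hm]
    intro hd
    exact hqp ((Nat.prime_dvd_prime_iff_eq hq h.hp).1 (hq.dvd_of_dvd_pow hd))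
  have hNc' : ∀ n ∈ N.subgroupOf (commutator Γ), ∀ x : commutator Γ, x * n = n * x := by
    intro n hn x
    apply Subtype.ext
    exact hNc n (Subgroup.mem_subgroupOf.1 hn) x x.2
  have hαN : ∀ n ∈ N.subgroupOf (commutator Γ), α n ∈ N.subgroupOf (commutator Γ) := by
    intro n hn
    rw [Subgroup.mem_subgroupOf, hα]
    exact hNn.conj_mem _ (Subgroup.mem_subgroupOf.1 hn) y
  have hfix : ∀ x : commutator Γ, α x = x → x ∈ N.subgroupOf (commutator Γ) := by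
    intro x hx
    rw [Subgroup.mem_subgroupOf]
    apply hC x x.2
    have h2 := congrArg (Subtype.val) hx
    rw [hα] at h2
    calc y * (x : Γ) = (y * x * y⁻¹) * y := by group
      _ = x * y := by rw [h2]
  let e : N.subgroupOf (commutator Γ) ≃* N := Subgroup.subgroupOfEquivOfLe hNX
  have he : ∀ n : N.subgroupOf (commutator Γ), ((e n : N) : Γ) = ((n : commutator Γ) : Γ) := fun _ => rfl
  let μ' : N.subgroupOf (commutator Γ) →* ℂˣ := μ.comp e.toMonoidHom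
  have hμ' : ∀ n : N.subgroupOf (commutator Γ), μ' ⟨α n, hαN n n.2⟩ = μ' n := by
    intro n
    have h1 := hμ (e n)
    change μ (e ⟨α n, hαN n n.2⟩) = μ (e n)
    rw [← h1]
    congr 1
  obtain ⟨χ, -, hχ⟩ := Cfsg.Agent.Lib.NDF.UniqueFixed.unique_fixed_irr hNc' α hq hα1 hcop hαN hfix μ' hμ'
  have key : ∀ θ : commutator Γ → ℂ, IsIrrCharacter (commutator Γ) θ → Over hNX θ μ →
      conjOn (inferInstance : (commutator Γ).Normal) y θ = θ → θ = (χ : commutator Γ → ℂ) := by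
    intro θ hθ hO hf
    have := hχ ⟨θ, hθ⟩ ⟨fun x => by
      have h3 := congrFun hf x
      rw [conjOn_apply] at h3
      exact h3, fun n => by
      have h3 := hO (e n)
      exact h3⟩
    exact Subtype.ext_iff.1 this
  rw [key θ₁ h₁ hO₁ hf₁, key θ₂ h₂ hO₂ hf₂]

/-- Some irreducible character lies over `μ`. -/
theorem exists_over {N : Subgroup Γ} (hNn : N.Normal) (hNX : N ≤ commutator Γ)
    (hNc : ∀ n ∈ N, ∀ x ∈ commutator Γ, x * n = n * x) (μ : N →* ℂˣ) :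
    ∃ θ : commutator Γ → ℂ, IsIrrCharacter (commutator Γ) θ ∧ Over hNX θ μ := by
  classical
  let _ : Fintype (N.subgroupOf (commutator Γ)) := Fintype.ofFinite _
  let e : N.subgroupOf (commutator Γ) ≃* N := Subgroup.subgroupOfEquivOfLe hNX
  let μ' : N.subgroupOf (commutator Γ) →* ℂˣ := μ.comp e.toMonoidHom
  have hN' : (N.subgroupOf (commutator Γ)).Normal := by
    exact Subgroup.Normal.subgroupOf hNn _
  have hc : ∀ n ∈ N.subgroupOf (commutator Γ), ∀ t : commutator Γ, t * n * t⁻¹ = n := by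
    intro n hn t
    have : t * n = n * t := Subtype.ext (hNc n (Subgroup.mem_subgroupOf.1 hn) t t.2)
    rw [this]
    group
  obtain ⟨θ, hθ, hO⟩ := Cfsg.Agent.Lib.Char.RelGraph.exists_over (G := commutator Γ)
    (N := N.subgroupOf (commutator Γ)) (isIrrCharacter_of_hom μ')
  refine ⟨θ, hθ, fun n => ?_⟩
  have h2 := Cfsg.Agent.Lib.NoDiv.Q78.restrict_central hN' hc hθ (lam := μ') hO (e.symm n)
  have h3 : e (e.symm n) = n := e.apply_symm_apply n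
  have h4 : μ' (e.symm n) = μ n := by
    change μ (e (e.symm n)) = μ n
    rw [h3]
  rw [h4] at h2
  rw [mul_comm]
  have h5 : (((e.symm n : N.subgroupOf (commutator Γ)) : commutator Γ)) = ⟨n, hNX n.2⟩ :=
    Subtype.ext (congrArg (fun z : N => (z : Γ)) h3)
  rw [h5] at h2
  exact h2

/-- (P7) Uniqueness from fixers (the `Q` abelian trick on top of A7). -/
theorem uq_of_fixers (h : PS Γ p) {Q : Subgroup Γ} (hQ : Cpl Q p) {N : Subgroup Γ}
    (hNn : N.Normal) (hNX : N ≤ commutator Γ) (hNc : ∀ n ∈ N, ∀ x ∈ commutator Γ, x * n = n * x)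
    (hfix : ∀ μ : N →* ℂˣ, μ ≠ 1 → ∀ θ : commutator Γ → ℂ, IsIrrCharacter (commutator Γ) θ →
      Over hNX θ μ → ∃ y ∈ Q, conjOn (inferInstance : (commutator Γ).Normal) y θ = θ ∧
        (∀ x ∈ commutator Γ, y * x = x * y → x ∈ N) ∧
        ∃ q k : ℕ, q.Prime ∧ q ≠ p ∧ y ^ (q ^ k) = 1) :
    Uq hNX := by
  intro μ hμ
  obtain ⟨θ, hθ, hO⟩ := exists_over hNn hNX hNc μ
  refine ⟨θ, hθ, hO, fun θ' hθ' hO' => ?_⟩
  obtain ⟨y₁, hy₁Q, hf₁, hC₁, q₁, k₁, hq₁, hqp₁, hy₁⟩ := hfix μ hμ θ' hθ' hO'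
  obtain ⟨y₂, hy₂Q, hf₂, hC₂, q₂, k₂, hq₂, hqp₂, hy₂⟩ := hfix μ hμ θ hθ hO
  have hN' : (commutator Γ).Normal := inferInstance
  have hμ₁ := fixes_hom hNn hNX hθ' hO' hf₁
  have hμ₂ := fixes_hom hNn hNX hθ hO hf₂
  -- `conjOn y₂ θ'` is over `μ` and `y₁`-fixed
  have hirr : IsIrrCharacter (commutator Γ) (conjOn hN' y₂ θ') := isIrrCharacter_conjOn hN' y₂ hθ'
  have hOc : Over hNX (conjOn hN' y₂ θ') μ := by
    intro n
    rw [conjOn_apply_one hN' y₂ θ', conjOn_apply]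
    have := hO' ⟨y₂ * n * y₂⁻¹, hNn.conj_mem n n.2 y₂⟩
    rw [hμ₂ n] at this
    exact this
  have hfc : conjOn hN' y₁ (conjOn hN' y₂ θ') = conjOn hN' y₂ θ' := by
    rw [← conjOn_mul, hQ.comm y₂ hy₂Q y₁ hy₁Q, conjOn_mul, hf₁]
  have h1 : conjOn hN' y₂ θ' = θ' :=
    unique_fixed h hNn hNX hNc hμ₁ hC₁ hq₁ hqp₁ hy₁ hirr hθ' hOc hO' hfc hf₁
  exact unique_fixed h hNn hNX hNc hμ₂ hC₂ hq₂ hqp₂ hy₂ hθ' hθ hO' hO h1 hf₂

end Fin

end Cfsg.Agent.Lib.NDF.PSUq
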