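import Cfsg.Agent.Lib.NDF.Defs
import Cfsg.Agent.Lib.NoDiv.Top
import Cfsg.Agent.Lib.NoDiv.CaseA
import Cfsg.Agent.Lib.NoDiv.Mid
import Cfsg.Agent.Lib.NoDiv.Q78
import Cfsg.Agent.Lib.Blk89.ItoMichler

/-!
# (T1) The top of the group: the maximal normal subgroups not containing `G'`
-/

set_option autoImplicit false
set_option linter.unusedSectionVars false
set_option linter.style.haveILetI false
set_option linter.style.longLine false

namespace Cfsg.Agent.Lib.NDF.TopA

open Cfsg Module Cfsg.Agent.Lib.NoDiv.Defs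
open Cfsg.Agent.Lib.Char.Basic Cfsg.Agent.Lib.Char.Ortho Cfsg.Agent.Lib.Char.Complete
open Cfsg.Agent.Lib.Char.Conj Cfsg.Agent.Lib.Char.Clifford Cfsg.Agent.Lib.Char.Induced
open Cfsg.Agent.Lib.Char.CliffordCorr Cfsg.Agent.Lib.Char.Linear Cfsg.Agent.Lib.Char.Degree
open Cfsg.Agent.Lib.Char.DegDvd
open Cfsg.Agent.Lib.Char.TwoDeg.FrobNorm Cfsg.Agent.Lib.Char.TwoDeg.CaseB
open Cfsg.Agent.Lib.Char.TwoDeg.Struct Cfsg.Agent.Lib.Char.TwoDeg.CaseA
open Cfsg.Agent.Lib.NoDiv.Top

universe u

variable {G : Type u} [Group G]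

/-- The normal subgroups not containing `G'`. -/
def Kset (G : Type u) [Group G] : Set (Subgroup G) := {K | K.Normal ∧ ¬ commutator G ≤ K}

/-- The data of a maximal member of `Kset` of Frobenius type. -/
structure Fro (N C : Subgroup G) : Prop where
  nN : N.Normal
  nC : C.Normal
  NC : N ≤ C
  ne : N ≠ C
  Ct : C ≠ ⊤
  hab : ∀ a b : G, a * b * a⁻¹ * b⁻¹ ∈ C
  hCN : ∀ a ∈ C, ∀ b ∈ C, a * b * a⁻¹ * b⁻¹ ∈ N
  hfpf : ∀ h, h ∉ C → ∀ c ∈ C, h * c * h⁻¹ * c⁻¹ ∈ N → c ∈ N
  hmem : C.index ∈ charDegrees G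
  hWN : ∀ c ∈ C, ∃ d ∈ commutator G, d⁻¹ * c ∈ N

theorem comm_le {C : Subgroup G} (hab : ∀ a b : G, a * b * a⁻¹ * b⁻¹ ∈ C) : commutator G ≤ C := by
  rw [commutator_def, Subgroup.commutator_le]
  intro a _ b _
  rw [commutatorElement_def]
  exact hab a b

/-- The dichotomy at a maximal member of `Kset`. -/
theorem top_dich [Finite G] [Group.IsSolvable G] (hnd : NoDiv G) {N : Subgroup G}
    (hNmax : Maximal (· ∈ Kset G) N) :
    (∃ x, ∀ ξ : IrrCharacter G, (ξ : G → ℂ) 1 ≠ 1 → charDegree (ξ : G → ℂ) = x) ∨ ∃ C, Fro N C := by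
  classical
  letI : Fintype G := Fintype.ofFinite G
  obtain ⟨hNn, hNc⟩ := hNmax.1
  haveI := hNn
  letI : Fintype (G ⧸ N) := Fintype.ofFinite _
  set π := QuotientGroup.mk' N with hπ
  have hπs : Function.Surjective π := QuotientGroup.mk'_surjective N
  have hπmem : ∀ a, π a = 1 ↔ a ∈ N := fun a => by
    rw [hπ, QuotientGroup.mk'_apply, QuotientGroup.eq_one_iff]
  have hcommQ : ∀ a b : G, π (a * b * a⁻¹ * b⁻¹) = π a * π b * (π a)⁻¹ * (π b)⁻¹ := by
    intro a b
    simp only [map_mul, map_inv]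
  have hQle : ∀ L : Subgroup (G ⧸ N), commutator G ≤ L.comap π → commutator (G ⧸ N) ≤ L := by
    intro L hL
    rw [commutator_def, Subgroup.commutator_le]
    intro x _ y _
    obtain ⟨a, rfl⟩ := hπs x
    obtain ⟨b, rfl⟩ := hπs y
    change π a * π b * (π a)⁻¹ * (π b)⁻¹ ∈ L
    rw [← hcommQ]
    exact hL (comm_mem a b)
  have hJ : JNA (G ⧸ N) := by
    constructor
    · intro h
      apply hNc
      intro g hg
      have h1 : commutator G ≤ (⊥ : Subgroup (G ⧸ N)).comap π := by
        rw [commutator_def, Subgroup.commutator_le]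
        intro a _ b _
        change a * b * a⁻¹ * b⁻¹ ∈ (⊥ : Subgroup (G ⧸ N)).comap π
        rw [Subgroup.mem_comap, hcommQ, ← h]
        exact comm_mem _ _
      have h2 := h1 hg
      rw [Subgroup.mem_comap, Subgroup.mem_bot] at h2
      exact (hπmem _).1 h2
    · intro L hLn hLne
      apply hQle
      by_contra hcon
      have hle : N ≤ L.comap π := by
        intro n hn
        rw [Subgroup.mem_comap, (hπmem n).2 hn]
        exact L.one_mem
      have hmem : L.comap π ∈ Kset G := ⟨hLn.comap π, hcon⟩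
      have h2 := hNmax.2 hmem hle
      apply hLne
      rw [eq_bot_iff]
      intro x hx
      obtain ⟨a, rfl⟩ := hπs x
      have h3 : a ∈ N := h2 hx
      rw [Subgroup.mem_bot]
      exact (hπmem a).2 h3
  haveI : Group.IsSolvable (G ⧸ N) := inferInstance
  have hVab := jna_abelian hJ
  rcases dichotomy hJ hVab with hc | hf
  · left
    obtain ⟨p, hp, hQp⟩ := exists_isPGroup hJ hc
    obtain ⟨μ, d, hμ, hd, hvan, hsq, hne⟩ := exists_ramified hJ hc
    have hall : ∀ χ : IrrCharacter G, (χ : G → ℂ) 1 = 1 ∨ p ∣ charDegree (χ : G → ℂ) := by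
      intro χ
      by_cases h1 : (χ : G → ℂ) 1 = 1
      · exact Or.inl h1
      · right
        have h2 := charDegree_natCast (isCharacter_of_isIrrCharacter χ.2)
        refine p_dvd_of_central hnd N hp hQp hμ hd hvan hsq hne χ.2 h2.symm ?_
        intro h3
        apply h1
        rw [← h2, h3]
        simp
    haveI : Fact p.Prime := ⟨hp⟩
    obtain ⟨L, hLn, hLk, hLp⟩ :=
      Cfsg.Agent.Lib.CharDeep.ThompsonDeg.exists_normal_complement (G := G) (p := p) hall
    refine Cfsg.Agent.Lib.NoDiv.CaseA.case_a hp hall hnd L hLn hLk hLp ?_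
    intro hL
    apply hNc
    intro x hx
    have hxL : x ∈ L := hL hx
    have h1 : orderOf x ∣ Nat.card L := Subgroup.orderOf_dvd_natCard L hxL
    have hcop : Nat.Coprime (orderOf x) p := by
      apply Nat.Coprime.symm
      rw [Nat.Prime.coprime_iff_not_dvd hp]
      intro h
      exact hLp (h.trans h1)
    obtain ⟨k, hk⟩ := hQp (π x)
    have h2 : π x ^ orderOf x = 1 := by rw [← map_pow, pow_orderOf_eq_one, map_one]
    have h3 : orderOf (π x) ∣ orderOf x := orderOf_dvd_of_pow_eq_one h2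
    have h4 : orderOf (π x) ∣ p ^ k := orderOf_dvd_of_pow_eq_one hk
    have h5 : orderOf (π x) ∣ 1 := by
      have h6 := Nat.dvd_gcd h3 h4
      rwa [Nat.Coprime.pow_right k hcop] at h6
    have h7 : π x = 1 := orderOf_eq_one_iff.1 (Nat.dvd_one.1 h5)
    exact (hπmem x).1 h7
  · right
    set V := commutator (G ⧸ N) with hV
    have hVn : V.Normal := inferInstance
    obtain ⟨hcyc, hcopQ⟩ := q_caseB₁ hJ hVab hf
    obtain ⟨μ, hμ, hμ1⟩ := exists_deg_index hJ hVab hf
    set C := V.comap π with hC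
    haveI hCn : C.Normal := hVn.comap π
    have hCi : C.index = V.index := by
      rw [hC, Subgroup.index_comap_of_surjective _ hπs]
    have hNC : N ≤ C := by
      intro n hn
      rw [hC, Subgroup.mem_comap, (hπmem n).2 hn]
      exact V.one_mem
    have hCmem : ∀ a, a ∈ C ↔ π a ∈ V := fun a => Iff.rfl
    have hVtop : V ≠ ⊤ := by
      intro h
      apply hJ.ne
      rw [eq_bot_iff, commutator_def, Subgroup.commutator_le]
      intro a _ b _
      rw [Subgroup.mem_bot, commutatorElement_def,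
        hVab a (h ▸ Subgroup.mem_top a) b (h ▸ Subgroup.mem_top b)]
      group
    have hCtop : C ≠ ⊤ := by
      intro h
      apply hVtop
      rw [eq_top_iff]
      intro x _
      obtain ⟨a, rfl⟩ := hπs x
      have : a ∈ C := by rw [h]; trivial
      exact this
    have hmdeg : C.index ∈ charDegrees G := by
      have h1 : IsIrrCharacter G (μ ∘ π) :=
        Cfsg.Agent.Lib.Char.Conj.isIrrCharacter_comp _ hπs hμ
      refine ⟨⟨_, h1⟩, charDegree_eq_of_eq_natCast ?_⟩
      simp only [Function.comp_apply, map_one, hμ1, hCi]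
      rfl
    have hNne : N ≠ C := by
      intro h
      apply hJ.ne
      rw [eq_bot_iff]
      intro v hv
      obtain ⟨a, rfl⟩ := hπs v
      have h1 : a ∈ C := hv
      rw [← h] at h1
      rw [Subgroup.mem_bot]
      exact (hπmem a).2 h1
    have hab : ∀ a b : G, a * b * a⁻¹ * b⁻¹ ∈ C := by
      intro a b
      rw [hCmem, hcommQ]
      exact comm_mem _ _
    have hCN : ∀ a ∈ C, ∀ b ∈ C, a * b * a⁻¹ * b⁻¹ ∈ N := by
      intro a ha b hb
      rw [← hπmem, hcommQ, hVab _ ha _ hb]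
      group
    have hfpf : ∀ h, h ∉ C → ∀ c ∈ C, h * c * h⁻¹ * c⁻¹ ∈ N → c ∈ N := by
      intro h hh c hc hcom
      rw [← hπmem] at hcom ⊢
      rw [hcommQ] at hcom
      apply hf _ hh _ hc
      have h3 : π h * π c = (π h * π c * (π h)⁻¹ * (π c)⁻¹) * (π c * π h) := by group
      rw [h3, hcom, one_mul]
    have hWN : ∀ c ∈ C, ∃ d ∈ commutator G, d⁻¹ * c ∈ N := by
      intro c hc
      have h1 : π c ∈ commutator (G ⧸ N) := hc
      have h2 : commutator (G ⧸ N) = (commutator G).map π := by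
        rw [commutator_def, commutator_def, Subgroup.map_commutator, ← MonoidHom.range_eq_map,
          MonoidHom.range_eq_top.2 hπs]
      rw [h2] at h1
      obtain ⟨d, hd, hdc⟩ := h1
      refine ⟨d, hd, ?_⟩
      rw [← hπmem, map_mul, map_inv, hdc, inv_mul_cancel]
    exact ⟨C, ⟨hNn, hCn, hNC, hNne, hCtop, hab, hCN, hfpf, hmdeg, hWN⟩⟩

end Cfsg.Agent.Lib.NDF.TopA
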