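import Cfsg.Agent.Lib.NDF.TopA

/-!
# (T1) The top of the group: uniqueness of the section, the action on `G' / G''`
-/

set_option autoImplicit false
set_option linter.unusedSectionVars false
set_option linter.style.haveILetI false
set_option linter.style.longLine false

namespace Cfsg.Agent.Lib.NDF.TopB

open Cfsg Module Cfsg.Agent.Lib.NoDiv.Defs
open Cfsg.Agent.Lib.Char.Basic Cfsg.Agent.Lib.Char.Ortho Cfsg.Agent.Lib.Char.Complete
open Cfsg.Agent.Lib.Char.Conj Cfsg.Agent.Lib.Char.Clifford Cfsg.Agent.Lib.Char.Induced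
open Cfsg.Agent.Lib.Char.CliffordCorr Cfsg.Agent.Lib.Char.Linear Cfsg.Agent.Lib.Char.Degree
open Cfsg.Agent.Lib.NoDiv.XLemma Cfsg.Agent.Lib.NoDiv.Mid
open Cfsg.Agent.Lib.NDF.TopA

universe u

variable {G : Type u} [Group G]

/-- Separation on a subgroup. -/
theorem exists_hom_sep [Finite G] {W Z : Subgroup G} (hZ : Z.Normal)
    (hc : ∀ a ∈ W, ∀ b ∈ W, a * b * a⁻¹ * b⁻¹ ∈ Z) {x : G} (hx : x ∈ W) (hxZ : x ∉ Z) :
    ∃ δ : W →* ℂˣ, (∀ z : W, (z : G) ∈ Z → δ z = 1) ∧ δ ⟨x, hx⟩ ≠ 1 := by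
  classical
  letI : Fintype W := Fintype.ofFinite _
  obtain ⟨δ, h1, h2⟩ := Cfsg.Agent.Lib.NoDiv.Q78.exists_sep (X := W) (hZ.subgroupOf W)
    (fun a b => Subgroup.mem_subgroupOf.2 (by simpa using hc a a.2 b b.2)) (x := ⟨x, hx⟩)
    (fun h => hxZ (Subgroup.mem_subgroupOf.1 h))
  exact ⟨δ, fun z hz => h1 z (Subgroup.mem_subgroupOf.2 hz), h2⟩

theorem le_of_index_dvd [Finite G] {A B : Subgroup G} (hAB : A ≤ B) (h : A.index ∣ B.index) : B ≤ A := by
  have h1 := Subgroup.relIndex_mul_index hAB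
  have hB : B.index ≠ 0 := Subgroup.index_ne_zero_of_finite
  have hA : A.index ≠ 0 := Subgroup.index_ne_zero_of_finite
  have h2 : A.index = B.index := Nat.le_antisymm (Nat.le_of_dvd (Nat.pos_of_ne_zero hB) h)
    (Nat.le_of_dvd (Nat.pos_of_ne_zero hA) (Dvd.intro_left _ h1))
  rw [← h2] at h1
  have h3 : A.relIndex B = 1 := by
    have := Nat.eq_of_mul_eq_mul_right (Nat.pos_of_ne_zero hA) (h1.trans (one_mul _).symm)
    exact this
  exact Subgroup.relIndex_eq_one.1 h3

theorem conjHom_of_conjOn {C : Subgroup G} (hC : C.Normal) {g : G} {θ : C →* ℂˣ}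
    (h : conjOn hC g (fun c => (θ c : ℂ)) = fun c => (θ c : ℂ)) : conjHom hC g θ = θ := by
  ext c
  have := congrFun h c
  simpa [conjHom_apply] using this

theorem conjOn_of_conjHom {C : Subgroup G} (hC : C.Normal) {g : G} {θ : C →* ℂˣ}
    (h : conjHom hC g θ = θ) : conjOn hC g (fun c => (θ c : ℂ)) = fun c => (θ c : ℂ) := by
  funext c
  have := DFunLike.congr_fun h c
  rw [conjHom_apply] at this
  rw [conjOn_apply, this]

theorem W_normal (G : Type u) [Group G] : (commutator G).Normal := inferInstance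

theorem inf_normal {A B : Subgroup G} (hA : A.Normal) (hB : B.Normal) : (A ⊓ B).Normal := by
  haveI := hA
  haveI := hB
  exact Subgroup.normal_inf_normal A B

theorem comm_mem' (a b : G) : a * b * a⁻¹ * b⁻¹ ∈ commutator G :=
  Subgroup.commutator_mem_commutator (Subgroup.mem_top a) (Subgroup.mem_top b)

section Deg

variable [Fintype G] [Fintype (commutator G)]

/-- The degree over a linear character of `G'` whose inertia group lies in `C`. -/
theorem deg_eq_index (hnd : NoDiv G) {C : Subgroup G} (hC1 : 1 < C.index) (hCm : C.index ∈ charDegrees G)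
    (θ : commutator G →* ℂˣ) (hin : ∀ g, conjHom (W_normal G) g θ = θ → g ∈ C) {χ : G → ℂ}
    (hχ : IsIrrCharacter G χ)
    (hcon : classInner (fun n : commutator G => χ n) (fun c => (θ c : ℂ)) ≠ 0) :
    charDegree χ = C.index ∧ (inertia (W_normal G) (fun c => (θ c : ℂ))).index ∣ charDegree χ ∧
      inertia (W_normal G) (fun c => (θ c : ℂ)) ≤ C := by
  classical
  have hθ := isIrrCharacter_of_hom θ
  obtain ⟨e, he0, hdeg, -⟩ := deg_data (W_normal G) hθ hχ hcon
  have hθ1 : charDegree (fun c : commutator G => (θ c : ℂ)) = 1 :=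
    charDegree_eq_of_eq_natCast (by simp)
  rw [hθ1, mul_one] at hdeg
  have hIC : inertia (W_normal G) (fun c => (θ c : ℂ)) ≤ C := fun g hg => hin g (conjHom_of_conjOn (W_normal G) hg)
  have h1 : (inertia (W_normal G) (fun c => (θ c : ℂ))).index ∣ charDegree χ := by
    rw [hdeg]
    exact Dvd.intro_left _ rfl
  have h2 : C.index ∣ charDegree χ := (Subgroup.index_dvd_of_le hIC).trans h1
  have hpos := charDegree_pos hχ
  refine ⟨?_, h1, hIC⟩
  by_contra hne
  have hlt : C.index < charDegree χ := lt_of_le_of_ne (Nat.le_of_dvd hpos h2) (Ne.symm hne)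
  exact hnd _ hCm _ ⟨⟨χ, hχ⟩, rfl⟩ hC1 hlt h2

theorem index_one_lt' {C : Subgroup G} (hC : C ≠ ⊤) : 1 < C.index := by
  have h0 : C.index ≠ 0 := Subgroup.index_ne_zero_of_finite
  have h2 : C.index ≠ 1 := fun h => hC (Subgroup.index_eq_one.1 h)
  omega

/-- Two sections with a common linear character over them agree. -/
theorem eq_of_common (hnd : NoDiv G) {C C' : Subgroup G} (hC : C ≠ ⊤) (hC' : C' ≠ ⊤)
    (hCm : C.index ∈ charDegrees G) (hCm' : C'.index ∈ charDegrees G)
    (θ : commutator G →* ℂˣ) (hin : ∀ g, conjHom (W_normal G) g θ = θ → g ∈ C)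
    (hin' : ∀ g, conjHom (W_normal G) g θ = θ → g ∈ C') : C = C' := by
  classical
  obtain ⟨χ, hcon⟩ := Cfsg.Agent.Lib.Blk89.ItoMichler.exists_irr_over (G := G)
    (N := commutator G) (isIrrCharacter_of_hom θ)
  obtain ⟨h1, h2, h3⟩ := deg_eq_index hnd (index_one_lt' hC) hCm θ hin χ.2 hcon
  obtain ⟨h1', -, h3'⟩ := deg_eq_index hnd (index_one_lt' hC') hCm' θ hin' χ.2 hcon
  have h4 : (C ⊓ C').index ∣ C.index := by
    rw [← h1]
    exact (Subgroup.index_dvd_of_le (le_inf h3 h3')).trans h2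
  have h5 : (C ⊓ C').index ∣ C'.index := by
    rw [← h1', h1]
    exact h4
  apply le_antisymm
  · exact (le_of_index_dvd inf_le_left h4).trans inf_le_right
  · exact (le_of_index_dvd inf_le_right h5).trans inf_le_left

/-- A linear character of `G'` over `N` which is nontrivial has inertia group in `C`. -/
theorem mem_of_fix {N C : Subgroup G} (f : Fro N C) {θ : commutator G →* ℂˣ}
    (hθ : ∀ z : commutator G, (z : G) ∈ N → θ z = 1) (hne : θ ≠ 1) {g : G}
    (hfix : conjHom (W_normal G) g θ = θ) : g ∈ C := by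
  by_contra hg
  apply hne
  have hWC := comm_le f.hab
  refine conjHom_fix (W_normal G) (inf_normal f.nN (W_normal G)) inf_le_right (h := g) ?_ θ (fun z hz => hθ z hz.1) hfix
  intro c hc hcz
  exact ⟨f.hfpf g hg c (hWC hc) hcz.1, hc⟩

/-- If `N' ∩ G' ≤ N` then `N ∩ G' = N' ∩ G'`. -/
theorem inf_eq_of_le {N N' : Subgroup G} (hN : Maximal (· ∈ Kset G) N) (hN' : Maximal (· ∈ Kset G) N')
    (h : N' ⊓ commutator G ≤ N) : N ⊓ commutator G = N' ⊓ commutator G := by
  classical
  haveI := hN.1.1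
  haveI := hN'.1.1
  by_cases h1 : commutator G ≤ N' ⊔ (N ⊓ commutator G)
  · exfalso
    apply hN.1.2
    intro w hw
    have h2 : w ∈ ((N' ⊔ (N ⊓ commutator G) : Subgroup G) : Set G) := h1 hw
    rw [Subgroup.normal_mul] at h2
    obtain ⟨n, hn, l, hl, rfl⟩ := Set.mem_mul.1 h2
    have hl' : l ∈ N ⊓ commutator G := hl
    have hnW : n ∈ commutator G := by
      have := (commutator G).mul_mem hw ((commutator G).inv_mem hl'.2)
      simpa using this
    exact N.mul_mem (h ⟨hn, hnW⟩) hl'.1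
  · have hmem : N' ⊔ (N ⊓ commutator G) ∈ Kset G := by
      refine ⟨?_, h1⟩
      exact Subgroup.sup_normal _ _
    have h2 := hN'.2 hmem le_sup_left
    apply le_antisymm
    · exact le_inf ((le_sup_right.trans h2)) inf_le_right
    · exact le_inf h inf_le_right

/-- Uniqueness of the section. -/
theorem fro_unique (hnd : NoDiv G) {N N' C C' : Subgroup G} (hN : Maximal (· ∈ Kset G) N)
    (hN' : Maximal (· ∈ Kset G) N') (f : Fro N C) (f' : Fro N' C') : C = C' := by
  classical
  have hWC := comm_le f.hab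
  have hWC' := comm_le f'.hab
  haveI := f.nN
  haveI := f'.nN
  -- two linear characters
  have hlam : ∀ {M D : Subgroup G}, Maximal (· ∈ Kset G) M → Fro M D →
      ∃ θ : commutator G →* ℂˣ, (∀ z : commutator G, (z : G) ∈ M → θ z = 1) ∧ θ ≠ 1 := by
    intro M D hM fm
    obtain ⟨x, hx, hxM⟩ := SetLike.not_le_iff_exists.1 hM.1.2
    have hD := comm_le fm.hab
    obtain ⟨δ, h1, h2⟩ := exists_hom_sep (W := commutator G) (Z := M ⊓ commutator G)
      (inf_normal fm.nN (W_normal G))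
      (fun a ha b hb => ⟨fm.hCN a (hD ha) b (hD hb), comm_mem' a b⟩) hx (fun h => hxM h.1)
    refine ⟨δ, fun z hz => h1 z ⟨hz, z.2⟩, ?_⟩
    intro h
    apply h2
    rw [h]
    rfl
  obtain ⟨θ, hθ, hθ1⟩ := hlam hN f
  obtain ⟨θ', hθ', hθ1'⟩ := hlam hN' f'
  by_cases hL : N ⊓ commutator G = N' ⊓ commutator G
  · refine eq_of_common hnd f.Ct f'.Ct f.hmem f'.hmem θ (fun g hg => mem_of_fix f hθ hθ1 hg)
      (fun g hg => mem_of_fix f' ?_ hθ1 hg)
    intro z hz
    apply hθ
    have : (z : G) ∈ N ⊓ commutator G := by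
      rw [hL]
      exact ⟨hz, z.2⟩
    exact this.1
  · have hn1 : ¬ N' ⊓ commutator G ≤ N := fun h => hL (inf_eq_of_le hN hN' h)
    have hn2 : ¬ N ⊓ commutator G ≤ N' := fun h => hL (inf_eq_of_le hN' hN h).symm
    have h1 : commutator G ≤ N ⊔ (N' ⊓ commutator G) := by
      by_contra hcon
      have hmem : N ⊔ (N' ⊓ commutator G) ∈ Kset G := ⟨Subgroup.sup_normal _ _, hcon⟩
      exact hn1 (le_sup_right.trans (hN.2 hmem le_sup_left))
    have hfix : ∀ g, conjHom (W_normal G) g (θ * θ') = θ * θ' → conjHom (W_normal G) g θ = θ ∧ conjHom (W_normal G) g θ' = θ' := by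
      intro g hg
      -- the quotient character
      have hρ : conjHom (W_normal G) g θ * θ⁻¹ = θ' * (conjHom (W_normal G) g θ')⁻¹ := by
        rw [conjHom_mul] at hg
        refine MonoidHom.ext fun c => ?_
        have := DFunLike.congr_fun hg c
        simp only [MonoidHom.mul_apply, MonoidHom.inv_apply] at this ⊢
        have h2 := eq_mul_inv_of_mul_eq this
        rw [h2]
        calc θ c * θ' c * ((conjHom (W_normal G) g θ') c)⁻¹ * (θ c)⁻¹
            = (θ c * (θ c)⁻¹) * (θ' c * ((conjHom (W_normal G) g θ') c)⁻¹) := by ac_rfl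
          _ = θ' c * ((conjHom (W_normal G) g θ') c)⁻¹ := by rw [mul_inv_cancel, one_mul]
      have hρ1 : conjHom (W_normal G) g θ * θ⁻¹ = 1 := by
        refine MonoidHom.ext fun c => ?_
        have hc : (c : G) ∈ ((N ⊔ (N' ⊓ commutator G) : Subgroup G) : Set G) := h1 c.2
        rw [Subgroup.normal_mul] at hc
        obtain ⟨n, hn, l, hl, hnl⟩ := Set.mem_mul.1 hc
        have hl' : l ∈ N' ⊓ commutator G := hl
        have hnW : n ∈ commutator G := by
          have := (commutator G).mul_mem c.2 ((commutator G).inv_mem hl'.2)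
          rw [← hnl] at this
          simpa using this
        have hce : c = ⟨n, hnW⟩ * ⟨l, hl'.2⟩ := Subtype.ext hnl.symm
        have e1 : (conjHom (W_normal G) g θ * θ⁻¹) ⟨n, hnW⟩ = 1 := by
          simp only [MonoidHom.mul_apply, MonoidHom.inv_apply, conjHom_apply]
          rw [hθ ⟨g * n * g⁻¹, (W_normal G).conj_mem n hnW g⟩ (f.nN.conj_mem n hn g), hθ ⟨n, hnW⟩ hn]
          simp
        have e2 : (conjHom (W_normal G) g θ * θ⁻¹) ⟨l, hl'.2⟩ = 1 := by
          rw [hρ]
          simp only [MonoidHom.mul_apply, MonoidHom.inv_apply, conjHom_apply]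
          rw [hθ' ⟨g * l * g⁻¹, (W_normal G).conj_mem l hl'.2 g⟩ (f'.nN.conj_mem l hl'.1 g), hθ' ⟨l, hl'.2⟩ hl'.1]
          simp
        rw [hce, map_mul, e1, e2, one_mul, MonoidHom.one_apply]
      constructor
      · exact mul_inv_eq_one.1 hρ1
      · rw [hρ1] at hρ
        exact (mul_inv_eq_one.1 hρ.symm).symm
    exact eq_of_common hnd f.Ct f'.Ct f.hmem f'.hmem (θ * θ')
      (fun g hg => mem_of_fix f hθ hθ1 (hfix g hg).1)
      (fun g hg => mem_of_fix f' hθ' hθ1' (hfix g hg).2)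

end Deg

end Cfsg.Agent.Lib.NDF.TopB
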