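import Cfsg.Agent.Lib.NDF.TopB

/-!
# (T1) The top of the group: the action on `G' / G''` and `H' = G''`
-/

set_option autoImplicit false
set_option linter.unusedSectionVars false
set_option linter.style.haveILetI false
set_option linter.style.longLine false

namespace Cfsg.Agent.Lib.NDF.TopC

open Cfsg Module Cfsg.Agent.Lib.NoDiv.Defs
open Cfsg.Agent.Lib.Char.Basic Cfsg.Agent.Lib.Char.Ortho Cfsg.Agent.Lib.Char.Complete
open Cfsg.Agent.Lib.Char.Conj Cfsg.Agent.Lib.Char.Clifford Cfsg.Agent.Lib.Char.Induced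
open Cfsg.Agent.Lib.Char.CliffordCorr Cfsg.Agent.Lib.Char.Linear Cfsg.Agent.Lib.Char.Degree
open Cfsg.Agent.Lib.Char.FreeAction
open Cfsg.Agent.Lib.NoDiv.XLemma Cfsg.Agent.Lib.NoDiv.Mid
open Cfsg.Agent.Lib.NDF.TopA Cfsg.Agent.Lib.NDF.TopB

universe u

/-- Surjective on a finite abelian section implies fixed point free. -/
theorem fpf_of_surj_mod {G : Type u} [Group G] [Finite G] {A Z : Subgroup G} (hZA : Z ≤ A)
    (hZn : Z.Normal) (h : G) (hA : ∀ a ∈ A, h * a * h⁻¹ ∈ A)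
    (hs : ∀ a ∈ A, ∃ b ∈ A, a⁻¹ * (h * b * h⁻¹ * b⁻¹) ∈ Z) :
    ∀ a ∈ A, h * a * h⁻¹ * a⁻¹ ∈ Z → a ∈ Z := by
  classical
  have hcm : ∀ a ∈ A, h * a * h⁻¹ * a⁻¹ ∈ A := fun a ha => A.mul_mem (hA a ha) (A.inv_mem ha)
  let Z' : Subgroup A := Z.subgroupOf A
  let f0 : A → A := fun a => ⟨h * a * h⁻¹ * (a : G)⁻¹, hcm a a.2⟩
  have hwell : ∀ a b : A, a⁻¹ * b ∈ Z' → (f0 a)⁻¹ * f0 b ∈ Z' := by
    intro a b hab
    have h1 : (a : G)⁻¹ * (b : G) ∈ Z := hab
    change ((f0 a)⁻¹ * f0 b : A).1 ∈ Z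
    change (h * a * h⁻¹ * (a : G)⁻¹)⁻¹ * (h * b * h⁻¹ * (b : G)⁻¹) ∈ Z
    set t : G := (a : G)⁻¹ * (b : G) with ht
    have h2 : (b : G) = a * t := by simp [ht]
    have h3 := hZn.conj_mem _ h1 h
    have h4 := hZn.conj_mem _ (Z.mul_mem h3 (Z.inv_mem h1)) a
    have h5 : (h * a * h⁻¹ * (a : G)⁻¹)⁻¹ * (h * b * h⁻¹ * (b : G)⁻¹) =
        a * (h * t * h⁻¹ * t⁻¹) * (a : G)⁻¹ := by
      rw [h2]
      group
    rw [h5]
    exact h4
  let F : (A ⧸ Z') → (A ⧸ Z') := Quotient.map' f0 (by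
    intro a b hab
    rw [QuotientGroup.leftRel_apply] at hab ⊢
    exact hwell a b hab)
  have hFsurj : Function.Surjective F := by
    intro x
    induction x using QuotientGroup.induction_on with | _ a => ?_
    obtain ⟨b, hb, hb'⟩ := hs a a.2
    refine ⟨((⟨b, hb⟩ : A) : A ⧸ Z'), ?_⟩
    have h1 : ((f0 ⟨b, hb⟩ : A) : A ⧸ Z') = ((a : A) : A ⧸ Z') := by
      rw [eq_comm, QuotientGroup.eq]
      exact hb'
    exact h1
  have hFinj := Finite.injective_iff_surjective.mpr hFsurj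
  intro a ha hz
  have h1 : F ((⟨a, ha⟩ : A) : A ⧸ Z') = F ((1 : A) : A ⧸ Z') := by
    change ((f0 ⟨a, ha⟩ : A) : A ⧸ Z') = ((f0 1 : A) : A ⧸ Z')
    rw [QuotientGroup.eq]
    change (h * a * h⁻¹ * a⁻¹)⁻¹ * (h * (1 : G) * h⁻¹ * (1 : G)⁻¹) ∈ Z
    have : (h * a * h⁻¹ * a⁻¹)⁻¹ * (h * (1 : G) * h⁻¹ * (1 : G)⁻¹) = (h * a * h⁻¹ * a⁻¹)⁻¹ := by group
    rw [this]
    exact Z.inv_mem hz
  have h2 := hFinj h1
  rw [QuotientGroup.eq] at h2
  have h3 : a⁻¹ * (1 : G) ∈ Z := h2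
  have h4 : a⁻¹ ∈ Z := by simpa using h3
  simpa using Z.inv_mem h4

variable {G : Type u} [Group G]

/-- `G''`. -/
abbrev EE (G : Type u) [Group G] : Subgroup G := ⁅commutator G, commutator G⁆

theorem EE_normal (G : Type u) [Group G] : (EE G).Normal := Subgroup.commutator_normal _ _

theorem EE_le (G : Type u) [Group G] : EE G ≤ commutator G := Subgroup.commutator_le_left _ _

theorem comm_EE {a b : G} (ha : a ∈ commutator G) (hb : b ∈ commutator G) :
    a * b * a⁻¹ * b⁻¹ ∈ EE G := by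
  have := Subgroup.commutator_mem_commutator ha hb
  rwa [commutatorElement_def] at this

/-- An element acting without fixed points on every top factor of `G'`, acts without fixed points on
`G' / G''`. -/
theorem fpf_E [Finite G] {H : Subgroup G} (hall : ∀ N, Maximal (· ∈ Kset G) N → Fro N H) {g : G}
    (hg : g ∉ H) : ∀ a ∈ commutator G, g * a * g⁻¹ * a⁻¹ ∈ EE G → a ∈ EE G := by
  classical
  have hEn := EE_normal G
  have hWn := W_normal G
  set T : Subgroup G := Hs (commutator G) (EE G) hEn (fun a ha b hb => comm_EE ha hb) hWn (EE_le G) g with hT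
  have hTmem : ∀ x, x ∈ T ↔ x ∈ commutator G ∧ ∃ c ∈ commutator G, x⁻¹ * (g * c * g⁻¹ * c⁻¹) ∈ EE G :=
    fun x => Iff.rfl
  by_cases hWT : commutator G ≤ T
  · apply fpf_of_surj_mod (EE_le G) hEn g (fun a ha => hWn.conj_mem a ha g)
    intro a ha
    exact ((hTmem a).1 (hWT ha)).2
  · exfalso
    -- `T` is normal
    have hTn : T.Normal := by
      constructor
      intro t ht x
      obtain ⟨htW, a, ha, hta⟩ := (hTmem t).1 ht
      refine (hTmem _).2 ⟨hWn.conj_mem t htW x, x * a * x⁻¹, hWn.conj_mem a ha x, ?_⟩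
      let q := QuotientGroup.mk' (EE G)
      have hmem : ∀ y, q y = 1 ↔ y ∈ EE G := fun y => by simp [q]
      have hcomm : ∀ u ∈ commutator G, ∀ v ∈ commutator G, q u * q v = q v * q u := by
        intro u hu v hv
        have h1 : q (u * v * u⁻¹ * v⁻¹) = 1 := (hmem _).2 (comm_EE hu hv)
        simp only [map_mul, map_inv] at h1
        calc q u * q v = (q u * q v * (q u)⁻¹ * (q v)⁻¹) * (q v * q u) := by group
          _ = q v * q u := by rw [h1, one_mul]
      have h1 : q (t⁻¹ * (g * a * g⁻¹ * a⁻¹)) = 1 := (hmem _).2 hta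
      rw [map_mul, map_inv, inv_mul_eq_one] at h1
      rw [← hmem]
      set a' := x * a * x⁻¹ with ha'
      set c := x * g * x⁻¹ * g⁻¹ with hc
      have hcW : c ∈ commutator G := comm_mem' x g
      have hgW : g * a' * g⁻¹ ∈ commutator G := hWn.conj_mem a' (hWn.conj_mem a ha x) g
      have e1 : x * t * x⁻¹ = x * t * x⁻¹ := rfl
      have e2 : q (x * t * x⁻¹) = q (x * (g * a * g⁻¹ * a⁻¹) * x⁻¹) := by
        simp only [map_mul (f := q) x, map_mul (f := q) (x * _), map_inv]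
        rw [h1]
      have e3 : x * (g * a * g⁻¹ * a⁻¹) * x⁻¹ = c * (g * a' * g⁻¹) * c⁻¹ * a'⁻¹ := by
        simp only [hc, ha']
        group
      have e4 : q (c * (g * a' * g⁻¹) * c⁻¹ * a'⁻¹) = q (g * a' * g⁻¹ * a'⁻¹) := by
        rw [map_mul, map_mul, map_mul, map_mul (f := q) (g * a' * g⁻¹), hcomm c hcW _ hgW, map_inv]
        group
      rw [map_mul, map_inv, e2, e3, e4]
      group
    have hTW : T ≤ commutator G := fun x hx => ((hTmem x).1 hx).1
    have hmem : T ∈ Kset G := ⟨hTn, hWT⟩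
    obtain ⟨N, hTN, hN⟩ := (Set.toFinite (Kset G)).exists_le_maximal hmem
    have f := hall N hN
    apply hN.1.2
    intro a ha
    apply f.hfpf g hg a (comm_le f.hab ha)
    apply hTN
    refine (hTmem _).2 ⟨(commutator G).mul_mem (hWn.conj_mem a ha g) ((commutator G).inv_mem ha), a, ha, ?_⟩
    rw [inv_mul_cancel]
    exact (EE G).one_mem

end Cfsg.Agent.Lib.NDF.TopC
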