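import Cfsg.Agent.Lib.NDF.TopC

/-!
# (T1) The top of the group: `H` is trivial on `G' / G''` and `H' = G''`
-/

set_option autoImplicit false
set_option linter.unusedSectionVars false
set_option linter.style.haveILetI false
set_option linter.style.longLine false

namespace Cfsg.Agent.Lib.NDF.TopD

open Cfsg Module Cfsg.Agent.Lib.NoDiv.Defs
open Cfsg.Agent.Lib.Char.Basic Cfsg.Agent.Lib.Char.Ortho Cfsg.Agent.Lib.Char.Complete
open Cfsg.Agent.Lib.Char.Conj Cfsg.Agent.Lib.Char.Clifford Cfsg.Agent.Lib.Char.Induced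
open Cfsg.Agent.Lib.Char.CliffordCorr Cfsg.Agent.Lib.Char.Linear Cfsg.Agent.Lib.Char.Degree
open Cfsg.Agent.Lib.Char.FreeAction
open Cfsg.Agent.Lib.NoDiv.XLemma Cfsg.Agent.Lib.NoDiv.Mid
open Cfsg.Agent.Lib.NDF.TopA Cfsg.Agent.Lib.NDF.TopB Cfsg.Agent.Lib.NDF.TopC

universe u

variable {G : Type u} [Group G]

/-- The data of the top of the group. -/
structure TD (H : Subgroup G) : Prop where
  nH : H.Normal
  WH : commutator G ≤ H
  Ht : H ≠ ⊤
  hm : H.index ∈ charDegrees G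
  fE : ∀ g, g ∉ H → ∀ a ∈ commutator G, g * a * g⁻¹ * a⁻¹ ∈ EE G → a ∈ EE G
  nd : NoDiv G

section

variable [Fintype G] [Fintype (commutator G)] {H : Subgroup G}

/-- The inertia group of a nontrivial linear character over `G''` lies in `H`. -/
theorem inert_le (t : TD H) {δ : commutator G →* ℂˣ} (hδ : ∀ z : commutator G, (z : G) ∈ EE G → δ z = 1)
    (hne : δ ≠ 1) {g : G} (hfix : conjHom (W_normal G) g δ = δ) : g ∈ H := by
  by_contra hg
  exact hne (conjHom_fix (W_normal G) (EE_normal G) (EE_le G) (t.fE g hg) δ hδ hfix)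

/-- `H` fixes every linear character over `G''`. -/
theorem inert_ge (t : TD H) {δ : commutator G →* ℂˣ} (hδ : ∀ z : commutator G, (z : G) ∈ EE G → δ z = 1)
    {h : G} (hh : h ∈ H) : conjHom (W_normal G) h δ = δ := by
  classical
  by_cases hne : δ = 1
  · subst hne
    rfl
  obtain ⟨χ, hcon⟩ := Cfsg.Agent.Lib.Blk89.ItoMichler.exists_irr_over (G := G)
    (N := commutator G) (isIrrCharacter_of_hom δ)
  obtain ⟨h1, h2, h3⟩ := deg_eq_index t.nd (index_one_lt' t.Ht) t.hm δ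
    (fun g hg => inert_le t hδ hne hg) χ.2 hcon
  rw [h1] at h2
  have h4 := le_of_index_dvd h3 h2
  exact conjHom_of_conjOn _ (h4 hh)

/-- `H` is trivial on `G' / G''`. -/
theorem act_W (t : TD H) {h a : G} (hh : h ∈ H) (ha : a ∈ commutator G) :
    h * a * h⁻¹ * a⁻¹ ∈ EE G := by
  classical
  by_contra hx
  have hxW : h * a * h⁻¹ * a⁻¹ ∈ commutator G :=
    (commutator G).mul_mem ((W_normal G).conj_mem a ha h) ((commutator G).inv_mem ha)
  obtain ⟨δ, h1, h2⟩ := exists_hom_sep (W := commutator G) (Z := EE G) (EE_normal G)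
    (fun a ha b hb => comm_EE ha hb) hxW hx
  apply h2
  have h3 := DFunLike.congr_fun (inert_ge t h1 hh) ⟨a, ha⟩
  rw [conjHom_apply] at h3
  have e : (⟨h * a * h⁻¹ * a⁻¹, hxW⟩ : commutator G) =
      ⟨h * a * h⁻¹, (W_normal G).conj_mem a ha h⟩ * (⟨a, ha⟩ : commutator G)⁻¹ := rfl
  rw [e, map_mul, map_inv, h3, mul_inv_cancel]

/-- `H / G''` is abelian. -/
theorem HH_E (t : TD H) {a b : G} (ha : a ∈ H) (hb : b ∈ H) : a * b * a⁻¹ * b⁻¹ ∈ EE G := by
  classical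
  by_contra hz
  have hzW : a * b * a⁻¹ * b⁻¹ ∈ commutator G := comm_mem' a b
  obtain ⟨δ, hδ, hδz⟩ := exists_hom_sep (W := commutator G) (Z := EE G) (EE_normal G)
    (fun a ha b hb => comm_EE ha hb) hzW hz
  have hne : δ ≠ 1 := by
    rintro rfl
    exact hδz rfl
  letI : Fintype H := Fintype.ofFinite _
  let N' : Subgroup H := (commutator G).subgroupOf H
  have hN'n : N'.Normal := (W_normal G).subgroupOf H
  letI : Fintype N' := Fintype.ofFinite _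
  let f : N' →* commutator G :=
    { toFun := fun n => ⟨(n : H), n.2⟩
      map_one' := rfl
      map_mul' := fun _ _ => rfl }
  let δ' : N' →* ℂˣ := δ.comp f
  have hφ := isIrrCharacter_of_hom δ'
  have hinv : ∀ c : H, conjOn hN'n c (fun n => (δ' n : ℂ)) = fun n => (δ' n : ℂ) := by
    intro c
    funext n
    have h1 := DFunLike.congr_fun (inert_ge t hδ c.2) (f n)
    rw [conjHom_apply] at h1
    exact congrArg Units.val h1
  obtain ⟨ξ, hcon⟩ := Cfsg.Agent.Lib.Blk89.ItoMichler.exists_irr_over (G := H) (N := N') hφ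
  obtain ⟨w, hw0, hw⟩ := Cfsg.Agent.Lib.Char.TwoDeg.CaseB.restrict_eq_smul hN'n hφ hinv ξ.2 hcon
  have hval : ∀ n : N', (ξ : H → ℂ) n = (w : ℂ) * (δ' n : ℂ) := fun n => by
    have := congrFun hw n
    simpa using this
  have hone : (ξ : H → ℂ) 1 = w := by
    have := hval 1
    simpa using this
  have hw0' : (w : ℂ) ≠ 0 := by exact_mod_cast hw0
  -- the inertia group of `ξ` lies in `H`
  have hin : ∀ g : G, conjOn t.nH g (ξ : H → ℂ) = ξ → g ∈ H := by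
    intro g hg
    apply inert_le t hδ hne (g := g)
    ext ⟨u, hu⟩
    rw [conjHom_apply]
    have huH := t.WH hu
    have hgu : g * u * g⁻¹ ∈ commutator G := (W_normal G).conj_mem u hu g
    have h1 := congrFun hg ⟨u, huH⟩
    rw [conjOn_apply] at h1
    have h2 := hval ⟨⟨g * u * g⁻¹, t.WH hgu⟩, hgu⟩
    have h3 := hval ⟨⟨u, huH⟩, hu⟩
    have h4 : (ξ : H → ℂ) ⟨g * u * g⁻¹, t.nH.conj_mem u huH g⟩ = (ξ : H → ℂ) ⟨u, huH⟩ := h1
    have h5 : (w : ℂ) * (δ' ⟨⟨g * u * g⁻¹, t.WH hgu⟩, hgu⟩ : ℂ) = (w : ℂ) * (δ' ⟨⟨u, huH⟩, hu⟩ : ℂ) := by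
      rw [← h2, ← h3]
      exact h4
    have h6 := mul_left_cancel₀ hw0' h5
    exact h6
  -- the induced character
  have hI := isIrrCharacter_indFun_of_inertia_le t.nH ξ.2 hin
  have hI1 : indFun H (ξ : H → ℂ) 1 = ((H.index * w : ℕ) : ℂ) := by
    rw [indFun_one, hone]
    push_cast
    ring
  have hdI : charDegree (indFun H (ξ : H → ℂ)) = H.index * w := charDegree_eq_of_eq_natCast hI1
  have hm1 := index_one_lt' t.Ht
  have hw1 : w = 1 := by
    by_contra hw1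
    have hw2 : 2 ≤ w := by omega
    refine t.nd H.index t.hm (H.index * w) ⟨⟨_, hI⟩, hdI⟩ hm1 (by nlinarith) (Dvd.intro _ rfl)
  subst hw1
  -- `ξ` is linear
  have hξc := isCharacter_of_isIrrCharacter ξ.2
  have hone' : (ξ : H → ℂ) 1 = 1 := by simpa using hone
  have hmul := deg_one_mul hξc hone'
  have hinvv : ∀ x, (ξ : H → ℂ) x * (ξ : H → ℂ) x⁻¹ = 1 := by
    intro x
    rw [← hmul, mul_inv_cancel, hone']
  have hcomm1 : (ξ : H → ℂ) (⟨a, ha⟩ * ⟨b, hb⟩ * (⟨a, ha⟩ : H)⁻¹ * (⟨b, hb⟩ : H)⁻¹) = 1 := by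
    rw [hmul, hmul, hmul]
    linear_combination (ξ : H → ℂ) ⟨b, hb⟩ * (ξ : H → ℂ) (⟨b, hb⟩ : H)⁻¹ * hinvv ⟨a, ha⟩ + hinvv ⟨b, hb⟩
  have h7 := hval ⟨⟨a, ha⟩ * ⟨b, hb⟩ * (⟨a, ha⟩ : H)⁻¹ * (⟨b, hb⟩ : H)⁻¹, hzW⟩
  have h8 : (ξ : H → ℂ) (⟨a, ha⟩ * ⟨b, hb⟩ * (⟨a, ha⟩ : H)⁻¹ * (⟨b, hb⟩ : H)⁻¹) =
      ((1 : ℕ) : ℂ) * (δ ⟨a * b * a⁻¹ * b⁻¹, hzW⟩ : ℂ) := h7
  rw [hcomm1, Nat.cast_one, one_mul] at h8
  apply hδz
  exact Units.ext h8.symm

end

end Cfsg.Agent.Lib.NDF.TopD
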