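import Cfsg.Agent.Lib.NDF.TopD

/-!
# (T1) The top of the group: the structure `St H Y`
-/

set_option autoImplicit false
set_option linter.unusedSectionVars false
set_option linter.style.haveILetI false
set_option linter.style.longLine false

namespace Cfsg.Agent.Lib.NDF.TopE

open Cfsg Cfsg.Agent.Lib.NoDiv.Defs Cfsg.Agent.Lib.NDF.Defs
open Cfsg.Agent.Lib.NDF.TopA Cfsg.Agent.Lib.NDF.TopB Cfsg.Agent.Lib.NDF.TopC Cfsg.Agent.Lib.NDF.TopD

universe u

variable {G : Type u} [Group G]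

/-- Coprimality of the index of `H` and `|G' : G''|`. -/
theorem coprime_index [Finite G] {H : Subgroup G} (nH : H.Normal)
    (hact : ∀ h ∈ H, ∀ a ∈ commutator G, h * a * h⁻¹ * a⁻¹ ∈ EE G)
    (fE : ∀ g, g ∉ H → ∀ a ∈ commutator G, g * a * g⁻¹ * a⁻¹ ∈ EE G → a ∈ EE G) :
    Nat.Coprime H.index ((EE G).relIndex (commutator G)) := by
  classical
  by_contra hcop
  obtain ⟨p, hp, hp1, hp2⟩ := Nat.Prime.not_coprime_iff_dvd.1 hcop
  haveI : Fact p.Prime := ⟨hp⟩
  haveI := nH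
  have hcard : Nat.card (G ⧸ H) = H.index := rfl
  obtain ⟨x, hx⟩ := exists_prime_orderOf_dvd_card' (G := G ⧸ H) p (by rw [hcard]; exact hp1)
  obtain ⟨g, rfl⟩ := QuotientGroup.mk_surjective x
  have hg : g ∉ H := by
    intro hg
    have : ((g : G ⧸ H)) = 1 := (QuotientGroup.eq_one_iff g).2 hg
    rw [this, orderOf_one] at hx
    exact hp.one_lt.ne hx
  have hgp : g ^ p ∈ H := by
    have h1 : ((g : G ⧸ H)) ^ p = 1 := by rw [← hx]; exact pow_orderOf_eq_one _
    rw [← QuotientGroup.mk_pow] at h1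
    exact (QuotientGroup.eq_one_iff _).1 h1
  have hWn := W_normal G
  have hEn := EE_normal G
  let E' : Subgroup (commutator G) := (EE G).subgroupOf (commutator G)
  let A := commutator G ⧸ E'
  letI : Fintype A := Fintype.ofFinite _
  have hcardA : Nat.card A = (EE G).relIndex (commutator G) := rfl
  let c : G → commutator G → commutator G := fun y a => ⟨y * a * y⁻¹, hWn.conj_mem a a.2 y⟩
  have hwell : ∀ (y : G) (a b : commutator G), a⁻¹ * b ∈ E' → (c y a)⁻¹ * c y b ∈ E' := by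
    intro y a b hab
    have h1 : (a : G)⁻¹ * (b : G) ∈ EE G := hab
    have h2 := hEn.conj_mem _ h1 y
    change (y * (a : G) * y⁻¹)⁻¹ * (y * (b : G) * y⁻¹) ∈ EE G
    have e : (y * (a : G) * y⁻¹)⁻¹ * (y * (b : G) * y⁻¹) = y * ((a : G)⁻¹ * (b : G)) * y⁻¹ := by group
    rw [e]
    exact h2
  let F : G → A → A := fun y => Quotient.map' (c y) (by
    intro a b hab
    rw [QuotientGroup.leftRel_apply] at hab ⊢
    exact hwell y a b hab)
  have hF : ∀ (y : G) (a : commutator G), F y (a : A) = ((c y a : commutator G) : A) := fun _ _ => rfl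
  let f : Function.End A := F g
  have hpow : ∀ (n : ℕ) (a : commutator G), (f ^ n) (a : A) = ((c (g ^ n) a : commutator G) : A) := by
    intro n
    induction n with
    | zero =>
      intro a
      have : c (g ^ 0) a = a := by
        apply Subtype.ext
        simp [c]
      rw [this]
      rfl
    | succ n ih =>
      intro a
      rw [pow_succ']
      change f ((f ^ n) (a : A)) = _
      rw [ih]
      change ((c g (c (g ^ n) a) : commutator G) : A) = _
      congr 1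
      apply Subtype.ext
      simp only [c]
      group
  have hfp : f ^ p ^ 1 = 1 := by
    rw [pow_one]
    funext y
    induction y using QuotientGroup.induction_on with | _ a => ?_
    rw [hpow]
    change _ = ((a : commutator G) : A)
    rw [eq_comm, QuotientGroup.eq]
    change (a : G)⁻¹ * (g ^ p * (a : G) * (g ^ p)⁻¹) ∈ EE G
    have h1 := hact _ hgp a a.2
    have h2 := hEn.conj_mem _ h1 (a : G)⁻¹
    have e : (a : G)⁻¹ * (g ^ p * (a : G) * (g ^ p)⁻¹) =
        (a : G)⁻¹ * (g ^ p * (a : G) * (g ^ p)⁻¹ * (a : G)⁻¹) * (a : G)⁻¹⁻¹ := by group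
    rw [e]
    exact h2
  have hmod := Equiv.Perm.card_fixedPoints_modEq (f := f) (p := p) (n := 1) hfp
  have hpA : p ∣ Fintype.card A := by
    rw [← Nat.card_eq_fintype_card, hcardA]
    exact hp2
  have hpf : p ∣ Fintype.card (Function.fixedPoints f) := (hmod.dvd_iff (dvd_refl p)).1 hpA
  have hone : ((1 : commutator G) : A) ∈ Function.fixedPoints f := by
    change f ((1 : commutator G) : A) = _
    rw [show f ((1 : commutator G) : A) = ((c g 1 : commutator G) : A) from rfl]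
    congr 1
    apply Subtype.ext
    simp [c]
  have hpos : 0 < Fintype.card (Function.fixedPoints f) :=
    Fintype.card_pos_iff.2 ⟨⟨_, hone⟩⟩
  have hgt : 1 < Fintype.card (Function.fixedPoints f) :=
    lt_of_lt_of_le hp.one_lt (Nat.le_of_dvd hpos hpf)
  obtain ⟨⟨y, hy⟩, hy1⟩ := Fintype.exists_ne_of_one_lt_card hgt ⟨_, hone⟩
  induction y using QuotientGroup.induction_on with | _ a => ?_
  have h1 : ((c g a : commutator G) : A) = (a : A) := hy
  rw [eq_comm, QuotientGroup.eq] at h1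
  have h2 : (a : G)⁻¹ * (g * (a : G) * g⁻¹) ∈ EE G := h1
  have h3 := hEn.conj_mem _ h2 (a : G)
  have e : g * (a : G) * g⁻¹ * (a : G)⁻¹ = (a : G) * ((a : G)⁻¹ * (g * (a : G) * g⁻¹)) * (a : G)⁻¹ := by
    group
  have h4 : (a : G) ∈ EE G := fE g hg a a.2 (by rw [e]; exact h3)
  apply hy1
  apply Subtype.ext
  change ((a : commutator G) : A) = ((1 : commutator G) : A)
  rw [QuotientGroup.eq]
  change (a : G)⁻¹ * 1 ∈ EE G
  simpa using (EE G).inv_mem h4

/-- The structure. -/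
theorem st_of [Finite G] {H : Subgroup G} (t : TD H)
    (hact : ∀ h ∈ H, ∀ a ∈ commutator G, h * a * h⁻¹ * a⁻¹ ∈ EE G)
    (hHH : ∀ a ∈ H, ∀ b ∈ H, a * b * a⁻¹ * b⁻¹ ∈ EE G)
    (hWE : commutator G ≠ EE G) : ∃ Y, St H Y := by
  classical
  have hWn := W_normal G
  have hEn := EE_normal G
  have hEW := EE_le G
  have hnH := t.nH
  haveI := hnH
  have hEH : (⁅H, H⁆ : Subgroup G) = EE G := by
    apply le_antisymm
    · rw [Subgroup.commutator_le]
      intro a ha b hb
      rw [commutatorElement_def]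
      exact hHH a ha b hb
    · exact Subgroup.commutator_mono t.WH t.WH
  obtain ⟨g₀, hg₀⟩ : ∃ g, g ∉ H := by
    by_contra hcon
    push Not at hcon
    exact t.Ht (eq_top_iff.2 fun x _ => hcon x)
  let q := QuotientGroup.mk' (EE G)
  have hmem : ∀ y, q y = 1 ↔ y ∈ EE G := fun y => by simp [q]
  have hcomm : ∀ u ∈ H, ∀ v ∈ H, q u * q v = q v * q u := by
    intro u hu v hv
    have h1 : q (u * v * u⁻¹ * v⁻¹) = 1 := (hmem _).2 (hHH u hu v hv)
    simp only [map_mul, map_inv] at h1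
    calc q u * q v = (q u * q v * (q u)⁻¹ * (q v)⁻¹) * (q v * q u) := by group
      _ = q v * q u := by rw [h1, one_mul]
  have hqcomm : ∀ {u v : G}, u * v * u⁻¹ * v⁻¹ ∈ EE G → q u * q v = q v * q u := by
    intro u v h
    have h1 : q (u * v * u⁻¹ * v⁻¹) = 1 := (hmem _).2 h
    simp only [map_mul, map_inv] at h1
    calc q u * q v = (q u * q v * (q u)⁻¹ * (q v)⁻¹) * (q v * q u) := by group
      _ = q v * q u := by rw [h1, one_mul]
  have hqcomm' : ∀ {u v : G}, q u * q v = q v * q u → u * v * u⁻¹ * v⁻¹ ∈ EE G := by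
    intro u v h
    rw [← hmem]
    simp only [map_mul, map_inv]
    rw [h]
    group
  let Y : Subgroup G := relCen hEn H ⊤
  have hY : ∀ y, y ∈ Y ↔ y ∈ H ∧ ∀ g, g * y * g⁻¹ * y⁻¹ ∈ EE G := by
    intro y
    constructor
    · rintro ⟨h1, h2⟩
      refine ⟨h1, fun g => ?_⟩
      have h3 := (EE G).inv_mem (h2 g trivial)
      have e : (y * g * y⁻¹ * g⁻¹)⁻¹ = g * y * g⁻¹ * y⁻¹ := by group
      rwa [e] at h3
    · rintro ⟨h1, h2⟩
      refine ⟨h1, fun g _ => ?_⟩
      have h3 := (EE G).inv_mem (h2 g)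
      have e : (g * y * g⁻¹ * y⁻¹)⁻¹ = y * g * y⁻¹ * g⁻¹ := by group
      rwa [e] at h3
  have hEY : EE G ≤ Y := by
    intro e he
    refine (hY e).2 ⟨t.WH (hEW he), fun g => ?_⟩
    exact (EE G).mul_mem (hEn.conj_mem e he g) ((EE G).inv_mem he)
  have hYn : Y.Normal := by
    constructor
    intro y hy x
    obtain ⟨h1, h2⟩ := (hY y).1 hy
    refine (hY _).2 ⟨hnH.conj_mem y h1 x, fun g => ?_⟩
    have h3 := h2 x
    have h4 : q (x * y * x⁻¹) = q y := by
      have := hqcomm h3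
      rw [map_mul, map_mul, map_inv, this]
      group
    apply hqcomm'
    rw [h4]
    have h5 := hqcomm (h2 g)
    rw [h5]
  have hWY : commutator G ⊓ Y = EE G := by
    apply le_antisymm
    · rintro a ⟨ha, hay⟩
      exact t.fE g₀ hg₀ a ha (((hY a).1 hay).2 g₀)
    · exact le_inf hEW hEY
  have hGY : ∀ c ∈ H, ∃ d ∈ commutator G, d⁻¹ * c ∈ Y := by
    intro c hc
    have hgcW : g₀ * c * g₀⁻¹ * c⁻¹ ∈ commutator G := comm_mem' _ _
    obtain ⟨b, hb, hbc⟩ := Cfsg.Agent.Lib.NoDiv.XLemma.exists_comm_mod hEW hEn g₀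
      (fun a ha => hWn.conj_mem a ha g₀) (t.fE g₀ hg₀) _ hgcW
    refine ⟨b, hb, (hY _).2 ⟨H.mul_mem (H.inv_mem (t.WH hb)) hc, ?_⟩⟩
    set y := b⁻¹ * c with hy
    have hyH : y ∈ H := H.mul_mem (H.inv_mem (t.WH hb)) hc
    -- `g₀` commutes with `y` modulo `E`
    have h1 : q (g₀ * c * g₀⁻¹ * c⁻¹) = q (g₀ * b * g₀⁻¹ * b⁻¹) := by
      have := (hmem _).2 hbc
      rw [map_mul, map_inv, inv_mul_eq_one] at this
      exact this
    have hbW := t.WH hb
    have hgy : q g₀ * q y = q y * q g₀ := by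
      simp only [map_mul, map_inv] at h1
      have h2 : q g₀ * q c * (q g₀)⁻¹ = q g₀ * q b * (q g₀)⁻¹ * (q b)⁻¹ * q c := by
        rw [← h1]
        group
      have hgb : q g₀ * q b * (q g₀)⁻¹ * (q b)⁻¹ ∈ H.map q := by
        have := t.WH (comm_mem' g₀ b)
        refine ⟨_, this, ?_⟩
        simp only [map_mul, map_inv]
      have e : q y = (q b)⁻¹ * q c := by
        rw [hy, map_mul, map_inv]
      rw [e]
      have h3 : q g₀ * ((q b)⁻¹ * q c) * (q g₀)⁻¹ = (q b)⁻¹ * q c := by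
        have h4 := hqcomm (u := g₀ * b⁻¹ * g₀⁻¹) (v := b) ((EE G).mul_mem
          (by
            have := comm_EE (a := g₀ * b⁻¹ * g₀⁻¹) (b := b) (hWn.conj_mem _ ((commutator G).inv_mem hb) g₀) hb
            have e5 : g₀ * b⁻¹ * g₀⁻¹ * b * (g₀ * b⁻¹ * g₀⁻¹)⁻¹ * b⁻¹ = g₀ * b⁻¹ * g₀⁻¹ * b * (g₀ * b⁻¹ * g₀⁻¹)⁻¹ * b⁻¹ := rfl
            exact this) (EE G).one_mem |> fun h => by simpa using h)
        simp only [map_mul, map_inv, inv_inv] at h4
        calc q g₀ * ((q b)⁻¹ * q c) * (q g₀)⁻¹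
            = (q g₀ * (q b)⁻¹ * (q g₀)⁻¹) * (q g₀ * q c * (q g₀)⁻¹) := by group
          _ = (q g₀ * (q b)⁻¹ * (q g₀)⁻¹) * (q g₀ * q b * (q g₀)⁻¹ * (q b)⁻¹ * q c) := by rw [h2]
          _ = (q g₀ * (q b)⁻¹ * (q g₀)⁻¹ * (q g₀ * q b * (q g₀)⁻¹)) * ((q b)⁻¹ * q c) := by group
          _ = (q b)⁻¹ * q c := by group
      calc q g₀ * ((q b)⁻¹ * q c) = (q g₀ * ((q b)⁻¹ * q c) * (q g₀)⁻¹) * q g₀ := by group
        _ = (q b)⁻¹ * q c * q g₀ := by rw [h3]
    intro g'
    set u := g' * y * g'⁻¹ * y⁻¹ with hu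
    have huW : u ∈ commutator G := comm_mem' _ _
    apply t.fE g₀ hg₀ u huW
    -- the computation modulo `E`
    apply hqcomm'
    set t₀ := g₀ * g' * g₀⁻¹ * g'⁻¹ with ht₀
    have ht₀H : t₀ ∈ H := t.WH (comm_mem' _ _)
    have hg'y : g' * y * g'⁻¹ ∈ H := hnH.conj_mem y hyH g'
    have h5 := hcomm t₀ ht₀H _ hg'y
    have e1 : q g₀ * q g' * (q g₀)⁻¹ = q t₀ * q g' := by
      simp only [ht₀, map_mul, map_inv]
      group
    have e2 : q g₀ * q y * (q g₀)⁻¹ = q y := by
      rw [hgy]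
      group
    have e3 : q g₀ * q u * (q g₀)⁻¹ = q u := by
      have h6 : q u = q g' * q y * (q g')⁻¹ * (q y)⁻¹ := by
        simp only [hu, map_mul, map_inv]
      have h7 : q t₀ * (q g' * q y * (q g')⁻¹) = (q g' * q y * (q g')⁻¹) * q t₀ := by
        simpa only [map_mul, map_inv] using h5
      calc q g₀ * q u * (q g₀)⁻¹
          = (q g₀ * q g' * (q g₀)⁻¹) * (q g₀ * q y * (q g₀)⁻¹) * (q g₀ * q g' * (q g₀)⁻¹)⁻¹ *
            (q g₀ * q y * (q g₀)⁻¹)⁻¹ := by rw [h6]; group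
        _ = (q t₀ * q g') * q y * (q t₀ * q g')⁻¹ * (q y)⁻¹ := by rw [e1, e2]
        _ = (q t₀ * (q g' * q y * (q g')⁻¹)) * (q t₀)⁻¹ * (q y)⁻¹ := by group
        _ = ((q g' * q y * (q g')⁻¹) * q t₀) * (q t₀)⁻¹ * (q y)⁻¹ := by rw [h7]
        _ = q u := by rw [h6]; group
    calc q g₀ * q u = (q g₀ * q u * (q g₀)⁻¹) * q g₀ := by group
      _ = q u * q g₀ := by rw [e3]
  refine ⟨Y, ?_⟩
  have hYH : Y ≤ H := fun y hy => ((hY y).1 hy).1
  exact {
    nH := hnH
    nY := hYn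
    YH := hYH
    ne := by
      have : ¬ commutator G ≤ EE G := fun h => hWE (le_antisymm h hEW)
      obtain ⟨c, hc, hcE⟩ := SetLike.not_le_iff_exists.1 this
      refine ⟨c, t.WH hc, fun hcY => hcE ?_⟩
      rw [← hWY]
      exact ⟨hc, hcY⟩
    out := ⟨g₀, hg₀⟩
    ab := fun a b => t.WH (comm_mem' a b)
    HY := fun a ha b hb => hEY (hHH a ha b hb)
    fpf := by
      intro h hh c hc hcY
      obtain ⟨d, hd, hdc⟩ := hGY c hc
      set y := d⁻¹ * c with hy
      have hcdy : c = d * y := by simp [hy]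
      have hyE := ((hY y).1 hdc).2 h
      have e : h * d * h⁻¹ * d⁻¹ = (h * c * h⁻¹ * c⁻¹) * (d * (h * y * h⁻¹ * y⁻¹) * d⁻¹)⁻¹ := by
        rw [hcdy]
        group
      have h1 : h * d * h⁻¹ * d⁻¹ ∈ Y := by
        rw [e]
        exact Y.mul_mem hcY (Y.inv_mem (hEY (hEn.conj_mem _ hyE d)))
      have h2 : h * d * h⁻¹ * d⁻¹ ∈ EE G := by
        rw [← hWY]
        exact ⟨comm_mem' _ _, h1⟩
      have h3 : d ∈ EE G := t.fE h hh d hd h2
      rw [hcdy]
      exact Y.mul_mem (hEY h3) hdc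
    Yz := by
      intro y hy g
      rw [hEH]
      exact ((hY y).1 hy).2 g
    GY := hGY
    GE := by rw [hEH]; exact hWY
    E2 := hEH.symm
    cop := by
      have h1 : Y.relIndex H = (EE G).relIndex (commutator G) := by
        have hHsup : H = commutator G ⊔ Y := by
          apply le_antisymm
          · intro c hc
            obtain ⟨d, hd, hdc⟩ := hGY c hc
            have : c = d * (d⁻¹ * c) := by group
            rw [this]
            exact Subgroup.mul_mem_sup hd hdc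
          · exact sup_le t.WH hYH
        haveI := hYn
        rw [hHsup, Subgroup.relIndex_sup_right, ← Subgroup.inf_relIndex_right, inf_comm, hWY]
      rw [h1]
      exact coprime_index hnH hact t.fE
    nd := t.nd }

end Cfsg.Agent.Lib.NDF.TopE
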