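import Cfsg.Agent.Lib.NDF.TopE

/-!
# (T1) The top of the group
-/

set_option autoImplicit false
set_option linter.unusedSectionVars false
set_option linter.style.haveILetI false
set_option linter.style.longLine false

namespace Cfsg.Agent.Lib.NDF.TopNDF

open Cfsg Cfsg.Agent.Lib.NoDiv.Defs Cfsg.Agent.Lib.NDF.Defs
open Cfsg.Agent.Lib.Char.Basic Cfsg.Agent.Lib.Char.Linear Cfsg.Agent.Lib.Char.Degree
open Cfsg.Agent.Lib.Char.Conj
open Cfsg.Agent.Lib.NDF.TopA Cfsg.Agent.Lib.NDF.TopB Cfsg.Agent.Lib.NDF.TopC Cfsg.Agent.Lib.NDF.TopD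
open Cfsg.Agent.Lib.NDF.TopE

universe u

variable {G : Type u} [Group G]

/-- (T1) -/
theorem top [Finite G] [Group.IsSolvable G] (hnd : NoDiv G) :
    (∃ m, ∀ d ∈ charDegrees G, d = 1 ∨ d = m) ∨ ∃ H Y : Subgroup G, St H Y := by
  classical
  letI : Fintype G := Fintype.ofFinite G
  letI : Fintype (commutator G) := Fintype.ofFinite _
  by_cases hab : commutator G = ⊥
  · left
    refine ⟨1, ?_⟩
    rintro d ⟨χ, rfl⟩
    left
    have hcm : ∀ a b : G, a * b = b * a := by
      intro a b
      have h1 : a * b * a⁻¹ * b⁻¹ ∈ commutator G := comm_mem' a b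
      rw [hab, Subgroup.mem_bot] at h1
      have h3 : a * b = (a * b * a⁻¹ * b⁻¹) * (b * a) := by group
      rw [h3, h1, one_mul]
    have := isIrr_deg_one_of_comm hcm χ.2
    exact charDegree_eq_of_eq_natCast (by simpa using this)
  · have hbot : (⊥ : Subgroup G) ∈ Kset G := ⟨inferInstance, fun h => hab (le_bot_iff.1 h)⟩
    by_cases hcase : ∃ N, Maximal (· ∈ Kset G) N ∧ ¬ ∃ C, Fro N C
    · obtain ⟨N, hN, hno⟩ := hcase
      rcases top_dich hnd hN with ⟨x, hx⟩ | hf
      · left
        refine ⟨x, ?_⟩
        rintro d ⟨χ, rfl⟩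
        by_cases h1 : (χ : G → ℂ) 1 = 1
        · left
          exact charDegree_eq_of_eq_natCast (by simpa using h1)
        · right
          exact hx χ h1
      · exact (hno hf).elim
    · right
      push Not at hcase
      have hcase' : ∀ N, Maximal (· ∈ Kset G) N → ∃ C, Fro N C := hcase
      obtain ⟨N₀, -, hN₀⟩ := (Set.toFinite (Kset G)).exists_le_maximal hbot
      obtain ⟨H, f₀⟩ := hcase' N₀ hN₀
      have hall : ∀ N, Maximal (· ∈ Kset G) N → Fro N H := by
        intro N hN
        obtain ⟨C, f⟩ := hcase' N hN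
        have := fro_unique hnd hN hN₀ f f₀
        rwa [this] at f
      have t : TD H := ⟨f₀.nC, comm_le f₀.hab, f₀.Ct, f₀.hmem, fun g hg => fpf_E hall hg, hnd⟩
      have hWE : commutator G ≠ EE G := by
        intro h
        have h2 : ∀ n, commutator G ≤ derivedSeries G n := by
          intro n
          induction n with
          | zero => exact le_top
          | succ n ih =>
            rw [derivedSeries_succ]
            have h3 : commutator G ≤ ⁅commutator G, commutator G⁆ := h.le
            exact h3.trans (Subgroup.commutator_mono ih ih)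
        obtain ⟨n, hn⟩ := (Group.isSolvable_def G).1 (inferInstance : Group.IsSolvable G)
        have h3 := h2 n
        rw [hn] at h3
        exact hab (le_bot_iff.1 h3)
      obtain ⟨Y, hY⟩ := st_of t (fun h hh a ha => act_W t hh ha) (fun a ha b hb => HH_E t ha hb) hWE
      exact ⟨H, Y, hY⟩

end Cfsg.Agent.Lib.NDF.TopNDF
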