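import Cfsg.Agent.Lib.NDF.Defs
import Cfsg.Agent.Lib.Char.TwoDeg.Main
import Cfsg.Agent.Lib.Char.Monomial
import Cfsg.Agent.Lib.Char.TaketaCard

/-!
# (T2) At most two degrees: at most four degrees and derived length at most three.
-/

set_option autoImplicit false

namespace Cfsg.Agent.Lib.NDF.TwoDegT

open Cfsg Cfsg.Agent.Lib.NoDiv.Defs Cfsg.Agent.Lib.Char.Basic Cfsg.Agent.Lib.Char.Linear Cfsg.Agent.Lib.Char.Degree Cfsg.Agent.Lib.Char.Conj

universe u

variable {G : Type u} [Group G]

/-- (T2) -/
theorem two_deg [Finite G] [Group.IsSolvable G] (h : ∃ m, ∀ d ∈ charDegrees G, d = 1 ∨ d = m) :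
    Nat.card (charDegrees G) ≤ 4 ∧ derivedSeries G 3 = ⊥ := by
  classical
  letI : Fintype G := Fintype.ofFinite G
  obtain ⟨m, hm⟩ := h
  constructor
  · have hsub : charDegrees G ⊆ (({1, m} : Finset ℕ) : Set ℕ) := by
      intro d hd
      rcases hm d hd with h | h <;> simp [h]
    have h1 : Nat.card (charDegrees G) ≤ Nat.card (({1, m} : Finset ℕ) : Set ℕ) :=
      Nat.card_mono (Set.toFinite _) hsub
    have h2 : Nat.card (({1, m} : Finset ℕ) : Set ℕ) ≤ 2 := by
      rw [Nat.card_eq_fintype_card]
      simp only [Finset.coe_sort_coe, Fintype.card_coe]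
      exact Finset.card_le_two
    omega
  · by_cases hex : ∃ χ : IrrCharacter G, charDegree (χ : G → ℂ) = m ∧ m ≠ 1
    · obtain ⟨χ, hχ, hm1⟩ := hex
      have hcd : ∀ χ : IrrCharacter G, charDegree (χ : G → ℂ) = 1 ∨ charDegree (χ : G → ℂ) = m :=
        fun χ => hm _ ⟨χ, rfl⟩
      rcases Cfsg.Agent.Lib.Char.TwoDeg.Main.main hcd ⟨χ, hχ⟩ hm1 with
        ⟨A, hAn, hAab, -, hGA⟩ | ⟨p, e, hp, hme, P, A, hPn, hAn, hP, hAab, hPA, hPAt, hnil⟩
      · rw [eq_bot_iff]
        have h2 : derivedSeries G 2 = ⊥ := by
          rw [eq_bot_iff]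
          simp only [derivedSeries_succ, derivedSeries_zero]
          rw [Subgroup.commutator_le]
          intro a ha b hb
          have ha' : a ∈ A := hGA (by simpa [commutator_def] using ha)
          have hb' : b ∈ A := hGA (by simpa [commutator_def] using hb)
          rw [Subgroup.mem_bot, commutatorElement_def, hAab a ha' b hb']
          group
        calc derivedSeries G 3 ≤ derivedSeries G 2 := derivedSeries_antitone G (by omega)
          _ = ⊥ := h2
          _ ≤ ⊥ := le_rfl
      · haveI := hnil
        have := Cfsg.Agent.Lib.Char.TaketaCard.derivedSeries_card_eq_bot (G := G)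
          (fun χ hχ => Cfsg.Agent.Lib.Char.Monomial.monomial_of_nilpotent χ hχ) {1, m} (by
            intro ψ hψ d hd
            have h1 : charDegree ψ = d := charDegree_eq_of_eq_natCast hd
            rcases hm d ⟨⟨ψ, hψ⟩, h1⟩ with h | h <;> simp [h])
        rw [eq_bot_iff]
        refine (derivedSeries_antitone G ?_).trans (le_of_eq this)
        exact Finset.card_le_two.trans (by omega)
    · -- `G` is abelian
      push Not at hex
      have hall : ∀ χ : IrrCharacter G, charDegree (χ : G → ℂ) = 1 := by
        intro χ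
        rcases hm _ ⟨χ, rfl⟩ with h | h
        · exact h
        · exact h.trans (hex χ h)
      have h1 : commutator G = ⊥ := by
        rw [eq_bot_iff, commutator_def, Subgroup.commutator_le]
        intro a _ b _
        rw [Subgroup.mem_bot]
        apply Cfsg.Agent.Lib.Char.Degree.eq_one_of_forall_irr
        intro χ
        have hc := isCharacter_of_isIrrCharacter χ.2
        have hone : (χ : G → ℂ) 1 = 1 := by
          have := charDegree_natCast hc
          rw [← this, hall χ]
          simp
        have hmul := deg_one_mul hc hone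
        have hne : ∀ x, (χ : G → ℂ) x * (χ : G → ℂ) x⁻¹ = 1 := by
          intro x
          rw [← hmul, mul_inv_cancel, hone]
        rw [commutatorElement_def, hmul, hmul, hmul, hone]
        linear_combination (χ : G → ℂ) b * (χ : G → ℂ) b⁻¹ * hne a + hne b
      rw [eq_bot_iff]
      refine (derivedSeries_antitone G (show 1 ≤ 3 by omega)).trans ?_
      simp only [derivedSeries_succ, derivedSeries_zero]
      rw [← commutator_def, h1]

end Cfsg.Agent.Lib.NDF.TwoDegT
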